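import Cfsg.Agent.H14.WkD
import Cfsg.Agent.L.Alperin

set_option autoImplicit false

/-! Weakly closed elements: the global argument. -/

namespace Cfsg.Agent.H14.WK

open Cfsg Subgroup Cfsg.Agent.H14.SF

universe u

section
variable {G : Type u} [Group G] {p : ℕ} [Finite G] [Fact p.Prime]

theorem sylIn_top_of {T K : Subgroup G} (hT : L.SylIn p T K) : L.SylIn p (T.subgroupOf K) ⊤ := by
  obtain ⟨P, hP⟩ : ∃ P : Sylow p K, (P : Subgroup K).map K.subtype = T := ⟨hT.toSylow, hT.map_toSylow⟩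
  have : T.subgroupOf K = P := by
    rw [← hP, subgroupOf, comap_map_eq_self_of_injective K.subtype_injective]
  rw [this]
  exact L.sylIn_top P

/-- relative version of the main step -/
theorem rel {D : Subgroup G} {x : G} (hDp : IsPGroup p D) (hxD : x ∈ D) {T : Subgroup G}
    (hxT : x ∈ centralizer (T : Set G))
    (hyp : p ≠ 2 ∨ (∃ z ∈ D ⊓ centralizer (T : Set G), z ^ p = x) ∨
      ¬ Involves (Equiv.Perm (Fin 4)) G) :
    ∀ (n : ℕ) (K : Subgroup G), Nat.card K = n → L.SylIn p T K → D ≤ K → K ≤ normalizer (D : Set G) →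
      K ⊓ normalizer ((thompsonSubgroupAOf T : Subgroup G) : Set G) ≤ centralizer {x} →
      K ≤ centralizer {x} := by
  intro n
  induction n using Nat.strong_induction_on with
  | _ n ih =>
  intro K hK hT hDK hKD hN
  have hDT : D ≤ T := by
    have h1 : IsPGroup p (T ⊔ D : Subgroup G) :=
      IsPGroup.to_sup_of_normal_right' hT.isPGroup hDp (hT.le.trans hKD)
    have h2 := hT.eq_of_le h1 (sup_le hT.le hDK) le_sup_left
    rw [h2]; exact le_sup_right
  have hmax : ∀ K' : Subgroup G, T ≤ K' → K' < K → K' ≤ centralizer {x} := by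
    intro K' hTK hKK
    exact ih (Nat.card K') (hK ▸ L.card_lt_of_lt hKK) K' rfl (hT.of_le hTK hKK.le)
      (hDT.trans hTK) (hKK.le.trans hKD) ((inf_le_inf_right _ hKK.le).trans hN)
  have hxK : x ∈ K := hDK hxD
  have hinj := K.subtype_injective
  have hmapT : (T.subgroupOf K).map K.subtype = T := by
    rw [subgroupOf, map_comap_eq_self]; rw [range_subtype]; exact hT.le
  have hC : ∀ k : K, k ∈ centralizer ({(⟨x, hxK⟩ : K)} : Set K) ↔ (k : G) ∈ centralizer ({x} : Set G) := by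
    intro k
    rw [mem_C, mem_C]
    constructor
    · intro h; exact congrArg Subtype.val h
    · intro h; exact Subtype.ext h
  have h := step (G := K) (p := p) (T := T.subgroupOf K) (D := D.subgroupOf K) (x := ⟨x, hxK⟩)
    (sylIn_top_of hT) ?_ ?_ ?_ ?_ ?_ ?_ ?_
  · intro k hk
    rw [← hC ⟨k, hk⟩, h]; exact mem_top _
  · exact normal_subgroupOf_of_le_normalizer hKD
  · exact hDp.comap_of_injective _ hinj
  · exact hxD
  · rw [mem_centralizer_iff]
    intro t ht
    exact Subtype.ext (mem_centralizer_iff.1 hxT t ht)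
  · rcases hyp with h1 | ⟨z, hz, hzx⟩ | h1
    · exact Or.inl h1
    · refine Or.inr (Or.inl ⟨⟨z, hDK hz.1⟩, mem_inf.2 ⟨hz.1, ?_⟩, Subtype.ext hzx⟩)
      rw [mem_centralizer_iff]
      intro t ht
      exact Subtype.ext (mem_centralizer_iff.1 hz.2 t ht)
    · exact Or.inr (Or.inr fun h2 => h1 (H28.involves_of_subgroup K h2))
  · intro k hk
    rw [hC]
    apply hN
    refine mem_inf.2 ⟨k.2, ?_⟩
    have h1 := Subgroup.le_normalizer_map K.subtype (mem_map_of_mem _ hk)
    rw [← H28.JA_map hinj, hmapT] at h1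
    exact h1
  · intro K' hTK hne k hk
    rw [hC]
    refine hmax (K'.map K.subtype) ?_ ?_ ⟨k, hk, rfl⟩
    · rw [← hmapT]; exact Subgroup.map_mono hTK
    · refine lt_of_le_of_ne (map_subtype_le _) fun e => hne ?_
      rw [eq_top_iff]
      intro y _
      have : (y : G) ∈ K'.map K.subtype := by rw [e]; exact y.2
      obtain ⟨y', hy', e2⟩ := this
      have : y' = y := Subtype.ext e2
      rwa [← this]

variable {S : Subgroup G} {x : G}

/-- large subgroups are good -/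
theorem good (hS : L.SylIn p S ⊤) (hxS : x ∈ centralizer (S : Set G)) (hx : x ∈ S)
    (hNS : normalizer (S : Set G) ≤ centralizer {x}) (r : ℕ)
    (hr : ∀ D ≤ S, x ∈ D → r < Nat.card ↥(S ⊓ L.nz D) → normalizer (D : Set G) ≤ centralizer {x}) :
    ∀ (n : ℕ) (E : Subgroup G), Nat.card S - Nat.card E = n → E ≤ S → x ∈ E → r ≤ Nat.card E →
      ∀ g, cj g E ≤ S → cn g x = x := by
  intro n
  induction n using Nat.strong_induction_on with
  | _ n ih =>
  intro E hn hES hxE hrE g hg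
  have hgood : ∀ E' ≤ S, x ∈ E' → Nat.card E < Nat.card E' → ∀ g, cj g E' ≤ S → cn g x = x := by
    intro E' hE' hxE' hc g hg
    have h1 := L.card_le_of_le hE'
    exact ih (Nat.card S - Nat.card E') (by omega) E' rfl hE' hxE' (hrE.trans hc.le) g hg
  by_cases hE : E = S
  · subst hE
    have h1 : cj g E = E := eq_of_le_of_card_ge hg (by rw [card_cj])
    exact mem_C.1 (hNS (H18.mem_normalizer_iff_map.2 h1))
  have hnorm : ∀ E' < S, Nat.card E' < Nat.card ↥(S ⊓ L.nz E') := fun E' hE' =>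
    L.card_lt_of_lt (L.lt_inf_nz hS.isPGroup hE')
  have hElt : E < S := lt_of_le_of_ne hES hE
  obtain ⟨F, ⟨k₀, hk₀⟩, hF⟩ := L.exists_fn S hS E hES
  obtain ⟨k, -, hk1, hk2⟩ := hF.exists_conj hS.isPGroup hk₀
  set k' := k * k₀ with hk'
  have hxk : cn k' x = x := hgood _ inf_le_left (mem_inf.2 ⟨hx, L.le_nz E hxE⟩) (hnorm E hElt) k'
    (hk1.trans inf_le_left)
  have hE2lt : cj g E < S := by
    refine lt_of_le_of_ne hg fun e => hE ?_
    apply eq_of_le_of_card_ge hES
    rw [← e, card_cj]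
  have hcj2 : L.cj (k₀ * g⁻¹) (cj g E) = F := by
    change SF.cj (k₀ * g⁻¹) (SF.cj g E) = F
    rw [cj_cj, mul_assoc, inv_mul_cancel, mul_one]; exact hk₀
  obtain ⟨l, -, hl1, hl2⟩ := hF.exists_conj hS.isPGroup hcj2
  set l' := l * (k₀ * g⁻¹) with hl'
  have hxl : cn l' x = x := by
    refine hgood (S ⊓ L.nz (cj g E)) inf_le_left (mem_inf.2 ⟨hx, ?_⟩) ?_ l' (hl1.trans inf_le_left)
    · apply L.mem_nz_iff.2
      apply L.mem_nz_iff.1
      have h1 : x ∈ centralizer ((cj g E : Subgroup G) : Set G) :=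
        centralizer_le (SetLike.coe_subset_coe.2 hg) hxS
      exact centralizer_le_normalizer _ h1
    · have := hnorm _ hE2lt
      rwa [card_cj] at this
  -- `l' g k'⁻¹` normalizes `F`
  have hxF : x ∈ F := by
    rw [← hk2]
    have : cn k' x ∈ SF.cj k' E := cn_mem_cj hxE
    rw [hxk] at this
    exact this
  have hcardF : Nat.card F = Nat.card E := by
    rw [← hk2]; exact L.card_cj _ _
  have hFlt : F < S := by
    refine lt_of_le_of_ne hF.1 fun e => hE ?_
    apply eq_of_le_of_card_ge hES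
    rw [← e, hcardF]
  have hFC := hr F hF.1 hxF (lt_of_le_of_lt (hrE.trans hcardF.ge) (hnorm F hFlt))
  have hn1 : l' * g * k'⁻¹ ∈ normalizer (F : Set G) := by
    rw [H18.mem_normalizer_iff_map]
    change SF.cj _ F = F
    have hk2' : SF.cj k' E = F := hk2
    have hl2' : SF.cj l' (SF.cj g E) = F := hl2
    calc SF.cj (l' * g * k'⁻¹) F = SF.cj (l' * g * k'⁻¹) (SF.cj k' E) := by rw [hk2']
      _ = SF.cj l' (SF.cj g E) := by rw [cj_cj, cj_cj]; congr 1; group
      _ = F := hl2'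
  have h5 := mem_C.1 (hFC hn1)
  -- conclude
  have h6 : cn (l' * g * k'⁻¹) x = cn l' (cn g x) := by
    have h7 : cn k'⁻¹ x = x := by
      have := congrArg (cn k'⁻¹) hxk
      rw [cn_cn, inv_mul_cancel, cn_one'] at this
      exact this.symm
    rw [← cn_cn, h7, ← cn_cn]
  rw [h6] at h5
  have h8 : cn l' (cn g x) = cn l' x := by rw [h5, hxl]
  exact cn_inj h8

theorem all_local (hS : L.SylIn p S ⊤) (hxS : x ∈ centralizer (S : Set G)) (hx : x ∈ S)
    (hNJ : normalizer ((thompsonSubgroupAOf S : Subgroup G) : Set G) ≤ centralizer {x})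
    (hNS : normalizer (S : Set G) ≤ centralizer {x})
    (hyp : p ≠ 2 ∨ (∃ z ∈ S ⊓ centralizer (S : Set G), z ^ p = x) ∨
      ¬ Involves (Equiv.Perm (Fin 4)) G) :
    ∀ D ≤ S, x ∈ D → normalizer (D : Set G) ≤ centralizer {x} := by
  by_contra hcon
  push Not at hcon
  obtain ⟨D₀, hD₀, hxD₀, hND₀⟩ := hcon
  -- lexicographic maximum
  let 𝒟 : Set (Subgroup G) := {D | D ≤ S ∧ x ∈ D ∧ ¬ normalizer (D : Set G) ≤ centralizer {x}}
  obtain ⟨D₁, hD₁, hmax₁⟩ := Set.exists_max_image 𝒟 (fun D => Nat.card ↥(S ⊓ L.nz D))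
    (Set.toFinite _) ⟨D₀, hD₀, hxD₀, hND₀⟩
  set r := Nat.card ↥(S ⊓ L.nz D₁) with hr
  obtain ⟨D₂, hD₂, hmax₂⟩ := Set.exists_max_image {D ∈ 𝒟 | Nat.card ↥(S ⊓ L.nz D) = r}
    (fun D => Nat.card D) (Set.toFinite _) ⟨D₁, hD₁, rfl⟩
  obtain ⟨⟨hD₂S, hxD₂, hND₂⟩, hrD₂⟩ := hD₂
  have hgood := good hS hxS hx hNS r (fun D hD hxD hlt => by
    by_contra hn
    exact absurd (hmax₁ D ⟨hD, hxD, hn⟩) (not_le_of_gt hlt))
  -- replace `D₂` by a fully normalized conjugate
  obtain ⟨D, ⟨k₀, hk₀⟩, hD⟩ := L.exists_fn S hS D₂ hD₂S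
  obtain ⟨k, -, hk1, hk2⟩ := hD.exists_conj hS.isPGroup hk₀
  set k' := k * k₀ with hk'
  have hxk : cn k' x = x := hgood _ (S ⊓ L.nz D₂) rfl inf_le_left
    (mem_inf.2 ⟨hx, L.le_nz D₂ hxD₂⟩) hrD₂.ge k' (hk1.trans inf_le_left)
  have hxD : x ∈ D := by
    rw [← hk2]
    have : cn k' x ∈ SF.cj k' D₂ := cn_mem_cj hxD₂
    rw [hxk] at this
    exact this
  have hcardD : Nat.card D = Nat.card D₂ := by rw [← hk2]; exact L.card_cj _ _
  have hND : ¬ normalizer (D : Set G) ≤ centralizer {x} := by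
    intro h1
    apply hND₂
    intro n hn
    rw [mem_C]
    have h2 : k' * n * k'⁻¹ ∈ normalizer (D : Set G) := by
      rw [H18.mem_normalizer_iff_map] at hn ⊢
      change SF.cj _ D₂ = D₂ at hn
      change SF.cj _ D = D
      have hk2' : SF.cj k' D₂ = D := hk2
      calc SF.cj (k' * n * k'⁻¹) D = SF.cj (k' * n * k'⁻¹) (SF.cj k' D₂) := by rw [hk2']
        _ = SF.cj k' (SF.cj n D₂) := by rw [cj_cj, cj_cj]; congr 1; group
        _ = D := by rw [hn, hk2']
    have h3 := mem_C.1 (h1 h2)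
    have h7 : cn k'⁻¹ x = x := by
      have := congrArg (cn k'⁻¹) hxk
      rw [cn_cn, inv_mul_cancel, cn_one'] at this
      exact this.symm
    rw [← cn_cn, h7, ← cn_cn] at h3
    have h8 : cn k' (cn n x) = cn k' x := by rw [h3, hxk]
    exact cn_inj h8
  have hrD : Nat.card ↥(S ⊓ L.nz D) = r := by
    apply le_antisymm (hmax₁ D ⟨hD.1, hxD, hND⟩)
    rw [← hrD₂, ← L.card_cj k' (S ⊓ L.nz D₂)]
    exact L.card_le_of_le hk1
  have hDmax : ∀ D' ≤ S, x ∈ D' → ¬ normalizer (D' : Set G) ≤ centralizer {x} →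
      Nat.card ↥(S ⊓ L.nz D') = r → Nat.card D' ≤ Nat.card D := by
    intro D' h1 h2 h3 h4
    rw [hcardD]
    exact hmax₂ D' ⟨⟨h1, h2, h3⟩, h4⟩
  -- `C_S(D) ≤ D`
  have hcen : S ⊓ centralizer (D : Set G) ≤ D := by
    set CS := S ⊓ centralizer (D : Set G) with hCS
    have hCn : centralizer (D : Set G) ≤ normalizer (D : Set G) := centralizer_le_normalizer _
    have hnn : normalizer (D : Set G) ≤ normalizer ((centralizer (D : Set G) : Subgroup G) : Set G) :=
      le_norm_cent le_rfl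
    have hCSyl : L.SylIn p CS (centralizer (D : Set G)) := by
      have h1 := H18.sylIn_inf_of_normalizes hD.2 hCn hnn
      have h2 : (S ⊓ L.nz D) ⊓ centralizer (D : Set G) = CS := by
        rw [hCS, inf_assoc]
        congr 1
        exact inf_eq_right.2 hCn
      rwa [h2] at h1
    have hle : D ⊔ CS ≤ S := sup_le hD.1 inf_le_left
    have hnle : ¬ normalizer ((D ⊔ CS : Subgroup G) : Set G) ≤ centralizer {x} := by
      intro h1
      apply hND
      intro g hg
      obtain ⟨a, ha, c, hc, rfl⟩ := H18.frattini_sylIn hCn hnn hCSyl hg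
      refine mul_mem (h1 ?_) ?_
      · rw [H18.mem_normalizer_iff_map]
        have e1 := H18.mem_normalizer_iff_map.1 ha.1
        have e2 := H18.mem_normalizer_iff_map.1 ha.2
        rw [Subgroup.map_sup, e1, e2]
      · exact centralizer_le (Set.singleton_subset_iff.2 hxD) hc
    have hSle : S ⊓ L.nz D ≤ S ⊓ L.nz (D ⊔ CS) := by
      refine le_inf inf_le_left ?_
      intro g hg
      rw [L.mem_nz_iff, L.cj_sup, L.mem_nz_iff.1 hg.2]
      congr 1
      rw [← L.mem_nz_iff]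
      exact le_norm_inf (H := S ⊓ L.nz D) (inf_le_left.trans le_normalizer) (inf_le_right.trans hnn) hg
    have hr2 : Nat.card ↥(S ⊓ L.nz (D ⊔ CS)) = r := by
      apply le_antisymm (hmax₁ _ ⟨hle, (le_sup_left : D ≤ D ⊔ CS) hxD, hnle⟩)
      rw [← hrD]; exact L.card_le_of_le hSle
    have h3 := hDmax _ hle ((le_sup_left : D ≤ D ⊔ CS) hxD) hnle hr2
    have h4 : D = D ⊔ CS := eq_of_le_of_card_ge le_sup_left h3
    rw [h4]; exact le_sup_right
  -- apply the relative step
  set R := S ⊓ L.nz D with hR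
  have hRS : R ≤ S := inf_le_left
  have hxR : x ∈ centralizer (R : Set G) := centralizer_le (SetLike.coe_subset_coe.2 hRS) hxS
  have hDR : D ≤ R := hD.ge_self
  have hNR : ¬ normalizer ((thompsonSubgroupAOf R : Subgroup G) : Set G) ≤ centralizer {x} := by
    intro h1
    apply hND
    refine rel (hS.isPGroup.to_le hD.1) hxD hxR ?_ _ (normalizer (D : Set G)) rfl hD.2 le_normalizer
      le_rfl (inf_le_right.trans h1)
    rcases hyp with h | ⟨z, hz, hzx⟩ | h
    · exact Or.inl h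
    · refine Or.inr (Or.inl ⟨z, mem_inf.2 ⟨hcen (mem_inf.2 ⟨hz.1, ?_⟩), ?_⟩, hzx⟩)
      · exact centralizer_le (SetLike.coe_subset_coe.2 hD.1) hz.2
      · exact centralizer_le (SetLike.coe_subset_coe.2 hRS) hz.2
    · exact Or.inr (Or.inr h)
  have hxJ : x ∈ thompsonSubgroupAOf R := by
    apply H28.ctr_le_JA
    exact mem_inf.2 ⟨hDR hxD, hxR⟩
  by_cases hRS' : R = S
  · rw [hRS'] at hNR; exact hNR hNJ
  have hlt : R < S := lt_of_le_of_ne hRS hRS'
  have h5 : L.nz R ≤ L.nz (thompsonSubgroupAOf R) := by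
    intro g hg
    rw [L.mem_nz_iff] at hg ⊢
    change (thompsonSubgroupAOf R).map (MulAut.conj g).toMonoidHom = _
    rw [← H28.JA_map (f := (MulAut.conj g).toMonoidHom) (MulAut.conj g).injective]
    congr 1
  have h6 := hmax₁ (thompsonSubgroupAOf R) ⟨(H28.JA_le R).trans hRS, hxJ, hNR⟩
  have h7 := L.card_le_of_le (inf_le_inf_left S h5)
  have h8 := L.card_lt_of_lt (L.lt_inf_nz hS.isPGroup hlt)
  have h9 : Nat.card R = r := hrD
  have h6' : Nat.card ↥(S ⊓ L.nz (thompsonSubgroupAOf R)) ≤ r := h6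
  omega

omit [Fact p.Prime] in
theorem weakly_closed (p : ℕ) [Fact p.Prime] (S : Sylow p G) (x : G) (hxS : x ∈ (S : Subgroup G))
    (hNJ : normalizer ((thompsonSubgroupAOf (S : Subgroup G) : Subgroup G) : Set G) ≤ centralizer {x})
    (hyp : p ≠ 2 ∨ (∃ z ∈ (S : Subgroup G) ⊓ centralizer ((S : Subgroup G) : Set G), z ^ p = x) ∨
      ¬ Involves (Equiv.Perm (Fin 4)) G) (g : G) (hg : g * x * g⁻¹ ∈ (S : Subgroup G)) :
    g * x * g⁻¹ = x := by
  have hS : L.SylIn p (S : Subgroup G) ⊤ := L.sylIn_top S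
  have hNS : normalizer ((S : Subgroup G) : Set G) ≤ centralizer {x} := by
    refine le_trans ?_ hNJ
    intro g hg
    rw [H18.mem_normalizer_iff_map] at hg ⊢
    rw [← H28.JA_map (f := (MulAut.conj g).toMonoidHom) (MulAut.conj g).injective]
    congr 1
  have hxC : x ∈ centralizer ((S : Subgroup G) : Set G) := mem_C'.1 (le_normalizer.trans hNS)
  have hall := all_local hS hxC hxS hNJ hNS hyp
  refine good hS hxC hxS hNS 0 (fun D hD hxD _ => hall D hD hxD) _ (zpowers x) rfl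
    (zpowers_le.2 hxS) (mem_zpowers x) (Nat.zero_le _) g ?_
  intro y hy
  obtain ⟨a, ha, rfl⟩ := mem_cj.1 hy
  obtain ⟨k, rfl⟩ := mem_zpowers_iff.1 ha
  have : cn g (x ^ k) = (g * x * g⁻¹) ^ k := by
    simp only [cn, conj_zpow]
  rw [this]
  exact zpow_mem hg k

end

end Cfsg.Agent.H14.WK
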