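import Mathlib

set_option autoImplicit false

/-! # H14/AO1: automorphism orbits, the case `|G'| = p` -/

namespace Cfsg.Agent.H14.AO

universe u

theorem orbits_le {A X : Type*} [Group A] [MulAction A X] [Fintype X] (b : X → ℚ)
    (hb : ∀ x, 0 < b x ∧ b x ≤ (Nat.card (MulAction.orbit A x) : ℚ)) :
    (Nat.card (MulAction.orbitRel.Quotient A X) : ℚ) ≤ ∑ x, (b x)⁻¹ := by
  classical
  haveI : Finite (MulAction.orbitRel.Quotient A X) := by
    unfold MulAction.orbitRel.Quotient; infer_instance
  haveI : Fintype (MulAction.orbitRel.Quotient A X) := Fintype.ofFinite _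
  let f : X → MulAction.orbitRel.Quotient A X := fun x => Quotient.mk _ x
  have h1 : ∑ x, (b x)⁻¹ = ∑ q : MulAction.orbitRel.Quotient A X, ∑ x with f x = q, (b x)⁻¹ := by
    rw [Finset.sum_fiberwise]
  rw [h1, Nat.card_eq_fintype_card, Fintype.card_eq_sum_ones]
  push_cast
  refine Finset.sum_le_sum fun q _ => ?_
  obtain ⟨x₀, rfl⟩ := Quotient.exists_rep q
  have h2 : ∀ x, f x = Quotient.mk _ x₀ ↔ x ∈ MulAction.orbit A x₀ := by
    intro x
    rw [← MulAction.orbitRel_apply]
    exact Quotient.eq
  have hcard : Nat.card (MulAction.orbit A x₀) = (Finset.univ.filter fun x => f x = Quotient.mk _ x₀).card := by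
    apply Nat.subtype_card
    intro x
    simp only [Finset.mem_filter, Finset.mem_univ, true_and]
    exact h2 x
  have hpos : (0 : ℚ) < (Nat.card (MulAction.orbit A x₀) : ℚ) := lt_of_lt_of_le (hb x₀).1 (hb x₀).2
  have h3 : ∀ x ∈ (Finset.univ.filter fun x => f x = Quotient.mk _ x₀),
      ((Nat.card (MulAction.orbit A x₀) : ℚ))⁻¹ ≤ (b x)⁻¹ := by
    intro x hx
    have hx' := (h2 x).1 (Finset.mem_filter.1 hx).2
    have h4 : MulAction.orbit A x = MulAction.orbit A x₀ := MulAction.orbit_eq_iff.2 hx'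
    rw [← h4]
    exact inv_anti₀ (hb x).1 (hb x).2
  have h5 := Finset.card_nsmul_le_sum _ _ _ h3
  refine le_trans (le_of_eq ?_) h5
  rw [← hcard, nsmul_eq_mul, mul_inv_cancel₀ hpos.ne']

/-- power with exponent in `ZMod p` -/
def pw {G : Type u} [Group G] (p : ℕ) (u : G) (a : ZMod p) : G := u ^ a.val

section basics

variable {G : Type u} [Group G] {p : ℕ} [hp : Fact p.Prime]

theorem pw_add {u : G} (hu : u ^ p = 1) (a b : ZMod p) : pw p u (a + b) = pw p u a * pw p u b := by
  unfold pw
  rw [ZMod.val_add, ← pow_add, ← pow_eq_pow_mod _ hu]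

theorem pw_zero (u : G) : pw p u 0 = 1 := by simp [pw]

theorem pw_one (u : G) : pw p u 1 = u := by
  unfold pw
  rw [ZMod.val_one, pow_one]

theorem pw_natCast {u : G} (hu : u ^ p = 1) (n : ℕ) : pw p u (n : ZMod p) = u ^ n := by
  unfold pw
  rw [ZMod.val_natCast, ← pow_eq_pow_mod _ hu]

theorem pw_inj {c : G} (cp : c ^ p = 1) (c1 : c ≠ 1) {a b : ZMod p} (h : pw p c a = pw p c b) : a = b := by
  have ho : orderOf c = p := orderOf_eq_prime cp c1
  have h1 : a.val = b.val := by
    apply pow_injOn_Iio_orderOf (x := c)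
    · rw [ho]; exact ZMod.val_lt a
    · rw [ho]; exact ZMod.val_lt b
    · exact h
  exact ZMod.val_injective p h1

end basics

structure C2 (p : ℕ) (G : Type u) [Group G] where
  c : G
  cp : c ^ p = 1
  c1 : c ≠ 1
  cc : ∀ x : G, c * x = x * c
  hc : ∀ x y : G, ∃ k : ZMod p, x * y = y * x * pw p c k

namespace C2

variable {G : Type u} [Group G] {p : ℕ} [hp : Fact p.Prime] (D : C2 p G)

theorem pwc (a : ZMod p) (x : G) : pw p D.c a * x = x * pw p D.c a := by
  unfold pw
  exact (Commute.pow_left (show Commute D.c x from D.cc x) _).eq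

noncomputable def l (w g : G) : ZMod p := Classical.choose (D.hc w g)

theorem l_spec (w g : G) : w * g = g * w * pw p D.c (D.l w g) := Classical.choose_spec (D.hc w g)

theorem l_unique {w g : G} {k : ZMod p} (h : w * g = g * w * pw p D.c k) : D.l w g = k := by
  have h1 := D.l_spec w g
  rw [h] at h1
  exact (pw_inj D.cp D.c1 (mul_left_cancel h1)).symm

theorem l_mul (w g h : G) : D.l w (g * h) = D.l w g + D.l w h := by
  apply D.l_unique
  rw [pw_add D.cp]
  calc w * (g * h) = (w * g) * h := by group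
    _ = g * w * (pw p D.c (D.l w g) * h) := by rw [D.l_spec w g]; group
    _ = g * (w * h) * pw p D.c (D.l w g) := by rw [D.pwc]; group
    _ = g * h * w * (pw p D.c (D.l w h) * pw p D.c (D.l w g)) := by rw [D.l_spec w h]; group
    _ = _ := by rw [D.pwc (D.l w h)]

theorem l_eq_zero {w g : G} : D.l w g = 0 ↔ w * g = g * w := by
  constructor
  · intro h
    have := D.l_spec w g
    rw [h, pw_zero, mul_one] at this
    exact this
  · intro h
    apply D.l_unique
    rw [pw_zero, mul_one, h]

theorem l_one (w : G) : D.l w 1 = 0 := D.l_eq_zero.2 (by simp)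

theorem l_pow (w g : G) (n : ℕ) : D.l w (g ^ n) = n * D.l w g := by
  induction n with
  | zero => simp [D.l_one]
  | succ n ih => rw [pow_succ, D.l_mul, ih]; push_cast; ring

theorem pow_comm {w h : G} {k : ZMod p} (e : w * h = h * w * pw p D.c k) (n : ℕ) :
    w ^ n * h = h * w ^ n * pw p D.c (n * k) := by
  induction n with
  | zero => simp [pw_zero]
  | succ n ih =>
    calc w ^ (n + 1) * h = w ^ n * (w * h) := by rw [pow_succ]; group
      _ = (w ^ n * h) * w * pw p D.c k := by rw [e]; group
      _ = h * w ^ n * (pw p D.c (n * k) * w) * pw p D.c k := by rw [ih]; group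
      _ = h * w ^ n * w * (pw p D.c (n * k) * pw p D.c k) := by rw [D.pwc]; group
      _ = _ := by rw [← pw_add D.cp, pow_succ]; push_cast; rw [add_mul, one_mul]; group

theorem mul_pow' {x y : G} {k : ZMod p} (e : y * x = x * y * pw p D.c k) (n : ℕ) :
    (x * y) ^ n = x ^ n * y ^ n * pw p D.c (k * (n.choose 2 : ℕ)) := by
  induction n with
  | zero => simp [pw_zero]
  | succ n ih =>
    have h1 := D.pow_comm e n
    calc (x * y) ^ (n + 1) = x ^ n * y ^ n * (pw p D.c (k * (n.choose 2 : ℕ)) * (x * y)) := by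
          rw [pow_succ, ih]; group
      _ = x ^ n * (y ^ n * x) * y * pw p D.c (k * (n.choose 2 : ℕ)) := by rw [D.pwc]; group
      _ = x ^ n * x * y ^ n * (pw p D.c (n * k) * y) * pw p D.c (k * (n.choose 2 : ℕ)) := by rw [h1]; group
      _ = x ^ n * x * (y ^ n * y) * (pw p D.c (n * k) * pw p D.c (k * (n.choose 2 : ℕ))) := by rw [D.pwc]; group
      _ = _ := by
        rw [← pw_add D.cp, ← pow_succ, ← pow_succ, Nat.choose_succ_succ' n 1, Nat.choose_one_right]
        push_cast
        congr 2
        ring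

/-- conjugation fuses `x` and `x c^a` -/
theorem fuse {x y : G} (h : x * y ≠ y * x) (a : ZMod p) : ∃ g : G, g⁻¹ * x * g = x * pw p D.c a := by
  have hk : D.l x y ≠ 0 := fun h0 => h (D.l_eq_zero.1 h0)
  refine ⟨y ^ (a * (D.l x y)⁻¹).val, ?_⟩
  have h1 := D.l_spec x (y ^ (a * (D.l x y)⁻¹).val)
  rw [D.l_pow, ZMod.natCast_zmod_val, mul_assoc a, inv_mul_cancel₀ hk, mul_one] at h1
  rw [mul_assoc, h1]; group

theorem exists_aut [Finite G] (w : G) (W : ZMod p → G) (s : ZMod p) (h0 : W 0 = 1)
    (ha : ∀ a b, W (a + b) = W a * W b * pw p D.c (s * a * b))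
    (hb : ∀ a g, W a * g = g * W a * pw p D.c (s * a * D.l w g)) :
    ∃ α : MulAut G, ∀ g, α g = g * W (D.l w g) := by
  have hww : ∀ a, w * W a = W a * w := by
    intro a
    have h1 := hb a w
    rw [D.l_eq_zero.2 rfl, mul_zero, pw_zero, mul_one] at h1
    exact h1.symm
  let f : G →* G :=
    { toFun := fun g => g * W (D.l w g)
      map_one' := by rw [D.l_one, h0, mul_one]
      map_mul' := fun g h => by
        rw [D.l_mul, ha]
        symm
        calc g * W (D.l w g) * (h * W (D.l w h)) = g * (W (D.l w g) * h) * W (D.l w h) := by group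
          _ = g * h * W (D.l w g) * (pw p D.c (s * D.l w g * D.l w h) * W (D.l w h)) := by rw [hb]; group
          _ = _ := by rw [D.pwc]; group }
  have hf : Function.Injective f := by
    rw [injective_iff_map_eq_one]
    intro g hg
    have h1 : g * W (D.l w g) = 1 := hg
    have h2 : D.l w (g * W (D.l w g)) = 0 := by rw [h1, D.l_one]
    rw [D.l_mul, D.l_eq_zero.2 (hww _), add_zero] at h2
    rw [h2, h0, mul_one] at h1
    exact h1
  exact ⟨MulEquiv.ofBijective f (Finite.injective_iff_bijective.1 hf), fun g => rfl⟩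

theorem mem_orbit_of_aut {x y : G} (α : MulAut G) (h : α x = y) : y ∈ MulAction.orbit (MulAut G) x :=
  ⟨α, h⟩

theorem orbit_mul_c {x y : G} (h : x * y ≠ y * x) (a : ZMod p) :
    x * pw p D.c a ∈ MulAction.orbit (MulAut G) x := by
  obtain ⟨g, hg⟩ := D.fuse h a
  refine mem_orbit_of_aut (MulAut.conj g⁻¹) ?_
  rw [MulAut.conj_apply, inv_inv, hg]

include D in
/-- case A: fusing `x` and `x a`, `a` central of order dividing `p`. -/
theorem orbit_mul_central [Finite G] {x y a : G} (h : x * y ≠ y * x) (hac : ∀ g, a * g = g * a) (hap : a ^ p = 1) :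
    x * a ∈ MulAction.orbit (MulAut G) x := by
  have hk : D.l y x ≠ 0 := fun h0 => h (D.l_eq_zero.1 h0).symm
  obtain ⟨α, hα⟩ := D.exists_aut y (fun t => pw p a (t * (D.l y x)⁻¹)) 0 (by simp [pw_zero])
    (fun s t => by rw [add_mul, pw_add hap]; simp [pw_zero])
    (fun t g => by
      simp only [zero_mul, pw_zero, mul_one]
      unfold pw
      exact (Commute.pow_left (show Commute a g from hac g) _).eq)
  refine mem_orbit_of_aut α ?_
  rw [hα, mul_inv_cancel₀ hk, pw_one]

/-- case B: orbits of elements not commuting with `w`. -/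
theorem orbit_big [Finite G] (w : G) (W : ZMod p → G) (h0 : W 0 = 1)
    (ha : ∀ a b, W (a + b) = W a * W b * pw p D.c (a * b))
    (hb : ∀ a g, W a * g = g * W a * pw p D.c (a * D.l w g)) {g : G} (hg : D.l w g ≠ 0) :
    ∀ a ∈ Subgroup.closure {W (D.l w g), D.c}, g * a ∈ MulAction.orbit (MulAut G) g := by
  obtain ⟨α, hα⟩ := D.exists_aut w W 1 h0 (fun a b => by rw [ha]; simp) (fun a g => by rw [hb]; simp)
  have hww : ∀ a, w * W a = W a * w := by
    intro a
    have h1 := hb a w
    rw [D.l_eq_zero.2 rfl, mul_zero, pw_zero, mul_one] at h1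
    exact h1.symm
  have hA : ∀ a ∈ Subgroup.closure {W (D.l w g), D.c}, D.l w a = 0 := by
    intro a haa
    rw [D.l_eq_zero]
    have : Subgroup.closure {W (D.l w g), D.c} ≤ Subgroup.centralizer {w} := by
      rw [Subgroup.closure_le]
      intro x hx
      rw [SetLike.mem_coe, Subgroup.mem_centralizer_singleton_iff]
      rcases hx with rfl | hx
      · exact (hww _).symm
      · rw [Set.mem_singleton_iff.1 hx]; exact D.cc w
    exact (Subgroup.mem_centralizer_singleton_iff.1 (this haa)).symm
  have hfix : ∀ a ∈ Subgroup.closure {W (D.l w g), D.c}, α a = a := by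
    intro a haa
    rw [hα, hA a haa, h0, mul_one]
  have hαg : α g = g * W (D.l w g) := hα g
  have hnc : ∀ a ∈ Subgroup.closure {W (D.l w g), D.c}, (g * a) * w ≠ w * (g * a) := by
    intro a haa h
    have h1 : D.l w (g * a) = 0 := D.l_eq_zero.2 h.symm
    rw [D.l_mul, hA a haa, add_zero] at h1
    exact hg h1
  have horb : ∀ {x y : G}, x ∈ MulAction.orbit (MulAut G) g → y ∈ MulAction.orbit (MulAut G) x →
      y ∈ MulAction.orbit (MulAut G) g := by
    intro x y hx hy
    rwa [MulAction.orbit_eq_iff.2 hx] at hy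
  have hu : W (D.l w g) ∈ Subgroup.closure {W (D.l w g), D.c} := Subgroup.subset_closure (by simp)
  intro a haa
  induction haa using Subgroup.closure_induction_left with
  | one => rw [mul_one]; exact MulAction.mem_orbit_self g
  | mul_left x hx y hy ih =>
    rcases hx with rfl | hx
    · refine horb ih (mem_orbit_of_aut α ?_)
      rw [map_mul, hαg, hfix y hy, mul_assoc]
    · rw [Set.mem_singleton_iff.1 hx]
      have h1 := D.orbit_mul_c (hnc y hy) 1
      rw [pw_one] at h1
      refine horb ih ?_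
      rw [D.cc, ← mul_assoc]
      exact h1
  | inv_mul_cancel x hx y hy ih =>
    rcases hx with rfl | hx
    · refine horb ih (mem_orbit_of_aut α⁻¹ ?_)
      rw [MulAut.inv_apply, MulEquiv.symm_apply_eq, map_mul, hαg]
      rw [hfix _ (Subgroup.mul_mem _ (Subgroup.inv_mem _ hu) hy)]
      group
    · rw [Set.mem_singleton_iff.1 hx]
      have h1 := D.orbit_mul_c (hnc y hy) (-1)
      have h2 : pw p D.c (-1) = D.c⁻¹ := by
        apply eq_inv_of_mul_eq_one_left
        have h3 := pw_add D.cp (-1) 1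
        rw [neg_add_cancel, pw_zero, pw_one] at h3
        exact h3.symm
      rw [h2] at h1
      refine horb ih ?_
      have h3 : D.c⁻¹ * y = y * D.c⁻¹ := ((show Commute D.c y from D.cc y).inv_left).eq
      rw [h3, ← mul_assoc]
      exact h1

end C2

end Cfsg.Agent.H14.AO
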