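import Mathlib
import Cfsg.Agent.H14.AO1

set_option autoImplicit false

/-! # H14/AO2: automorphism orbits, counting -/

namespace Cfsg.Agent.H14.AO

universe u

theorem sum_ind {G : Type u} [Group G] [Fintype G] (H : Subgroup G) (r : ℚ) [DecidablePred (· ∈ H)] :
    ∑ x : G, (if x ∈ H then r else 0) = (Nat.card H : ℚ) * r := by
  classical
  rw [← Finset.sum_filter, Finset.sum_const, nsmul_eq_mul]
  congr 2
  symm
  apply Nat.subtype_card
  intro x
  simp

theorem card_le_orbit {G : Type u} [Group G] [Finite G] (A : Subgroup G) (x : G)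
    (h : ∀ a ∈ A, x * a ∈ MulAction.orbit (MulAut G) x) :
    Nat.card A ≤ Nat.card (MulAction.orbit (MulAut G) x) := by
  haveI : Finite (MulAction.orbit (MulAut G) x) := Subtype.finite
  exact Nat.card_le_card_of_injective (fun a : A => (⟨x * a, h a a.2⟩ : MulAction.orbit (MulAut G) x))
    (fun a b hab => by
      have h1 : x * (a : G) = x * b := congrArg Subtype.val hab
      exact Subtype.ext (mul_left_cancel h1))

theorem sq_le_card {G : Type u} [Group G] [Finite G] {p : ℕ} (hmin : ∀ q : ℕ, q.Prime → q ∣ Nat.card G → p ≤ q)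
    {K A : Subgroup G} (hK : Nat.card K = p) (hKA : K ≤ A) {a : G} (ha : a ∈ A) (ha' : a ∉ K) :
    p ^ 2 ≤ Nat.card A := by
  obtain ⟨k, hk⟩ := Subgroup.card_dvd_of_le hKA
  have hk1 : k ≠ 1 := by
    rintro rfl
    have : K = A := Subgroup.eq_of_le_of_card_ge hKA (by rw [hk, mul_one])
    exact ha' (this ▸ ha)
  have h1 : k.minFac ∣ Nat.card G :=
    (Nat.minFac_dvd k).trans ((Dvd.intro_left _ hk.symm).trans (Subgroup.card_subgroup_dvd_card A))
  have h2 := hmin _ (Nat.minFac_prime hk1) h1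
  have hk0 : 0 < k := by
    rcases Nat.eq_zero_or_pos k with h | h
    · rw [h, mul_zero] at hk
      exact absurd hk Nat.card_pos.ne'
    · exact h
  have h3 : p ≤ k := h2.trans (Nat.minFac_le hk0)
  rw [hk, hK, pow_two]
  exact Nat.mul_le_mul_left _ h3

theorem center_bound {G : Type u} [Group G] [Finite G] {p : ℕ} (hmin : ∀ q : ℕ, q.Prime → q ∣ Nat.card G → p ≤ q)
    (hna : ∃ x y : G, x * y ≠ y * x) : p ^ 2 * Nat.card (Subgroup.center G) ≤ Nat.card G := by
  have h0 := Subgroup.card_mul_index (Subgroup.center G)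
  have hi0 : 0 < (Subgroup.center G).index := Nat.pos_of_ne_zero Subgroup.index_ne_zero_of_finite
  have hnp : ¬ (Subgroup.center G).index.Prime := by
    intro hpr
    haveI := Fact.mk hpr
    haveI : IsCyclic (G ⧸ Subgroup.center G) := isCyclic_of_prime_card (p := (Subgroup.center G).index) rfl
    have h1 := MonoidHom.isMulCommutative_of_isCyclic_of_ker_le_center (QuotientGroup.mk' (Subgroup.center G)) (by simp)
    obtain ⟨x, y, hxy⟩ := hna
    exact hxy (h1.is_comm.comm x y)
  have hn1 : (Subgroup.center G).index ≠ 1 := by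
    intro h1
    have h2 := Subgroup.index_eq_one.1 h1
    obtain ⟨x, y, hxy⟩ := hna
    have h3 : y ∈ Subgroup.center G := by rw [h2]; trivial
    exact hxy (Subgroup.mem_center_iff.1 h3 x)
  have h1 := Nat.minFac_sq_le_self hi0 hnp
  have h2 := hmin _ (Nat.minFac_prime hn1) ((Nat.minFac_dvd _).trans (Dvd.intro_left _ h0))
  have h3 : p ^ 2 ≤ (Subgroup.center G).index := (Nat.pow_le_pow_left h2 2).trans h1
  calc p ^ 2 * Nat.card (Subgroup.center G) ≤ (Subgroup.center G).index * Nat.card (Subgroup.center G) :=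
        Nat.mul_le_mul_right _ h3
    _ = Nat.card G := by rw [mul_comm, h0]

namespace C2

variable {G : Type u} [Group G] {p : ℕ} [hp : Fact p.Prime] (D : C2 p G)

theorem card_zp : Nat.card (Subgroup.zpowers D.c) = p := by
  rw [Nat.card_zpowers]; exact orderOf_eq_prime D.cp D.c1

theorem mem_zp {a : G} (ha : a ∈ Subgroup.zpowers D.c) [Finite G] : ∃ k : ZMod p, a = pw p D.c k := by
  obtain ⟨n, rfl⟩ := (mem_powers_iff_mem_zpowers).2 ha
  exact ⟨(n : ZMod p), (pw_natCast D.cp n).symm⟩

theorem not_mem_zp {a g : G} (h : a * g ≠ g * a) : a ∉ Subgroup.zpowers D.c := by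
  rintro ⟨n, rfl⟩
  exact h ((show Commute D.c g from D.cc g).zpow_left n).eq

include D in
theorem card_zp_le_orbit [Finite G] {x y : G} (h : x * y ≠ y * x) : p ≤ Nat.card (MulAction.orbit (MulAut G) x) := by
  have h1 := card_le_orbit (Subgroup.zpowers D.c) x (fun a ha => by
    obtain ⟨k, rfl⟩ := D.mem_zp ha
    exact D.orbit_mul_c h k)
  rwa [D.card_zp] at h1

theorem bound_A [Finite G] (hmin : ∀ q : ℕ, q.Prime → q ∣ Nat.card G → p ≤ q) (hna : ∃ x y : G, x * y ≠ y * x)
    {z : G} (hz : ∀ g, z * g = g * z) (hzp : z ^ p = 1) (hzc : z ∉ Subgroup.zpowers D.c) :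
    Nat.card (MulAction.orbitRel.Quotient (MulAut G) G) * p ≤ Nat.card G := by
  classical
  haveI : Fintype G := Fintype.ofFinite G
  let T : Subgroup G :=
    { carrier := {z | (∀ g, z * g = g * z) ∧ z ^ p = 1}
      mul_mem' := fun {a b} ha hb => ⟨fun g => by rw [mul_assoc, hb.1, ← mul_assoc, ha.1, mul_assoc], by
        rw [(show Commute a b from ha.1 b).mul_pow, ha.2, hb.2, one_mul]⟩
      one_mem' := ⟨fun g => by simp, one_pow _⟩
      inv_mem' := fun {a} ha => ⟨fun g => ((show Commute a g from ha.1 g).inv_left).eq, by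
        rw [inv_pow, ha.2, inv_one]⟩ }
  have hT : p ^ 2 ≤ Nat.card T := by
    refine sq_le_card hmin D.card_zp ?_ (a := z) ⟨hz, hzp⟩ hzc
    rw [Subgroup.zpowers_le]
    exact ⟨D.cc, D.cp⟩
  have hbig : ∀ x : G, x ∉ Subgroup.center G → p ^ 2 ≤ Nat.card (MulAction.orbit (MulAut G) x) := by
    intro x hx
    have : ∃ y, x * y ≠ y * x := by
      by_contra hcon
      push Not at hcon
      exact hx (Subgroup.mem_center_iff.2 fun g => (hcon g).symm)
    obtain ⟨y, hy⟩ := this
    exact hT.trans (card_le_orbit T x (fun a ha => D.orbit_mul_central hy ha.1 ha.2))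
  have hp0 : (0 : ℚ) < p := by exact_mod_cast hp.out.pos
  have hp2 : (2 : ℚ) ≤ p := by exact_mod_cast hp.out.two_le
  have h1 := orbits_le (A := MulAut G) (X := G) (fun x => if x ∈ Subgroup.center G then 1 else (p : ℚ) ^ 2) (by
    intro x
    by_cases hx : x ∈ Subgroup.center G
    · simp only [hx, if_true]
      refine ⟨one_pos, ?_⟩
      haveI : Nonempty (MulAction.orbit (MulAut G) x) := ⟨⟨x, MulAction.mem_orbit_self x⟩⟩
      haveI : Finite (MulAction.orbit (MulAut G) x) := Subtype.finite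
      have : 0 < Nat.card (MulAction.orbit (MulAut G) x) := Nat.card_pos
      exact_mod_cast this
    · simp only [hx, if_false]
      exact ⟨by positivity, by exact_mod_cast hbig x hx⟩)
  have h2 : ∑ x : G, ((if x ∈ Subgroup.center G then (1 : ℚ) else (p : ℚ) ^ 2))⁻¹ =
      (Nat.card G : ℚ) * ((p : ℚ) ^ 2)⁻¹ + (Nat.card (Subgroup.center G) : ℚ) * (1 - ((p : ℚ) ^ 2)⁻¹) := by
    rw [← sum_ind (Subgroup.center G), Nat.card_eq_fintype_card, ← Finset.card_univ, ← nsmul_eq_mul,
      ← Finset.sum_const, ← Finset.sum_add_distrib]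
    refine Finset.sum_congr rfl fun x _ => ?_
    by_cases hx : x ∈ Subgroup.center G
    · simp [hx]
    · simp [hx]
  rw [h2] at h1
  have h3 : (p : ℚ) ^ 2 * (Nat.card (Subgroup.center G) : ℚ) ≤ (Nat.card G : ℚ) := by
    exact_mod_cast center_bound hmin hna
  have h4 : (0 : ℚ) ≤ (Nat.card (Subgroup.center G) : ℚ) := by positivity
  have h4' : (0 : ℚ) ≤ (Nat.card G : ℚ) := by positivity
  have h5 : (Nat.card (MulAction.orbitRel.Quotient (MulAut G) G) : ℚ) * p ≤ (Nat.card G : ℚ) := by
    generalize (Nat.card (MulAction.orbitRel.Quotient (MulAut G) G) : ℚ) = q at *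
    generalize (Nat.card (Subgroup.center G) : ℚ) = z at *
    generalize (Nat.card G : ℚ) = n at *
    have h6 : q * (p : ℚ) ^ 2 ≤ n + z * ((p : ℚ) ^ 2 - 1) := by
      have := mul_le_mul_of_nonneg_right h1 (by positivity : (0 : ℚ) ≤ (p : ℚ) ^ 2)
      refine this.trans (le_of_eq ?_)
      field_simp
    have h7 : q * (p : ℚ) * p ≤ n * p := by
      have h8 : z * ((p : ℚ) ^ 2 - 1) ≤ n := by linarith
      have h9 : n * 2 ≤ n * p := mul_le_mul_of_nonneg_left hp2 h4'
      linarith
    exact le_of_mul_le_mul_right h7 hp0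
  exact_mod_cast h5

theorem bound_B [Finite G] (hmin : ∀ q : ℕ, q.Prime → q ∣ Nat.card G → p ≤ q) (hna : ∃ x y : G, x * y ≠ y * x)
    (w : G) (W : ZMod p → G) (hw : ∃ g, w * g ≠ g * w) (h0 : W 0 = 1)
    (ha : ∀ a b, W (a + b) = W a * W b * pw p D.c (a * b))
    (hb : ∀ a g, W a * g = g * W a * pw p D.c (a * D.l w g)) :
    Nat.card (MulAction.orbitRel.Quotient (MulAut G) G) * p ≤ Nat.card G := by
  classical
  haveI : Fintype G := Fintype.ofFinite G
  set C := Subgroup.centralizer ({w} : Set G) with hC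
  have hZC : Subgroup.center G ≤ C := Subgroup.center_le_centralizer _
  have hnc : ∀ x : G, x ∉ Subgroup.center G → ∃ y, x * y ≠ y * x := by
    intro x hx
    by_contra hcon
    push Not at hcon
    exact hx (Subgroup.mem_center_iff.2 fun g => (hcon g).symm)
  have hbig : ∀ x : G, x ∉ C → p ^ 2 ≤ Nat.card (MulAction.orbit (MulAut G) x) := by
    intro x hx
    have hl : D.l w x ≠ 0 := by
      intro h
      apply hx
      rw [hC, Subgroup.mem_centralizer_singleton_iff]
      exact (D.l_eq_zero.1 h).symm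
    have h1 := D.orbit_big w W h0 ha hb hl
    refine le_trans ?_ (card_le_orbit _ x h1)
    refine sq_le_card hmin D.card_zp ?_ (a := W (D.l w x)) (Subgroup.subset_closure (by simp)) ?_
    · rw [Subgroup.zpowers_le]
      exact Subgroup.subset_closure (by simp)
    · apply D.not_mem_zp (g := x)
      intro h2
      rw [hb] at h2
      have h3 : pw p D.c (D.l w x * D.l w x) = pw p D.c 0 := by
        rw [pw_zero]
        exact mul_eq_left.1 h2
      have h4 := pw_inj D.cp D.c1 h3
      exact hl (mul_self_eq_zero.1 h4)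
  have hCcard : p * Nat.card C ≤ Nat.card G := by
    have h1 := Subgroup.card_mul_index C
    have h2 : C.index ≠ 1 := by
      intro h3
      rw [Subgroup.index_eq_one] at h3
      obtain ⟨g, hg⟩ := hw
      have : g ∈ C := by rw [h3]; trivial
      rw [hC, Subgroup.mem_centralizer_singleton_iff] at this
      exact hg this.symm
    have h3 := hmin _ (Nat.minFac_prime h2) ((Nat.minFac_dvd _).trans (Dvd.intro_left _ h1))
    have h4 : p ≤ C.index := h3.trans (Nat.minFac_le (Nat.pos_of_ne_zero Subgroup.index_ne_zero_of_finite))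
    calc p * Nat.card C ≤ C.index * Nat.card C := Nat.mul_le_mul_right _ h4
      _ = Nat.card G := by rw [mul_comm, h1]
  have hp0 : (0 : ℚ) < p := by exact_mod_cast hp.out.pos
  have hp2 : (2 : ℚ) ≤ p := by exact_mod_cast hp.out.two_le
  have h1 := orbits_le (A := MulAut G) (X := G)
    (fun x => if x ∈ Subgroup.center G then 1 else if x ∈ C then (p : ℚ) else (p : ℚ) ^ 2) (by
    intro x
    by_cases hx : x ∈ Subgroup.center G
    · simp only [hx, if_true]
      refine ⟨one_pos, ?_⟩
      haveI : Nonempty (MulAction.orbit (MulAut G) x) := ⟨⟨x, MulAction.mem_orbit_self x⟩⟩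
      haveI : Finite (MulAction.orbit (MulAut G) x) := Subtype.finite
      have : 0 < Nat.card (MulAction.orbit (MulAut G) x) := Nat.card_pos
      exact_mod_cast this
    · simp only [hx, if_false]
      by_cases hxC : x ∈ C
      · simp only [hxC, if_true]
        obtain ⟨y, hy⟩ := hnc x hx
        exact ⟨by positivity, by exact_mod_cast D.card_zp_le_orbit hy⟩
      · simp only [hxC, if_false]
        exact ⟨by positivity, by exact_mod_cast hbig x hxC⟩)
  have h2 : ∑ x : G, ((if x ∈ Subgroup.center G then (1 : ℚ) else if x ∈ C then (p : ℚ) else (p : ℚ) ^ 2))⁻¹ =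
      (Nat.card G : ℚ) * ((p : ℚ) ^ 2)⁻¹ + (Nat.card C : ℚ) * ((p : ℚ)⁻¹ - ((p : ℚ) ^ 2)⁻¹)
        + (Nat.card (Subgroup.center G) : ℚ) * (1 - (p : ℚ)⁻¹) := by
    rw [← sum_ind (Subgroup.center G), ← sum_ind C, Nat.card_eq_fintype_card, ← Finset.card_univ, ← nsmul_eq_mul,
      ← Finset.sum_const, ← Finset.sum_add_distrib, ← Finset.sum_add_distrib]
    refine Finset.sum_congr rfl fun x _ => ?_
    by_cases hx : x ∈ Subgroup.center G
    · have hxC := hZC hx
      simp [hx, hxC]
    · by_cases hxC : x ∈ C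
      · simp [hx, hxC]
      · simp [hx, hxC]
  rw [h2] at h1
  have h3 : (p : ℚ) ^ 2 * (Nat.card (Subgroup.center G) : ℚ) ≤ (Nat.card G : ℚ) := by
    exact_mod_cast center_bound hmin hna
  have h3' : (p : ℚ) * (Nat.card C : ℚ) ≤ (Nat.card G : ℚ) := by exact_mod_cast hCcard
  have h4 : (0 : ℚ) ≤ (Nat.card (Subgroup.center G) : ℚ) := by positivity
  have h4' : (0 : ℚ) ≤ (Nat.card G : ℚ) := by positivity
  have h5 : (Nat.card (MulAction.orbitRel.Quotient (MulAut G) G) : ℚ) * p ≤ (Nat.card G : ℚ) := by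
    generalize (Nat.card (MulAction.orbitRel.Quotient (MulAut G) G) : ℚ) = q at *
    generalize (Nat.card (Subgroup.center G) : ℚ) = z at *
    generalize (Nat.card C : ℚ) = c at *
    generalize (Nat.card G : ℚ) = n at *
    have h6 : q * (p : ℚ) ^ 2 ≤ n + c * ((p : ℚ) - 1) + z * ((p : ℚ) ^ 2 - p) := by
      have := mul_le_mul_of_nonneg_right h1 (by positivity : (0 : ℚ) ≤ (p : ℚ) ^ 2)
      refine this.trans (le_of_eq ?_)
      field_simp
    -- multiply by p
    have h8 : p * c * ((p : ℚ) - 1) ≤ n * ((p : ℚ) - 1) := mul_le_mul_of_nonneg_right h3' (by linarith)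
    have h9 : (p : ℚ) ^ 2 * z * ((p : ℚ) - 1) ≤ n * ((p : ℚ) - 1) := mul_le_mul_of_nonneg_right h3 (by linarith)
    have h10 : n * (3 * p - 2) ≤ n * (p * p) := mul_le_mul_of_nonneg_left (by nlinarith) h4'
    have h7 : q * (p : ℚ) * p * p ≤ n * p * p := by
      have h11 := mul_le_mul_of_nonneg_right h6 hp0.le
      nlinarith
    exact le_of_mul_le_mul_right (le_of_mul_le_mul_right h7 hp0) hp0
  exact_mod_cast h5

end C2

end Cfsg.Agent.H14.AO
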