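import Mathlib
import Cfsg.Agent.H14.AO2
import Cfsg.Agent.H24.NilCount5

set_option autoImplicit false

/-! # H14/AO3: automorphism orbits, the transvection element -/

namespace Cfsg.Agent.H14.AO

universe u

open scoped commutatorElement

theorem zmod_two : ∀ t : ZMod 2, t ≠ 0 → t = 1 := by decide

namespace C2

variable {G : Type u} [Group G] {p : ℕ} [hp : Fact p.Prime] (D : C2 p G)

include D in
theorem pow_p_central (w g : G) : w ^ p * g = g * w ^ p := by
  have h := D.pow_comm (D.l_spec w g) p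
  rwa [CharP.cast_eq_zero, zero_mul, pw_zero, mul_one] at h

theorem two_case [Finite G] (hp2 : p = 2) (hna : ∃ x y : G, x * y ≠ y * x)
    (hZ : ∀ z : G, (∀ g, z * g = g * z) → z ^ p = 1 → z ∈ Subgroup.zpowers D.c) :
    ∃ w : G, (∃ g, w * g ≠ g * w) ∧ w ^ 2 = D.c := by
  subst hp2
  have hcomm : ∀ a b : Subgroup.center G, a * b = b * a := fun a b =>
    Subtype.ext (Subgroup.mem_center_iff.1 b.2 a)
  let f : Subgroup.center G →* Subgroup.center G :=
    { toFun := fun z => z ^ 2
      map_one' := one_pow _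
      map_mul' := fun a b => (show Commute a b from hcomm a b).mul_pow 2 }
  have hfk : Nat.card f.ker = 2 := by
    have h1 : f.ker.map (Subgroup.center G).subtype = Subgroup.zpowers D.c := by
      ext z
      constructor
      · rintro ⟨y, hy, rfl⟩
        have hy' : y ^ 2 = 1 := hy
        refine hZ _ (fun g => (Subgroup.mem_center_iff.1 y.2 g).symm) ?_
        rw [← map_pow, hy', map_one]
      · intro hz
        have hz2 : (Subgroup.zpowers D.c) ≤ f.ker.map (Subgroup.center G).subtype := by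
          rw [Subgroup.zpowers_le]
          refine ⟨⟨D.c, Subgroup.mem_center_iff.2 fun g => (D.cc g).symm⟩, ?_, rfl⟩
          show (_ : Subgroup.center G) ^ 2 = 1
          exact Subtype.ext D.cp
        exact hz2 hz
    rw [← Subgroup.card_subtype, h1, D.card_zp]
  have hidx : f.range.index = 2 := by
    have h1 := Subgroup.card_mul_index f.ker
    have h2 := Subgroup.card_mul_index f.range
    rw [Subgroup.index_ker, hfk] at h1
    have h3 : 0 < Nat.card f.range := Nat.card_pos
    have h4 : Nat.card f.range * f.range.index = Nat.card f.range * 2 := by rw [h2, ← h1, mul_comm]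
    exact Nat.eq_of_mul_eq_mul_left h3 h4
  have hcen : ∀ x : G, x ^ 2 ∈ Subgroup.center G := fun x => Subgroup.mem_center_iff.2 fun g => (D.pow_p_central x g).symm
  let s : G → Subgroup.center G := fun x => ⟨x ^ 2, hcen x⟩
  let c' : Subgroup.center G := ⟨D.c, Subgroup.mem_center_iff.2 fun g => (D.cc g).symm⟩
  have hcc : c' * c' = 1 := Subtype.ext (by
    have := D.cp
    rw [pow_two] at this
    exact this)
  -- reduction
  have key : ∀ v : G, (∃ g, v * g ≠ g * v) → s v * c' ∈ f.range → ∃ w : G, (∃ g, w * g ≠ g * w) ∧ w ^ 2 = D.c := by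
    rintro v ⟨g, hg⟩ ⟨z, hz⟩
    have hz' : (z : G) ^ 2 = v ^ 2 * D.c := congrArg Subtype.val hz
    have hzc : ∀ g : G, (z : G) * g = g * z := fun g => (Subgroup.mem_center_iff.1 z.2 g).symm
    refine ⟨v * (z : G)⁻¹, ⟨g, ?_⟩, ?_⟩
    · intro h
      apply hg
      have h1 : (z : G)⁻¹ * g = g * (z : G)⁻¹ := ((show Commute (z : G) g from hzc g).inv_left).eq
      have h2 : v * g * (z : G)⁻¹ = g * v * (z : G)⁻¹ := by
        rw [mul_assoc v g, ← h1, ← mul_assoc, h, mul_assoc]
      exact mul_right_cancel h2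
    · have h1 : Commute v (z : G)⁻¹ := ((show Commute (z : G) v from hzc v).symm).inv_right
      rw [h1.mul_pow, inv_pow, hz', mul_inv_rev]
      have h3 : D.c⁻¹ = D.c := by
        have := D.cp
        rw [pow_two] at this
        exact inv_eq_of_mul_eq_one_left this
      rw [h3, D.cc, ← mul_assoc, mul_inv_cancel, one_mul]
  obtain ⟨x, y, hxy⟩ := hna
  by_cases h1 : s x * c' ∈ f.range
  · exact key x ⟨y, hxy⟩ h1
  by_cases h2 : s y * c' ∈ f.range
  · exact key y ⟨x, fun h => hxy h.symm⟩ h2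
  refine key (x * y) ⟨x, fun h => ?_⟩ ?_
  · apply hxy
    have h3 : x * (y * x) = x * (x * y) := by rw [← h]; group
    exact (mul_left_cancel h3).symm
  · have hk : D.l y x = 1 := by
      have h3 : D.l y x ≠ 0 := fun h0 => hxy (D.l_eq_zero.1 h0).symm
      exact zmod_two _ h3
    have h4 := D.mul_pow' (x := x) (y := y) (D.l_spec y x) 2
    rw [hk, Nat.choose_self, Nat.cast_one, mul_one, pw_one] at h4
    have h5 : s (x * y) * c' = (s x * c') * (s y * c') := by
      have h6 : s (x * y) = s x * s y * c' := Subtype.ext h4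
      rw [h6]
      have h7 : s x * c' * (s y * c') = s x * s y * c' * c' := by
        rw [mul_assoc (s x), ← mul_assoc c', hcomm c' (s y)]; simp only [mul_assoc]
      rw [h7]
    rw [h5, Subgroup.mul_mem_iff_of_index_two hidx]
    exact iff_of_false h1 h2

theorem odd_case [Finite G] (hp2 : p ≠ 2) (hmin : ∀ q : ℕ, q.Prime → q ∣ Nat.card G → p ≤ q)
    (hna : ∃ x y : G, x * y ≠ y * x)
    (hZ : ∀ z : G, (∀ g, z * g = g * z) → z ^ p = 1 → z ∈ Subgroup.zpowers D.c) :
    ∃ w : G, (∃ g, w * g ≠ g * w) ∧ w ^ p = 1 := by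
  by_contra hcon
  push Not at hcon
  have h2lt : 2 < p := lt_of_le_of_ne hp.out.two_le (Ne.symm hp2)
  have hch : ((p.choose 2 : ℕ) : ZMod p) = 0 :=
    (ZMod.natCast_eq_zero_iff _ _).2 (hp.out.dvd_choose_self two_ne_zero h2lt)
  let f : G →* G :=
    { toFun := fun x => x ^ p
      map_one' := one_pow _
      map_mul' := fun x y => by
        have h := D.mul_pow' (x := x) (y := y) (D.l_spec y x) p
        rwa [hch, mul_zero, pw_zero, mul_one] at h }
  have h1 : f.ker ≤ Subgroup.zpowers D.c := by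
    intro x hx
    have hx' : x ^ p = 1 := hx
    refine hZ x ?_ hx'
    by_contra h
    push Not at h
    exact hcon x h hx'
  have h2 : f.range ≤ Subgroup.center G := by
    rintro _ ⟨x, rfl⟩
    exact Subgroup.mem_center_iff.2 fun g => (D.pow_p_central x g).symm
  have h3 : Nat.card f.ker ≤ p := by
    have := Subgroup.card_le_of_le h1
    rwa [D.card_zp] at this
  have h4 := Subgroup.card_le_of_le h2
  have h5 := Subgroup.card_mul_index f.ker
  rw [Subgroup.index_ker] at h5
  have h6 := center_bound hmin hna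
  have h7 : 0 < Nat.card (Subgroup.center G) := Nat.card_pos
  have h8 : Nat.card G ≤ p * Nat.card (Subgroup.center G) := by
    rw [← h5]; exact Nat.mul_le_mul h3 h4
  have h9 : p * (p * Nat.card (Subgroup.center G)) ≤ 1 * (p * Nat.card (Subgroup.center G)) := by
    calc p * (p * Nat.card (Subgroup.center G)) = p ^ 2 * Nat.card (Subgroup.center G) := by ring
      _ ≤ _ := h6.trans (by rw [one_mul]; exact h8)
  have h10 := Nat.le_of_mul_le_mul_right h9 (Nat.mul_pos hp.out.pos h7)
  exact absurd hp.out.one_lt (not_lt.2 h10)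

theorem exists_W [Finite G] (hmin : ∀ q : ℕ, q.Prime → q ∣ Nat.card G → p ≤ q)
    (hna : ∃ x y : G, x * y ≠ y * x)
    (hZ : ∀ z : G, (∀ g, z * g = g * z) → z ^ p = 1 → z ∈ Subgroup.zpowers D.c) :
    ∃ (w : G) (W : ZMod p → G), (∃ g, w * g ≠ g * w) ∧ W 0 = 1 ∧
    (∀ a b, W (a + b) = W a * W b * pw p D.c (a * b)) ∧
    (∀ a g, W a * g = g * W a * pw p D.c (a * D.l w g)) := by
  by_cases hp2 : p = 2
  · obtain ⟨w, hw, hw2⟩ := D.two_case hp2 hna hZ
    subst hp2
    refine ⟨w, fun a => pw 2 w a, hw, pw_zero _, ?_, ?_⟩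
    · have hcc : D.c * D.c = 1 := by
        have := D.cp
        rwa [pow_two] at this
      have hww : w * w = D.c := by rw [← hw2, pow_two]
      intro a b
      fin_cases a <;> fin_cases b
      · show pw 2 w 0 = pw 2 w 0 * pw 2 w 0 * pw 2 D.c 0
        simp [pw_zero]
      · show pw 2 w 1 = pw 2 w 0 * pw 2 w 1 * pw 2 D.c 0
        simp [pw_zero]
      · show pw 2 w 1 = pw 2 w 1 * pw 2 w 0 * pw 2 D.c 0
        simp [pw_zero]
      · show pw 2 w 0 = pw 2 w 1 * pw 2 w 1 * pw 2 D.c 1
        rw [pw_zero, pw_one, pw_one, hww, hcc]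
    · intro a g
      have h1 := D.pow_comm (D.l_spec w g) a.val
      rw [ZMod.natCast_zmod_val] at h1
      exact h1
  · obtain ⟨w, hw, hwp⟩ := D.odd_case hp2 hmin hna hZ
    have h2 : (2 : ZMod p) ≠ 0 := by
      have h2lt : 2 < p := lt_of_le_of_ne hp.out.two_le (Ne.symm hp2)
      intro h
      have h3 : ((2 : ℕ) : ZMod p) = 0 := by exact_mod_cast h
      rw [ZMod.natCast_eq_zero_iff] at h3
      exact absurd (Nat.le_of_dvd (by norm_num) h3) (not_le.2 h2lt)
    refine ⟨w, fun a => pw p w a * pw p D.c (a * (a - 1) * 2⁻¹), hw, by simp [pw_zero], ?_, ?_⟩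
    · intro a b
      have e : (a + b) * (a + b - 1) * 2⁻¹ = a * (a - 1) * 2⁻¹ + (b * (b - 1) * 2⁻¹ + a * b) := by
        field_simp
        ring
      show pw p w (a + b) * pw p D.c ((a + b) * (a + b - 1) * 2⁻¹) = _
      rw [e, pw_add hwp, pw_add D.cp, pw_add D.cp]
      symm
      calc pw p w a * pw p D.c (a * (a - 1) * 2⁻¹) * (pw p w b * pw p D.c (b * (b - 1) * 2⁻¹)) * pw p D.c (a * b)
          = pw p w a * (pw p D.c (a * (a - 1) * 2⁻¹) * pw p w b) * pw p D.c (b * (b - 1) * 2⁻¹) * pw p D.c (a * b) := by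
            group
        _ = _ := by rw [D.pwc]; group
    · intro a g
      have h1 := D.pow_comm (D.l_spec w g) a.val
      rw [ZMod.natCast_zmod_val] at h1
      show pw p w a * pw p D.c (a * (a - 1) * 2⁻¹) * g = g * (pw p w a * pw p D.c (a * (a - 1) * 2⁻¹)) * pw p D.c (a * D.l w g)
      have h1' : pw p w a * g = g * pw p w a * pw p D.c (a * D.l w g) := h1
      calc pw p w a * pw p D.c (a * (a - 1) * 2⁻¹) * g = pw p w a * (pw p D.c (a * (a - 1) * 2⁻¹) * g) := by group
        _ = pw p w a * g * pw p D.c (a * (a - 1) * 2⁻¹) := by rw [D.pwc]; group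
        _ = g * pw p w a * (pw p D.c (a * D.l w g) * pw p D.c (a * (a - 1) * 2⁻¹)) := by rw [h1']; group
        _ = _ := by rw [D.pwc]; group

include D in
theorem main [Finite G] (hmin : ∀ q : ℕ, q.Prime → q ∣ Nat.card G → p ≤ q)
    (hna : ∃ x y : G, x * y ≠ y * x) :
    Nat.card (MulAction.orbitRel.Quotient (MulAut G) G) * p ≤ Nat.card G := by
  by_cases hZ : ∀ z : G, (∀ g, z * g = g * z) → z ^ p = 1 → z ∈ Subgroup.zpowers D.c
  · obtain ⟨w, W, hw, h0, ha, hb⟩ := D.exists_W hmin hna hZ
    exact D.bound_B hmin hna w W hw h0 ha hb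
  · push Not at hZ
    obtain ⟨z, h1, h2, h3⟩ := hZ
    exact D.bound_A hmin hna h1 h2 h3

end C2

theorem exists_C2 {G : Type u} [Group G] [Finite G] {p : ℕ} [hp : Fact p.Prime]
    (hmin : ∀ q : ℕ, q.Prime → q ∣ Nat.card G → p ≤ q) (hc : Nat.card (_root_.commutator G) = p) :
    Nonempty (C2 p G) := by
  obtain ⟨⟨c, hcm⟩, hc1⟩ : ∃ c : _root_.commutator G, c ≠ 1 := by
    haveI : Nontrivial (_root_.commutator G) := Finite.one_lt_card_iff_nontrivial.1 (by rw [hc]; exact hp.out.one_lt)
    exact exists_ne 1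
  have hc1' : c ≠ 1 := fun h => hc1 (Subtype.ext h)
  have hcp : c ^ p = 1 := by
    have h1 : (⟨c, hcm⟩ : _root_.commutator G) ^ p = 1 := by rw [← hc]; exact pow_card_eq_one'
    exact congrArg Subtype.val h1
  have ho : orderOf c = p := orderOf_eq_prime hcp hc1'
  have hzp : Subgroup.zpowers c = _root_.commutator G := by
    apply Subgroup.eq_of_le_of_card_ge
    · rw [Subgroup.zpowers_le]; exact hcm
    · rw [hc, Nat.card_zpowers, ho]
  have hcent : ∀ x : G, c * x = x * c := by
    have h1 : (MulAction.orbit (ConjAct G) c).ncard ∣ Nat.card G := by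
      rw [← MulAction.index_stabilizer]
      exact Subgroup.index_dvd_card _
    have h2 : (MulAction.orbit (ConjAct G) c).ncard < p := by
      have h3 : MulAction.orbit (ConjAct G) c ⊂ ((_root_.commutator G : Subgroup G) : Set G) := by
        constructor
        · rintro _ ⟨g, rfl⟩
          show g • c ∈ _root_.commutator G
          rw [ConjAct.smul_def]
          exact (inferInstance : (_root_.commutator G).Normal).conj_mem c hcm _
        · intro h4
          obtain ⟨g, hg⟩ := h4 (one_mem (_root_.commutator G))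
          apply hc1'
          have hg' : g • c = 1 := hg
          rwa [smul_eq_iff_eq_inv_smul, smul_one] at hg'
      have h5 := Set.ncard_lt_ncard h3 (Set.toFinite _)
      rwa [Nat.card_coe_set_eq ((_root_.commutator G : Subgroup G) : Set G) |>.symm.trans hc] at h5
    have h3 : (MulAction.orbit (ConjAct G) c).ncard = 1 := by
      by_contra h4
      have h5 := hmin _ (Nat.minFac_prime h4) ((Nat.minFac_dvd _).trans h1)
      have h6 : 0 < (MulAction.orbit (ConjAct G) c).ncard :=
        (Set.ncard_pos (Set.toFinite _)).2 ⟨c, MulAction.mem_orbit_self c⟩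
      exact absurd (h5.trans (Nat.minFac_le h6)) (not_le.2 h2)
    intro x
    obtain ⟨a, ha⟩ := Set.ncard_eq_one.1 h3
    have h4 : c ∈ MulAction.orbit (ConjAct G) c := MulAction.mem_orbit_self c
    have h5 : ConjAct.toConjAct x • c ∈ MulAction.orbit (ConjAct G) c := ⟨_, rfl⟩
    rw [ha] at h4 h5
    have h6 : ConjAct.toConjAct x • c = c := by
      rw [Set.mem_singleton_iff.1 h5]; exact (Set.mem_singleton_iff.1 h4).symm
    rw [ConjAct.toConjAct_smul] at h6
    rw [mul_inv_eq_iff_eq_mul] at h6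
    exact h6.symm
  refine ⟨⟨c, hcp, hc1', hcent, ?_⟩⟩
  intro x y
  have h1 : ⁅x⁻¹, y⁻¹⁆ ∈ _root_.commutator G := Subgroup.commutator_mem_commutator (Subgroup.mem_top _) (Subgroup.mem_top _)
  rw [← hzp] at h1
  obtain ⟨n, hn⟩ := (mem_powers_iff_mem_zpowers).2 h1
  refine ⟨(n : ZMod p), ?_⟩
  rw [pw_natCast hcp, show c ^ n = ⁅x⁻¹, y⁻¹⁆ from hn, commutatorElement_def]
  group

end Cfsg.Agent.H14.AO
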