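import Mathlib
import Cfsg.Agent.H2.QD9
import Cfsg.Agent.H28.QdLib
import Cfsg.Agent.L.SylIn
import Cfsg.Agent.H1.Coprime

/-!
# `SL(2,p)` in the automizers of `p`-subgroups of groups involving `Qd(p)`
-/

set_option autoImplicit false
set_option linter.style.haveILetI false
set_option linter.unusedSectionVars false

universe u

namespace Cfsg.Agent.H14.Cen

open Cfsg Cfsg.Agent.L Subgroup

theorem sl_section_of_qd {G : Type*} [Group G] [Finite G] {p : ℕ} [hp : Fact p.Prime]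
    (h : Involves ↥(qd p) G) : ∃ T : Subgroup G, IsPGroup p T ∧
      ∃ (H K : Subgroup G) (_ : (K.subgroupOf H).Normal), centralizer (T : Set G) ≤ K ∧ K ≤ H ∧
        H ≤ normalizer (T : Set G) ∧
        Nonempty ((↥H ⧸ K.subgroupOf H) ≃* Matrix.SpecialLinearGroup (Fin 2) (ZMod p)) := by
  obtain ⟨K, φ, T, hTK, hKT, hTp, hφ, hTV, hVT⟩ := H28.qd_step1 H28.qdLike_qd h
  obtain ⟨π, hπ⟩ := H2.exists_qd_proj p
  have hq := H28.qdLike_qd (p := p)
  have hVπ : ∀ v ∈ (H28.qdBlock p).ker, π v = 1 := by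
    intro v hv
    rw [MonoidHom.mem_ker, H28.qdBlock_eq_one_iff] at hv
    rw [hπ]
    refine ⟨![v.1.1 0 2, v.1.1 1 2], ?_⟩
    have h1 := H28.mem_qd.1 v.2
    ext i j
    rw [H2.affJ_val]
    fin_cases i <;> fin_cases j <;> simp [hv.1, hv.2.1, hv.2.2.1, hv.2.2.2, h1.1, h1.2.1, h1.2.2]
  obtain ⟨θ, hθ⟩ : ∃ θ : K →* Matrix.SpecialLinearGroup (Fin 2) (ZMod p), ∀ x, θ x = π (φ x) :=
    ⟨π.comp φ, fun _ => rfl⟩
  have hθs : Function.Surjective θ := by
    intro M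
    obtain ⟨x, hx⟩ := hφ ⟨H2.affJ M 0, H2.affJ_mem_qd M 0⟩
    refine ⟨x, ?_⟩
    rw [hθ, hx, hπ]
    exact ⟨0, rfl⟩
  obtain ⟨C, hC⟩ : ∃ C, C = centralizer (T : Set G) := ⟨_, rfl⟩
  have hCθ : ∀ (c : G) (hc : c ∈ K), c ∈ C → θ ⟨c, hc⟩ = 1 := by
    intro c hc hcC
    rw [hθ]
    apply hVπ
    apply hq.cent
    intro v hv
    obtain ⟨x, hx, rfl⟩ := hVT v hv
    rw [H28.tf_apply φ (hTK hx), ← map_mul, ← map_mul]
    congr 1
    apply Subtype.ext
    rw [hC] at hcC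
    exact (mem_centralizer_iff.1 hcC x hx).symm
  have hKC : ∀ k ∈ K, ∀ c ∈ C, k⁻¹ * c * k ∈ C := by
    intro k hk c hc
    have h1 : k⁻¹ ∈ nz C := by rw [hC]; exact nz_le_nz_cent T (hKT (inv_mem hk))
    have := (mem_normalizer_iff.1 h1 c).1 hc
    simpa using this
  let R : Subgroup (↥(K ⊔ C) × Matrix.SpecialLinearGroup (Fin 2) (ZMod p)) :=
    { carrier := {z | ∃ k : K, ∃ c ∈ C, (z.1 : G) = k * c ∧ θ k = z.2}
      mul_mem' := by
        rintro ⟨a, M⟩ ⟨b, N⟩ ⟨k, c, hc, h1, h2⟩ ⟨k', c', hc', h1', h2'⟩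
        refine ⟨k * k', (k'⁻¹ * c * k') * c', mul_mem (by simpa using hKC k' k'.2 c hc) hc', ?_, ?_⟩
        · show (a : G) * b = _
          have e1 : (a : G) = k * c := h1
          have e2 : (b : G) = k' * c' := h1'
          rw [e1, e2]
          show (k : G) * c * (k' * c') = (k : G) * k' * ((k' : G)⁻¹ * c * k' * c')
          group
        · show θ (k * k') = M * N
          rw [map_mul]
          exact congrArg₂ _ h2 h2'
      one_mem' := ⟨1, 1, one_mem _, by simp, map_one _⟩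
      inv_mem' := by
        rintro ⟨a, M⟩ ⟨k, c, hc, h1, h2⟩
        refine ⟨k⁻¹, k * c⁻¹ * k⁻¹, ?_, ?_, ?_⟩
        · have := hKC (k⁻¹ : K) (k⁻¹ : K).2 c⁻¹ (inv_mem hc)
          simpa using this
        · show ((a⁻¹ : ↥(K ⊔ C)) : G) = _
          have e1 : (a : G) = k * c := h1
          rw [coe_inv, e1, mul_inv_rev, coe_inv]
          group
        · show θ k⁻¹ = M⁻¹
          rw [map_inv]
          exact congrArg _ h2 }
  have hKnC : K ≤ nz C := by rw [hC]; exact hKT.trans (nz_le_nz_cent T)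
  have hdec : ∀ x ∈ K ⊔ C, ∃ k : K, ∃ c ∈ C, x = k * c := by
    intro x hx
    rw [sup_comm] at hx
    obtain ⟨k, hk, c, hc, e⟩ := (H1.mem_sup_iff_of_le_normalizer' hKnC).1 hx
    exact ⟨⟨k, hk⟩, c, hc, e.symm⟩
  obtain ⟨ψ, hψ⟩ := H2.exists_hom_of_graph R (by
    rintro ⟨x, hx⟩
    obtain ⟨k, c, hc, e⟩ := hdec x hx
    exact ⟨θ k, k, c, hc, e, rfl⟩) (by
    rintro M ⟨k, c, hc, e, rfl⟩
    have e' : (1 : G) = k * c := e
    have h1 : (k : G) ∈ C := by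
      have : (k : G) = c⁻¹ := eq_inv_of_mul_eq_one_left e'.symm
      rw [this]; exact inv_mem hc
    exact hCθ k k.2 h1)
  have hψs : Function.Surjective ψ := by
    intro M
    obtain ⟨k, rfl⟩ := hθs M
    refine ⟨⟨k, mem_sup_left k.2⟩, ?_⟩
    exact ((hψ _ _).1 ⟨k, 1, one_mem _, by simp, rfl⟩).symm
  have hK₀ : (ψ.ker.map (K ⊔ C).subtype).subgroupOf (K ⊔ C) = ψ.ker :=
    comap_map_eq_self_of_injective (K ⊔ C).subtype_injective _
  haveI hn : ((ψ.ker.map (K ⊔ C).subtype).subgroupOf (K ⊔ C)).Normal := by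
    rw [hK₀]; infer_instance
  refine ⟨T, hTp, K ⊔ C, ψ.ker.map (K ⊔ C).subtype, hn, ?_, map_subtype_le _, ?_, ?_⟩
  · rw [← hC]
    intro c hc
    refine ⟨⟨c, mem_sup_right hc⟩, ?_, rfl⟩
    rw [SetLike.mem_coe, MonoidHom.mem_ker]
    exact ((hψ _ _).1 ⟨1, c, hc, by simp, map_one _⟩).symm
  · refine sup_le hKT ?_
    rw [hC]; exact centralizer_le_normalizer _
  · exact ⟨(QuotientGroup.quotientMulEquivOfEq hK₀).trans
      (QuotientGroup.quotientKerEquivOfSurjective ψ hψs)⟩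

end Cfsg.Agent.H14.Cen
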