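import Cfsg.Agent.H14.Pair3
import Cfsg.Agent.H2.Cyc
import Cfsg.Agent.H11.AbM4

/-! Pairs of elements of order p in a group with cyclic Sylow p-subgroups (helper14). -/

set_option autoImplicit false

namespace Cfsg.Agent.H14.Pair

open Cfsg

universe u

variable {G : Type u} [Group G] [Finite G] {p : ℕ} [hp : Fact p.Prime]

theorem pair_cyc {x y : G} (hx : orderOf x = p) (hy : orderOf y = p)
    (hcyc : ∀ Q : Subgroup G, IsPGroup p Q → IsCyclic Q)
    (hs : IsPSolvable p ↥(Subgroup.closure ({x, y} : Set G))) :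
    ∃ i : ℕ, ¬ p ∣ i ∧ ∀ j k : ℕ, (p ∣ i * k + j → ¬ p ∣ orderOf (y ^ k * x ^ j)) ∧
      (¬ p ∣ i * k + j → ∃ l : G, IsPPart p (l * (y ^ k * x ^ j) * l⁻¹) (x ^ (i * k + j))) := by
  classical
  obtain ⟨L, hL⟩ : ∃ L, L = Subgroup.closure ({x, y} : Set G) := ⟨_, rfl⟩
  rw [← hL] at hs
  have hxL : x ∈ L := by rw [hL]; exact Subgroup.subset_closure (by simp)
  have hyL : y ∈ L := by rw [hL]; exact Subgroup.subset_closure (by simp)
  have hcycL : ∀ Q : Sylow p L, IsCyclic Q := by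
    intro Q
    have h1 := hcyc _ (Q.isPGroup'.map L.subtype)
    exact (Subgroup.equivMapOfInjective (Q : Subgroup L) L.subtype L.subtype_injective).symm.isCyclic.mp h1
  have habL : ∀ Q : Sylow p L, ∀ a ∈ Q, ∀ b ∈ Q, a * b = b * a := by
    intro Q a ha b hb
    have := hcycL Q
    have h2 := (IsCyclic.commGroup (α := Q)).mul_comm (⟨a, ha⟩ : Q) ⟨b, hb⟩
    exact congrArg Subtype.val h2
  obtain ⟨X, hX⟩ : ∃ X : L, X = ⟨x, hxL⟩ := ⟨_, rfl⟩
  obtain ⟨Y, hY⟩ : ∃ Y : L, Y = ⟨y, hyL⟩ := ⟨_, rfl⟩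
  have ox : orderOf X = p := by rw [hX, Subgroup.orderOf_mk, hx]
  have oy : orderOf Y = p := by rw [hY, Subgroup.orderOf_mk, hy]
  have mx := mk_mem_pCore hs habL (x := X) ⟨1, by rw [ox, pow_one]⟩
  have my := mk_mem_pCore hs habL (x := Y) ⟨1, by rw [oy, pow_one]⟩
  -- L / O is a p-group
  have htop : pCore p (L ⧸ pPrimeCore p L) = ⊤ := by
    rw [eq_top_iff]
    rintro g -
    obtain ⟨g, rfl⟩ := QuotientGroup.mk_surjective g
    have h1 : Subgroup.closure ({x, y} : Set G) ≤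
        ((pCore p (L ⧸ pPrimeCore p L)).comap (QuotientGroup.mk' (pPrimeCore p L))).map L.subtype := by
      rw [Subgroup.closure_le]
      rintro z (rfl | rfl)
      · refine ⟨X, ?_, by rw [hX]; rfl⟩
        exact mx
      · refine ⟨Y, ?_, by rw [hY]; rfl⟩
        exact my
    obtain ⟨z, hz, hz2⟩ := h1 (show (g : G) ∈ _ by rw [← hL]; exact g.2)
    have h2 : z = g := Subtype.ext hz2
    rw [h2] at hz
    exact hz
  have hpg : IsPGroup p (L ⧸ pPrimeCore p L) := by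
    have h1 : IsPGroup p (pCore p (L ⧸ pPrimeCore p L)) := Cfsg.Agent.H1.pCore_isPGroup p _
    rw [htop] at h1
    exact h1.of_equiv Subgroup.topEquiv
  -- it is cyclic
  have hcop : (Nat.card (pPrimeCore p L)).Coprime p := Cfsg.Agent.H1.pPrimeCore_coprime p L
  have hQc : IsCyclic (L ⧸ pPrimeCore p L) := by
    obtain ⟨R⟩ : Nonempty (Sylow p L) := inferInstance
    have := hcycL R
    obtain ⟨Rb, hRb⟩ : ∃ Rb : Sylow p (L ⧸ pPrimeCore p L), (Rb : Subgroup (L ⧸ pPrimeCore p L)) =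
        (R : Subgroup L).map (QuotientGroup.mk' (pPrimeCore p L)) :=
      ⟨R.mapSurjective (QuotientGroup.mk'_surjective _), rfl⟩
    have h1 : (Rb : Subgroup (L ⧸ pPrimeCore p L)) = ⊤ := by
      have h2 : pCore p (L ⧸ pPrimeCore p L) ≤ (Rb : Subgroup (L ⧸ pPrimeCore p L)) :=
        Cfsg.Agent.H1.pCore_le_sylow _
      rw [htop] at h2
      exact top_le_iff.mp h2
    have h3 : Function.Surjective (((QuotientGroup.mk' (pPrimeCore p L)).subgroupMap (R : Subgroup L))) :=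
      MonoidHom.subgroupMap_surjective _ _
    have h4 : IsCyclic ((R : Subgroup L).map (QuotientGroup.mk' (pPrimeCore p L))) :=
      isCyclic_of_surjective _ h3
    rw [← hRb, h1] at h4
    exact (Subgroup.topEquiv (G := L ⧸ pPrimeCore p L)).isCyclic.mp h4
  have hXO : (QuotientGroup.mk X : L ⧸ pPrimeCore p L) ≠ 1 := by
    intro h
    have h1 := (QuotientGroup.eq_one_iff _).mp h
    have h8 : orderOf X ∣ Nat.card (pPrimeCore p L) := by
      have := orderOf_dvd_natCard (⟨X, h1⟩ : pPrimeCore p L)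
      rwa [Subgroup.orderOf_mk] at this
    rw [ox] at h8
    exact hp.out.one_lt.ne' (Nat.dvd_one.mp (hcop ▸ Nat.dvd_gcd h8 dvd_rfl))
  have hYO : (QuotientGroup.mk Y : L ⧸ pPrimeCore p L) ≠ 1 := by
    intro h
    have h1 := (QuotientGroup.eq_one_iff _).mp h
    have h8 : orderOf Y ∣ Nat.card (pPrimeCore p L) := by
      have := orderOf_dvd_natCard (⟨Y, h1⟩ : pPrimeCore p L)
      rwa [Subgroup.orderOf_mk] at this
    rw [oy] at h8
    exact hp.out.one_lt.ne' (Nat.dvd_one.mp (hcop ▸ Nat.dvd_gcd h8 dvd_rfl))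
  have oX : orderOf (QuotientGroup.mk X : L ⧸ pPrimeCore p L) = p := by
    apply orderOf_eq_prime _ hXO
    rw [← QuotientGroup.mk_pow, ← ox, pow_orderOf_eq_one]; rfl
  have oY : orderOf (QuotientGroup.mk Y : L ⧸ pPrimeCore p L) = p := by
    apply orderOf_eq_prime _ hYO
    rw [← QuotientGroup.mk_pow, ← oy, pow_orderOf_eq_one]; rfl
  have hXp1 : (QuotientGroup.mk X : L ⧸ pPrimeCore p L) ^ p = 1 := by
    have := pow_orderOf_eq_one (QuotientGroup.mk X : L ⧸ pPrimeCore p L)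
    rwa [oX] at this
  have hYX : (QuotientGroup.mk Y : L ⧸ pPrimeCore p L) ∈ Subgroup.zpowers (QuotientGroup.mk X : L ⧸ pPrimeCore p L) := by
    rw [Cfsg.Agent.H2.zpowers_eq_of_orderOf_eq (oX.trans oY.symm)]
    exact Subgroup.mem_zpowers _
  obtain ⟨i, hi⟩ := (mem_powers_iff_mem_zpowers.mpr hYX)
  simp only at hi
  have hip : ¬ p ∣ i := by
    rintro ⟨c, hc⟩
    apply hYO
    rw [← hi, hc, pow_mul, hXp1, one_pow]
  refine ⟨i, hip, fun j k => ?_⟩
  obtain ⟨W, hW⟩ : ∃ W : L, W = Y ^ k * X ^ j := ⟨_, rfl⟩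
  have hWc : (W : G) = y ^ k * x ^ j := by rw [hW, hX, hY]; rfl
  have hWm : (QuotientGroup.mk W : L ⧸ pPrimeCore p L) = (QuotientGroup.mk X) ^ (i * k + j) := by
    rw [hW, QuotientGroup.mk_mul, QuotientGroup.mk_pow, QuotientGroup.mk_pow, ← hi, ← pow_mul, ← pow_add]
  refine ⟨fun hd => ?_, fun hd => ?_⟩
  · obtain ⟨c, hc⟩ := hd
    have h1 : (QuotientGroup.mk W : L ⧸ pPrimeCore p L) = 1 := by
      rw [hWm, hc, pow_mul, hXp1, one_pow]
    have h2 := (QuotientGroup.eq_one_iff _).mp h1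
    have h8 : orderOf W ∣ Nat.card (pPrimeCore p L) := by
      have := orderOf_dvd_natCard (⟨W, h2⟩ : pPrimeCore p L)
      rwa [Subgroup.orderOf_mk] at this
    intro h9
    have h10 : orderOf (y ^ k * x ^ j) = orderOf W := by rw [← hWc, Subgroup.orderOf_coe]
    rw [h10] at h9
    exact hp.out.one_lt.ne' (Nat.dvd_one.mp (hcop ▸ Nat.dvd_gcd (h9.trans h8) dvd_rfl))
  · obtain ⟨z, v, hzv, hcomm, ⟨n, hn⟩, hv⟩ := Cfsg.Agent.H11.exists_isPPart hp.out W
    have hv1 : (QuotientGroup.mk v : L ⧸ pPrimeCore p L) = 1 := by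
      obtain ⟨m, hm⟩ := (IsPGroup.iff_orderOf.mp hpg) (QuotientGroup.mk v)
      have h1 : orderOf (QuotientGroup.mk v : L ⧸ pPrimeCore p L) ∣ orderOf v :=
        orderOf_map_dvd (QuotientGroup.mk' (pPrimeCore p L)) v
      rcases Nat.eq_zero_or_pos m with h0 | h0
      · rw [h0, pow_zero] at hm
        exact orderOf_eq_one_iff.mp hm
      · exfalso
        apply hv
        rw [hm] at h1
        exact (dvd_pow_self p h0.ne').trans h1
    have hz1 : (QuotientGroup.mk z : L ⧸ pPrimeCore p L) = (QuotientGroup.mk X) ^ (i * k + j) := by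
      rw [← hWm, ← hzv, QuotientGroup.mk_mul, hv1, mul_one]
    have hzp : IsPGroup p (Subgroup.zpowers z) := by
      apply IsPGroup.of_card (n := n)
      rw [Nat.card_zpowers, hn]
    have hXp : IsPGroup p (Subgroup.zpowers X) := by
      apply IsPGroup.of_card (n := 1)
      rw [Nat.card_zpowers, ox, pow_one]
    obtain ⟨R1, hR1⟩ := hzp.exists_le_sylow
    obtain ⟨R2, hR2⟩ := hXp.exists_le_sylow
    obtain ⟨l, hl⟩ := MulAction.exists_smul_eq L R1 R2
    have h1 : l * z * l⁻¹ ∈ R2 := by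
      rw [← hl]
      exact Subgroup.smul_mem_pointwise_smul z (MulAut.conj l) (R1 : Subgroup L) (hR1 (Subgroup.mem_zpowers z))
    have h2 : X ^ (i * k + j) ∈ R2 := pow_mem (hR2 (Subgroup.mem_zpowers X)) _
    have h3 : (QuotientGroup.mk (l * z * l⁻¹) : L ⧸ pPrimeCore p L) = QuotientGroup.mk (X ^ (i * k + j)) := by
      rw [QuotientGroup.mk_mul, QuotientGroup.mk_mul, QuotientGroup.mk_inv, QuotientGroup.mk_pow,
        (IsCyclic.commGroup (α := L ⧸ pPrimeCore p L)).mul_comm (QuotientGroup.mk l) (QuotientGroup.mk z),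
        mul_assoc, mul_inv_cancel, mul_one, hz1]
    have h4 : (l * z * l⁻¹)⁻¹ * X ^ (i * k + j) ∈ pPrimeCore p L := QuotientGroup.eq.mp h3
    have h5 : (l * z * l⁻¹)⁻¹ * X ^ (i * k + j) ∈ R2 := mul_mem (inv_mem h1) h2
    have h6 : (l * z * l⁻¹)⁻¹ * X ^ (i * k + j) = 1 := by
      obtain ⟨m, hm⟩ := (IsPGroup.iff_orderOf.mp R2.isPGroup') ⟨_, h5⟩
      rw [Subgroup.orderOf_mk] at hm
      have h8 := orderOf_dvd_natCard (⟨_, h4⟩ : pPrimeCore p L)
      rw [Subgroup.orderOf_mk, hm] at h8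
      have h9 : Nat.Coprime (p ^ m) (Nat.card (pPrimeCore p L)) := hcop.symm.pow_left m
      have h10 : p ^ m = 1 := Nat.dvd_one.mp (h9 ▸ Nat.dvd_gcd dvd_rfl h8)
      rw [h10] at hm
      exact orderOf_eq_one_iff.mp hm
    have h7 : l * z * l⁻¹ = X ^ (i * k + j) := (inv_mul_eq_one.mp h6)
    refine ⟨l, (l : G) * v * (l : G)⁻¹, ?_, ?_, ?_, ?_⟩
    · have h8 : (x ^ (i * k + j) : G) = ((l * z * l⁻¹ : L) : G) := by rw [h7, hX]; rfl
      rw [h8, ← hWc, ← hzv]
      push_cast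
      group
    · have h8 : (x ^ (i * k + j) : G) = (l : G) * z * (l : G)⁻¹ := by
        have : (x ^ (i * k + j) : G) = ((l * z * l⁻¹ : L) : G) := by rw [h7, hX]; rfl
        rw [this]; rfl
      rw [h8]
      have hc' : (z : G) * v = v * z := congrArg Subtype.val hcomm.eq
      change (l : G) * z * (l : G)⁻¹ * ((l : G) * v * (l : G)⁻¹) = (l : G) * v * (l : G)⁻¹ * ((l : G) * z * (l : G)⁻¹)
      calc (l : G) * z * (l : G)⁻¹ * ((l : G) * v * (l : G)⁻¹) = l * (z * v) * (l : G)⁻¹ := by group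
        _ = l * (v * z) * (l : G)⁻¹ := by rw [hc']
        _ = _ := by group
    · have h8 : orderOf (x ^ (i * k + j)) ∣ p := by
        rw [← hx]; exact orderOf_pow_dvd _
      rcases (Nat.dvd_prime hp.out).mp h8 with h9 | h9
      · exact ⟨0, by rw [h9, pow_zero]⟩
      · exact ⟨1, by rw [h9, pow_one]⟩
    · rw [Cfsg.Agent.H11.orderOf_conj, Subgroup.orderOf_coe]
      exact hv

end Cfsg.Agent.H14.Pair
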