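import Cfsg.Agent.H14.Cyc1

/-! Pairs of elements of order p, cyclic Sylow subgroups: the class sum identity (helper14). -/

set_option autoImplicit false

namespace Cfsg.Agent.H14.Pair

open Cfsg Cfsg.Agent.H3 Cfsg.Agent.H11 Cfsg.Agent.H27 ComplexConjugate

universe u

theorem cyc_sum {p : ℕ} [hp : Fact p.Prime] (c : ZMod p → ℂ) {i : ZMod p} (hi : i ≠ 0) :
    ∑ k ∈ Finset.univ.filter (fun r : ZMod p => r ≠ 0), ∑ j ∈ Finset.univ.filter (fun r : ZMod p => r ≠ 0),
      (if i * k + j = 0 then 0 else c (i * k + j)) =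
      ((p : ℂ) - 2) * ∑ r ∈ Finset.univ.filter (fun r : ZMod p => r ≠ 0), c r := by
  classical
  obtain ⟨f, hf⟩ : ∃ f : ZMod p → ℂ, f = fun r => if r = 0 then 0 else c r := ⟨_, rfl⟩
  obtain ⟨s, hs⟩ : ∃ s : ℂ, s = ∑ r ∈ Finset.univ.filter (fun r : ZMod p => r ≠ 0), c r := ⟨_, rfl⟩
  have hfs : ∑ r : ZMod p, f r = s := by
    rw [hs, Finset.sum_filter, hf]
    exact Finset.sum_congr rfl fun r _ => by split_ifs <;> simp_all
  have herase : (Finset.univ.filter (fun r : ZMod p => r ≠ 0)) = Finset.univ.erase 0 := by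
    ext r; simp
  have hin : ∀ k : ZMod p, ∑ j ∈ Finset.univ.filter (fun r : ZMod p => r ≠ 0),
      (if i * k + j = 0 then 0 else c (i * k + j)) = s - f (i * k) := by
    intro k
    have h1 : ∑ j : ZMod p, f (i * k + j) = s := by
      rw [← hfs]
      exact Fintype.sum_equiv (Equiv.addLeft (i * k)) _ _ (fun _ => rfl)
    have h2 := Finset.add_sum_erase Finset.univ (fun j => f (i * k + j)) (Finset.mem_univ (0 : ZMod p))
    rw [h1] at h2
    rw [herase]
    simp only [add_zero] at h2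
    rw [hf] at h2 ⊢
    linear_combination h2
  rw [Finset.sum_congr rfl fun k _ => hin k, Finset.sum_sub_distrib, Finset.sum_const, ← hs]
  have h3 : ∑ k ∈ Finset.univ.filter (fun r : ZMod p => r ≠ 0), f (i * k) = s := by
    rw [herase]
    have h4 : ∑ k : ZMod p, f (i * k) = s := by
      rw [← hfs]
      exact Fintype.sum_equiv (Equiv.mulLeft₀ i hi) _ _ (fun _ => rfl)
    have h2 := Finset.add_sum_erase Finset.univ (fun j => f (i * j)) (Finset.mem_univ (0 : ZMod p))
    rw [h4] at h2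
    have h5 : f (i * 0) = 0 := by rw [hf]; simp
    simp only [h5, zero_add] at h2
    exact h2
  rw [h3, herase, Finset.card_erase_of_mem (Finset.mem_univ _), Finset.card_univ, ZMod.card]
  rw [nsmul_eq_mul, Nat.cast_sub hp.out.one_lt.le]
  push_cast
  ring

variable {G : Type u} [Group G] [Fintype G] {p : ℕ} [hp : Fact p.Prime] {M : Ideal AlgInt}
  {P : Sylow p G}

/-- sum of the values at the nontrivial powers -/
noncomputable def ss (p : ℕ) [Fact p.Prime] (x : G) (χ : G → ℂ) : ℂ :=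
  ∑ r ∈ Finset.univ.filter (fun r : ZMod p => r ≠ 0), χ (x ^ r.val)

theorem pow_val {x : G} (hx : orderOf x = p) (m : ℕ) : x ^ m = x ^ (m : ZMod p).val := by
  rw [ZMod.val_natCast, ← hx, pow_mod_orderOf]

theorem exists_R (hM : IsPModular p M) (hF : FrobSyl p P) {x : G} (hxP : x ∈ P)
    (hx : orderOf x = p) (hcyc : ∀ Q : Subgroup G, IsPGroup p Q → IsCyclic Q)
    (hs : ∀ y : G, orderOf y = p → IsPSolvable p ↥(Subgroup.closure ({x, y} : Set G))) :
    ∃ R : (G → ℂ) → ℂ, (∀ χ : IrrCharacter G, χ ∈ principalBlock M G →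
      (Fintype.card G : ℂ) * (ss p x (χ : G → ℂ) ^ 2 / (χ : G → ℂ) 1 -
        ((p : ℂ) - 2) * ss p x (χ : G → ℂ)) = R (χ : G → ℂ)) ∧
      ∀ (T : Finset (IrrCharacter G)) (α : IrrCharacter G → ℂ),
        (∀ v : G, ¬ p ∣ orderOf v → ∑ χ ∈ T, α χ * (χ : G → ℂ) v = 0) →
        ∑ χ ∈ T, α χ * R (χ : G → ℂ) = 0 := by
  classical
  have hconjpow : ∀ (g : G) (k : ℕ), (g * x * g⁻¹) ^ k = g * x ^ k * g⁻¹ := fun g k => conj_pow
  have hkey : ∀ g : G, ∃ i : ℕ, ¬ p ∣ i ∧ ∀ j k : ℕ, (p ∣ i * k + j → ¬ p ∣ orderOf (g * x ^ k * g⁻¹ * x ^ j)) ∧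
      (¬ p ∣ i * k + j → ∃ l : G, IsPPart p (l * (g * x ^ k * g⁻¹ * x ^ j) * l⁻¹) (x ^ (i * k + j))) := by
    intro g
    have oy : orderOf (g * x * g⁻¹) = p := by rw [orderOf_conj, hx]
    obtain ⟨i, hi, h⟩ := pair_cyc hx oy hcyc (hs _ oy)
    refine ⟨i, hi, fun j k => ?_⟩
    have := h j k
    rwa [hconjpow] at this
  choose i hi hreg using hkey
  refine ⟨fun θ => ∑ g : G, ∑ k ∈ Finset.univ.filter (fun r : ZMod p => r ≠ 0),
    ∑ j ∈ Finset.univ.filter (fun r : ZMod p => r ≠ 0),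
      (if (i g : ZMod p) * k + j = 0 then θ (g * x ^ k.val * g⁻¹ * x ^ j.val) else 0), ?_, ?_⟩
  · intro χ hχ
    have h1 : ∀ (g : G) (k j : ZMod p), (χ : G → ℂ) (g * x ^ k.val * g⁻¹ * x ^ j.val) =
        (if (i g : ZMod p) * k + j = 0 then (χ : G → ℂ) (g * x ^ k.val * g⁻¹ * x ^ j.val) else 0) +
        (if (i g : ZMod p) * k + j = 0 then 0 else
          (fun r : ZMod p => (χ : G → ℂ) (x ^ r.val)) ((i g : ZMod p) * k + j)) := by
      intro g k j
      split_ifs with h
      · rw [add_zero]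
      · rw [zero_add]
        have h2 : ((i g * k.val + j.val : ℕ) : ZMod p) = (i g : ZMod p) * k + j := by
          push_cast
          rw [ZMod.natCast_zmod_val, ZMod.natCast_zmod_val]
        have h3 : ¬ p ∣ i g * k.val + j.val := by
          intro h4
          apply h
          rw [← h2]
          exact (ZMod.natCast_eq_zero_iff _ _).mpr h4
        obtain ⟨l, v, hzv, hcomm, -, hv⟩ := (hreg g j.val k.val).2 h3
        have h4 : x ^ (i g * k.val + j.val) ∈ P := pow_mem hxP _
        have h5 : x ^ (i g * k.val + j.val) ≠ 1 := by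
          intro h6
          apply h3
          have h7 := orderOf_dvd_of_pow_eq_one h6
          rwa [hx] at h7
        have h6 := hF.const hM h4 h5 hcomm.eq hv hχ
        rw [hzv, irr_classFun χ.2] at h6
        rw [h6]
        change _ = (χ : G → ℂ) (x ^ ((i g : ZMod p) * k + j).val)
        rw [← h2, ← pow_val hx]
    have h2 : ∑ g : G, ∑ k ∈ Finset.univ.filter (fun r : ZMod p => r ≠ 0),
        ∑ j ∈ Finset.univ.filter (fun r : ZMod p => r ≠ 0),
          (χ : G → ℂ) (g * x ^ k.val * g⁻¹ * x ^ j.val) =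
        (Fintype.card G : ℂ) * (ss p x (χ : G → ℂ) ^ 2 / (χ : G → ℂ) 1) := by
      rw [Finset.sum_comm]
      have h3 : ∀ k ∈ Finset.univ.filter (fun r : ZMod p => r ≠ 0),
          ∑ g : G, ∑ j ∈ Finset.univ.filter (fun r : ZMod p => r ≠ 0),
            (χ : G → ℂ) (g * x ^ k.val * g⁻¹ * x ^ j.val) =
          ∑ j ∈ Finset.univ.filter (fun r : ZMod p => r ≠ 0),
            (Fintype.card G : ℂ) * (χ : G → ℂ) (x ^ k.val) * (χ : G → ℂ) (x ^ j.val) / (χ : G → ℂ) 1 := by
        intro k _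
        rw [Finset.sum_comm]
        exact Finset.sum_congr rfl fun j _ => irr_sum_conj_mul χ.2 _ _
      rw [Finset.sum_congr rfl h3]
      unfold ss
      rw [sq, Finset.sum_mul_sum, Finset.sum_div, Finset.mul_sum]
      refine Finset.sum_congr rfl fun k _ => ?_
      rw [Finset.sum_div, Finset.mul_sum]
      exact Finset.sum_congr rfl fun j _ => by ring
    have h3 : ∀ g : G, ∑ k ∈ Finset.univ.filter (fun r : ZMod p => r ≠ 0),
        ∑ j ∈ Finset.univ.filter (fun r : ZMod p => r ≠ 0),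
          (χ : G → ℂ) (g * x ^ k.val * g⁻¹ * x ^ j.val) =
        ∑ k ∈ Finset.univ.filter (fun r : ZMod p => r ≠ 0),
        ∑ j ∈ Finset.univ.filter (fun r : ZMod p => r ≠ 0),
          (if (i g : ZMod p) * k + j = 0 then (χ : G → ℂ) (g * x ^ k.val * g⁻¹ * x ^ j.val) else 0) +
        ((p : ℂ) - 2) * ss p x (χ : G → ℂ) := by
      intro g
      have hig : (i g : ZMod p) ≠ 0 := by
        intro h
        exact hi g ((ZMod.natCast_eq_zero_iff _ _).mp h)
      unfold ss
      rw [← cyc_sum (fun r : ZMod p => (χ : G → ℂ) (x ^ r.val)) hig, ← Finset.sum_add_distrib]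
      refine Finset.sum_congr rfl fun k _ => ?_
      rw [← Finset.sum_add_distrib]
      exact Finset.sum_congr rfl fun j _ => h1 g k j
    rw [Finset.sum_congr rfl fun g _ => h3 g, Finset.sum_add_distrib, Finset.sum_const,
      Finset.card_univ, nsmul_eq_mul] at h2
    linear_combination -h2
  · intro T α hT
    have h1 : ∀ χ ∈ T, α χ * ∑ g : G, ∑ k ∈ Finset.univ.filter (fun r : ZMod p => r ≠ 0),
        ∑ j ∈ Finset.univ.filter (fun r : ZMod p => r ≠ 0),
        (if (i g : ZMod p) * k + j = 0 then (χ : G → ℂ) (g * x ^ k.val * g⁻¹ * x ^ j.val) else 0) =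
        ∑ g : G, ∑ k ∈ Finset.univ.filter (fun r : ZMod p => r ≠ 0),
        ∑ j ∈ Finset.univ.filter (fun r : ZMod p => r ≠ 0),
        (if (i g : ZMod p) * k + j = 0 then α χ * (χ : G → ℂ) (g * x ^ k.val * g⁻¹ * x ^ j.val) else 0) := by
      intro χ _
      rw [Finset.mul_sum]
      refine Finset.sum_congr rfl fun g _ => ?_
      rw [Finset.mul_sum]
      refine Finset.sum_congr rfl fun k _ => ?_
      rw [Finset.mul_sum]
      refine Finset.sum_congr rfl fun j _ => ?_
      split_ifs <;> simp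
    rw [Finset.sum_congr rfl h1, Finset.sum_comm]
    refine Finset.sum_eq_zero fun g _ => ?_
    rw [Finset.sum_comm]
    refine Finset.sum_eq_zero fun k _ => ?_
    rw [Finset.sum_comm]
    refine Finset.sum_eq_zero fun j _ => ?_
    by_cases h : (i g : ZMod p) * k + j = 0
    · simp only [if_pos h]
      apply hT
      have h2 : ((i g * k.val + j.val : ℕ) : ZMod p) = (i g : ZMod p) * k + j := by
        push_cast
        rw [ZMod.natCast_zmod_val, ZMod.natCast_zmod_val]
      apply (hreg g j.val k.val).1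
      rw [h] at h2
      exact (ZMod.natCast_eq_zero_iff _ _).mp h2
    · simp only [if_neg h]
      simp

end Cfsg.Agent.H14.Pair
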