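import Cfsg.Agent.H14.Cyc2
import Cfsg.Agent.H11.FB2
import Cfsg.Agent.H11.PF10
import Cfsg.Agent.H3.IndCoh

/-! Cyclic Sylow p-subgroups: the normalizer (helper14). -/

set_option autoImplicit false

namespace Cfsg.Agent.H14.Pair

open Cfsg Cfsg.Agent.H3 Cfsg.Agent.H11 Cfsg.Agent.H27 ComplexConjugate

universe u

variable {G : Type u} [Group G] [Finite G] {p : ℕ} [hp : Fact p.Prime] {P : Sylow p G}

theorem cyc_comm (hP : IsCyclic (P : Subgroup G)) : ∀ x ∈ P, ∀ y ∈ P, x * y = y * x := by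
  intro x hx y hy
  have h2 := (IsCyclic.commGroup (α := (P : Subgroup G))).mul_comm ⟨x, hx⟩ ⟨y, hy⟩
  exact congrArg Subtype.val h2

theorem cyc_sub (hP : IsCyclic (P : Subgroup G)) (Q : Subgroup G) (hQ : IsPGroup p Q) : IsCyclic Q := by
  obtain ⟨R, hR⟩ := hQ.exists_le_sylow
  have h1 : IsCyclic R := (Sylow.equiv P R).isCyclic.mp hP
  exact (Subgroup.subgroupOfEquivOfLe hR).isCyclic.mp inferInstance

theorem mem_zpowers_of_cyc (hP : IsCyclic (P : Subgroup G)) {x t : G} (hx : x ∈ P) (ht : t ∈ P)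
    (ox : orderOf x = p) (htp : t ^ p = 1) : t ∈ Subgroup.zpowers x := by
  by_cases h1 : t = 1
  · rw [h1]; exact one_mem _
  have ot : orderOf t = p := orderOf_eq_prime htp h1
  have h2 : Subgroup.zpowers (⟨x, hx⟩ : (P : Subgroup G)) = Subgroup.zpowers (⟨t, ht⟩ : (P : Subgroup G)) := by
    apply Cfsg.Agent.H2.zpowers_eq_of_orderOf_eq
    rw [Subgroup.orderOf_mk, Subgroup.orderOf_mk, ox, ot]
  have h3 : (⟨t, ht⟩ : (P : Subgroup G)) ∈ Subgroup.zpowers (⟨x, hx⟩ : (P : Subgroup G)) := by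
    rw [h2]; exact Subgroup.mem_zpowers _
  obtain ⟨k, hk⟩ := Subgroup.mem_zpowers_iff.mp h3
  exact Subgroup.mem_zpowers_iff.mpr ⟨k, congrArg Subtype.val hk⟩

/-- an element of N(P) centralizing a nontrivial element centralizes P. -/
theorem cyc_free (hP : IsCyclic (P : Subgroup G)) {n : G}
    (hn : n ∈ Subgroup.normalizer ((P : Subgroup G) : Set G)) {y : G} (hy : y ∈ P) (hy1 : y ≠ 1)
    (hny : n * y = y * n) : n ∈ Subgroup.centralizer ((P : Subgroup G) : Set G) := by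
  apply centralizes_of_omega (cyc_comm hP) hn
  intro t ht htp
  obtain ⟨k, hk⟩ := mem_sylow_order hy
  have hk0 : k ≠ 0 := by
    rintro rfl
    rw [pow_zero] at hk
    exact hy1 (orderOf_eq_one_iff.mp hk)
  have ho : orderOf (y ^ p ^ (k - 1)) = p := by
    rw [orderOf_pow' y (pow_ne_zero _ hp.out.ne_zero), hk,
      Nat.gcd_eq_right (pow_dvd_pow p (Nat.sub_le k 1)), Nat.pow_div (Nat.sub_le k 1) hp.out.pos]
    rw [show k - (k - 1) = 1 by omega, pow_one]
  have h1 := mem_zpowers_of_cyc hP (pow_mem hy _) ht ho htp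
  obtain ⟨j, hj⟩ := Subgroup.mem_zpowers_iff.mp h1
  have hc : Commute n (y ^ p ^ (k - 1)) := Commute.pow_right hny _
  have hc2 : Commute n t := by rw [← hj]; exact hc.zpow_right j
  rw [hc2.eq, mul_inv_cancel_right]

theorem cyc_frob (hP : IsCyclic (P : Subgroup G)) : FrobSyl p P := by
  refine ⟨cyc_comm hP, fun z hz hz1 g hg => ?_⟩
  exact cyc_free hP hg.2 hz hz1 (Subgroup.mem_centralizer_singleton_iff.mp hg.1)

theorem cyc_gen (hP : IsCyclic (P : Subgroup G)) (hP1 : (P : Subgroup G) ≠ ⊥) :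
    ∃ g ∈ Subgroup.normalizer ((P : Subgroup G) : Set G),
      Subgroup.centralizer ((P : Subgroup G) : Set G) ⊔ Subgroup.zpowers g =
        Subgroup.normalizer ((P : Subgroup G) : Set G) := by
  obtain ⟨x, hx, ox⟩ : ∃ x ∈ P, orderOf x = p := by
    have h1 : p ∣ Nat.card (P : Subgroup G) := by
      obtain ⟨k, hk⟩ := P.isPGroup'.exists_card_eq
      rw [hk]
      apply dvd_pow_self
      rintro rfl
      rw [pow_zero] at hk
      exact hP1 (Subgroup.card_eq_one.mp hk)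
    obtain ⟨x, hx⟩ := exists_prime_orderOf_dvd_card' p h1
    exact ⟨x, x.2, by rw [Subgroup.orderOf_coe, hx]⟩
  have hx1 : x ≠ 1 := by
    rintro rfl; rw [orderOf_one] at ox; exact hp.out.one_lt.ne ox
  have hle : Subgroup.normalizer ((P : Subgroup G) : Set G) ≤
      Subgroup.normalizer ((Subgroup.zpowers x : Subgroup G) : Set G) := by
    have key : ∀ n ∈ Subgroup.normalizer ((P : Subgroup G) : Set G),
        ∀ y ∈ Subgroup.zpowers x, n * y * n⁻¹ ∈ Subgroup.zpowers x := by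
      intro n hn y hy
      obtain ⟨k, rfl⟩ := Subgroup.mem_zpowers_iff.mp hy
      rw [← conj_zpow]
      apply zpow_mem
      apply mem_zpowers_of_cyc hP hx ((Subgroup.mem_normalizer_iff.mp hn x).mp hx) ox
      rw [conj_pow, ← ox, pow_orderOf_eq_one, mul_one, mul_inv_cancel]
    intro n hn
    rw [Subgroup.mem_normalizer_iff]
    intro y
    refine ⟨key n hn y, fun h => ?_⟩
    have := key n⁻¹ (inv_mem hn) _ h
    rwa [inv_inv, show n⁻¹ * (n * y * n⁻¹) * n = y by group] at this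
  have hXc : Nat.card (Subgroup.zpowers x) = p := by rw [Nat.card_zpowers, ox]
  haveI : Fact (Nat.card (Subgroup.zpowers x)).Prime := ⟨by rw [hXc]; exact hp.out⟩
  have hcy : IsCyclic (MulAut (Subgroup.zpowers x)) :=
    (IsCyclic.mulAutMulEquiv (Subgroup.zpowers x)).symm.isCyclic.mp inferInstance
  let φ : ↥(Subgroup.normalizer ((P : Subgroup G) : Set G)) →* MulAut (Subgroup.zpowers x) :=
    (Subgroup.normalizerMonoidHom (Subgroup.zpowers x)).comp (Subgroup.inclusion hle)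
  have hφ : ∀ (n : ↥(Subgroup.normalizer ((P : Subgroup G) : Set G))) (y : Subgroup.zpowers x),
      ((φ n y : Subgroup.zpowers x) : G) = n * y * (n : G)⁻¹ := fun _ _ => rfl
  have hr : IsCyclic φ.range := inferInstance
  obtain ⟨⟨_, g, rfl⟩, hg⟩ := hr.exists_generator
  refine ⟨g, g.2, le_antisymm (sup_le ?_ ?_) ?_⟩
  · intro c hc
    rw [Subgroup.mem_normalizer_iff]
    intro y
    have key : ∀ y ∈ (P : Subgroup G), c * y * c⁻¹ = y := by
      intro y hy
      rw [← Subgroup.mem_centralizer_iff.mp hc y hy, mul_inv_cancel_right]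
    refine ⟨fun h => by rw [key y h]; exact h, fun h => ?_⟩
    have h2 := key _ h
    have h3 : c * y * c⁻¹ = y := by
      have := congrArg (fun z => c⁻¹ * z * c) h2
      calc c * y * c⁻¹ = c⁻¹ * (c * (c * y * c⁻¹) * c⁻¹) * c := by group
        _ = c⁻¹ * (c * y * c⁻¹) * c := this
        _ = y := by group
    rwa [h3] at h
  · rw [Subgroup.zpowers_le]; exact g.2
  · intro n hn
    obtain ⟨k, hk⟩ := Subgroup.mem_zpowers_iff.mp (hg ⟨φ ⟨n, hn⟩, ⟨n, hn⟩, rfl⟩)
    have hk' : φ g ^ k = φ ⟨n, hn⟩ := congrArg Subtype.val hk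
    rw [← map_zpow] at hk'
    have h1 : n * ((g : G) ^ k)⁻¹ ∈ Subgroup.centralizer ((P : Subgroup G) : Set G) := by
      apply cyc_free hP (y := x) _ hx hx1
      · have h2 : φ ((⟨n, hn⟩ : ↥(Subgroup.normalizer ((P : Subgroup G) : Set G))) * (g ^ k)⁻¹) = 1 := by
          rw [map_mul, map_inv, hk', mul_inv_cancel]
        have h3 := congrArg Subtype.val (DFunLike.congr_fun h2 (⟨x, Subgroup.mem_zpowers x⟩ : Subgroup.zpowers x))
        rw [hφ] at h3
        have h4 : n * ((g : G) ^ k)⁻¹ * x * (n * ((g : G) ^ k)⁻¹)⁻¹ = x := h3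
        calc n * ((g : G) ^ k)⁻¹ * x = n * ((g : G) ^ k)⁻¹ * x * (n * ((g : G) ^ k)⁻¹)⁻¹ * (n * ((g : G) ^ k)⁻¹) := by group
          _ = x * (n * ((g : G) ^ k)⁻¹) := by rw [h4]
      · exact mul_mem hn (inv_mem (zpow_mem g.2 k))
    have h2 : n = n * ((g : G) ^ k)⁻¹ * (g : G) ^ k := by group
    rw [h2]
    exact Subgroup.mul_mem_sup h1 (Subgroup.mem_zpowers_iff.mpr ⟨k, rfl⟩)

end Cfsg.Agent.H14.Pair
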