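import Cfsg.Agent.H14.Cyc3

/-! Cyclic Sylow p-subgroups of order at least p²: contradiction (helper14). -/

set_option autoImplicit false

namespace Cfsg.Agent.H14.Pair

open Cfsg Cfsg.Agent.H3 Cfsg.Agent.H11 Cfsg.Agent.H27 ComplexConjugate
open Cfsg.Agent.H11.AbM (Star)

universe u

variable {G : Type u} [Group G] [Fintype G] {p : ℕ} [hp : Fact p.Prime] {M : Ideal AlgInt}
  {P : Sylow p G} {g : G} {m : ℕ}

theorem sum_pow_eq {ζ : ℂ} (h1 : ζ ≠ 1) (hz : ζ ^ p = 1) :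
    ∑ r ∈ Finset.univ.filter (fun r : ZMod p => r ≠ 0), ζ ^ r.val = -1 := by
  classical
  have herase : (Finset.univ.filter (fun r : ZMod p => r ≠ 0)) = Finset.univ.erase 0 := by
    ext r; simp
  have h2 := Finset.add_sum_erase Finset.univ (fun r : ZMod p => ζ ^ r.val) (Finset.mem_univ (0 : ZMod p))
  have h3 : ∑ r : ZMod p, ζ ^ r.val = 0 := by
    obtain ⟨n, rfl⟩ : ∃ n, p = n + 1 := ⟨p - 1, by have := hp.out.pos; omega⟩
    have h4 : ∑ r : ZMod (n + 1), ζ ^ r.val = ∑ k ∈ Finset.range (n + 1), ζ ^ k :=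
      Fin.sum_univ_eq_sum_range (fun k => ζ ^ k) (n + 1)
    rw [h4, geom_sum_eq h1, hz]
    simp
  rw [h3] at h2
  rw [herase]
  simp only [ZMod.val_zero, pow_zero] at h2
  linear_combination h2

theorem ker_contra [IsSimpleGroup G] {χ : IrrCharacter G} (h1 : χ ≠ oneIrr G) {x : G} (hx : x ≠ 1)
    (h : (χ : G → ℂ) x = (χ : G → ℂ) 1) : False := by
  have h4 := charKer_simple h1
  have h5 : x ∈ charKer (irr_isChar χ.2) := h
  rw [h4, Subgroup.mem_bot] at h5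
  exact hx h5

theorem star_case [IsSimpleGroup G] (hM : IsPModular p M) (hp2 : p ≠ 2)
    (h : AbM m P g) (hcard : m + 1 < Nat.card (P : Subgroup G)) (hm : m + 1 ≤ p)
    (hP2 : p ^ 2 ≤ Nat.card (P : Subgroup G)) (hPc : IsCyclic (P : Subgroup G))
    {x : G} (hxP : x ∈ P) (hx : orderOf x = p)
    (hs : ∀ y : G, orderOf y = p → IsPSolvable p ↥(Subgroup.closure ({x, y} : Set G))) : False := by
  classical
  have hMp : M.IsPrime := pmod_isPrime hM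
  have := Fintype.ofFinite (IrrCharacter G)
  have := Fintype.ofFinite (P : Subgroup G)
  have hx1 : x ≠ 1 := by
    rintro rfl; rw [orderOf_one] at hx; exact hp.out.one_lt.ne hx
  obtain ⟨δ, d, u, z, S⟩ := h.exists_star hM hcard
  obtain ⟨R, hR1, hR2⟩ := exists_R hM (cyc_frob hPc) hxP hx (cyc_sub hPc) hs
  obtain ⟨B, hBdef⟩ : ∃ B : Finset (IrrCharacter G), B = Finset.univ.filter (· ∈ principalBlock M G) := ⟨_, rfl⟩
  have hmB : ∀ χ, χ ∈ B ↔ χ ∈ principalBlock M G := fun χ => by rw [hBdef]; simp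
  have hab : ∀ a b : (P : Subgroup G), a * b = b * a := h.P_comm
  have hmpos := h.mpos
  -- the linear characters
  obtain ⟨ψ1, hψ1x, hψ1⟩ : ∃ ψ : (P : Subgroup G) →* ℂˣ,
      (∀ y : (P : Subgroup G), (y : G) ∈ Subgroup.zpowers x → ψ y = 1) ∧ ψ ≠ 1 := by
    have hne : Subgroup.zpowers (⟨x, hxP⟩ : (P : Subgroup G)) ≠ ⊤ := by
      intro h1
      have h2 := Nat.card_congr (Subgroup.topEquiv (G := (P : Subgroup G))).toEquiv
      rw [← h1, Nat.card_zpowers, Subgroup.orderOf_mk, hx] at h2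
      have : p ^ 2 > p := by nlinarith [hp.out.one_lt]
      omega
    obtain ⟨w, hw⟩ : ∃ w, w ∉ Subgroup.zpowers (⟨x, hxP⟩ : (P : Subgroup G)) := by
      by_contra hcon
      push Not at hcon
      exact hne (eq_top_iff.mpr fun w _ => hcon w)
    obtain ⟨φ, hφ, hφw⟩ := PF.exists_ann hab _ hw
    refine ⟨φ, fun y hy => hφ y ?_, ?_⟩
    · obtain ⟨k, hk⟩ := Subgroup.mem_zpowers_iff.mp hy
      exact Subgroup.mem_zpowers_iff.mpr ⟨k, Subtype.ext hk⟩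
    · rintro rfl; exact hφw rfl
  obtain ⟨ψ2, hψ2x⟩ : ∃ ψ : (P : Subgroup G) →* ℂˣ, ψ ⟨x, hxP⟩ ≠ 1 := by
    obtain ⟨φ, -, hφw⟩ := PF.exists_ann hab (⊥ : Subgroup (P : Subgroup G)) (w := ⟨x, hxP⟩) (by
      rw [Subgroup.mem_bot]; exact fun h => hx1 (congrArg Subtype.val h))
    exact ⟨φ, hφw⟩
  have hψ2 : ψ2 ≠ 1 := by rintro rfl; exact hψ2x rfl
  -- d = 0
  have hδ2 : δ * δ = 1 := by rcases S.hδ with h | h <;> rw [h] <;> norm_num
  have hδ0 : (δ : ℂ) ≠ 0 := by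
    intro h
    have : δ = 0 := by exact_mod_cast h
    rw [this] at hδ2; norm_num at hδ2
  have hd : d = 0 := by
    by_contra hd0
    haveI : Finite ((P : Subgroup G) →* ℂˣ) := PF.finite_dual hab
    obtain ⟨Y, hY⟩ : ∃ Y : Finset (IrrCharacter G), Y = Finset.univ.filter
      (fun η => ∃ ψ : (P : Subgroup G) →* ℂˣ, ψ ≠ 1 ∧ η = z ψ) := ⟨_, rfl⟩
    have hYm : ∀ η, η ∈ Y ↔ ∃ ψ : (P : Subgroup G) →* ℂˣ, ψ ≠ 1 ∧ η = z ψ := by
      intro η; rw [hY]; simp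
    have hYc : Nat.card {η | ∃ ψ : (P : Subgroup G) →* ℂˣ, ψ ≠ 1 ∧ η = z ψ} = Y.card := by
      have : {η | ∃ ψ : (P : Subgroup G) →* ℂˣ, ψ ≠ 1 ∧ η = z ψ} = (Y : Set (IrrCharacter G)) := by
        ext η; rw [Finset.mem_coe, hYm]; rfl
      rw [this, Nat.card_coe_set_eq, Set.ncard_coe_finset]
    have h1 := AbM.card_Y S
    rw [hYc] at h1
    have h2 := h.W_inner_self hM hψ1
    rw [← hBdef] at h2
    have h1X := AbM.one_X hM S hcard
    have ho : oneIrr G ∉ Y.erase (z ψ1) := by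
      intro h3
      obtain ⟨ψ, hψ, he⟩ := (hYm _).mp (Finset.mem_of_mem_erase h3)
      exact h1X ψ hψ he.symm
    have hsub : insert (oneIrr G) (Y.erase (z ψ1)) ⊆ B := by
      intro χ hχ
      rw [hmB]
      rcases Finset.mem_insert.mp hχ with h3 | h3
      · rw [h3]; exact oneIrr_mem
      · obtain ⟨ψ, hψ, he⟩ := (hYm _).mp (Finset.mem_of_mem_erase h3)
        rw [he]; exact S.hz ψ hψ
    have h3 := Finset.sum_le_sum_of_subset_of_nonneg hsub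
      (f := fun χ => AbM.W P ψ1 χ * AbM.W P ψ1 χ) (fun χ _ _ => mul_self_nonneg _)
    rw [h2, Finset.sum_insert ho, AbM.W_principal P hψ1] at h3
    have h4 : ∀ χ ∈ Y.erase (z ψ1), AbM.W P ψ1 χ * AbM.W P ψ1 χ = d * d := by
      intro χ hχ
      obtain ⟨ψ, hψ, he⟩ := (hYm _).mp (Finset.mem_of_mem_erase hχ)
      have h5 := S.hW ψ1 hψ1 χ (by rw [he]; exact S.hz ψ hψ)
      rw [if_neg (Finset.ne_of_mem_erase hχ), sub_zero, he, S.hd ψ hψ] at h5
      rw [he, h5]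
    rw [Finset.sum_congr rfl h4, Finset.sum_const, Finset.card_erase_of_mem ((hYm _).mpr ⟨ψ1, hψ1, rfl⟩)] at h3
    have h5 : 1 ≤ d * d := by
      have : 0 < d * d := mul_self_pos.mpr hd0
      omega
    have h6 : ((Y.card - 1 : ℕ) : ℤ) ≤ (Y.card - 1) • (d * d) := by
      rw [nsmul_eq_mul]
      nlinarith [Int.natCast_nonneg (Y.card - 1)]
    have h7 : Y.card - 1 ≤ m := by omega
    have h8 : p ^ 2 ≤ m * Y.card + 1 := by rw [← h1]; exact hP2
    have h9 : m ≤ p - 1 := by omega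
    have h10 : Y.card ≤ p := by omega
    have h11 : m * Y.card ≤ (p - 1) * p := Nat.mul_le_mul h9 h10
    obtain ⟨q, hq⟩ : ∃ q, p = q + 1 := ⟨p - 1, by omega⟩
    rw [hq] at h8 h11
    simp only [Nat.add_sub_cancel] at h11
    nlinarith
  -- comparing the exceptional characters
  have hcmp : ∀ F : IrrCharacter G → ℂ,
      ∑ χ ∈ B, ((AbM.W P ψ1 χ : ℂ) - (AbM.W P ψ2 χ : ℂ)) * F χ = 0 → F (z ψ1) = F (z ψ2) := by
    intro F hF
    have h1 : ∀ χ ∈ B, ((AbM.W P ψ1 χ : ℂ) - (AbM.W P ψ2 χ : ℂ)) * F χ =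
        (if χ = z ψ2 then (δ : ℂ) * F χ else 0) - (if χ = z ψ1 then (δ : ℂ) * F χ else 0) := by
      intro χ hχ
      rw [S.hW ψ1 hψ1 χ ((hmB χ).mp hχ), S.hW ψ2 hψ2 χ ((hmB χ).mp hχ)]
      split_ifs <;> push_cast <;> ring
    rw [Finset.sum_congr rfl h1, Finset.sum_sub_distrib, Finset.sum_ite_eq', Finset.sum_ite_eq',
      if_pos ((hmB _).mpr (S.hz ψ1 hψ1)), if_pos ((hmB _).mpr (S.hz ψ2 hψ2))] at hF
    have h2 : (δ : ℂ) * (F (z ψ1) - F (z ψ2)) = 0 := by linear_combination -hF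
    rcases mul_eq_zero.mp h2 with h3 | h3
    · exact absurd h3 hδ0
    · exact sub_eq_zero.mp h3
  have hreg : ∀ v : G, ¬ p ∣ orderOf v →
      ∑ χ ∈ B, ((AbM.W P ψ1 χ : ℂ) - (AbM.W P ψ2 χ : ℂ)) * (χ : G → ℂ) v = 0 := by
    intro v hv
    have h1 := AbM.W_reg hM P ψ1 hv
    have h2 := AbM.W_reg hM P ψ2 hv
    rw [← hBdef] at h1 h2
    simp only [sub_mul, Finset.sum_sub_distrib]
    rw [h1, h2, sub_zero]
  have hf : (z ψ1 : G → ℂ) 1 = (z ψ2 : G → ℂ) 1 := by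
    apply hcmp (fun χ => (χ : G → ℂ) 1)
    exact hreg 1 (by rw [orderOf_one]; exact hp.out.one_lt.ne' ∘ Nat.dvd_one.mp)
  have hRR : R (z ψ1 : G → ℂ) = R (z ψ2 : G → ℂ) := hcmp (fun χ => R (χ : G → ℂ)) (hR2 B _ hreg)
  -- the values
  have hxr : ∀ r : ZMod p, r ≠ 0 → x ^ r.val ≠ 1 := by
    intro r hr h1
    have h2 := orderOf_dvd_of_pow_eq_one h1
    rw [hx] at h2
    have h3 : r.val = 0 := Nat.eq_zero_of_dvd_of_lt h2 (ZMod.val_lt r)
    exact hr ((ZMod.val_eq_zero r).mp h3)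
  have hval : ∀ (ψ : (P : Subgroup G) →* ℂˣ), ψ ≠ 1 → ∀ r : ZMod p, r ≠ 0 →
      (z ψ : G → ℂ) (x ^ r.val) = δ * ∑ i : Fin m, ((ψ (h.rot i ⟨x, hxP⟩) : ℂˣ) : ℂ) ^ r.val := by
    intro ψ hψ r hr
    have h1 := AbM.value_z S hψ (y := ⟨x ^ r.val, pow_mem hxP _⟩) (by
      intro h1
      exact hxr r hr (congrArg Subtype.val h1))
    rw [hd, Int.cast_zero, zero_add] at h1
    have h2 : (z ψ : G → ℂ) (x ^ r.val) = δ * ∑ i : Fin m, ((h.tw i ψ ⟨x ^ r.val, pow_mem hxP _⟩ : ℂˣ) : ℂ) := h1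
    rw [h2]
    congr 1
    refine Finset.sum_congr rfl fun i _ => ?_
    rw [AbM.tw_apply]
    have h3 : (⟨x ^ r.val, pow_mem hxP _⟩ : (P : Subgroup G)) = (⟨x, hxP⟩ : (P : Subgroup G)) ^ r.val := rfl
    rw [h3, map_pow, map_pow, Units.val_pow_eq_pow_val]
  have horot : ∀ i : ℕ, orderOf ((h.rot i ⟨x, hxP⟩ : (P : Subgroup G)) : G) = p := by
    intro i
    rw [AbM.rot_coe, orderOf_conj, hx]
  have hsum : ∀ (ψ : (P : Subgroup G) →* ℂˣ), ψ ≠ 1 → ss p x (z ψ : G → ℂ) =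
      δ * ∑ i : Fin m, ∑ r ∈ Finset.univ.filter (fun r : ZMod p => r ≠ 0),
        ((ψ (h.rot i ⟨x, hxP⟩) : ℂˣ) : ℂ) ^ r.val := by
    intro ψ hψ
    unfold ss
    rw [Finset.sum_comm, Finset.mul_sum]
    exact Finset.sum_congr rfl fun r hr => hval ψ hψ r (Finset.mem_filter.mp hr).2
  have hcardA : ((Finset.univ.filter (fun r : ZMod p => r ≠ 0)).card : ℂ) = (p : ℂ) - 1 := by
    have herase : (Finset.univ.filter (fun r : ZMod p => r ≠ 0)) = Finset.univ.erase 0 := by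
      ext r; simp
    rw [herase, Finset.card_erase_of_mem (Finset.mem_univ _), Finset.card_univ, ZMod.card,
      Nat.cast_sub hp.out.one_lt.le]
    simp
  have hv1 : ∀ i : Fin m, ψ1 (h.rot i ⟨x, hxP⟩) = 1 := by
    intro i
    apply hψ1x
    apply mem_zpowers_of_cyc hPc hxP (h.rot i ⟨x, hxP⟩).2 hx
    have := pow_orderOf_eq_one ((h.rot i ⟨x, hxP⟩ : (P : Subgroup G)) : G)
    rwa [horot] at this
  have hs1 : ss p x (z ψ1 : G → ℂ) = δ * m * ((p : ℂ) - 1) := by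
    rw [hsum ψ1 hψ1]
    simp only [hv1, Units.val_one, one_pow, Finset.sum_const, nsmul_eq_mul, mul_one, hcardA,
      Finset.card_univ, Fintype.card_fin]
    ring
  have hs2 : ss p x (z ψ2 : G → ℂ) = - (δ * m) := by
    rw [hsum ψ2 hψ2]
    have h1 : ∀ i ∈ (Finset.univ : Finset (Fin m)), ∑ r ∈ Finset.univ.filter (fun r : ZMod p => r ≠ 0),
        ((ψ2 (h.rot i ⟨x, hxP⟩) : ℂˣ) : ℂ) ^ r.val = -1 := by
      intro i _
      apply sum_pow_eq
      · intro h1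
        have h2 : ψ2 (h.rot i ⟨x, hxP⟩) = 1 := Units.ext h1
        have h3 := mem_zpowers_of_cyc hPc (h.rot i ⟨x, hxP⟩).2 hxP (horot i) (by rw [← hx, pow_orderOf_eq_one])
        obtain ⟨k, hk⟩ := Subgroup.mem_zpowers_iff.mp h3
        apply hψ2x
        have h4 : (⟨x, hxP⟩ : (P : Subgroup G)) = (h.rot i ⟨x, hxP⟩) ^ k := Subtype.ext hk.symm
        have h5 : ψ2 ⟨x, hxP⟩ = ψ2 ((h.rot i ⟨x, hxP⟩) ^ k) := congrArg ψ2 h4
        rw [h5, map_zpow, h2, one_zpow]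
      · have h1 : (h.rot i ⟨x, hxP⟩) ^ p = 1 := by
          rw [← map_pow]
          have : (⟨x, hxP⟩ : (P : Subgroup G)) ^ p = 1 := Subtype.ext (by
            change x ^ p = 1
            rw [← hx, pow_orderOf_eq_one])
          rw [this, map_one]
        rw [← Units.val_pow_eq_pow_val, ← map_pow, h1, map_one, Units.val_one]
    rw [Finset.sum_congr rfl h1]
    simp
  -- conclusion
  have e1 := hR1 (z ψ1) (S.hz ψ1 hψ1)
  have e2 := hR1 (z ψ2) (S.hz ψ2 hψ2)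
  rw [hRR, ← e2, ← hf, hs1, hs2] at e1
  have hG0 : (Fintype.card G : ℂ) ≠ 0 := by exact_mod_cast Fintype.card_ne_zero
  have e3 := mul_left_cancel₀ hG0 e1
  obtain ⟨f, hfdef⟩ : ∃ f : ℂ, f = (z ψ1 : G → ℂ) 1 := ⟨_, rfl⟩
  have hf0 : f ≠ 0 := by rw [hfdef]; exact irr_one_ne_zero (z ψ1).2
  rw [← hfdef] at e3
  have hm0 : (m : ℂ) ≠ 0 := by exact_mod_cast hmpos.ne'
  have hp0 : (p : ℂ) ≠ 0 := by exact_mod_cast hp.out.ne_zero
  have hp22 : ((p : ℂ) - 2) ≠ 0 := by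
    intro h1
    have : (p : ℂ) = (2 : ℕ) := by push_cast; linear_combination h1
    exact hp2 (by exact_mod_cast this)
  have e4 : ((δ : ℂ) * m) * p * (((p : ℂ) - 2) * (δ * m - f)) = 0 := by
    have k1 : f * ((((δ : ℂ) * m) * ((p : ℂ) - 1)) ^ 2 / f) = (((δ : ℂ) * m) * ((p : ℂ) - 1)) ^ 2 := by
      field_simp
    have k2 : f * ((-((δ : ℂ) * m)) ^ 2 / f) = (-((δ : ℂ) * m)) ^ 2 := by field_simp
    linear_combination f * e3 - k1 + k2
  have e5 : f = δ * m := by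
    rcases mul_eq_zero.mp e4 with h1 | h1
    · exfalso
      rcases mul_eq_zero.mp h1 with h2 | h2
      · rcases mul_eq_zero.mp h2 with h3 | h3
        · exact hδ0 h3
        · exact hm0 h3
      · exact hp0 h2
    · rcases mul_eq_zero.mp h1 with h2 | h2
      · exact absurd h2 hp22
      · exact (sub_eq_zero.mp h2).symm
  have h1X := AbM.one_X hM S hcard ψ1 hψ1
  apply ker_contra h1X hx1
  have h1 := hval ψ1 hψ1 1 one_ne_zero
  have : Fact (1 < p) := ⟨hp.out.one_lt⟩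
  rw [ZMod.val_one, pow_one] at h1
  rw [h1, ← hfdef, e5]
  simp only [hv1, Units.val_one, pow_one, Finset.sum_const, nsmul_eq_mul, mul_one,
      Finset.card_univ, Fintype.card_fin]

end Cfsg.Agent.H14.Pair
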