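import Cfsg.Agent.H14.Cyc4
import Cfsg.Agent.S4441

/-! Sylow p-subgroups of order p: contradiction (helper14). -/

set_option autoImplicit false

namespace Cfsg.Agent.H14.Pair

open Cfsg Cfsg.Agent.H3 Cfsg.Agent.H11 Cfsg.Agent.H27 ComplexConjugate

universe u

/-- the final numerical contradiction. -/
theorem arith2 {ι : Type*} [DecidableEq ι] (X Y : Finset ι) (o : ι) (ho : o ∈ X) (p m r f : ℕ)
    (hm : 2 ≤ m) (hr : 2 ≤ r) (hp : p = m * r + 1) (hXc : X.card = m) (hYc : Y.card = r)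
    (hf : 0 < f) (ε : ℤ) (hε : ε = 1 ∨ ε = -1) (e : ι → ℤ) (he : ∀ i ∈ X, e i = 1 ∨ e i = -1)
    (D : ι → ℕ) (hD : ∀ i ∈ X, 0 < D i) (heo : e o = 1) (hDo : D o = 1)
    (hD2 : ∀ i ∈ X, i ≠ o → e i = 1 → p + 1 ≤ D i)
    (hfε : ε = -1 → p ≤ f + m) (s : ι → ℝ)
    (E3 : ∑ i ∈ Y, s i = - (((p : ℝ) - 1) * ε))
    (E4 : ∑ i ∈ Y, s i ^ 2 = ((p : ℝ) - 1) * m)
    (E5 : ∀ j ∈ Y, ∑ i ∈ X, (e i : ℝ) * ((((p : ℝ) - 1) * e i) ^ 2 / D i - ((p : ℝ) - 2) * (((p : ℝ) - 1) * e i)) =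
      ε * (s j ^ 2 / f - ((p : ℝ) - 2) * s j)) : False := by
  obtain ⟨A, hA⟩ : ∃ A : ℝ, A = ∑ i ∈ X, (e i : ℝ) / D i := ⟨_, rfl⟩
  have hf' : (0 : ℝ) < f := by exact_mod_cast hf
  have hm' : (2 : ℝ) ≤ m := by exact_mod_cast hm
  have hr' : (2 : ℝ) ≤ r := by exact_mod_cast hr
  have hp' : (p : ℝ) = m * r + 1 := by rw [hp]; push_cast; ring
  have hp5 : (5 : ℝ) ≤ p := by rw [hp']; nlinarith
  have hpm : 2 * (m : ℝ) + 1 ≤ p := by rw [hp']; nlinarith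
  have e1 : ∑ i ∈ X, (e i : ℝ) * ((((p : ℝ) - 1) * e i) ^ 2 / D i - ((p : ℝ) - 2) * (((p : ℝ) - 1) * e i)) =
      ((p : ℝ) - 1) ^ 2 * A - ((p : ℝ) - 2) * ((p : ℝ) - 1) * m := by
    have h1 : ∀ i ∈ X, (e i : ℝ) * ((((p : ℝ) - 1) * e i) ^ 2 / D i - ((p : ℝ) - 2) * (((p : ℝ) - 1) * e i)) =
        ((p : ℝ) - 1) ^ 2 * ((e i : ℝ) / D i) - ((p : ℝ) - 2) * ((p : ℝ) - 1) := by
      intro i hi
      have h2 : (e i : ℝ) ^ 2 = 1 := by
        rcases he i hi with h | h <;> rw [h] <;> norm_num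
      have h3 : (e i : ℝ) ^ 3 = (e i : ℝ) := by
        calc (e i : ℝ) ^ 3 = (e i : ℝ) ^ 2 * (e i : ℝ) := by ring
          _ = (e i : ℝ) := by rw [h2, one_mul]
      calc (e i : ℝ) * ((((p : ℝ) - 1) * e i) ^ 2 / D i - ((p : ℝ) - 2) * (((p : ℝ) - 1) * e i)) =
          ((p : ℝ) - 1) ^ 2 * ((e i : ℝ) ^ 3 / D i) - ((p : ℝ) - 2) * ((p : ℝ) - 1) * (e i : ℝ) ^ 2 := by ring
        _ = _ := by rw [h2, h3, mul_one]
    rw [Finset.sum_congr rfl h1, Finset.sum_sub_distrib, ← Finset.mul_sum, ← hA, Finset.sum_const,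
      hXc, nsmul_eq_mul]
    ring
  have e2 : (r : ℝ) * (((p : ℝ) - 1) ^ 2 * A - ((p : ℝ) - 2) * ((p : ℝ) - 1) * m) =
      ε * (((p : ℝ) - 1) * m / f + ((p : ℝ) - 2) * (((p : ℝ) - 1) * ε)) := by
    have h1 : ∑ j ∈ Y, (((p : ℝ) - 1) ^ 2 * A - ((p : ℝ) - 2) * ((p : ℝ) - 1) * m) =
        ∑ j ∈ Y, (ε : ℝ) * (s j ^ 2 / f - ((p : ℝ) - 2) * s j) := by
      refine Finset.sum_congr rfl fun j hj => ?_
      rw [← e1, E5 j hj]
    rw [Finset.sum_const, hYc, nsmul_eq_mul, ← Finset.mul_sum, Finset.sum_sub_distrib,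
      ← Finset.sum_div, ← Finset.mul_sum, E3, E4] at h1
    rw [h1]; ring
  have hε2 : (ε : ℝ) * ε = 1 := by rcases hε with h | h <;> rw [h] <;> norm_num
  have e3 : ((p : ℝ) - 1) ^ 2 * A = ((p : ℝ) - 2) * p * m + ε * m ^ 2 / f := by
    have hp1 : (0 : ℝ) < (p : ℝ) - 1 := by linarith
    have h1 : ((p : ℝ) - 1) * (((p : ℝ) - 1) ^ 2 * A) = ((p : ℝ) - 1) * (((p : ℝ) - 2) * p * m + ε * m ^ 2 / f) := by
      have h2 : (p : ℝ) - 1 = m * r := by rw [hp']; ring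
      have h3 := congrArg (fun t => (m : ℝ) * t) e2
      have h4 : (m : ℝ) * (ε * (((p : ℝ) - 1) * m / f + ((p : ℝ) - 2) * (((p : ℝ) - 1) * ε))) =
          ((p : ℝ) - 1) * (ε * m ^ 2 / f) + ((p : ℝ) - 2) * ((p : ℝ) - 1) * m * (ε * ε) := by ring
      rw [h4, hε2] at h3
      have h5 : (m : ℝ) * (r * (((p : ℝ) - 1) ^ 2 * A - ((p : ℝ) - 2) * ((p : ℝ) - 1) * m)) =
          ((p : ℝ) - 1) * (((p : ℝ) - 1) ^ 2 * A - ((p : ℝ) - 2) * ((p : ℝ) - 1) * m) := by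
        rw [← mul_assoc, ← h2]
      rw [h5] at h3
      linear_combination h3
    exact mul_left_cancel₀ hp1.ne' h1
  -- upper bound for A
  have e4 : A ≤ 1 + ((m : ℝ) - 1) / ((p : ℝ) + 1) := by
    have h1 := Finset.add_sum_erase X (fun i => (e i : ℝ) / D i) ho
    rw [← hA] at h1
    have h2 : ∀ i ∈ X.erase o, (e i : ℝ) / D i ≤ 1 / ((p : ℝ) + 1) := by
      intro i hi
      have hiX := Finset.mem_of_mem_erase hi
      have hDi : (0 : ℝ) < D i := by exact_mod_cast hD i hiX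
      rcases he i hiX with h | h
      · rw [h]
        have h3 := hD2 i hiX (Finset.ne_of_mem_erase hi) h
        have h4 : (p : ℝ) + 1 ≤ D i := by exact_mod_cast h3
        push_cast
        exact one_div_le_one_div_of_le (by linarith) h4
      · rw [h]
        have h3 : ((-1 : ℤ) : ℝ) / D i ≤ 0 := by
          apply div_nonpos_of_nonpos_of_nonneg _ hDi.le
          norm_num
        have h4 : (0 : ℝ) ≤ 1 / ((p : ℝ) + 1) := by positivity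
        linarith
    have h3 := Finset.sum_le_sum h2
    rw [Finset.sum_const, Finset.card_erase_of_mem ho, hXc, nsmul_eq_mul,
      Nat.cast_sub (by omega : 1 ≤ m)] at h3
    rw [heo, hDo] at h1
    push_cast at h1 h3
    have h4 : ((m : ℝ) - 1) * (1 / ((p : ℝ) + 1)) = ((m : ℝ) - 1) / ((p : ℝ) + 1) := by ring
    rw [h4] at h3
    linarith
  -- lower bound
  have e5 : - (m : ℝ) ≤ ε * m ^ 2 / f := by
    rcases hε with h | h
    · rw [h]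
      have : (0 : ℝ) ≤ ((1 : ℤ) : ℝ) * m ^ 2 / f := by push_cast; positivity
      linarith
    · have h1 := hfε h
      have h2 : (m : ℝ) ≤ f := by
        have : (p : ℝ) ≤ f + m := by exact_mod_cast h1
        linarith
      rw [h, le_div_iff₀ hf']
      push_cast
      nlinarith
  have e6 : ((p : ℝ) - 1) ^ 2 * A ≤ ((p : ℝ) - 1) ^ 2 * (1 + ((m : ℝ) - 1) / ((p : ℝ) + 1)) :=
    mul_le_mul_of_nonneg_left e4 (sq_nonneg _)
  have e7 : ((p : ℝ) - 2) * p * m - m ≤ ((p : ℝ) - 1) ^ 2 * (1 + ((m : ℝ) - 1) / ((p : ℝ) + 1)) := by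
    rw [e3] at e6; linarith
  have e8 : (((p : ℝ) - 2) * p * m - m) * ((p : ℝ) + 1) ≤ ((p : ℝ) - 1) ^ 2 * ((p : ℝ) + m) := by
    have hp1 : (0 : ℝ) < (p : ℝ) + 1 := by linarith
    have h1 := mul_le_mul_of_nonneg_right e7 hp1.le
    have h2 : ((p : ℝ) - 1) ^ 2 * (1 + ((m : ℝ) - 1) / ((p : ℝ) + 1)) * ((p : ℝ) + 1) =
        ((p : ℝ) - 1) ^ 2 * ((p : ℝ) + m) := by
      field_simp
      ring
    rw [h2] at h1
    exact h1
  -- (m-2)(p³-2p²-p-2) + p³ - 2p² - 3p - 4 > 0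
  have k1 : 0 ≤ ((m : ℝ) - 2) * ((p : ℝ) ^ 3 - 2 * p ^ 2 - p - 2) := by
    apply mul_nonneg (by linarith)
    have : (p : ℝ) ^ 3 - 2 * p ^ 2 - p - 2 = p ^ 2 * (p - 5) + 3 * p * (p - 5) + 14 * (p - 5) + 68 := by ring
    rw [this]
    have h1 : (0 : ℝ) ≤ p - 5 := by linarith
    positivity
  have k2 : 0 < (p : ℝ) ^ 3 - 2 * p ^ 2 - 3 * p - 4 := by
    have : (p : ℝ) ^ 3 - 2 * p ^ 2 - 3 * p - 4 = p ^ 2 * (p - 5) + 3 * p * (p - 5) + 12 * (p - 5) + 56 := by ring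
    rw [this]
    have h1 : (0 : ℝ) ≤ p - 5 := by linarith
    positivity
  nlinarith

end Cfsg.Agent.H14.Pair
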