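import Cfsg.Agent.H14.Cyc5

/-! Sylow p-subgroups of order p: contradiction (helper14). -/

set_option autoImplicit false

namespace Cfsg.Agent.H14.Pair

open Cfsg Cfsg.Agent.H3 Cfsg.Agent.H11 Cfsg.Agent.H27 ComplexConjugate

universe u

variable {G : Type u} [Group G] [Fintype G] {p : ℕ} [hp : Fact p.Prime] {M : Ideal AlgInt}
  {P : Sylow p G} {g : G} {m : ℕ}

theorem card_nz : ((Finset.univ.filter (fun r : ZMod p => r ≠ 0)).card : ℂ) = (p : ℂ) - 1 := by
  have herase : (Finset.univ.filter (fun r : ZMod p => r ≠ 0)) = Finset.univ.erase 0 := by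
    ext r; simp
  rw [herase, Finset.card_erase_of_mem (Finset.mem_univ _), Finset.card_univ, ZMod.card,
    Nat.cast_sub hp.out.one_lt.le]
  simp

theorem pow_val_ne {x : G} (hx : orderOf x = p) {r : ZMod p} (hr : r ≠ 0) : x ^ r.val ≠ 1 := by
  intro h1
  have h2 := orderOf_dvd_of_pow_eq_one h1
  rw [hx] at h2
  have h3 : r.val = 0 := Nat.eq_zero_of_dvd_of_lt h2 (ZMod.val_lt r)
  exact hr ((ZMod.val_eq_zero r).mp h3)

theorem pow_val_neg {x : G} (hx : orderOf x = p) (r : ZMod p) : x ^ (-r).val = (x ^ r.val)⁻¹ := by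
  rw [eq_inv_iff_mul_eq_one, ← pow_add, pow_val hx]
  push_cast
  rw [ZMod.natCast_zmod_val, ZMod.natCast_zmod_val, neg_add_cancel, ZMod.val_zero, pow_zero]

theorem conj_ss {x : G} (hx : orderOf x = p) (χ : IrrCharacter G) :
    conj (ss p x (χ : G → ℂ)) = ss p x (χ : G → ℂ) := by
  unfold ss
  rw [map_sum]
  refine Finset.sum_bij' (fun r _ => -r) (fun r _ => -r) ?_ ?_ ?_ ?_ ?_
  · intro r hr; simpa using hr
  · intro r hr; simpa using hr
  · intro r _; exact neg_neg r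
  · intro r _; exact neg_neg r
  · intro r _
    rw [pow_val_neg hx, H3.char_inv (irr_isChar χ.2)]


theorem sum_ss_deg [Fintype (IrrCharacter G)] [DecidablePred (· ∈ principalBlock M G)]
    (hM : IsPModular p M) {x : G} (hxP : x ∈ P) (hx : orderOf x = p) :
    ∑ χ : IrrCharacter G with χ ∈ principalBlock M G, ss p x (χ : G → ℂ) * (χ : G → ℂ) 1 = 0 := by
  have h1 : ∀ r : ZMod p, r ≠ 0 →
      ∑ χ : IrrCharacter G with χ ∈ principalBlock M G, conj ((χ : G → ℂ) (x ^ r.val)) * (χ : G → ℂ) 1 = 0 := by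
    intro r hr
    exact AbM.orth_reg hM P (y := ⟨x ^ r.val, pow_mem hxP _⟩) (by
      intro h1; exact pow_val_ne hx hr (congrArg Subtype.val h1)) (by
      rw [orderOf_one]; exact hp.out.one_lt.ne' ∘ Nat.dvd_one.mp)
  have h2 : ∀ χ ∈ Finset.univ.filter (fun χ : IrrCharacter G => χ ∈ principalBlock M G),
      ss p x (χ : G → ℂ) * (χ : G → ℂ) 1 =
      ∑ r ∈ Finset.univ.filter (fun r : ZMod p => r ≠ 0), conj ((χ : G → ℂ) (x ^ r.val)) * (χ : G → ℂ) 1 := by
    intro χ _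
    rw [← conj_ss hx]
    unfold ss
    rw [map_sum, Finset.sum_mul]
  rw [Finset.sum_congr rfl h2, Finset.sum_comm]
  exact Finset.sum_eq_zero fun r hr => h1 r (Finset.mem_filter.mp hr).2

theorem sum_ss_sq [Fintype (IrrCharacter G)] [DecidablePred (· ∈ principalBlock M G)]
    (hM : IsPModular p M) (h : AbM m P g) {x : G} (hxP : x ∈ P) (hx : orderOf x = p)
    (hP : Nat.card (P : Subgroup G) = p) :
    ∑ χ : IrrCharacter G with χ ∈ principalBlock M G, ss p x (χ : G → ℂ) ^ 2 =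
      (p : ℂ) * ((p : ℂ) - 1) * m := by
  classical
  obtain ⟨A, hA⟩ : ∃ A : Finset (ZMod p), A = Finset.univ.filter (fun r : ZMod p => r ≠ 0) := ⟨_, rfl⟩
  have hAm : ∀ r, r ∈ A ↔ r ≠ 0 := fun r => by rw [hA]; simp
  obtain ⟨y, hy⟩ : ∃ y : ZMod p → (P : Subgroup G), y = fun r => ⟨x ^ r.val, pow_mem hxP _⟩ := ⟨_, rfl⟩
  have hyv : ∀ r, ((y r : (P : Subgroup G)) : G) = x ^ r.val := fun r => by rw [hy]
  have hy1 : ∀ r ∈ A, y r ≠ 1 := by
    intro r hr h1
    apply pow_val_ne hx ((hAm r).mp hr)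
    rw [← hyv, h1]; rfl
  have hzp : Subgroup.zpowers x = (P : Subgroup G) := by
    apply Subgroup.eq_of_le_of_card_ge
    · rwa [Subgroup.zpowers_le]
    · rw [hP, Nat.card_zpowers, hx]
  have hsurj : ∀ w : (P : Subgroup G), w ≠ 1 → ∃ r ∈ A, y r = w := by
    intro w hw
    have h1 : (w : G) ∈ Subgroup.zpowers x := by rw [hzp]; exact w.2
    obtain ⟨k, hk⟩ := (Submonoid.mem_powers_iff (w : G) x).mp (mem_powers_iff_mem_zpowers.mpr h1)
    have h2 : y (k : ZMod p) = w := by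
      apply Subtype.ext
      rw [hyv, ← pow_val hx, hk]
    refine ⟨(k : ZMod p), ?_, h2⟩
    rw [hAm]
    intro h3
    apply hw
    rw [← h2, h3]
    apply Subtype.ext
    rw [hyv, ZMod.val_zero, pow_zero]; rfl
  have hinj : ∀ r s, y r = y s → r = s := by
    intro r s hrs
    have h1 : x ^ r.val = x ^ s.val := by rw [← hyv, ← hyv, hrs]
    have h2 := (pow_inj_mod (x := x)).mp h1
    rw [hx, Nat.mod_eq_of_lt (ZMod.val_lt r), Nat.mod_eq_of_lt (ZMod.val_lt s)] at h2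
    exact ZMod.val_injective p h2
  have h1 : ∀ χ ∈ Finset.univ.filter (fun χ : IrrCharacter G => χ ∈ principalBlock M G),
      ss p x (χ : G → ℂ) ^ 2 = ∑ r ∈ A, ∑ s ∈ A, conj ((χ : G → ℂ) (y r)) * (χ : G → ℂ) (y s) := by
    intro χ _
    have h2 : ss p x (χ : G → ℂ) ^ 2 = conj (ss p x (χ : G → ℂ)) * ss p x (χ : G → ℂ) := by
      rw [conj_ss hx, sq]
    rw [h2]
    unfold ss
    rw [map_sum, Finset.sum_mul_sum, ← hA]
    refine Finset.sum_congr rfl fun r _ => Finset.sum_congr rfl fun s _ => ?_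
    rw [hyv, hyv]
  rw [Finset.sum_congr rfl h1, Finset.sum_comm]
  have h2 : ∀ r ∈ A, ∑ χ : IrrCharacter G with χ ∈ principalBlock M G,
      ∑ s ∈ A, conj ((χ : G → ℂ) (y r)) * (χ : G → ℂ) (y s) = (p : ℂ) * m := by
    intro r hr
    rw [Finset.sum_comm]
    have h3 : ∀ s ∈ A, ∑ χ : IrrCharacter G with χ ∈ principalBlock M G,
        conj ((χ : G → ℂ) (y r)) * (χ : G → ℂ) (y s) =
        (p : ℂ) * ∑ i : Fin m, if h.rot i (y r) = y s then 1 else 0 := by
      intro s hs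
      have := h.orth hM (hy1 r hr) (hy1 s hs)
      rw [hP] at this
      exact this
    rw [Finset.sum_congr rfl h3, ← Finset.mul_sum, Finset.sum_comm]
    have h4 : ∀ i ∈ (Finset.univ : Finset (Fin m)), ∑ s ∈ A, (if h.rot i (y r) = y s then (1 : ℂ) else 0) = 1 := by
      intro i _
      have h5 : h.rot i (y r) ≠ 1 := by
        intro h6
        apply hy1 r hr
        have := (h.rot i).map_eq_one_iff.mp h6
        exact this
      obtain ⟨s, hs, hsy⟩ := hsurj _ h5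
      rw [Finset.sum_eq_single s]
      · rw [if_pos hsy.symm]
      · intro t _ ht
        rw [if_neg]
        intro h6
        apply ht
        exact hinj _ _ (h6.symm.trans hsy.symm)
      · intro h6; exact absurd hs h6
    rw [Finset.sum_congr rfl h4]
    simp
  rw [Finset.sum_congr rfl h2, Finset.sum_const, nsmul_eq_mul, hA, card_nz]
  ring


theorem order_p_case [IsSimpleGroup G] (hM : IsPModular p M) (hp2 : p ≠ 2)
    (h : AbM m P g) (hP : Nat.card (P : Subgroup G) = p)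
    (hCN : (Subgroup.centralizer ((P : Subgroup G) : Set G)).relIndex
      (Subgroup.normalizer ((P : Subgroup G) : Set G)) = m) (hm1 : 1 < m) (hcard : m + 1 < p)
    (hPc : IsCyclic (P : Subgroup G)) {x : G} (hxP : x ∈ P) (hx : orderOf x = p)
    (hs : ∀ y : G, orderOf y = p → IsPSolvable p ↥(Subgroup.closure ({x, y} : Set G))) : False := by
  classical
  have hMp : M.IsPrime := pmod_isPrime hM
  have := Fintype.ofFinite (IrrCharacter G)
  have hx1 : x ≠ 1 := by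
    rintro rfl; rw [orderOf_one] at hx; exact hp.out.one_lt.ne hx
  have hnp1 : ¬ p ∣ orderOf (1 : G) := by
    rw [orderOf_one]; exact hp.out.one_lt.ne' ∘ Nat.dvd_one.mp
  obtain ⟨δ, d, u, z, S⟩ := h.exists_star hM (by rw [hP]; exact hcard)
  obtain ⟨R, hR1, hR2⟩ := exists_R hM (cyc_frob hPc) hxP hx (cyc_sub hPc) hs
  have hcY := AbM.card_Y S
  rw [hP] at hcY
  obtain ⟨r, hr⟩ : ∃ r : ℕ, p = m * r + 1 := ⟨_, hcY⟩
  clear hcY
  have hr2 : 2 ≤ r := by
    by_contra hcon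
    have : r ≤ 1 := by omega
    have : m * r ≤ m * 1 := Nat.mul_le_mul_left m this
    omega
  have hdiv : (p - 1) / m = r := by
    rw [hr, Nat.add_sub_cancel, Nat.mul_div_cancel_left _ (by omega)]
  obtain ⟨X, Y, hXY, hdisj, hXc, hYc, εX, ε, hX, hε, hYd, hYreg, hsum⟩ :=
    Cfsg.Agent.S4441.result p M hM hp2 P hP m hCN
  obtain ⟨XF, hXF⟩ : ∃ B : Finset (IrrCharacter G), B = Finset.univ.filter (· ∈ X) := ⟨_, rfl⟩
  obtain ⟨YF, hYF⟩ : ∃ B : Finset (IrrCharacter G), B = Finset.univ.filter (· ∈ Y) := ⟨_, rfl⟩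
  have hmX : ∀ χ, χ ∈ XF ↔ χ ∈ X := fun χ => by rw [hXF]; simp
  have hmY : ∀ χ, χ ∈ YF ↔ χ ∈ Y := fun χ => by rw [hYF]; simp
  have hXFc : XF.card = m := by
    rw [← hXc]
    have : X = (XF : Set (IrrCharacter G)) := by ext η; rw [Finset.mem_coe, hmX]
    rw [this, Nat.card_coe_set_eq, Set.ncard_coe_finset]
  have hYFc : YF.card = r := by
    rw [← hdiv, ← hYc]
    have : Y = (YF : Set (IrrCharacter G)) := by ext η; rw [Finset.mem_coe, hmY]
    rw [this, Nat.card_coe_set_eq, Set.ncard_coe_finset]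
  have hXb : ∀ χ ∈ X, χ ∈ principalBlock M G := fun χ hχ => by rw [hXY]; exact Or.inl hχ
  have hYb : ∀ χ ∈ Y, χ ∈ principalBlock M G := fun χ hχ => by rw [hXY]; exact Or.inr hχ
  have hB : Finset.univ.filter (fun χ : IrrCharacter G => χ ∈ principalBlock M G) = XF ∪ YF := by
    ext χ
    rw [Finset.mem_union, hmX, hmY, Finset.mem_filter, hXY]
    simp
  have hdisjF : Disjoint XF YF := by
    rw [Finset.disjoint_left]
    intro χ h1 h2
    exact Set.disjoint_left.mp hdisj ((hmX χ).mp h1) ((hmY χ).mp h2)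
  have hdeg : ∀ χ : IrrCharacter G, (charDegree (χ : G → ℂ) : ℂ) = (χ : G → ℂ) 1 := fun χ =>
    charDegree_cast (irr_isChar χ.2)
  have hdpos : ∀ χ : IrrCharacter G, 0 < charDegree (χ : G → ℂ) := by
    intro χ
    rw [Nat.pos_iff_ne_zero]
    intro h1
    have h2 := hdeg χ
    rw [h1, Nat.cast_zero] at h2
    exact irr_one_ne_zero χ.2 h2.symm
  have hfeq : ∀ θ ∈ Y, ∀ θ' ∈ Y, charDegree (θ : G → ℂ) = charDegree (θ' : G → ℂ) := by
    intro θ hθ θ' hθ'
    have h1 := hYreg θ hθ θ' hθ' 1 hnp1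
    rw [← hdeg, ← hdeg] at h1
    exact_mod_cast h1
  -- the trivial character is in X
  have hoX : oneIrr G ∈ X := by
    have h1 : oneIrr G ∈ principalBlock M G := oneIrr_mem
    rw [hXY] at h1
    rcases h1 with h1 | h1
    · exact h1
    · exfalso
      obtain ⟨θ, hθ, hθ1⟩ : ∃ θ ∈ YF, θ ≠ oneIrr G := by
        have h2 : 1 < YF.card := by omega
        exact Finset.exists_mem_ne h2 _
      obtain ⟨q, hq, hqm⟩ := Nat.exists_prime_and_dvd hm1.ne'
      have hqG : q ∣ Nat.card G := by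
        refine hqm.trans ?_
        rw [← hCN]
        exact (Subgroup.relIndex_dvd_card _ _).trans (Subgroup.card_subgroup_dvd_card _)
      have : Fact q.Prime := ⟨hq⟩
      obtain ⟨w, hw⟩ := exists_prime_orderOf_dvd_card' q hqG
      have hqp : q ≤ m := Nat.le_of_dvd (by omega) hqm
      have hwp : ¬ p ∣ orderOf w := by
        rw [hw]
        intro h3
        have := Nat.le_of_dvd hq.pos h3
        omega
      apply ker_contra hθ1 (x := w)
      · rintro rfl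
        rw [orderOf_one] at hw
        exact hq.one_lt.ne hw
      · rw [hYreg θ ((hmY θ).mp hθ) _ h1 w hwp, hYreg θ ((hmY θ).mp hθ) _ h1 1 hnp1]
        rfl
  -- values on X
  have hXv : ∀ χ ∈ X, ∀ s : ZMod p, s ≠ 0 → (χ : G → ℂ) (x ^ s.val) = (εX χ : ℂ) := by
    intro χ hχ s hs
    have h1 := (hX χ hχ).2.2 (x ^ s.val) (pow_mem hxP _) (pow_val_ne hx hs) 1 (one_mem _) hnp1
    rwa [mul_one] at h1
  have hXs : ∀ χ ∈ X, ss p x (χ : G → ℂ) = ((p : ℂ) - 1) * (εX χ : ℂ) := by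
    intro χ hχ
    unfold ss
    rw [Finset.sum_congr rfl fun s hs => hXv χ hχ s (Finset.mem_filter.mp hs).2, Finset.sum_const,
      nsmul_eq_mul, card_nz]
  have hX1 : ∀ χ ∈ X, (χ : G → ℂ) x = (εX χ : ℂ) := by
    intro χ hχ
    have : Fact (1 < p) := ⟨hp.out.one_lt⟩
    have h1 := hXv χ hχ 1 one_ne_zero
    rwa [ZMod.val_one, pow_one] at h1
  have heo : εX (oneIrr G) = 1 := by
    have h1 := hX1 _ hoX
    have h2 : (oneIrr G : G → ℂ) x = 1 := rfl
    rw [h2] at h1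
    exact_mod_cast h1.symm
  have hDo : charDegree ((oneIrr G : IrrCharacter G) : G → ℂ) = 1 := by
    have h1 := hdeg (oneIrr G)
    have h2 : (oneIrr G : G → ℂ) 1 = 1 := rfl
    rw [h2] at h1
    exact_mod_cast h1
  have hYne : YF.Nonempty := Finset.card_pos.mp (by omega)
  obtain ⟨θ0, hθ0⟩ := hYne
  have hθ0Y := (hmY _).mp hθ0
  obtain ⟨f, hf⟩ : ∃ f : ℕ, f = charDegree (θ0 : G → ℂ) := ⟨_, rfl⟩
  have hYf : ∀ θ ∈ Y, (θ : G → ℂ) 1 = (f : ℂ) := by
    intro θ hθ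
    rw [← hdeg, hf, hfeq θ hθ θ0 hθ0Y]
  have hfpos : 0 < f := by rw [hf]; exact hdpos _
  -- the sum formula in finset form
  have hsumF : ∀ θ ∈ Y, ∀ v : G, ¬ p ∣ orderOf v →
      (ε : ℂ) * (θ : G → ℂ) v = ∑ χ ∈ XF, (εX χ : ℂ) * (χ : G → ℂ) v := by
    intro θ hθ v hv
    rw [hsum θ hθ v hv]
    have : X = (XF : Set (IrrCharacter G)) := by ext η; rw [Finset.mem_coe, hmX]
    rw [this]
    exact finsum_mem_coe_finset _ _
  -- real values
  obtain ⟨s, hsdef⟩ : ∃ s : IrrCharacter G → ℝ, s = fun χ : IrrCharacter G => (ss p x (χ : G → ℂ)).re := ⟨_, rfl⟩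
  have hsv : ∀ χ : IrrCharacter G, ss p x (χ : G → ℂ) = (s χ : ℂ) := by
    intro χ
    rw [hsdef]
    exact (Complex.conj_eq_iff_re.mp (conj_ss hx χ)).symm
  have hG0 : (Fintype.card G : ℂ) ≠ 0 := by exact_mod_cast Fintype.card_ne_zero
  have hf0 : (f : ℂ) ≠ 0 := by exact_mod_cast hfpos.ne'
  refine arith2 XF YF (oneIrr G) ((hmX _).mpr hoX) p m r f (by omega) hr2 hr hXFc hYFc hfpos ε hε εX
    (fun χ hχ => (hX χ ((hmX _).mp hχ)).1) (fun χ => charDegree (χ : G → ℂ)) (fun χ _ => hdpos χ) heo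
    hDo ?_ ?_ s ?_ ?_ ?_
  · intro χ hχ hne he
    have h1 := (hX χ ((hmX _).mp hχ)).2.1
    rw [he] at h1
    have h2 : charDegree (χ : G → ℂ) ≠ 1 := by
      intro h3
      apply ker_contra hne hx1
      rw [hX1 χ ((hmX _).mp hχ), he, ← hdeg, h3]
      norm_num
    have h3 := hdpos χ
    have h4 : (p : ℤ) ∣ (charDegree (χ : G → ℂ) : ℤ) - 1 := (Int.modEq_iff_dvd.mp h1.symm)
    have h5 : (p : ℤ) ≤ (charDegree (χ : G → ℂ) : ℤ) - 1 := Int.le_of_dvd (by omega) h4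
    omega
  · intro he
    have h1 := hYd θ0 hθ0Y
    rw [he, ← hf] at h1
    have h4 : (p : ℤ) ∣ (f : ℤ) - (-1) * m := (Int.modEq_iff_dvd.mp h1.symm)
    have h5 : (p : ℤ) ≤ (f : ℤ) - (-1) * m := Int.le_of_dvd (by omega) h4
    omega
  · have h1 := sum_ss_deg hM hxP hx
    rw [hB, Finset.sum_union hdisjF] at h1
    have h2 : ∑ χ ∈ XF, ss p x (χ : G → ℂ) * (χ : G → ℂ) 1 = ((p : ℂ) - 1) * (ε * f) := by
      rw [← hYf θ0 hθ0Y, hsumF θ0 hθ0Y 1 hnp1, Finset.mul_sum]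
      refine Finset.sum_congr rfl fun χ hχ => ?_
      rw [hXs χ ((hmX _).mp hχ)]; ring
    have h3 : ∑ χ ∈ YF, ss p x (χ : G → ℂ) * (χ : G → ℂ) 1 = (∑ χ ∈ YF, (s χ : ℂ)) * f := by
      rw [Finset.sum_mul]
      refine Finset.sum_congr rfl fun χ hχ => ?_
      rw [hYf χ ((hmY _).mp hχ), hsv]
    rw [h2, h3] at h1
    have h4 : (∑ χ ∈ YF, (s χ : ℂ)) = - (((p : ℂ) - 1) * ε) := by
      have : (f : ℂ) * ((∑ χ ∈ YF, (s χ : ℂ)) + (((p : ℂ) - 1) * ε)) = 0 := by linear_combination h1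
      rcases mul_eq_zero.mp this with h5 | h5
      · exact absurd h5 hf0
      · linear_combination h5
    exact_mod_cast h4
  · have h1 := sum_ss_sq hM h hxP hx hP
    rw [hB, Finset.sum_union hdisjF] at h1
    have h2 : ∑ χ ∈ XF, ss p x (χ : G → ℂ) ^ 2 = ((p : ℂ) - 1) ^ 2 * m := by
      have h3 : ∀ χ ∈ XF, ss p x (χ : G → ℂ) ^ 2 = ((p : ℂ) - 1) ^ 2 := by
        intro χ hχ
        rw [hXs χ ((hmX _).mp hχ)]
        have h4 : (εX χ : ℂ) ^ 2 = 1 := by
          rcases (hX χ ((hmX _).mp hχ)).1 with h5 | h5 <;> rw [h5] <;> norm_num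
        rw [mul_pow, h4, mul_one]
      rw [Finset.sum_congr rfl h3, Finset.sum_const, nsmul_eq_mul, hXFc]
      ring
    rw [h2, Finset.sum_congr rfl fun χ _ => by rw [hsv χ]] at h1
    have h4 : (∑ χ ∈ YF, (s χ : ℂ) ^ 2) = ((p : ℂ) - 1) * m := by linear_combination h1
    exact_mod_cast h4
  · intro j hj
    have hjY := (hmY _).mp hj
    have hjX : j ∉ XF := fun h1 => Set.disjoint_left.mp hdisj ((hmX _).mp h1) hjY
    have h1 := hR2 (insert j XF) (fun χ => if χ = j then -(ε : ℂ) else (εX χ : ℂ)) (by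
      intro v hv
      rw [Finset.sum_insert hjX, if_pos rfl, neg_mul, hsumF j hjY v hv, neg_add_eq_zero]
      refine Finset.sum_congr rfl fun χ hχ => ?_
      rw [if_neg (by rintro rfl; exact hjX hχ)])
    rw [Finset.sum_insert hjX, if_pos rfl] at h1
    have h2 : ∑ χ ∈ XF, (if χ = j then -(ε : ℂ) else (εX χ : ℂ)) * R (χ : G → ℂ) =
        (Fintype.card G : ℂ) * ∑ χ ∈ XF, (εX χ : ℂ) * ((((p : ℂ) - 1) * εX χ) ^ 2 / charDegree (χ : G → ℂ) -
          ((p : ℂ) - 2) * (((p : ℂ) - 1) * εX χ)) := by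
      rw [Finset.mul_sum]
      refine Finset.sum_congr rfl fun χ hχ => ?_
      rw [if_neg (by rintro rfl; exact hjX hχ), ← hR1 χ (hXb χ ((hmX _).mp hχ)),
        hXs χ ((hmX _).mp hχ), hdeg]
      ring
    rw [h2, ← hR1 j (hYb j hjY), hsv, hYf j hjY] at h1
    have h3 : (∑ χ ∈ XF, (εX χ : ℂ) * ((((p : ℂ) - 1) * εX χ) ^ 2 / charDegree (χ : G → ℂ) -
          ((p : ℂ) - 2) * (((p : ℂ) - 1) * εX χ))) = (ε : ℂ) * ((s j : ℂ) ^ 2 / f - ((p : ℂ) - 2) * s j) := by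
      have h4 : (Fintype.card G : ℂ) * ((∑ χ ∈ XF, (εX χ : ℂ) * ((((p : ℂ) - 1) * εX χ) ^ 2 / charDegree (χ : G → ℂ) -
          ((p : ℂ) - 2) * (((p : ℂ) - 1) * εX χ))) - (ε : ℂ) * ((s j : ℂ) ^ 2 / f - ((p : ℂ) - 2) * s j)) = 0 := by
        linear_combination h1
      rcases mul_eq_zero.mp h4 with h5 | h5
      · exact absurd h5 hG0
      · exact sub_eq_zero.mp h5
    exact_mod_cast h3

end Cfsg.Agent.H14.Pair
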