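import Cfsg.Agent.H14.Cyc6

/-! Simple groups with cyclic Sylow p-subgroups: pairs of elements of order p (helper14). -/

set_option autoImplicit false

namespace Cfsg.Agent.H14.Pair

open Cfsg Cfsg.Agent.H3 Cfsg.Agent.H11 Cfsg.Agent.H27 ComplexConjugate

universe u

variable {G : Type u} [Group G] {p : ℕ} [hp : Fact p.Prime]
  {P : Sylow p G} {g : G} {m : ℕ}

theorem exists_order_p [Finite G] (hP1 : (P : Subgroup G) ≠ ⊥) : ∃ x ∈ P, orderOf x = p := by
  have h1 : p ∣ Nat.card (P : Subgroup G) := by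
    obtain ⟨k, hk⟩ := P.isPGroup'.exists_card_eq
    rw [hk]
    apply dvd_pow_self
    rintro rfl
    rw [pow_zero] at hk
    exact hP1 (Subgroup.eq_bot_of_card_eq _ hk)
  obtain ⟨x, hx⟩ := exists_prime_orderOf_dvd_card' p h1
  exact ⟨x, x.2, by rwa [← Subgroup.orderOf_coe] at hx⟩

theorem not_le_cent [Finite G] [IsSimpleGroup G] (hG : ¬ IsMulCommutative G) (P : Sylow p G)
    (hPc : IsCyclic (P : Subgroup G)) (hP1 : (P : Subgroup G) ≠ ⊥) :
    ¬ Subgroup.normalizer ((P : Subgroup G) : Set G) ≤ Subgroup.centralizer ((P : Subgroup G) : Set G) := by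
  intro h
  have h1 := MonoidHom.ker_transferSylow_isComplement' P h
  rcases (MonoidHom.transferSylow P h).normal_ker.eq_bot_or_eq_top with h2 | h2
  · rw [h2] at h1
    have h3 := Subgroup.isComplement'_bot_left.mp h1
    apply hG
    constructor; constructor
    intro a b
    exact cyc_comm hPc a (by change a ∈ (P : Subgroup G); rw [h3]; trivial) b (by
      change b ∈ (P : Subgroup G); rw [h3]; trivial)
  · rw [h2] at h1
    exact hP1 (Subgroup.isComplement'_top_left.mp h1)

theorem rot_card [Finite G] (h : AbM m P g) {x : G} (hxP : x ∈ P) (hx : orderOf x = p)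
    (hPc : IsCyclic (P : Subgroup G)) :
    m + 1 ≤ p ∧ (m + 1 = p → ∀ t ∈ P, t ≠ 1 → t ^ p = 1 → IsConj x t) := by
  classical
  have := Fintype.ofFinite G
  have hx1 : (⟨x, hxP⟩ : (P : Subgroup G)) ≠ 1 := by
    intro h1
    have : x = 1 := congrArg Subtype.val h1
    rw [this, orderOf_one] at hx
    exact hp.out.one_lt.ne hx
  obtain ⟨S, hS⟩ : ∃ S : Finset G, S = (Finset.univ : Finset (Fin m)).image
    (fun i : Fin m => ((h.rot (i : ℕ) ⟨x, hxP⟩ : (P : Subgroup G)) : G)) := ⟨_, rfl⟩
  have hSc : S.card = m := by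
    rw [hS, Finset.card_image_of_injective, Finset.card_univ, Fintype.card_fin]
    intro i j hij
    exact h.rot_inj hx1 (Subtype.ext hij)
  obtain ⟨Z, hZ⟩ : ∃ Z : Finset G, Z = Finset.univ.filter (fun t => t ∈ Subgroup.zpowers x ∧ t ≠ 1) := ⟨_, rfl⟩
  have hZc : Z.card + 1 = p := by
    have h1 : Z = (Finset.univ.filter (fun t => t ∈ Subgroup.zpowers x)).erase 1 := by
      ext t; rw [hZ]; simp [and_comm]
    have h2 : (Finset.univ.filter (fun t => t ∈ Subgroup.zpowers x)).card = p := by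
      have h3 : Nat.card (Subgroup.zpowers x) = p := by rw [Nat.card_zpowers, hx]
      rw [← h3, Nat.card_eq_fintype_card, Fintype.card_subtype]
    rw [h1, Finset.card_erase_of_mem (by simp), h2]
    have := hp.out.pos
    omega
  have hmem : ∀ t ∈ P, t ≠ 1 → t ^ p = 1 → t ∈ Z := by
    intro t ht ht1 htp
    rw [hZ, Finset.mem_filter]
    exact ⟨Finset.mem_univ _, mem_zpowers_of_cyc hPc hxP ht hx htp, ht1⟩
  have hSZ : S ⊆ Z := by
    intro t ht
    rw [hS, Finset.mem_image] at ht
    obtain ⟨i, -, rfl⟩ := ht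
    apply hmem _ (h.rot i ⟨x, hxP⟩).2
    · intro h1
      apply hx1
      exact (h.rot i).map_eq_one_iff.mp (Subtype.ext h1)
    · rw [AbM.rot_coe, conj_pow]
      have : x ^ p = 1 := by rw [← hx, pow_orderOf_eq_one]
      simp only [this, mul_one, mul_inv_cancel]
  refine ⟨?_, fun hm t ht ht1 htp => ?_⟩
  · have := Finset.card_le_card hSZ
    omega
  · have hSZe : S = Z := Finset.eq_of_subset_of_card_le hSZ (by omega)
    have h1 := hmem t ht ht1 htp
    rw [← hSZe, hS, Finset.mem_image] at h1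
    obtain ⟨i, -, hi⟩ := h1
    have := (h.isConj_iff_rot ⟨x, hxP⟩ ⟨t, ht⟩).mpr ⟨i, Subtype.ext hi⟩
    exact this

theorem simple_case [Finite G] [IsSimpleGroup G] (hG : ¬ IsMulCommutative G) (hp2 : p ≠ 2) (P : Sylow p G)
    (hPc : IsCyclic (P : Subgroup G)) (hP1 : (P : Subgroup G) ≠ ⊥)
    (hs : ∀ x y : G, orderOf x = p → orderOf y = p →
      IsPSolvable p ↥(Subgroup.closure ({x, y} : Set G))) : False := by
  classical
  have := Fintype.ofFinite G
  obtain ⟨M, hM⟩ := exists_isPModular hp.out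
  obtain ⟨x, hxP, hx⟩ := exists_order_p hP1
  have hx1 : x ≠ 1 := by
    rintro rfl; rw [orderOf_one] at hx; exact hp.out.one_lt.ne hx
  have hNC := not_le_cent hG P hPc hP1
  obtain ⟨m, hCN⟩ : ∃ m, (Subgroup.centralizer ((P : Subgroup G) : Set G)).relIndex
      (Subgroup.normalizer ((P : Subgroup G) : Set G)) = m := ⟨_, rfl⟩
  have hm0 : m ≠ 0 := by
    rw [← hCN]
    rw [Subgroup.relIndex]
    exact Subgroup.FiniteIndex.index_ne_zero
  have hm1 : 1 < m := by
    have h1 : m ≠ 1 := by
      intro h2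
      rw [h2, Subgroup.relIndex_eq_one] at hCN
      exact hNC hCN
    omega
  obtain ⟨g, hg, hcyc⟩ := cyc_gen hPc hP1
  have h : AbM m P g := abM_of hm1 (cyc_comm hPc) hCN hg hcyc (by
    intro y hy hy1
    apply le_antisymm
    · exact (cyc_frob hPc).free y hy hy1
    · intro n hn
      refine Subgroup.mem_inf.mpr ⟨?_, ?_⟩
      · rw [Subgroup.mem_centralizer_singleton_iff]
        exact (Subgroup.mem_centralizer_iff.mp hn y hy).symm
      · exact Subgroup.centralizer_le_normalizer _ hn)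
  obtain ⟨hmp, hconj⟩ := rot_card h hxP hx hPc
  by_cases hPp : Nat.card (P : Subgroup G) = p
  · rcases hmp.lt_or_eq with h1 | h1
    · exact order_p_case hM hp2 h hPp hCN hm1 h1 hPc hxP hx (hs x · hx)
    · refine pair_main hp2 P hP1 (cyc_frob hPc) hxP hx1 ?_ ?_
      · intro z hz hz1
        apply hconj h1 z hz hz1
        have h2 : (⟨z, hz⟩ : (P : Subgroup G)) ^ (Nat.card (P : Subgroup G)) = 1 := pow_card_eq_one'
        have h3 := congrArg Subtype.val h2
        rw [hPp] at h3
        exact h3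
      · intro c
        have oy : orderOf (c * x * c⁻¹) = p := by rw [orderOf_conj, hx]
        refine pair_key hp2 hx oy ?_ (hs x _ hx oy)
        intro Q hQ a ha b hb
        have h2 : IsCyclic Q := cyc_sub hPc Q hQ
        have h3 := (IsCyclic.commGroup (α := Q)).mul_comm ⟨a, ha⟩ ⟨b, hb⟩
        exact congrArg Subtype.val h3
  · obtain ⟨k, hk⟩ := P.isPGroup'.exists_card_eq
    have hk2 : 2 ≤ k := by
      by_contra hcon
      have h1 : k = 0 ∨ k = 1 := by omega
      rcases h1 with h1 | h1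
      · rw [h1, pow_zero] at hk
        exact hP1 (Subgroup.eq_bot_of_card_eq _ hk)
      · rw [h1, pow_one] at hk
        exact hPp hk
    have hP2 : p ^ 2 ≤ Nat.card (P : Subgroup G) := by
      rw [hk]
      exact Nat.pow_le_pow_right hp.out.pos hk2
    have h3 : p < p ^ 2 := by
      have := hp.out.one_lt
      nlinarith
    exact star_case hM hp2 h (by omega) hmp hP2 hPc hxP hx (hs x · hx)

end Cfsg.Agent.H14.Pair
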