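import Cfsg.Agent.H14.SecHyp
import Cfsg.Agent.H14.TrMain
import Cfsg.Agent.H2.Frobenius
import Cfsg.Agent.H2.NComp
import Cfsg.Agent.H23.PSolvable
import Cfsg.Agent.L.KLoc

/-!
H14/NPC: Thompson's reduction for normal p-complements, in functor form.
-/

set_option autoImplicit false

namespace Cfsg.Agent.H14

universe u

open scoped commutatorElement
open Cfsg (HasNormalPComplement)

variable {p : ℕ} [Fact p.Prime]

theorem npc_iff_of_card {G : Type*} [Group G] [Finite G] {L M : Subgroup G} (g : G) (h : cj g L = M) :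
    HasNormalPComplement p L ↔ HasNormalPComplement p M := by
  subst h
  exact H2.hasNormalPComplement_congr (L.equivMapOfInjective _ (MulAut.conj g).injective)

/-- the number `p ^ ν` for a subgroup -/
noncomputable def sylCard (p : ℕ) {G : Type*} [Group G] (L : Subgroup G) : ℕ :=
  p ^ (Nat.card L).factorization p

theorem IsSylIn.card_eq_sylCard {G : Type*} [Group G] [Finite G] {P L : Subgroup G} (h : IsSylIn p P L) :
    Nat.card P = sylCard p L := by
  obtain ⟨Q, hQ⟩ := h.exists_sylow
  rw [← hQ, Subgroup.card_map_of_injective L.subtype_injective, sylCard, Q.card_eq_multiplicity]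

theorem card_le_sylCard {G : Type*} [Group G] [Finite G] {P L : Subgroup G} (hP : IsPGroup p P) (h : P ≤ L) :
    Nat.card P ≤ sylCard p L := by
  obtain ⟨Q, hQ, hle⟩ := exists_isSylIn_ge (p := p) h hP
  rw [← hQ.card_eq_sylCard]
  exact Subgroup.card_le_of_le hle

section
variable {W : ∀ (Q : Type u) [Group Q], Subgroup Q}

/-- image of the normalizer of `W(S)` under quotient by a normal `p'`-subgroup -/
theorem npc_quot_coprime (hW : Cfsg.IsCharPFunctor.{u} p W) {G : Type u} [Group G] [Finite G]
    {S D : Subgroup G} (hS : IsPGroup p S) [hD : D.Normal] (hDp : (Nat.card D).Coprime p)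
    (h : HasNormalPComplement p (Subgroup.normalizer ((Cfsg.inducedFunctor (G := G) W S : Subgroup G) : Set G))) :
    HasNormalPComplement p (Subgroup.normalizer ((Cfsg.inducedFunctor (G := G ⧸ D) W
      (S.map (QuotientGroup.mk' D)) : Subgroup (G ⧸ D)) : Set (G ⧸ D))) := by
  have hinj : ∀ x ∈ S, QuotientGroup.mk' D x = 1 → x = 1 := by
    intro x hx h1
    exact eq_one_of_mem_coprime hS hDp hx ((QuotientGroup.eq_one_iff x).1 h1)
  rw [induced_map hW _ hS hinj]
  set V : Subgroup G := Cfsg.inducedFunctor (G := G) W S with hV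
  have hVp : IsPGroup p V := hS.to_le (cf_le (induced_isConjugacyFunctor hW G) hS)
  let f : Subgroup.normalizer (V : Set G) →* Subgroup.normalizer ((V.map (QuotientGroup.mk' D) : Subgroup (G ⧸ D)) : Set (G ⧸ D)) :=
    ((QuotientGroup.mk' D).comp (Subgroup.subtype _)).codRestrict _ (fun x => map_mem_normalizer _ x.2)
  refine H2.HasNormalPComplement.of_surjective h f ?_
  rintro ⟨y, hy⟩
  obtain ⟨x, rfl⟩ := QuotientGroup.mk'_surjective D y
  obtain ⟨d, hd, hdx⟩ := exists_lift_normalizer hVp hDp hy
  refine ⟨⟨d * x, hdx⟩, Subtype.ext ?_⟩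
  change QuotientGroup.mk' D (d * x) = _
  rw [map_mul, (QuotientGroup.eq_one_iff d).2 hd |> (fun h => (h : QuotientGroup.mk' D d = 1)), one_mul]

/-- Thompson's reduction -/
theorem npc_main (hW : Cfsg.IsCharPFunctor.{u} p W) {G : Type u} [Group G]
    (hyp : ∀ (H : Type u) [Group H] [Finite H], Sec G H → Constr p H →
      HasNormalPComplement p (H ⧸ Cfsg.pCore p H) → ∀ T : Subgroup H, IsSylIn p T ⊤ → IsCoatom T →
      (Cfsg.inducedFunctor (G := H) W T).Normal) :
    ∀ (n : ℕ) (H : Type u) [Group H] [Finite H], Nat.card H < n → Sec G H → ∀ S : Subgroup H, IsSylIn p S ⊤ →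
      HasNormalPComplement p (Subgroup.normalizer ((Cfsg.inducedFunctor (G := H) W S : Subgroup H) : Set H)) →
      HasNormalPComplement p H := by
  intro n
  induction n with
  | zero => intro H _ _ h; omega
  | succ n ih =>
  intro H _ _ hn hsec S₀ hS₀ hN₀
  by_contra hcon
  have hcf := induced_isConjugacyFunctor hW H
  -- the hypothesis holds for all Sylow subgroups
  have hN : ∀ S : Subgroup H, IsSylIn p S ⊤ →
      HasNormalPComplement p (Subgroup.normalizer ((Cfsg.inducedFunctor (G := H) W S : Subgroup H) : Set H)) := by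
    intro S hS
    obtain ⟨x, -, hx⟩ := hS.exists_cj_eq hS₀
    rw [← npc_iff_of_card x (L := Subgroup.normalizer ((Cfsg.inducedFunctor (G := H) W S₀ : Subgroup H) : Set H))]
    · exact hN₀
    · rw [← normalizer_cj, ← cf_cj hcf hS₀.pgroup, hx]
  -- descent to proper subgroups
  have hsub : ∀ (L P : Subgroup H), L ≠ ⊤ → IsSylIn p P L →
      HasNormalPComplement p (Subgroup.normalizer ((Cfsg.inducedFunctor (G := H) W P : Subgroup H) : Set H)) →
      HasNormalPComplement p L := by
    intro L P hL hP h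
    obtain ⟨Q, hQ⟩ := hP.exists_sylow
    have hlt : Nat.card L < n := by
      have : Nat.card L < Nat.card H := by
        rw [← Subgroup.card_top (G := H)]
        exact card_lt_of_lt (lt_top_iff_ne_top.2 hL)
      omega
    refine ih L hlt (hsec.sub L) (Q : Subgroup L) (Sylow.isSylIn_top Q) ?_
    have hind : Cfsg.inducedFunctor (G := H) W P = (Cfsg.inducedFunctor (G := L) W (Q : Subgroup L)).map L.subtype := by
      rw [← hQ]
      exact induced_map hW L.subtype Q.isPGroup' (fun x _ hx => Subtype.ext hx)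
    rw [hind] at h
    let f : Subgroup.normalizer ((Cfsg.inducedFunctor (G := L) W (Q : Subgroup L) : Subgroup L) : Set L) →*
        Subgroup.normalizer (((Cfsg.inducedFunctor (G := L) W (Q : Subgroup L)).map L.subtype : Subgroup H) : Set H) :=
      (L.subtype.comp (Subgroup.subtype _)).codRestrict _ (fun x => map_mem_normalizer L.subtype x.2)
    refine H2.HasNormalPComplement.of_injective h f ?_
    intro x y hxy
    have h1 : ((x : L) : H) = ((y : L) : H) := congrArg (fun z => ((z : Subgroup.normalizer (((Cfsg.inducedFunctor (G := L) W (Q : Subgroup L)).map L.subtype : Subgroup H) : Set H)) : H)) hxy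
    exact Subtype.ext (Subtype.ext h1)
  -- step 1
  have hO : Cfsg.pPrimeCore p H = ⊥ := by
    by_contra hne
    haveI hD : (Cfsg.pPrimeCore p H).Normal := H1.pPrimeCore_normal p H
    have hDp : (Nat.card (Cfsg.pPrimeCore p H)).Coprime p := H1.pPrimeCore_coprime p H
    apply hcon
    refine H2.HasNormalPComplement.of_quotient_of_coprime (Cfsg.pPrimeCore p H) ?_ ?_
    · intro h
      exact (Fact.out : p.Prime).one_lt.ne' (Nat.eq_one_of_dvd_coprimes hDp h dvd_rfl)
    · refine ih (H ⧸ Cfsg.pPrimeCore p H) ?_ (hsec.quot (QuotientGroup.mk' _) (QuotientGroup.mk'_surjective _))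
        (S₀.map (QuotientGroup.mk' _)) (isSylIn_map_mk hS₀) (npc_quot_coprime hW hS₀.pgroup hDp hN₀)
      have h1 : Nat.card (H ⧸ Cfsg.pPrimeCore p H) < Nat.card H := by
        rw [Subgroup.card_eq_card_quotient_mul_card_subgroup (Cfsg.pPrimeCore p H)]
        have : 1 < Nat.card (Cfsg.pPrimeCore p H) := Subgroup.one_lt_card_iff_ne_bot _ |>.2 hne
        have h2 : 0 < Nat.card (H ⧸ Cfsg.pPrimeCore p H) := Nat.card_pos
        nlinarith
      omega
  -- step 2: a maximal bad subgroup
  let bad : Set (Subgroup H) := {Q | IsPGroup p Q ∧ Q ≠ ⊥ ∧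
    ¬ HasNormalPComplement p (Subgroup.normalizer (Q : Set H))}
  have hbad : bad.Nonempty := by
    by_contra hne
    apply hcon
    apply H2.hasNormalPComplement_of_local
    intro Q hQ hQ1
    by_contra h
    exact hne ⟨Q, hQ, hQ1, h⟩
  let f : Subgroup H → ℕ := fun Q =>
    sylCard p (Subgroup.normalizer (Q : Set H)) * (Nat.card H + 1) + Nat.card Q
  obtain ⟨Q, hQ, hQmax⟩ := Set.exists_max_image bad f (Set.toFinite _) hbad
  obtain ⟨hQp, hQ1, hQn⟩ := hQ
  have hcardle : ∀ K : Subgroup H, Nat.card K ≤ Nat.card H := fun K => Subgroup.card_le_card_group K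
  have hmax1 : ∀ Q' : Subgroup H, IsPGroup p Q' → Q' ≠ ⊥ →
      sylCard p (Subgroup.normalizer (Q : Set H)) < sylCard p (Subgroup.normalizer (Q' : Set H)) →
      HasNormalPComplement p (Subgroup.normalizer (Q' : Set H)) := by
    intro Q' h1 h2 h3
    by_contra h4
    have h5 := hQmax Q' ⟨h1, h2, h4⟩
    have h6 := hcardle Q
    simp only [f] at h5
    nlinarith
  have hmax2 : ∀ Q' : Subgroup H, IsPGroup p Q' → Q' ≠ ⊥ →
      sylCard p (Subgroup.normalizer (Q : Set H)) ≤ sylCard p (Subgroup.normalizer (Q' : Set H)) →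
      Nat.card Q < Nat.card Q' →
      HasNormalPComplement p (Subgroup.normalizer (Q' : Set H)) := by
    intro Q' h1 h2 h3 h3'
    by_contra h4
    have h5 := hQmax Q' ⟨h1, h2, h4⟩
    have h6 := Nat.mul_le_mul_right (Nat.card H + 1) h3
    simp only [f] at h5
    omega
  obtain ⟨P, hP, hQP⟩ := exists_isSylIn_ge (p := p) (Subgroup.le_normalizer : Q ≤ Subgroup.normalizer (Q : Set H)) hQp
  obtain ⟨S, hS, hPS⟩ := exists_isSylIn_ge (p := p) (le_top : P ≤ ⊤) hP.pgroup
  have hP1 : P ≠ ⊥ := fun h => hQ1 (eq_bot_iff.2 (h ▸ hQP))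
  have hPeq : P = S := by
    by_contra hne
    have hlt : P < S := lt_of_le_of_ne hPS hne
    have hlt2 := lt_inf_normalizer_of_lt hS.pgroup hlt
    have hWP : HasNormalPComplement p
        (Subgroup.normalizer ((Cfsg.inducedFunctor (G := H) W P : Subgroup H) : Set H)) := by
      refine hmax1 _ (hP.pgroup.to_le (cf_le hcf hP.pgroup)) (cf_ne_bot hcf hP.pgroup hP1) ?_
      rw [← hP.card_eq_sylCard]
      refine lt_of_lt_of_le (card_lt_of_lt hlt2) (card_le_sylCard (hS.pgroup.to_le inf_le_left) ?_)
      exact inf_le_right.trans (cf_normalizer_le hcf hP.pgroup)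
    refine hQn (hsub _ P ?_ hP hWP)
    intro h
    rw [h] at hP
    exact hne (hP.eq_of_le hPS le_top hS.pgroup).symm
  subst hPeq
  have hQnorm : Subgroup.normalizer (Q : Set H) = ⊤ := by
    by_contra hne
    exact hQn (hsub _ P hne hP (hN P hS))
  have hQle : Q ≤ Cfsg.pCore p H := H1.le_pCore (Subgroup.normalizer_eq_top_iff.1 hQnorm) hQp
  haveI hXn : (Cfsg.pCore p H).Normal := H1.pCore_normal p H
  have hXp : IsPGroup p (Cfsg.pCore p H) := H1.pCore_isPGroup p H
  have hX1 : Cfsg.pCore p H ≠ ⊥ := fun h => hQ1 (eq_bot_iff.2 (h ▸ hQle))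
  have hXnorm : Subgroup.normalizer ((Cfsg.pCore p H : Subgroup H) : Set H) = ⊤ := Subgroup.normalizer_eq_top_iff.2 hXn
  have hQX : Q = Cfsg.pCore p H := by
    apply Subgroup.eq_of_le_of_card_ge hQle
    by_contra hlt
    rw [not_le] at hlt
    have h1 := hmax2 _ hXp hX1 (by rw [hQnorm, hXnorm]) hlt
    rw [hXnorm] at h1
    exact hcon ((H2.hasNormalPComplement_congr Subgroup.topEquiv).1 h1)
  have hXP : Cfsg.pCore p H ≤ P := by rw [← hQX]; exact hQP
  have hXltP : Cfsg.pCore p H < P := by
    refine lt_of_le_of_ne hXP ?_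
    intro h
    have h1 := hN P hS
    have h2 : Subgroup.normalizer ((Cfsg.inducedFunctor (G := H) W P : Subgroup H) : Set H) = ⊤ := by
      rw [eq_top_iff]
      refine le_trans ?_ (cf_normalizer_le hcf hP.pgroup)
      rw [← h, hXnorm]
    rw [h2] at h1
    exact hcon ((H2.hasNormalPComplement_congr Subgroup.topEquiv).1 h1)
  have hXcard : Nat.card (H ⧸ Cfsg.pCore p H) < Nat.card H := by
    rw [Subgroup.card_eq_card_quotient_mul_card_subgroup (Cfsg.pCore p H)]
    have : 1 < Nat.card (Cfsg.pCore p H) := Subgroup.one_lt_card_iff_ne_bot _ |>.2 hX1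
    have h2 : 0 < Nat.card (H ⧸ Cfsg.pCore p H) := Nat.card_pos
    nlinarith
  -- the quotient by `O_p`
  have hquot : HasNormalPComplement p (H ⧸ Cfsg.pCore p H) := by
    have hSb : IsSylIn p (P.map (QuotientGroup.mk' (Cfsg.pCore p H))) ⊤ := isSylIn_map_mk hS
    refine ih (H ⧸ Cfsg.pCore p H) (by omega) (hsec.quot (QuotientGroup.mk' _) (QuotientGroup.mk'_surjective _))
        (P.map (QuotientGroup.mk' _)) hSb ?_
    have hcf' := induced_isConjugacyFunctor hW (H ⧸ Cfsg.pCore p H)
    obtain ⟨V, hV⟩ : ∃ V, V = Cfsg.inducedFunctor (G := H ⧸ Cfsg.pCore p H) W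
      (P.map (QuotientGroup.mk' (Cfsg.pCore p H))) := ⟨_, rfl⟩
    rw [← hV]
    have hPb : P.map (QuotientGroup.mk' (Cfsg.pCore p H)) ≠ ⊥ := by
      intro h
      rw [Subgroup.map_eq_bot_iff, QuotientGroup.ker_mk'] at h
      exact absurd h (not_le_of_gt hXltP)
    have hV1 : V ≠ ⊥ := by rw [hV]; exact cf_ne_bot hcf' hSb.pgroup hPb
    have hVle : V ≤ P.map (QuotientGroup.mk' (Cfsg.pCore p H)) := by rw [hV]; exact cf_le hcf' hSb.pgroup
    obtain ⟨Y, hY⟩ : ∃ Y, Y = V.comap (QuotientGroup.mk' (Cfsg.pCore p H)) := ⟨_, rfl⟩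
    have hYP : Y ≤ P := by
      rw [hY]
      refine (Subgroup.comap_mono hVle).trans ?_
      rw [Subgroup.comap_map_eq, QuotientGroup.ker_mk']
      exact sup_le le_rfl hXP
    have hXY : Cfsg.pCore p H < Y := by
      refine lt_of_le_of_ne ?_ ?_
      · rw [hY]
        have := Subgroup.ker_le_comap (QuotientGroup.mk' (Cfsg.pCore p H)) V
        rwa [QuotientGroup.ker_mk'] at this
      · intro h
        apply hV1
        have h2 : Y.map (QuotientGroup.mk' (Cfsg.pCore p H)) = V := by
          rw [hY]; exact Subgroup.map_comap_eq_self_of_surjective (QuotientGroup.mk'_surjective _) V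
        rw [← h2, ← h, Subgroup.map_eq_bot_iff, QuotientGroup.ker_mk']
    have hNmap : (Subgroup.normalizer (Y : Set H)).map (QuotientGroup.mk' (Cfsg.pCore p H)) =
        Subgroup.normalizer (V : Set (H ⧸ Cfsg.pCore p H)) := by
      apply Subgroup.comap_injective (QuotientGroup.mk'_surjective (Cfsg.pCore p H))
      rw [Subgroup.comap_map_eq, QuotientGroup.ker_mk', sup_eq_left.2, hY]
      · exact (Subgroup.comap_normalizer_eq_of_surjective V (QuotientGroup.mk'_surjective _)).symm
      · exact hXY.le.trans Subgroup.le_normalizer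
    rw [← hNmap]
    refine H2.HasNormalPComplement.of_surjective (G := Subgroup.normalizer (Y : Set H)) ?_
      ((QuotientGroup.mk' (Cfsg.pCore p H)).subgroupMap _) ((QuotientGroup.mk' (Cfsg.pCore p H)).subgroupMap_surjective _)
    refine hmax2 Y (hP.pgroup.to_le hYP) (fun h => not_lt_bot (h ▸ hXY)) ?_ ?_
    · rw [hQnorm, ← hS.card_eq_sylCard]
      refine card_le_sylCard hS.pgroup ?_
      intro s hs
      have h1 : QuotientGroup.mk' (Cfsg.pCore p H) s ∈ Subgroup.normalizer (V : Set (H ⧸ Cfsg.pCore p H)) := by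
        rw [hV]
        apply cf_normalizer_le hcf' hSb.pgroup
        exact Subgroup.le_normalizer ⟨s, hs, rfl⟩
      rw [← hNmap] at h1
      obtain ⟨t, ht, hts⟩ := h1
      have h2 : t⁻¹ * s ∈ Cfsg.pCore p H := QuotientGroup.eq.1 hts
      have h3 : s = t * (t⁻¹ * s) := by group
      rw [h3]
      exact mul_mem ht (Subgroup.le_normalizer (hXY.le h2))
    · rw [hQX]
      exact card_lt_of_lt hXY
  -- constrained
  have hsolv : Cfsg.IsPSolvable p H := by
    apply H23.isPSolvable_of_quotient (Cfsg.pCore p H)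
    · left
      exact IsPGroup.iff_card.1 hXp
    · obtain ⟨N, hNn, hN1, k, hk⟩ := H2.hasNormalPComplement_iff.1 hquot
      apply H23.isPSolvable_of_quotient N
      · right
        exact ((Nat.Prime.coprime_iff_not_dvd (Fact.out : p.Prime)).2 hN1).symm
      · apply H23.isPSolvable_of_isPGroup
        rw [IsPGroup.iff_card]
        exact ⟨k, hk⟩
  have hconstr : Constr p H := H23.centralizer_pCore_le hsolv hO
  have hcoatom : IsCoatom P := by
    refine ⟨?_, ?_⟩
    · intro h
      apply hcon
      apply H2.HasNormalPComplement.of_isPGroup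
      have h1 := hP.pgroup
      rw [h] at h1
      exact h1.of_equiv Subgroup.topEquiv
    · intro M hPM
      by_contra hM
      have hPM' : IsSylIn p P M := hS.mono hPM.le le_top
      have hMn := hsub M P hM hPM' (hN P hS)
      have hMp : IsPGroup p M := by
        apply L.isPGroup_of_no_p'
        intro m hm hmp
        have h1 : (⟨m, hm⟩ : M) ∈ Subgroup.centralizer (((Cfsg.pCore p H).subgroupOf M : Subgroup M) : Set M) := by
          apply H2.mem_centralizer_of_hasNormalPComplement hMn
          · exact hXp.comap_of_injective _ M.subtype_injective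
          · rw [Subgroup.normalizer_eq_top_iff.2 (inferInstance : ((Cfsg.pCore p H).subgroupOf M).Normal)]
            trivial
          · rwa [Subgroup.orderOf_mk]
        have h2 : m ∈ Subgroup.centralizer ((Cfsg.pCore p H : Subgroup H) : Set H) := by
          rw [Subgroup.mem_centralizer_iff]
          intro x hx
          have := Subgroup.mem_centralizer_iff.1 h1 ⟨x, hXP.trans hPM.le hx⟩ hx
          exact congrArg Subtype.val this
        have h3 := hconstr h2
        obtain ⟨k, hk⟩ := hXp ⟨m, h3⟩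
        have h4 : m ^ p ^ k = 1 := congrArg Subtype.val hk
        have h5 : orderOf m ∣ p ^ k := orderOf_dvd_of_pow_eq_one h4
        exact orderOf_eq_one_iff.1 (Nat.eq_one_of_dvd_coprimes (hmp.pow_right k) dvd_rfl h5)
      exact absurd (hPM'.eq_of_le hPM.le le_rfl hMp) hPM.ne'
  have hfin := hyp H hsec hconstr hquot P hS hcoatom
  have h1 := hN P hS
  rw [Subgroup.normalizer_eq_top_iff.2 hfin] at h1
  exact hcon ((H2.hasNormalPComplement_congr Subgroup.topEquiv).1 h1)

end

end Cfsg.Agent.H14
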