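import Cfsg.Agent.H14.SecHyp
import Cfsg.Agent.H14.NPC

/-!
H14/SecHyp2: transport of functor data along isomorphisms.
-/

set_option autoImplicit false

namespace Cfsg.Agent.H14

universe u

variable {p : ℕ} [Fact p.Prime]

theorem isSylIn_map_equiv {G H : Type*} [Group G] [Group H] [Finite G] (e : G ≃* H) {P L : Subgroup G}
    (h : IsSylIn p P L) : IsSylIn p (P.map e.toMonoidHom) (L.map e.toMonoidHom) := by
  refine ⟨Subgroup.map_mono h.le, h.pgroup.map _, ?_⟩
  rw [Subgroup.relIndex_map_map_of_injective P L e.injective]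
  exact h.ndvd

theorem isSylIn_top_map_equiv {G H : Type*} [Group G] [Group H] [Finite G] (e : G ≃* H) {P : Subgroup G}
    (h : IsSylIn p P ⊤) : IsSylIn p (P.map e.toMonoidHom) ⊤ := by
  have := isSylIn_map_equiv e h
  rwa [Subgroup.map_top_of_surjective e.toMonoidHom e.surjective] at this

theorem map_symm_map {G H : Type*} [Group G] [Group H] (e : G ≃* H) (T : Subgroup H) :
    (T.map e.symm.toMonoidHom).map e.toMonoidHom = T := by
  rw [Subgroup.map_map]; simp

theorem map_map_symm {G H : Type*} [Group G] [Group H] (e : G ≃* H) (T : Subgroup G) :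
    (T.map e.toMonoidHom).map e.symm.toMonoidHom = T := by
  rw [Subgroup.map_map]; simp

theorem isCoatom_map_equiv {G H : Type*} [Group G] [Group H] (e : G ≃* H) {T : Subgroup G}
    (h : IsCoatom T) : IsCoatom (T.map e.toMonoidHom) := by
  refine ⟨?_, ?_⟩
  · intro h1
    apply h.1
    rw [← map_map_symm e T, h1]
    exact Subgroup.map_top_of_surjective _ e.symm.surjective
  · intro M hM
    have h1 : T < M.map e.symm.toMonoidHom := by
      rw [← map_map_symm e T]
      exact (Subgroup.map_lt_map_iff_of_injective e.symm.injective).2 hM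
    have h2 := h.2 _ h1
    rw [← map_symm_map e M, h2]
    exact Subgroup.map_top_of_surjective _ e.surjective

theorem induced_map_equiv {W : ∀ (Q : Type u) [Group Q], Subgroup Q} (hW : Cfsg.IsCharPFunctor.{u} p W)
    {G H : Type u} [Group G] [Group H] [Finite G] (e : G ≃* H) {T : Subgroup G} (hT : IsPGroup p T) :
    Cfsg.inducedFunctor (G := H) W (T.map e.toMonoidHom) = (Cfsg.inducedFunctor (G := G) W T).map e.toMonoidHom :=
  induced_map hW _ hT (fun x _ hx => (map_eq_one_iff e e.injective).1 hx)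

theorem induced_normal_equiv {W : ∀ (Q : Type u) [Group Q], Subgroup Q} (hW : Cfsg.IsCharPFunctor.{u} p W)
    {G H : Type u} [Group G] [Group H] [Finite G] (e : G ≃* H) {T : Subgroup G} (hT : IsPGroup p T)
    (h : (Cfsg.inducedFunctor (G := G) W T).Normal) :
    (Cfsg.inducedFunctor (G := H) W (T.map e.toMonoidHom)).Normal := by
  rw [induced_map_equiv hW e hT]
  exact Subgroup.Normal.map h _ e.surjective

/-- iso invariance for the hypothesis of `npc_main` -/
theorem npc_hyp_iso {W : ∀ (Q : Type u) [Group Q], Subgroup Q} (hW : Cfsg.IsCharPFunctor.{u} p W)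
    {H H' : Type u} [Group H] [Group H'] [Finite H]
    (h : Cfsg.HasNormalPComplement p (H ⧸ Cfsg.pCore p H) → ∀ T : Subgroup H, IsSylIn p T ⊤ → IsCoatom T →
      (Cfsg.inducedFunctor (G := H) W T).Normal) (e : H ≃* H') :
    Cfsg.HasNormalPComplement p (H' ⧸ Cfsg.pCore p H') → ∀ T : Subgroup H', IsSylIn p T ⊤ → IsCoatom T →
      (Cfsg.inducedFunctor (G := H') W T).Normal := by
  intro h1 T hT hTc
  haveI : Finite H' := Finite.of_equiv H e.toEquiv
  have h2 : Cfsg.HasNormalPComplement p (H ⧸ Cfsg.pCore p H) := by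
    refine (H2.hasNormalPComplement_congr ?_).1 h1
    exact (QuotientGroup.congr _ _ e (pCore_map_equiv e)).symm
  have h3 := h h2 (T.map e.symm.toMonoidHom) (isSylIn_top_map_equiv e.symm hT) (isCoatom_map_equiv e.symm hTc)
  have h4 := induced_normal_equiv hW e (hT.pgroup.map _) h3
  rwa [map_symm_map] at h4

/-- normal p-complement criterion, packaged with the section hypothesis -/
theorem npc_of_sections {W : ∀ (Q : Type u) [Group Q], Subgroup Q} (hW : Cfsg.IsCharPFunctor.{u} p W)
    {G : Type u} [Group G] [Finite G] (S : Sylow p G)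
    (hN : Cfsg.HasNormalPComplement p ↥(Subgroup.normalizer ((Cfsg.inducedFunctor (G := G) W (S : Subgroup G) : Subgroup G) : Set G)))
    (hloc : ∀ (K R : Subgroup G) [hR : (R.subgroupOf K).Normal],
      Constr p (↥K ⧸ R.subgroupOf K) →
      Cfsg.HasNormalPComplement p ((↥K ⧸ R.subgroupOf K) ⧸ Cfsg.pCore p (↥K ⧸ R.subgroupOf K)) →
      ∀ T : Sylow p (↥K ⧸ R.subgroupOf K), IsCoatom (T : Subgroup (↥K ⧸ R.subgroupOf K)) →
      (Cfsg.inducedFunctor (G := (↥K ⧸ R.subgroupOf K)) W ((T : Subgroup (↥K ⧸ R.subgroupOf K)))).Normal) :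
    Cfsg.HasNormalPComplement p G := by
  have hyp : ∀ (H : Type u) [Group H] [Finite H], Sec G H → Constr p H →
      (Cfsg.HasNormalPComplement p (H ⧸ Cfsg.pCore p H) → ∀ T : Subgroup H, IsSylIn p T ⊤ → IsCoatom T →
      (Cfsg.inducedFunctor (G := H) W T).Normal) := by
    refine sec_hyp (P := fun H _ => Cfsg.HasNormalPComplement p (H ⧸ Cfsg.pCore p H) → ∀ T : Subgroup H, IsSylIn p T ⊤ → IsCoatom T →
      (Cfsg.inducedFunctor (G := H) W T).Normal) ?_ ?_
    · intro H H' _ _ _ h e
      exact npc_hyp_iso hW h e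
    · intro K R _ hC h1 T hT hTc
      obtain ⟨T', rfl⟩ := hT.eq_sylow
      exact hloc K R hC h1 T' hTc
  exact npc_main hW hyp (Nat.card G + 1) G (Nat.lt_succ_self _) (Sec.refl G) S (Sylow.isSylIn_top S) hN

end Cfsg.Agent.H14
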