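import Cfsg.Agent.H14.Imprim
import Cfsg.Agent.H14.SecHyp2

set_option autoImplicit false

/-! point stabilizers in symmetric groups -/

namespace Cfsg.Agent.H14.Imp

open MulAction
open scoped Pointwise

variable {Ω : Type*} [DecidableEq Ω]

/-- `Perm {x // x ≠ ω}` is the stabilizer of `ω` -/
def ptHom (ω : Ω) : Equiv.Perm {x : Ω // x ≠ ω} →* stabilizer (Equiv.Perm Ω) ω :=
  (Equiv.Perm.ofSubtype (p := fun x : Ω => x ≠ ω)).codRestrict _ (fun g => by
    change Equiv.Perm.ofSubtype g ω = ω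
    exact Equiv.Perm.ofSubtype_apply_of_not_mem g (by simp))

theorem ptHom_bijective (ω : Ω) : Function.Bijective (ptHom ω) := by
  constructor
  · intro g h hgh
    exact Equiv.Perm.ofSubtype_injective (congrArg Subtype.val hgh)
  · rintro ⟨g, hg⟩
    have hg' : g ω = ω := hg
    have h1 : ∀ x, g x ≠ ω ↔ x ≠ ω := by
      intro x
      rw [not_iff_not]
      constructor
      · intro h; exact g.injective (h.trans hg'.symm)
      · rintro rfl; exact hg'
    refine ⟨g.subtypePerm h1, Subtype.ext ?_⟩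
    change Equiv.Perm.ofSubtype (g.subtypePerm h1) = g
    refine Equiv.Perm.ofSubtype_subtypePerm h1 fun x hx => ?_
    rintro rfl
    exact hx hg'

noncomputable def ptEquiv (ω : Ω) :
    Equiv.Perm {x : Ω // x ≠ ω} ≃* stabilizer (Equiv.Perm Ω) ω :=
  MulEquiv.ofBijective (ptHom ω) (ptHom_bijective ω)

theorem ptEquiv_apply (ω : Ω) (g : Equiv.Perm {x : Ω // x ≠ ω}) {x : Ω} (hx : x ≠ ω) :
    (ptEquiv ω g : Equiv.Perm Ω) x = g ⟨x, hx⟩ :=
  Equiv.Perm.ofSubtype_apply_of_mem g hx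

/-- the stabilizer of a point `ω` and a set `O ∋ ω` is maximal in the stabilizer of `ω` -/
theorem isCoatom_pt [Finite Ω] (ω : Ω) {O : Set Ω} (hω : ω ∈ O) (h1 : ∃ x ∈ O, x ≠ ω)
    (h2 : ∃ x, x ∉ O) (h3 : Nat.card Ω ≠ 2 * O.ncard - 1) :
    IsCoatom ((stabilizer (Equiv.Perm Ω) ω ⊓ stabilizer (Equiv.Perm Ω) O).subgroupOf
      (stabilizer (Equiv.Perm Ω) ω)) := by
  obtain ⟨S, hS⟩ : ∃ S : Set {x : Ω // x ≠ ω}, S = {x | x.1 ∈ O} := ⟨_, rfl⟩
  have hmax : IsCoatom (stabilizer (Equiv.Perm {x : Ω // x ≠ ω}) S) := by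
    apply Equiv.Perm.isCoatom_stabilizer
    · obtain ⟨x, hx, hxω⟩ := h1
      exact ⟨⟨x, hxω⟩, by rw [hS]; exact hx⟩
    · obtain ⟨x, hx⟩ := h2
      exact ⟨⟨x, fun e => hx (e ▸ hω)⟩, by rw [hS]; exact hx⟩
    · have h5 : Nat.card {x : Ω // x ≠ ω} + 1 = Nat.card Ω := by
        rw [← Set.ncard_add_ncard_compl {ω}, Set.ncard_singleton, add_comm]
        rfl
      have h6 : S.ncard = O.ncard - 1 := by
        rw [← Set.ncard_diff_singleton_of_mem hω,
          ← Set.ncard_image_of_injective S Subtype.val_injective]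
        congr 1
        ext x
        rw [hS]
        constructor
        · rintro ⟨y, hy, rfl⟩; exact ⟨hy, y.2⟩
        · rintro ⟨hy, hyω⟩; exact ⟨⟨x, hyω⟩, hy, rfl⟩
      have h7 : 0 < O.ncard := (Set.ncard_pos).2 ⟨ω, hω⟩
      rw [h6]; omega
  have hkey : ∀ g : Equiv.Perm {x : Ω // x ≠ ω},
      (ptEquiv ω g : Equiv.Perm Ω) ∈ stabilizer (Equiv.Perm Ω) O ↔
        g ∈ stabilizer (Equiv.Perm {x : Ω // x ≠ ω}) S := by
    intro g
    rw [mem_stabilizer_set, mem_stabilizer_set]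
    constructor
    · intro h x
      have := h x.1
      rw [Equiv.Perm.smul_def, ptEquiv_apply ω g x.2] at this
      rw [hS]; exact this
    · intro h x
      by_cases hx : x = ω
      · have h8 : (ptEquiv ω g : Equiv.Perm Ω) ω = ω := (ptEquiv ω g).2
        rw [hx, Equiv.Perm.smul_def, h8]
      · rw [Equiv.Perm.smul_def, ptEquiv_apply ω g hx]
        have := h ⟨x, hx⟩
        rw [hS] at this; exact this
  have h4 := isCoatom_map_equiv (ptEquiv ω) hmax
  convert h4 using 1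
  ext g
  obtain ⟨g', rfl⟩ := (ptEquiv ω).surjective g
  constructor
  · rintro ⟨-, hg⟩
    exact ⟨g', (hkey g').1 hg, rfl⟩
  · rintro ⟨g'', hg'', h5⟩
    have h6 : g'' = g' := (ptEquiv ω).injective h5
    subst h6
    exact ⟨(ptEquiv ω g'').2, (hkey g'').2 hg''⟩

end Cfsg.Agent.H14.Imp
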