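import Cfsg.Agent.H14.Imprim
import Mathlib.GroupTheory.SpecificGroups.Alternating.KleinFour

set_option autoImplicit false

/-! Stabilizers of uniform partitions in alternating groups (helper14) -/

namespace Cfsg.Agent.H14.Imp

open MulAction Equiv Equiv.Perm
open scoped Pointwise

variable {Ω : Type*} [Fintype Ω] [DecidableEq Ω] {b : ℕ} {f : Ω → Fin b} {a : ℕ}

theorem exists_third (ha : 3 ≤ a) (hf : ∀ i : Fin b, Nat.card {x : Ω // f x = i} = a) (i : Fin b) (x y : Ω) :
    ∃ w, f w = i ∧ w ≠ x ∧ w ≠ y := by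
  by_contra hcon
  push Not at hcon
  have h1 : Nat.card {w : Ω // f w = i} ≤ Nat.card ({x, y} : Finset Ω) := by
    apply Nat.card_le_card_of_injective (fun w : {w : Ω // f w = i} => (⟨w.1, by
      rw [Finset.mem_insert, Finset.mem_singleton]
      by_cases h : w.1 = x
      · exact Or.inl h
      · exact Or.inr (hcon w.1 w.2 h)⟩ : ({x, y} : Finset Ω)))
    intro u v huv
    exact Subtype.ext (congrArg (fun z : ({x, y} : Finset Ω) => z.1) huv)
  rw [hf, Nat.card_eq_fintype_card, Fintype.card_coe] at h1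
  have h2 := Finset.card_le_two (a := x) (b := y)
  omega

theorem partner_unique (hf : ∀ i : Fin b, Nat.card {x : Ω // f x = i} = 2) {x y z : Ω} (hy : f y = f x) (hz : f z = f x)
    (hyx : y ≠ x) (hzx : z ≠ x) : y = z := by
  by_contra hyz
  have h1 : Nat.card (Fin 3) ≤ Nat.card {w : Ω // f w = f x} := by
    apply Nat.card_le_card_of_injective (fun i : Fin 3 =>
      (![⟨x, rfl⟩, ⟨y, hy⟩, ⟨z, hz⟩] i : {w : Ω // f w = f x}))
    intro i j hij
    fin_cases i <;> fin_cases j <;> simp_all [Subtype.ext_iff, eq_comm]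
  rw [hf, Nat.card_fin] at h1
  omega

theorem swap_swap_mem_WA {x x' y y' : Ω} (hx : x ≠ x') (hy : y ≠ y') (hfx : f x = f x') (hfy : f y = f y') :
    swap x x' * swap y y' ∈ W f ⊓ alternatingGroup Ω := by
  refine Subgroup.mem_inf.mpr ⟨(W f).mul_mem (swap_mem_W hfx) (swap_mem_W hfy), ?_⟩
  rw [mem_alternatingGroup, sign_mul, sign_swap hx, sign_swap hy]
  rfl

theorem even_or (g : Perm Ω) {u v : Ω} (huv : u ≠ v) :
    g ∈ alternatingGroup Ω ∨ g * swap u v ∈ alternatingGroup Ω := by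
  rcases Int.units_eq_one_or (sign g) with h | h
  · exact Or.inl (mem_alternatingGroup.mpr h)
  · right
    rw [mem_alternatingGroup, sign_mul, sign_swap huv, h]
    rfl

theorem exists_label_ne (hb : 3 ≤ b) (i j : Fin b) : ∃ l : Fin b, l ≠ i ∧ l ≠ j := by
  by_contra hcon
  push Not at hcon
  have h1 : (Finset.univ : Finset (Fin b)) ⊆ {i, j} := by
    intro l _
    rw [Finset.mem_insert, Finset.mem_singleton]
    by_cases h : l = i
    · exact Or.inl h
    · exact Or.inr (hcon l h)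
  have h2 := Finset.card_le_card h1
  rw [Finset.card_univ, Fintype.card_fin] at h2
  have h3 := Finset.card_le_two (a := i) (b := j)
  omega

theorem enough_of_WA_le {G : Subgroup (Perm Ω)} (ha : 2 ≤ a) (hb : 2 ≤ b) (hab : ¬ (a = 2 ∧ b = 2))
    (hf : ∀ i : Fin b, Nat.card {x : Ω // f x = i} = a)
    (hG : W f ⊓ alternatingGroup Ω ≤ G) : Enough f G := by
  have h2 := exists_pair ha hf
  refine ⟨?_, ?_, ?_⟩
  · intro x y y' hyy hyx hy'x
    by_cases heq : y = y'
    · exact ⟨1, G.one_mem, rfl, heq⟩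
    by_cases hl : ∃ l : Fin b, l ≠ f x ∧ l ≠ f y
    · obtain ⟨l, hlx, hly⟩ := hl
      obtain ⟨u, v, huv, hu, hv⟩ := h2 l
      refine ⟨swap y y' * swap u v, hG (swap_swap_mem_WA heq huv hyy (hu.trans hv.symm)), ?_, ?_⟩
      · have h3 : swap u v x = x :=
          swap_apply_of_ne_of_ne (fun e => hlx (by rw [← hu, e])) (fun e => hlx (by rw [← hv, e]))
        rw [mul_apply, h3, swap_apply_of_ne_of_ne hyx.symm hy'x.symm]
      · have h3 : swap u v y = y :=
          swap_apply_of_ne_of_ne (fun e => hly (by rw [← hu, e])) (fun e => hly (by rw [← hv, e]))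
        rw [mul_apply, h3, swap_apply_left]
    · have hfxy : f x ≠ f y := by
        intro e
        apply hl
        obtain ⟨j, hj⟩ : ∃ j : Fin b, j ≠ f x := by
          by_cases h0 : f x = ⟨0, by omega⟩
          · exact ⟨⟨1, by omega⟩, by rw [h0]; simp⟩
          · exact ⟨⟨0, by omega⟩, fun e => h0 e.symm⟩
        exact ⟨j, hj, by rw [← e]; exact hj⟩
      have hb2 : b = 2 := by
        by_contra hne
        exact hl (exists_label_ne (by omega) (f x) (f y))
      have ha3 : 3 ≤ a := by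
        by_contra hlt
        exact hab ⟨by omega, hb2⟩
      obtain ⟨w, hw, hwy, hwy'⟩ := exists_third ha3 hf (f y) y y'
      refine ⟨swap y w * swap y y', hG (swap_swap_mem_WA hwy.symm heq hw.symm hyy), ?_, ?_⟩
      · rw [mul_apply, swap_apply_of_ne_of_ne hyx.symm hy'x.symm,
          swap_apply_of_ne_of_ne hyx.symm (fun e => hfxy (by rw [e, hw]))]
      · rw [mul_apply, swap_apply_left, swap_apply_of_ne_of_ne (Ne.symm heq) hwy'.symm]
  · intro k i j hik hjk
    obtain ⟨g, hg⟩ := exists_blockPerm' hf (Equiv.swap i j)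
    obtain ⟨u, v, huv, hu, hv⟩ := h2 k
    have huvW : swap u v ∈ W f := swap_mem_W (hu.trans hv.symm)
    rcases even_or g huv with h | h
    · refine ⟨g, hG ⟨mem_W_of_block hg, h⟩, fun x hx => ?_, fun x hx => ?_⟩
      · rw [hg, hx, Equiv.swap_apply_of_ne_of_ne hik.symm hjk.symm]
      · rw [hg, hx, Equiv.swap_apply_left]
    · refine ⟨g * swap u v, hG ⟨(W f).mul_mem (mem_W_of_block hg) huvW, h⟩, fun x hx => ?_, fun x hx => ?_⟩
      · have h3 : f (swap u v x) = k := by
          by_cases hxu : x = u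
          · rw [hxu, swap_apply_left, hv]
          by_cases hxv : x = v
          · rw [hxv, swap_apply_right, hu]
          · rw [swap_apply_of_ne_of_ne hxu hxv, hx]
        rw [mul_apply, hg, h3, Equiv.swap_apply_of_ne_of_ne hik.symm hjk.symm]
      · have h3 : swap u v x = x :=
          swap_apply_of_ne_of_ne (fun e => hik (by rw [← hx, e, hu])) (fun e => hik (by rw [← hx, e, hv]))
        rw [mul_apply, h3, hg, hx, Equiv.swap_apply_left]
  · intro i j
    obtain ⟨g, hg⟩ := exists_blockPerm' hf (Equiv.swap i j)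
    obtain ⟨u, v, huv, hu, hv⟩ := h2 i
    have huvW : swap u v ∈ W f := swap_mem_W (hu.trans hv.symm)
    rcases even_or g huv with h | h
    · refine ⟨g, hG ⟨mem_W_of_block hg, h⟩, mem_W_of_block hg, fun x hx => ?_⟩
      rw [hg, hx, Equiv.swap_apply_left]
    · refine ⟨g * swap u v, hG ⟨(W f).mul_mem (mem_W_of_block hg) huvW, h⟩,
        (W f).mul_mem (mem_W_of_block hg) huvW, fun x hx => ?_⟩
      have h3 : f (swap u v x) = i := by
        by_cases hxu : x = u
        · rw [hxu, swap_apply_left, hv]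
        by_cases hxv : x = v
        · rw [hxv, swap_apply_right, hu]
        · rw [swap_apply_of_ne_of_ne hxu hxv, hx]
      rw [mul_apply, hg, h3, Equiv.swap_apply_left]

/-- the two partitions differ -/
theorem exists_diff (hf : ∀ i : Fin b, Nat.card {x : Ω // f x = i} = 2) {g : Perm Ω} (hg : g ∉ W f) :
    ∃ x y : Ω, x ≠ y ∧ f (g⁻¹ x) = f (g⁻¹ y) ∧ f x ≠ f y := by
  rw [mem_W] at hg
  push Not at hg
  obtain ⟨x, y, hxy⟩ := hg
  rcases hxy with ⟨h1, h2⟩ | ⟨h1, h2⟩
  · exact ⟨g x, g y, fun e => h2 (by rw [e]), by simpa using h1, h2⟩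
  · obtain ⟨z, hz, hzx⟩ : ∃ z, f z = f x ∧ z ≠ x := by
      obtain ⟨u, v, huv, hu, hv⟩ := exists_pair le_rfl hf (f x)
      by_cases hux : u = x
      · exact ⟨v, hv, fun e => huv (by rw [hux, e])⟩
      · exact ⟨u, hu, hux⟩
    refine ⟨g x, g z, fun e => hzx (g.injective e.symm), by simpa using hz.symm, fun e => ?_⟩
    have hyx : y ≠ x := fun e => h1 (by rw [e])
    have h3 := partner_unique hf (x := g x) (y := g y) (z := g z) h2.symm e.symm
      (fun e => hyx (g.injective e)) (fun e => hzx (g.injective e))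
    have h4 := g.injective h3
    exact h1 (by rw [h4, hz])

theorem threeCycle_big {G : Subgroup (Perm Ω)} (hb : 5 ≤ b)
    (hf : ∀ i : Fin b, Nat.card {x : Ω // f x = i} = 2)
    (hG : W f ⊓ alternatingGroup Ω ≤ G) {g : Perm Ω} (hg : g ∈ G) (hgW : g ∉ W f) :
    ∃ c ∈ G, IsThreeCycle c := by
  obtain ⟨x, y, hxy, hxy', hne⟩ := exists_diff hf hgW
  obtain ⟨x', hx', hx'x⟩ : ∃ z, f z = f x ∧ z ≠ x := by
    obtain ⟨u, v, huv, hu, hv⟩ := exists_pair le_rfl hf (f x)
    by_cases hux : u = x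
    · exact ⟨v, hv, fun e => huv (by rw [hux, e])⟩
    · exact ⟨u, hu, hux⟩
  obtain ⟨l, hl1, hl2⟩ := exists_label_ne (by omega) (f (g⁻¹ x)) (f (g⁻¹ x'))
  obtain ⟨c₀, d₀, hcd₀, hc₀, hd₀⟩ := exists_pair le_rfl hf l
  obtain ⟨c, hc⟩ : ∃ c, c = g c₀ := ⟨_, rfl⟩
  obtain ⟨d, hd⟩ : ∃ d, d = g d₀ := ⟨_, rfl⟩
  have hc' : f (g⁻¹ c) = l := by rw [hc]; simpa using hc₀
  have hd' : f (g⁻¹ d) = l := by rw [hd]; simpa using hd₀
  have hcd : c ≠ d := by rw [hc, hd]; exact fun e => hcd₀ (g.injective e)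
  obtain ⟨m, hm⟩ : ∃ m : Fin b, m ∉ ({f x, f y, f c, f d} : Finset (Fin b)) := by
    by_contra hcon
    push Not at hcon
    have h2 := Finset.card_le_card (fun l _ => hcon l : (Finset.univ : Finset (Fin b)) ⊆ _)
    rw [Finset.card_univ, Fintype.card_fin] at h2
    have h3 := Finset.card_le_four (a := f x) (b := f y) (c := f c) (d := f d)
    omega
  simp only [Finset.mem_insert, Finset.mem_singleton, not_or] at hm
  obtain ⟨hm1, hm2, hm3, hm4⟩ := hm
  obtain ⟨u, v, huv, hu, hv⟩ := exists_pair le_rfl hf m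
  -- membership
  have hs : swap x x' * swap u v ∈ G := hG (swap_swap_mem_WA hx'x.symm huv hx'.symm (hu.trans hv.symm))
  have ht : swap x y * swap c d ∈ G := by
    have h1 : swap (g⁻¹ x) (g⁻¹ y) * swap (g⁻¹ c) (g⁻¹ d) ∈ G :=
      hG (swap_swap_mem_WA (fun e => hxy (g⁻¹.injective e)) (fun e => hcd (g⁻¹.injective e)) hxy' (hc'.trans hd'.symm))
    have h2 := G.mul_mem (G.mul_mem hg h1) (G.inv_mem hg)
    have e : g * (swap (g⁻¹ x) (g⁻¹ y) * swap (g⁻¹ c) (g⁻¹ d)) * g⁻¹ = swap x y * swap c d := by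
      have e1 : ∀ p q : Ω, g * swap (g⁻¹ p) (g⁻¹ q) * g⁻¹ = swap p q := by
        intro p q
        have := Equiv.mul_swap_eq_swap_mul g (g⁻¹ p) (g⁻¹ q)
        rw [this]; simp
      calc g * (swap (g⁻¹ x) (g⁻¹ y) * swap (g⁻¹ c) (g⁻¹ d)) * g⁻¹
          = (g * swap (g⁻¹ x) (g⁻¹ y) * g⁻¹) * (g * swap (g⁻¹ c) (g⁻¹ d) * g⁻¹) := by group
        _ = _ := by rw [e1, e1]
    rwa [e] at h2
  have hyu : y ≠ u := fun e => hm2 (by rw [e, hu])
  have hyv : y ≠ v := fun e => hm2 (by rw [e, hv])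
  have hx'u : x' ≠ u := fun e => hm1 (by rw [← hx', e, hu])
  have hx'v : x' ≠ v := fun e => hm1 (by rw [← hx', e, hv])
  have hxu : x ≠ u := fun e => hm1 (by rw [e, hu])
  have hxv : x ≠ v := fun e => hm1 (by rw [e, hv])
  have hyx' : y ≠ x' := fun e => hne (by rw [e, hx'])
  have hs1 : (swap x x' * swap u v) x = x' := by
    rw [mul_apply, swap_apply_of_ne_of_ne hxu hxv, swap_apply_left]
  have hs2 : (swap x x' * swap u v) y = y := by
    rw [mul_apply, swap_apply_of_ne_of_ne hyu hyv, swap_apply_of_ne_of_ne hxy.symm hyx']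
  have hs3 : ∀ z, f (g⁻¹ z) = l → m ≠ f z → (swap x x' * swap u v) z = z := by
    intro z hz hz'
    have h3 : swap u v z = z :=
      swap_apply_of_ne_of_ne (fun e => hz' (by rw [e, hu])) (fun e => hz' (by rw [e, hv]))
    rw [mul_apply, h3, swap_apply_of_ne_of_ne (fun e => hl1 (by rw [← hz, e])) (fun e => hl2 (by rw [← hz, e]))]
  obtain ⟨s, hs'⟩ : ∃ s, s = swap x x' * swap u v := ⟨_, rfl⟩
  rw [← hs'] at hs hs1 hs2 hs3
  have hconj : s * (swap x y * swap c d) * s⁻¹ = swap x' y * swap c d := by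
    have e1 : ∀ p q : Ω, s * swap p q * s⁻¹ = swap (s p) (s q) := by
      intro p q
      rw [Equiv.mul_swap_eq_swap_mul s p q]; simp
    calc s * (swap x y * swap c d) * s⁻¹ = (s * swap x y * s⁻¹) * (s * swap c d * s⁻¹) := by group
      _ = swap x' y * swap c d := by rw [e1, e1, hs1, hs2, hs3 c hc' hm3, hs3 d hd' hm4]
  refine ⟨swap y x' * swap y x, ?_, isThreeCycle_swap_mul_swap_same hyx' hxy.symm hx'x⟩
  have h3 := G.mul_mem (G.mul_mem (G.mul_mem hs ht) (G.inv_mem hs)) (G.inv_mem ht)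
  rw [hconj, mul_inv_rev, swap_inv, swap_inv] at h3
  have e : swap x' y * swap c d * (swap c d * swap x y) = swap y x' * swap y x := by
    rw [mul_assoc, ← mul_assoc (swap c d), swap_mul_self, one_mul, swap_comm x' y, swap_comm x y]
  rwa [e] at h3


theorem conj_swap_swap (g : Perm Ω) (x y c d : Ω) :
    g * (swap (g⁻¹ x) (g⁻¹ y) * swap (g⁻¹ c) (g⁻¹ d)) * g⁻¹ = swap x y * swap c d := by
  have e1 : ∀ p q : Ω, g * swap (g⁻¹ p) (g⁻¹ q) * g⁻¹ = swap p q := by
    intro p q
    have := Equiv.mul_swap_eq_swap_mul g (g⁻¹ p) (g⁻¹ q)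
    rw [this]; simp
  calc g * (swap (g⁻¹ x) (g⁻¹ y) * swap (g⁻¹ c) (g⁻¹ d)) * g⁻¹
      = (g * swap (g⁻¹ x) (g⁻¹ y) * g⁻¹) * (g * swap (g⁻¹ c) (g⁻¹ d) * g⁻¹) := by group
    _ = _ := by rw [e1, e1]

/-- swapping two blocks of size two -/
theorem block_swap_mem_WA (hf : ∀ i : Fin b, Nat.card {x : Ω // f x = i} = 2) {p q r s : Ω} (hpq : p ≠ q)
    (hrs : r ≠ s) (h1 : f p = f q) (h2 : f r = f s) (h3 : f p ≠ f r) :
    swap p r * swap q s ∈ W f ⊓ alternatingGroup Ω := by
  have hpr : p ≠ r := fun e => h3 (by rw [e])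
  have hqs : q ≠ s := fun e => h3 (by rw [h1, h2, e])
  have hps : p ≠ s := fun e => h3 (by rw [h2, e])
  have hqr : q ≠ r := fun e => h3 (by rw [h1, e])
  refine Subgroup.mem_inf.mpr ⟨?_, ?_⟩
  · apply mem_W_of_block (σ := swap (f p) (f r))
    intro u
    by_cases hup : u = p
    · subst hup
      rw [mul_apply, swap_apply_of_ne_of_ne hpq hps, swap_apply_left, swap_apply_left]
    by_cases huq : u = q
    · subst huq
      rw [mul_apply, swap_apply_left, swap_apply_of_ne_of_ne hps.symm hrs.symm, ← h1, swap_apply_left, h2]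
    by_cases hur : u = r
    · subst hur
      rw [mul_apply, swap_apply_of_ne_of_ne hqr.symm hrs, swap_apply_right, swap_apply_right]
    by_cases hus : u = s
    · subst hus
      rw [mul_apply, swap_apply_right, swap_apply_of_ne_of_ne hpq.symm hqr, ← h2, swap_apply_right, h1]
    · have h5 : f u ≠ f p := fun e => huq (partner_unique hf (x := p) e h1.symm hup hpq.symm)
      have h6 : f u ≠ f r := fun e => hus (partner_unique hf (x := r) e h2.symm hur hrs.symm)
      have h7 : swap q s u = u := swap_apply_of_ne_of_ne huq hus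
      rw [mul_apply, h7, swap_apply_of_ne_of_ne hup hur, swap_apply_of_ne_of_ne h5 h6]
  · rw [mem_alternatingGroup, sign_mul, sign_swap hpr, sign_swap hqs]
    rfl

theorem threeCycle_six {G : Subgroup (Perm Ω)} (hb : b = 3)
    (hf : ∀ i : Fin b, Nat.card {x : Ω // f x = i} = 2)
    (hG : W f ⊓ alternatingGroup Ω ≤ G) {g : Perm Ω} (hg : g ∈ G) (hgW : g ∉ W f) :
    ∃ c ∈ G, IsThreeCycle c := by
  subst hb
  have hgW' : g⁻¹ ∉ W f := fun h => hgW (by rw [← inv_inv g]; exact (W f).inv_mem h)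
  obtain ⟨c₀, d₀, hcd₀, hcd₀', hne⟩ := exists_diff hf hgW'
  rw [inv_inv] at hcd₀'
  have hpart : ∀ t : Ω, ∃ z, f z = f t ∧ z ≠ t := by
    intro t
    obtain ⟨u, v, huv, hu, hv⟩ := exists_pair le_rfl hf (f t)
    by_cases hux : u = t
    · exact ⟨v, hv, fun e => huv (by rw [hux, e])⟩
    · exact ⟨u, hu, hux⟩
  have hpart' : ∀ t : Ω, ∃ z, f (g⁻¹ z) = f (g⁻¹ t) ∧ z ≠ t := by
    intro t
    obtain ⟨z, hz, hzt⟩ := hpart (g⁻¹ t)
    exact ⟨g z, by simpa using hz, fun e => hzt (by rw [← e]; simp)⟩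
  obtain ⟨c, hc⟩ : ∃ c, c = g c₀ := ⟨_, rfl⟩
  obtain ⟨d, hd⟩ : ∃ d, d = g d₀ := ⟨_, rfl⟩
  have hcd : c ≠ d := by rw [hc, hd]; exact fun e => hcd₀ (g.injective e)
  have hfcd : f c = f d := by rw [hc, hd]; exact hcd₀'
  have hfcd' : f (g⁻¹ c) ≠ f (g⁻¹ d) := by rw [hc, hd]; simpa using hne
  obtain ⟨y, hy, hyc⟩ := hpart' c
  obtain ⟨z, hz, hzd⟩ := hpart' d
  have hyd : y ≠ d := fun e => hfcd' (by rw [← hy, e])
  have hzc : z ≠ c := fun e => hfcd' (by rw [← hz, e])
  have hyz : y ≠ z := fun e => hfcd' (by rw [← hy, ← hz, e])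
  have hfyc : f y ≠ f c := fun e => hyd (partner_unique hf (x := c) e hfcd.symm hyc hcd.symm)
  have hfzc : f z ≠ f c := fun e => hzc (partner_unique hf (x := d) (e.trans hfcd) hfcd hzd hcd)
  obtain ⟨x, hx, hxy⟩ := hpart y
  by_cases hxz : x = z
  · subst hxz
    obtain ⟨m, hm1, hm2⟩ := exists_label_ne (b := 3) le_rfl (f c) (f y)
    obtain ⟨e₁, e₂, he, he₁, he₂⟩ := exists_pair le_rfl hf m
    have key : ∀ e : Ω, f e = m → f (g⁻¹ e) ≠ f (g⁻¹ c) ∧ f (g⁻¹ e) ≠ f (g⁻¹ d) := by
      intro e he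
      have hec : e ≠ c := fun h => hm1 (by rw [← he, h])
      have hed : e ≠ d := fun h => hm1 (by rw [← he, h, hfcd])
      have hey : e ≠ y := fun h => hm2 (by rw [← he, h])
      have hex : e ≠ x := fun h => hm2 (by rw [← he, h, hx])
      constructor
      · intro h
        apply hey
        exact g⁻¹.injective (partner_unique hf (x := g⁻¹ c) h hy (fun h => hec (g⁻¹.injective h))
          (fun h => hyc (g⁻¹.injective h)))
      · intro h
        apply hex
        exact g⁻¹.injective (partner_unique hf (x := g⁻¹ d) h hz (fun h => hed (g⁻¹.injective h))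
          (fun h => hzd (g⁻¹.injective h)))
    have he' : f (g⁻¹ e₁) = f (g⁻¹ e₂) := by
      obtain ⟨h1, h2⟩ := key e₁ he₁
      obtain ⟨h3, h4⟩ := key e₂ he₂
      rw [Ne, Fin.ext_iff] at h1 h2 h3 h4 hfcd'
      rw [Fin.ext_iff]
      have := (f (g⁻¹ e₁)).2
      have := (f (g⁻¹ e₂)).2
      have := (f (g⁻¹ c)).2
      have := (f (g⁻¹ d)).2
      omega
    have hu : swap c d * swap e₁ e₂ ∈ G := hG (swap_swap_mem_WA hcd he hfcd (he₁.trans he₂.symm))
    have hv : swap e₁ e₂ * swap c y ∈ G := by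
      have h1 := hG (swap_swap_mem_WA (f := f) (x := g⁻¹ e₁) (x' := g⁻¹ e₂) (y := g⁻¹ c) (y' := g⁻¹ y)
        (fun e => he (g⁻¹.injective e)) (fun e => hyc (g⁻¹.injective e).symm) he' hy.symm)
      have h2 := G.mul_mem (G.mul_mem hg h1) (G.inv_mem hg)
      rwa [conj_swap_swap] at h2
    refine ⟨swap c d * swap c y, ?_, isThreeCycle_swap_mul_swap_same hcd hyc.symm hyd.symm⟩
    have h3 := G.mul_mem hu hv
    have e : swap c d * swap e₁ e₂ * (swap e₁ e₂ * swap c y) = swap c d * swap c y := by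
      rw [mul_assoc, ← mul_assoc (swap e₁ e₂), swap_mul_self, one_mul]
    rwa [e] at h3
  · have hu : swap x y * swap c d ∈ G := hG (swap_swap_mem_WA hxy hcd hx hfcd)
    have hv : swap c d * swap y z ∈ G := by
      have h1 := hG (block_swap_mem_WA hf (p := g⁻¹ c) (q := g⁻¹ y) (r := g⁻¹ d) (s := g⁻¹ z)
        (fun e => hyc (g⁻¹.injective e).symm) (fun e => hzd (g⁻¹.injective e).symm) hy.symm hz.symm hfcd')
      have h2 := G.mul_mem (G.mul_mem hg h1) (G.inv_mem hg)
      rwa [conj_swap_swap] at h2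
    refine ⟨swap y x * swap y z, ?_, isThreeCycle_swap_mul_swap_same hxy.symm hyz hxz⟩
    have h3 := G.mul_mem hu hv
    have e : swap x y * swap c d * (swap c d * swap y z) = swap y x * swap y z := by
      rw [mul_assoc, ← mul_assoc (swap c d), swap_mul_self, one_mul, swap_comm x y]
    rwa [e] at h3

theorem card_eq (hf : ∀ i : Fin b, Nat.card {x : Ω // f x = i} = a) : Fintype.card Ω = b * a := by
  rw [← Nat.card_eq_fintype_card, ← Nat.card_congr (Equiv.sigmaFiberEquiv f), Nat.card_sigma,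
    Finset.sum_congr rfl (fun i _ => hf i), Finset.sum_const, Finset.card_univ, Fintype.card_fin, smul_eq_mul]

theorem threeCycle_not_mem {x y z : Ω} (hxy : x ≠ y) (hfxy : f x = f y) (hfxz : f x ≠ f z) :
    swap x y * swap x z ∉ W f := by
  intro h
  have hxz : x ≠ z := fun e => hfxz (by rw [e])
  have hyz : y ≠ z := fun e => hfxz (by rw [hfxy, e])
  have h1 := (h x y).mp hfxy
  have e1 : (swap x y * swap x z) x = z := by
    rw [mul_apply, swap_apply_left, swap_apply_of_ne_of_ne hxz.symm hyz.symm]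
  have e2 : (swap x y * swap x z) y = x := by
    rw [mul_apply, swap_apply_of_ne_of_ne hxy.symm hyz, swap_apply_right]
  rw [e1, e2] at h1
  exact hfxz h1.symm

theorem isCoatom_four (h4 : Fintype.card Ω = 4) {V : Subgroup (alternatingGroup Ω)} (hV : V ≠ ⊤)
    (hle : alternatingGroup.kleinFour Ω ≤ V) : IsCoatom V := by
  have hc4 : Nat.card Ω = 4 := by rw [Nat.card_eq_fintype_card]; exact h4
  have hc := alternatingGroup.kleinFour_card_of_card_eq_four hc4
  have hA := alternatingGroup.card_of_card_eq_four hc4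
  have hidx : (alternatingGroup.kleinFour Ω).index = 3 := by
    have := (alternatingGroup.kleinFour Ω).index_mul_card
    rw [hA, hc] at this
    omega
  have key : ∀ L : Subgroup (alternatingGroup Ω), alternatingGroup.kleinFour Ω ≤ L → L = ⊤ ∨ Nat.card L = 4 := by
    intro L hL
    have h1 := Subgroup.index_dvd_of_le hL
    rw [hidx] at h1
    rcases (Nat.dvd_prime Nat.prime_three).mp h1 with h2 | h2
    · left; exact Subgroup.index_eq_one.mp h2
    · right
      have := L.index_mul_card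
      rw [hA, h2] at this
      omega
  refine ⟨hV, fun L hL => ?_⟩
  rcases key L (hle.trans hL.le) with h1 | h1
  · exact h1
  · rcases key V hle with h2 | h2
    · exact absurd h2 hV
    · exact absurd (Subgroup.eq_of_le_of_card_ge hL.le (by rw [h1, h2])) hL.ne

theorem isCoatom_WA (h8 : Fintype.card Ω ≠ 8) (ha : 2 ≤ a) (hb : 2 ≤ b)
    (hf : ∀ i : Fin b, Nat.card {x : Ω // f x = i} = a) :
    IsCoatom ((W f ⊓ alternatingGroup Ω).subgroupOf (alternatingGroup Ω)) := by
  have h2 := exists_pair ha hf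
  have hcard := card_eq hf
  obtain ⟨x, y, hxy, hx, hy⟩ := h2 ⟨0, by omega⟩
  obtain ⟨z, -, -, hz, -⟩ := h2 ⟨1, by omega⟩
  have hfxz : f x ≠ f z := by rw [hx, hz]; simp
  have hxz : x ≠ z := fun e => hfxz (by rw [e])
  have hfxy : f x = f y := hx.trans hy.symm
  have hne : (W f ⊓ alternatingGroup Ω).subgroupOf (alternatingGroup Ω) ≠ ⊤ := by
    intro h
    have h3 : swap x y * swap x z ∈ alternatingGroup Ω := by
      rw [mem_alternatingGroup, sign_mul, sign_swap hxy, sign_swap hxz]; rfl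
    have h4 : (⟨_, h3⟩ : alternatingGroup Ω) ∈ (W f ⊓ alternatingGroup Ω).subgroupOf (alternatingGroup Ω) := by
      rw [h]; exact Subgroup.mem_top _
    exact threeCycle_not_mem hxy hfxy hfxz (Subgroup.mem_inf.mp (Subgroup.mem_subgroupOf.mp h4)).1
  by_cases h22 : a = 2 ∧ b = 2
  · obtain ⟨rfl, rfl⟩ := h22
    have h4 : Fintype.card Ω = 4 := by rw [hcard]
    have hc4 : Nat.card Ω = 4 := by rw [Nat.card_eq_fintype_card]; exact h4
    apply isCoatom_four h4 hne
    intro g hg
    rw [Subgroup.mem_subgroupOf]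
    refine Subgroup.mem_inf.mpr ⟨?_, g.2⟩
    have h5 : (g : alternatingGroup Ω) ∈ (alternatingGroup.kleinFour Ω : Set (alternatingGroup Ω)) := hg
    rw [alternatingGroup.coe_kleinFour_of_card_eq_four hc4] at h5
    have h6 : (g : Perm Ω) = 1 ∨ ((∀ t, (g : Perm Ω) t ≠ t) ∧ ∀ t, (g : Perm Ω) ((g : Perm Ω) t) = t) := by
      rcases h5 with h5 | h5
      · left
        rw [Set.mem_singleton_iff.mp h5]; rfl
      · right
        have h5' : (g : Perm Ω).cycleType = {2, 2} := h5
        have hsupp : (g : Perm Ω).support = Finset.univ := by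
          rw [← Finset.card_eq_iff_eq_univ, ← Equiv.Perm.sum_cycleType, h5', h4]
          rfl
        have hord : orderOf (g : Perm Ω) = 2 := by
          rw [← Equiv.Perm.lcm_cycleType, h5']
          rfl
        refine ⟨fun t => ?_, fun t => ?_⟩
        · have : t ∈ (g : Perm Ω).support := by rw [hsupp]; exact Finset.mem_univ _
          exact Equiv.Perm.mem_support.mp this
        · have : (g : Perm Ω) ^ 2 = 1 := by rw [← hord]; exact pow_orderOf_eq_one _
          rw [← mul_apply, ← pow_two, this]; rfl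
    rcases h6 with h6 | ⟨h6, h7⟩
    · rw [h6]; exact (W f).one_mem
    · have key : ∀ s t : Ω, f s = f t → f ((g : Perm Ω) s) = f ((g : Perm Ω) t) := by
        intro s t hst
        by_cases he : s = t
        · rw [he]
        by_cases hgs : (g : Perm Ω) s = t
        · have hgt : (g : Perm Ω) t = s := by rw [← hgs, h7]
          rw [hgs, hgt, hst]
        · have h8 : f ((g : Perm Ω) s) ≠ f s := fun e =>
            hgs (partner_unique hf (x := s) e hst.symm (h6 s) (Ne.symm he))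
          have hgt : (g : Perm Ω) t ≠ s := fun e => hgs (by rw [← e, h7])
          have h9 : f ((g : Perm Ω) t) ≠ f t := fun e =>
            hgt (partner_unique hf (x := t) e hst (h6 t) he)
          rw [Ne, Fin.ext_iff] at h8 h9
          rw [Fin.ext_iff] at hst ⊢
          have := (f ((g : Perm Ω) s)).2
          have := (f ((g : Perm Ω) t)).2
          have := (f s).2
          have := (f t).2
          omega
      intro s t
      refine ⟨key s t, fun h => ?_⟩
      have := key _ _ h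
      rwa [h7, h7] at this
  · refine ⟨hne, fun L hL => ?_⟩
    obtain ⟨G, hGe⟩ : ∃ G, G = L.map (alternatingGroup Ω).subtype := ⟨_, rfl⟩
    have hGA : G ≤ alternatingGroup Ω := by rw [hGe]; exact Subgroup.map_subtype_le _
    have hWG : W f ⊓ alternatingGroup Ω ≤ G := by
      intro g hg
      rw [hGe]
      exact ⟨⟨g, hg.2⟩, hL.le (Subgroup.mem_subgroupOf.mpr hg), rfl⟩
    have hGW : ¬ G ≤ W f := by
      intro h
      apply not_le_of_gt hL
      intro g hg
      rw [Subgroup.mem_subgroupOf]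
      exact Subgroup.mem_inf.mpr ⟨h (by rw [hGe]; exact ⟨g, hg, rfl⟩), g.2⟩
    have hprim := ((enough_of_WA_le ha hb h22 hf hWG).le_or_prim h2 hb).resolve_left hGW
    obtain ⟨g, hg, hgW⟩ := SetLike.not_le_iff_exists.mp hGW
    obtain ⟨c, hc, hc3⟩ : ∃ c ∈ G, IsThreeCycle c := by
      by_cases ha2 : a = 2
      · subst ha2
        have hb2 : b ≠ 2 := fun h => h22 ⟨rfl, h⟩
        have hb4 : b ≠ 4 := by
          rintro rfl
          exact h8 hcard
        by_cases hb3 : b = 3
        · exact threeCycle_six hb3 hf hWG hg hgW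
        · exact threeCycle_big (by omega) hf hWG hg hgW
      · obtain ⟨w, hw, hwx, hwy⟩ := exists_third (by omega) hf (f x) x y
        exact ⟨swap x y * swap x w, hWG (swap_swap_mem_WA hxy hwx.symm hfxy hw.symm),
          isThreeCycle_swap_mul_swap_same hxy hwx.symm hwy.symm⟩
    have hAG := alternatingGroup_le_of_isPreprimitive_of_isThreeCycle_mem hprim hc3 hc
    rw [eq_top_iff]
    intro g _
    have h3 : (g : Perm Ω) ∈ G := hAG g.2
    rw [hGe] at h3
    obtain ⟨g', hg', hgg⟩ := h3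
    have : g' = g := Subtype.ext hgg
    rwa [← this]

end Cfsg.Agent.H14.Imp
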