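import Mathlib
import Cfsg.Prelude.Def_OddOrderLocal
import Cfsg.Agent.H1.SchurZassenhausConj
import Cfsg.Agent.FT

set_option autoImplicit false

/-! Hall subgroups of `π`-separable groups (via the odd order theorem). -/

namespace Cfsg.Agent.H14.Pi

open Subgroup

universe u

def PN (π : Set ℕ) (n : ℕ) : Prop := ∀ q : ℕ, q.Prime → q ∣ n → q ∈ π
def PN' (π : Set ℕ) (n : ℕ) : Prop := ∀ q : ℕ, q.Prime → q ∣ n → q ∉ π

theorem coprime_of {π : Set ℕ} {a b : ℕ} (ha : PN π a) (hb : PN' π b) : a.Coprime b := by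
  by_contra h
  obtain ⟨q, hq, h1, h2⟩ := Nat.Prime.not_coprime_iff_dvd.1 h
  exact hb q hq h2 (ha q hq h1)

/-- `D_π` -/
def DPi (π : Set ℕ) (G : Type u) [Group G] : Prop :=
  ∃ K : Subgroup G, Cfsg.IsPiHall π K ∧ ∀ U : Subgroup G, PN π (Nat.card U) →
    ∃ g : G, U ≤ K.map (MulAut.conj g).toMonoidHom

theorem solvable_or {A B : Type*} [Group A] [Group B] [Finite A] [Finite B]
    (h : (Nat.card A).Coprime (Nat.card B)) : Group.IsSolvable A ∨ Group.IsSolvable B := by
  by_cases h2 : Odd (Nat.card A)
  · exact Or.inl (FT.odd_order h2)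
  · right
    apply FT.odd_order
    rw [← Nat.not_even_iff_odd]
    intro h3
    rw [Nat.not_odd_iff_even] at h2
    have := Nat.dvd_gcd h2.two_dvd h3.two_dvd
    rw [h] at this
    omega

theorem dpi_of_quot {π : Set ℕ} {G : Type u} [Group G] [Finite G] (N : Subgroup G) [hNn : N.Normal]
    (hN : PN π (Nat.card N) ∨ PN' π (Nat.card N)) (h : DPi π (G ⧸ N)) : DPi π G := by
  obtain ⟨K', ⟨hK1, hK2⟩, hK3⟩ := h
  set f := QuotientGroup.mk' N with hf
  have hfs : Function.Surjective f := QuotientGroup.mk'_surjective N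
  set M := K'.comap f with hM
  have hNM : N ≤ M := by
    intro x hx
    change f x ∈ K'
    have : f x = 1 := (QuotientGroup.eq_one_iff x).2 hx
    rw [this]; exact one_mem _
  have hMi : M.index = K'.index := Subgroup.index_comap_of_surjective K' hfs
  have hMK : M.map f = K' := Subgroup.map_comap_eq_self_of_surjective hfs K'
  -- card M = card N * card K'
  have hMc : Nat.card M = Nat.card N * Nat.card K' := by
    have h1 := Subgroup.card_mul_index M
    have h2 := Subgroup.card_mul_index K'
    have h3 := Subgroup.card_eq_card_quotient_mul_card_subgroup N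
    have h4 : 0 < K'.index := Nat.pos_of_ne_zero Subgroup.index_ne_zero_of_finite
    apply Nat.eq_of_mul_eq_mul_right h4
    rw [← hMi, h1, h3, mul_assoc, hMi, h2, mul_comm]
  have hU : ∀ U : Subgroup G, PN π (Nat.card U) → ∃ g : G, U ≤ M.map (MulAut.conj g).toMonoidHom := by
    intro U hU
    obtain ⟨g', hg'⟩ := hK3 (U.map f) (fun q hq hd => hU q hq (hd.trans (U.card_map_dvd f)))
    obtain ⟨g, rfl⟩ := hfs g'
    refine ⟨g, fun u hu => ?_⟩
    obtain ⟨k, hk, hku⟩ := hg' ⟨u, hu, rfl⟩
    refine ⟨g⁻¹ * u * g, ?_, by simp [mul_assoc]⟩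
    change f (g⁻¹ * u * g) ∈ K'
    have h1 : f g * k * (f g)⁻¹ = f u := hku
    rw [map_mul, map_mul, map_inv, ← h1]
    have : (f g)⁻¹ * (f g * k * (f g)⁻¹) * f g = k := by group
    rw [this]; exact hk
  rcases hN with hN | hN
  · refine ⟨M, ⟨?_, ?_⟩, hU⟩
    · intro q hq hd
      rw [hMc] at hd
      rcases (hq.dvd_mul).1 hd with h1 | h1
      · exact hN q hq h1
      · exact hK1 q hq h1
    · intro q hq hqπ
      rw [hMi]; exact hK2 q hq hqπ
  · have hcop : (Nat.card N).Coprime (Nat.card K') := (coprime_of (fun q hq h => hK1 q hq h) hN).symm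
    -- a complement in `M`
    set N₁ := N.subgroupOf M with hN₁
    have hN₁c : Nat.card N₁ = Nat.card N := Nat.card_congr (subgroupOfEquivOfLe hNM).toEquiv
    have hN₁i : N₁.index = Nat.card K' := by
      have h1 := Subgroup.card_mul_index N₁
      rw [hN₁c, hMc] at h1
      exact Nat.eq_of_mul_eq_mul_left Nat.card_pos h1
    obtain ⟨C, hC⟩ := Subgroup.exists_right_complement'_of_coprime (N := N₁) (by rw [hN₁c, hN₁i]; exact hcop)
    set K := C.map M.subtype with hK
    have hKM : K ≤ M := map_subtype_le C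
    have hKc : Nat.card K = Nat.card K' := by
      rw [hK, Subgroup.card_map_of_injective M.subtype_injective]
      have h1 := hC.card_mul
      have h2 := Subgroup.card_mul_index N₁
      rw [← h1, hN₁i] at h2
      exact (Nat.eq_of_mul_eq_mul_left Nat.card_pos h2).symm
    have hKi : K.index = Nat.card N * K'.index := by
      have h1 := Subgroup.card_mul_index K
      have h2 := Subgroup.card_mul_index M
      rw [hMi, hMc] at h2
      rw [hKc, ← h2] at h1
      apply Nat.eq_of_mul_eq_mul_left (Nat.card_pos (α := K'))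
      rw [h1]; ring
    refine ⟨K, ⟨?_, ?_⟩, ?_⟩
    · intro q hq hd
      rw [hKc] at hd; exact hK1 q hq hd
    · intro q hq hqπ hd
      rw [hKi] at hd
      rcases (hq.dvd_mul).1 hd with h1 | h1
      · exact hN q hq h1 hqπ
      · exact hK2 q hq hqπ h1
    · intro U hUπ
      obtain ⟨g, hg⟩ := hU U hUπ
      -- conjugate into `M`
      set U' := U.map (MulAut.conj g⁻¹).toMonoidHom with hU'
      have hU'M : U' ≤ M := by
        rintro _ ⟨u, hu, rfl⟩
        obtain ⟨m, hm, hmu⟩ := hg hu
        have h1 : g * m * g⁻¹ = u := hmu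
        change g⁻¹ * u * g⁻¹⁻¹ ∈ M
        rw [← h1]
        have : g⁻¹ * (g * m * g⁻¹) * g⁻¹⁻¹ = m := by group
        rw [this]; exact hm
      have hU'c : Nat.card U' = Nat.card U :=
        Subgroup.card_map_of_injective (MulAut.conj g⁻¹).injective
      set X := U' ⊔ N with hX
      have hXM : X ≤ M := sup_le hU'M hNM
      set N₂ := N.subgroupOf X with hN₂
      have hNX : N ≤ X := le_sup_right
      have hN₂c : Nat.card N₂ = Nat.card N := Nat.card_congr (subgroupOfEquivOfLe hNX).toEquiv
      have hcopU : (Nat.card U').Coprime (Nat.card N) := by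
        rw [hU'c]; exact coprime_of hUπ hN
      have hinf : U' ⊓ N = ⊥ := Subgroup.inf_eq_bot_of_coprime hcopU
      have hXc : Nat.card X = Nat.card U' * Nat.card N := by
        have h1 := Subgroup.card_mul_index (N.subgroupOf X)
        have h2 : (N.subgroupOf X).index = N.relIndex X := rfl
        have h3 : N.relIndex X = N.relIndex U' := Subgroup.relIndex_sup_right U' N
        have h4 : N.relIndex U' = Nat.card U' := by
          have h5 := Subgroup.card_mul_index (N.subgroupOf U')
          have h6 : N.subgroupOf U' = ⊥ := by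
            rw [Subgroup.subgroupOf_eq_bot, disjoint_iff, inf_comm]; exact hinf
          rw [h6] at h5
          rw [Subgroup.relIndex, h6]
          simpa using h5
        rw [h2, h3, h4, hN₂c] at h1
        rw [← h1, mul_comm]
      have hN₂i : N₂.index = Nat.card U' := by
        have h1 := Subgroup.card_mul_index N₂
        rw [hN₂c, hXc, mul_comm] at h1
        exact Nat.eq_of_mul_eq_mul_right Nat.card_pos h1
      -- `K ⊓ X`
      have hKN : K ⊔ N = M := by
        apply le_antisymm (sup_le hKM hNM)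
        have h1 := hC.sup_eq_top
        have h2 := congrArg (Subgroup.map M.subtype) h1
        rw [Subgroup.map_sup, ← MonoidHom.range_eq_map, Subgroup.range_subtype,
          map_subgroupOf_eq_of_le hNM] at h2
        rw [← h2, sup_comm]
      have hKXN : (K ⊓ X) ⊔ N = X := by
        apply le_antisymm (sup_le inf_le_right hNX)
        intro x hx
        have h1 : x ∈ K ⊔ N := by rw [hKN]; exact hXM hx
        obtain ⟨k, hk, n, hn, rfl⟩ := (Subgroup.mem_sup_of_normal_right).1 h1
        have h2 : k ∈ X := by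
          have := mul_mem hx (inv_mem (hNX hn))
          rwa [mul_inv_cancel_right] at this
        exact mul_mem (mem_sup_left ⟨hk, h2⟩) (mem_sup_right hn)
      have hKinf : (K ⊓ X) ⊓ N = ⊥ := by
        apply Subgroup.inf_eq_bot_of_coprime
        have h1 : Nat.card (K ⊓ X : Subgroup G) ∣ Nat.card K := Subgroup.card_dvd_of_le inf_le_left
        rw [hKc] at h1
        exact Nat.Coprime.coprime_dvd_left h1 hcop.symm
      have hKXc : Nat.card (K ⊓ X : Subgroup G) = Nat.card U' := by
        have h3 : N.relIndex ((K ⊓ X) ⊔ N) = N.relIndex (K ⊓ X) := Subgroup.relIndex_sup_right (K ⊓ X) N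
        rw [hKXN] at h3
        have h4 : N.relIndex (K ⊓ X) = Nat.card (K ⊓ X : Subgroup G) := by
          have h5 := Subgroup.card_mul_index (N.subgroupOf (K ⊓ X))
          have h6 : N.subgroupOf (K ⊓ X) = ⊥ := by
            rw [Subgroup.subgroupOf_eq_bot, disjoint_iff, inf_comm]; exact hKinf
          rw [h6] at h5
          rw [Subgroup.relIndex, h6]
          simpa using h5
        rw [← h4, ← h3]
        exact hN₂i
      have hsol : Group.IsSolvable N₂ ∨ Group.IsSolvable (X ⧸ N₂) := by
        apply solvable_or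
        rw [hN₂c]
        have : Nat.card (X ⧸ N₂) = Nat.card U' := hN₂i
        rw [this]; exact hcopU.symm
      obtain ⟨x, _, hx⟩ := H1.sz_conj_mem N₂ (by rw [hN₂c, hN₂i]; exact hcopU.symm) hsol
        ((K ⊓ X).subgroupOf X) (U'.subgroupOf X)
        (by rw [Nat.card_congr (subgroupOfEquivOfLe (inf_le_right : K ⊓ X ≤ X)).toEquiv, hKXc, hN₂i])
        (by rw [Nat.card_congr (subgroupOfEquivOfLe (le_sup_left : U' ≤ X)).toEquiv, hN₂i])
      refine ⟨g * x, fun u hu => ?_⟩
      have h1 : g⁻¹ * u * g ∈ U' := ⟨u, hu, by simp⟩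
      have h2 : (⟨g⁻¹ * u * g, le_sup_left (a := U') h1⟩ : X) ∈ U'.subgroupOf X := h1
      rw [← hx, Subgroup.mem_smul_pointwise_iff_exists] at h2
      obtain ⟨k, hk, hku⟩ := h2
      have h3 : (x : G) * k * (x : G)⁻¹ = g⁻¹ * u * g := congrArg Subtype.val hku
      refine ⟨k, hk.1, ?_⟩
      change g * x * k * (g * x)⁻¹ = u
      calc g * x * k * (g * x)⁻¹ = g * (x * k * (x : G)⁻¹) * g⁻¹ := by group
        _ = u := by rw [h3]; group

/-- the chain -/
def Chain (π : Set ℕ) (G : Type u) [Group G] (n : ℕ) (H : Fin (n + 1) → Subgroup G) : Prop :=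
  H 0 = ⊥ ∧ H (Fin.last n) = ⊤ ∧ Monotone H ∧ (∀ i, (H i).Normal) ∧
    ∀ i : Fin n, PN π ((H i.castSucc).relIndex (H i.succ)) ∨ PN' π ((H i.castSucc).relIndex (H i.succ))

theorem dpi_of_chain (π : Set ℕ) : ∀ (n : ℕ) (G : Type u) [Group G] [Finite G]
    (H : Fin (n + 1) → Subgroup G), Chain π G n H → DPi π G := by
  intro n
  induction n with
  | zero =>
    rintro G _ _ H ⟨h0, h1, -⟩
    have htop : (⊤ : Subgroup G) = ⊥ := by rw [← h0, ← h1]; rfl
    have hsub : ∀ U : Subgroup G, U = ⊥ := fun U => le_bot_iff.1 (le_top.trans htop.le)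
    refine ⟨⊥, ⟨?_, ?_⟩, fun U _ => ⟨1, by rw [hsub U]; exact bot_le⟩⟩
    · intro q hq hd
      rw [Subgroup.card_bot] at hd
      exact absurd (Nat.dvd_one.1 hd) hq.one_lt.ne'
    · intro q hq _ hd
      rw [← htop, Subgroup.index_top] at hd
      exact absurd (Nat.dvd_one.1 hd) hq.one_lt.ne'
  | succ n ih =>
    rintro G _ _ H ⟨h0, h1, hmono, hnorm, hidx⟩
    set N := H 1 with hN
    haveI : N.Normal := hnorm 1
    set f := QuotientGroup.mk' N with hf
    have hfs : Function.Surjective f := QuotientGroup.mk'_surjective N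
    apply dpi_of_quot N
    · have := hidx 0
      have e1 : H (Fin.castSucc (0 : Fin (n + 1))) = ⊥ := h0
      have e2 : H (Fin.succ (0 : Fin (n + 1))) = N := rfl
      rw [e1, e2, Subgroup.relIndex_bot_left] at this
      exact this
    · apply ih (G ⧸ N) (fun i => (H i.succ).map f)
      refine ⟨?_, ?_, ?_, ?_, ?_⟩
      · change (H (Fin.succ 0)).map f = ⊥
        have e2 : H (Fin.succ (0 : Fin (n + 1))) = N := rfl
        rw [e2, Subgroup.map_eq_bot_iff, hf, QuotientGroup.ker_mk']
      · change (H (Fin.last n).succ).map f = ⊤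
        rw [Fin.succ_last, h1]
        exact Subgroup.map_top_of_surjective f hfs
      · intro i j hij
        exact Subgroup.map_mono (hmono (Fin.succ_le_succ_iff.2 hij))
      · intro i
        exact (hnorm _).map f hfs
      · intro i
        have hle : N ≤ H i.castSucc.succ := by
          apply hmono
          rw [← Fin.succ_zero_eq_one]
          exact Fin.succ_le_succ_iff.2 (Fin.zero_le _)
        have key : ((H i.castSucc.succ).map f).relIndex ((H i.succ.succ).map f) =
            (H i.castSucc.succ).relIndex (H i.succ.succ) := by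
          rw [← Subgroup.relIndex_comap, Subgroup.comap_map_eq, hf, QuotientGroup.ker_mk',
            sup_eq_left.2 hle]
        change PN π (((H i.castSucc.succ).map f).relIndex ((H i.succ.succ).map f)) ∨
          PN' π (((H i.castSucc.succ).map f).relIndex ((H i.succ.succ).map f))
        rw [key]
        have := hidx i.succ
        rw [← Fin.succ_castSucc] at this
        exact this

theorem main {G : Type u} [Group G] [Finite G] {π : Set ℕ} (h : DPi π G) :
    (∃ K : Subgroup G, Cfsg.IsPiHall π K) ∧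
      (∀ K L : Subgroup G, Cfsg.IsPiHall π K → Cfsg.IsPiHall π L → ∃ g : G, L = K.map (MulAut.conj g).toMonoidHom) ∧
      ∀ U : Subgroup G, PN π (Nat.card U) → ∃ K : Subgroup G, Cfsg.IsPiHall π K ∧ U ≤ K := by
  obtain ⟨K, hK, hU⟩ := h
  have hcj : ∀ g : G, Cfsg.IsPiHall π (K.map (MulAut.conj g).toMonoidHom) := by
    intro g
    have hc : Nat.card (K.map (MulAut.conj g).toMonoidHom) = Nat.card K :=
      Subgroup.card_map_of_injective (MulAut.conj g).injective
    refine ⟨by rw [hc]; exact hK.1, ?_⟩
    have h1 := Subgroup.card_mul_index K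
    have h2 := Subgroup.card_mul_index (K.map (MulAut.conj g).toMonoidHom)
    rw [hc, ← h1] at h2
    have h3 := Nat.eq_of_mul_eq_mul_left Nat.card_pos h2
    rw [h3]; exact hK.2
  -- Hall subgroups have the same order
  have hcard : ∀ L : Subgroup G, Cfsg.IsPiHall π L → Nat.card L = Nat.card K := by
    intro L hL
    have cop : ∀ A B : Subgroup G, Cfsg.IsPiHall π A → Cfsg.IsPiHall π B → Nat.card A ∣ Nat.card B := by
      intro A B hA hB
      have h1 : Nat.card A ∣ Nat.card B * B.index := by
        rw [Subgroup.card_mul_index]; exact Subgroup.card_subgroup_dvd_card A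
      exact (coprime_of (π := π) hA.1 (fun q hq hd hqπ => hB.2 q hq hqπ hd)).dvd_of_dvd_mul_right h1
    exact Nat.dvd_antisymm (cop L K hL hK) (cop K L hK hL)
  refine ⟨⟨K, hK⟩, ?_, ?_⟩
  · have h1 : ∀ L : Subgroup G, Cfsg.IsPiHall π L → ∃ g : G, L = K.map (MulAut.conj g).toMonoidHom := by
      intro L hL
      obtain ⟨g, hg⟩ := hU L hL.1
      refine ⟨g, eq_of_le_of_card_ge hg ?_⟩
      rw [hcard L hL]
      exact (Subgroup.card_map_of_injective (MulAut.conj g).injective).le
    intro A B hA hB
    obtain ⟨a, ha⟩ := h1 A hA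
    obtain ⟨b, hb⟩ := h1 B hB
    refine ⟨b * a⁻¹, ?_⟩
    rw [hb, ha, Subgroup.map_map]
    congr 1
    ext x
    simp [mul_assoc]
  · intro U hU'
    obtain ⟨g, hg⟩ := hU U hU'
    exact ⟨_, hcj g, hg⟩

end Cfsg.Agent.H14.Pi
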