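import Cfsg.Agent.H7.PQBlk
import Cfsg.Agent.H11.PF2
import Cfsg.Agent.H14.PiSep

set_option autoImplicit false
set_option linter.unusedSectionVars false

/-! Characters of `p'`-degree and of `q'`-degree. -/

namespace Cfsg.Agent.H14.PB

open Subgroup Cfsg Cfsg.Agent.H3 Cfsg.Agent.H27
open scoped ComplexConjugate

universe u

variable {X : Type u} [Group X] [Finite X] {p q : ℕ} [hp : Fact p.Prime] [hq : Fact q.Prime]

theorem over_trans {G : Type u} [Group G] [Fintype G] {K N : Subgroup G} [Fintype K] [Fintype N]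
    (h : N ≤ K) {χ : G → ℂ} (hχ : IsCharacter G χ) {ψ : K → ℂ} (hψ : IsIrrCharacter K ψ)
    {θ : N → ℂ} (hθ : IsIrrCharacter N θ) (h1 : classInner (fun k : K => χ k) ψ ≠ 0)
    (h2 : classInner (fun n : N => ψ ⟨n, h n.2⟩) θ ≠ 0) :
    classInner (fun n : N => χ n) θ ≠ 0 := by
  let ι : N →* K := inclusion h
  have c1 : IsCharacter K ((fun t : K => χ t) - ψ) :=
    isChar_sub_irr (isChar_restrict K hχ) hψ h1
  obtain ⟨n, hn⟩ := classInner_char_nat (isChar_comp c1 ι) (irr_isChar hθ)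
  obtain ⟨m, hm⟩ := classInner_char_nat (isChar_comp (irr_isChar hψ) ι) (irr_isChar hθ)
  have e1 : (fun n : N => ((fun t : K => χ t) - ψ) (ι n)) =
      (fun h : N => χ h) - (fun n : N => ψ ⟨(n : G), h n.2⟩) := rfl
  have e2 : classInner (fun n : N => ψ ⟨(n : G), h n.2⟩) θ = m := hm
  rw [e1, classInner_sub_left] at hn
  rw [e2] at hn h2
  intro h0
  rw [h0] at hn
  have h3 : ((n + m : ℕ) : ℂ) = 0 := by push_cast; linear_combination -hn
  rw [Nat.cast_eq_zero] at h3
  have h4 : m = 0 := by omega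
  rw [h4] at h2
  simp at h2

theorem exists_over [Fintype X] (K : Subgroup X) [Fintype K] (hidx : ¬ p ∣ K.index)
    {ψ : K → ℂ} (hψ : IsIrrCharacter K ψ) {d : ℕ} (hd : ψ 1 = d) (hpd : ¬ p ∣ d) :
    ∃ χ : IrrCharacter X, ¬ p ∣ charDegree (χ : X → ℂ) ∧
      classInner (fun y : K => (χ : X → ℂ) y) ψ ≠ 0 := by
  classical
  haveI := Fintype.ofFinite (IrrCharacter X)
  by_contra hcon
  push Not at hcon
  have hind := isChar_ind K (irr_isChar hψ)
  have h2 := classFun_expand_apply (char_classFun hind) 1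
  rw [indFun_one_apply, hd] at h2
  have hn : ∀ χ : IrrCharacter X, ∃ n : ℕ, classInner (indFun K ψ) (χ : X → ℂ) = n :=
    fun χ => classInner_char_nat hind (irr_isChar χ.2)
  choose m hm using hn
  have h3 : K.index * d = ∑ χ : IrrCharacter X, m χ * charDegree (χ : X → ℂ) := by
    have : ((K.index * d : ℕ) : ℂ) =
        ((∑ χ : IrrCharacter X, m χ * charDegree (χ : X → ℂ) : ℕ) : ℂ) := by
      push_cast
      rw [h2]
      refine Finset.sum_congr rfl fun χ _ => ?_
      rw [hm, charDegree_cast (irr_isChar χ.2)]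
    exact_mod_cast this
  have h6 : p ∣ K.index * d := by
    rw [h3]
    refine Finset.dvd_sum fun χ _ => ?_
    by_cases hd : p ∣ charDegree (χ : X → ℂ)
    · exact hd.mul_left _
    · have h4 := hcon χ hd
      rw [← frobenius_reciprocity' _ _ (irr_classFun χ.2)] at h4
      have h5 : classInner (indFun K ψ) (χ : X → ℂ) = 0 := by
        rw [← classInner_conj_symm, h4, map_zero]
      rw [hm] at h5
      have : m χ = 0 := by exact_mod_cast h5
      rw [this, zero_mul]; exact dvd_zero p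
  rcases hp.out.dvd_mul.1 h6 with h7 | h7
  · exact hidx h7
  · exact hpd h7

/-- the main character-theoretic step -/
theorem not_dvd_inertia {M K : Subgroup X} (hM : M.Normal) (hMK : M ≤ K) (hidx : ¬ p ∣ K.index)
    {θ : M → ℂ} (hθ : IsIrrCharacter M θ) {ψ : K → ℂ} (hψ : IsIrrCharacter K ψ) {d : ℕ}
    (hd : ψ 1 = d) (hpd : ¬ p ∣ d) (hres : ∀ m : M, ψ ⟨m, hMK m.2⟩ = θ m)
    (hyp : ∀ χ : IrrCharacter X, ¬ p ∣ charDegree (χ : X → ℂ) → ¬ q ∣ charDegree (χ : X → ℂ)) :
    ¬ q ∣ (inertia hM θ).index := by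
  classical
  haveI := Fintype.ofFinite X
  haveI := Fintype.ofFinite K
  haveI := Fintype.ofFinite M
  obtain ⟨χ, h1, h2⟩ := exists_over K hidx hψ hd hpd
  have h3 : classInner (fun n : M => (χ : X → ℂ) n) θ ≠ 0 := by
    refine over_trans hMK (irr_isChar χ.2) hψ hθ h2 ?_
    have : (fun n : M => ψ ⟨n, hMK n.2⟩) = θ := funext hres
    rw [this]
    have h4 := classInner_self_of_irr hθ
    rw [h4]
    exact one_ne_zero
  have h4 := clifford_degree hM χ.2 hθ h3
  obtain ⟨e, he⟩ := classInner_char_nat (isChar_restrict M (irr_isChar χ.2)) (irr_isChar hθ)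
  obtain ⟨t, ht0, ht⟩ := irr_one_eq_nat hθ
  intro hdvd
  apply hyp χ h1
  have h5 : charDegree (χ : X → ℂ) = e * (inertia hM θ).index * t := by
    have : (charDegree (χ : X → ℂ) : ℂ) = ((e * (inertia hM θ).index * t : ℕ) : ℂ) := by
      rw [charDegree_cast (irr_isChar χ.2), h4, he, ht]
      push_cast
      ring
    exact_mod_cast this
  rw [h5]
  exact (hdvd.mul_left e).mul_right t

/-- extension of invariant characters of normal Hall subgroups of subgroups -/
theorem exists_ext {M K : Subgroup X} (hM : M.Normal) (hMK : M ≤ K)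
    (hcop : Nat.Coprime (Nat.card M) (M.relIndex K)) {θ : M → ℂ} (hθ : IsIrrCharacter M θ)
    (hinv : K ≤ inertia hM θ) :
    ∃ ψ : K → ℂ, IsIrrCharacter K ψ ∧ ∀ n : M, ψ ⟨n, hMK n.2⟩ = θ n := by
  classical
  haveI : Fintype K := Fintype.ofFinite K
  haveI : Fintype M := Fintype.ofFinite M
  haveI : Fintype (M.subgroupOf K) := Fintype.ofFinite _
  let ε : M.subgroupOf K ≃* M := Subgroup.subgroupOfEquivOfLe hMK
  have hN : (M.subgroupOf K).Normal := hM.subgroupOf K
  have hθ' : IsIrrCharacter (M.subgroupOf K) (fun x => θ (ε x)) :=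
    (isIrr_comp_equiv_iff ε).mpr hθ
  have hinv' : ∀ g : K, cj hN g (fun x => θ (ε x)) = fun x => θ (ε x) := by
    intro g
    funext x
    have hg : (g : X) ∈ inertia hM θ := hinv g.2
    rw [mem_inertia'] at hg
    exact hg (ε x)
  obtain ⟨χ, h1, h2⟩ := H11.PF.coprime_ext hN hθ' hinv' (by
    rw [Nat.card_congr ε.toEquiv]
    exact hcop)
  refine ⟨χ, h1, fun n => ?_⟩
  have := h2 (ε.symm n)
  have e2 : ((ε.symm n : M.subgroupOf K) : K) = ⟨(n : X), hMK n.2⟩ := rfl
  simp only [e2, MulEquiv.apply_symm_apply] at this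
  exact this

end Cfsg.Agent.H14.PB
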