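import Cfsg.Agent.H14.PB1
import Cfsg.Agent.H23.Coprime
import Cfsg.Agent.H23.PSolvable
import Cfsg.Agent.H1.Chief

set_option autoImplicit false
set_option linter.unusedSectionVars false

/-! Hall subgroups for two primes. -/

namespace Cfsg.Agent.H14.PB

open Subgroup Cfsg Cfsg.Agent.H23
open scoped Pointwise

universe u

variable {X : Type u} [Group X] [Finite X] {p q : ℕ} [hp : Fact p.Prime] [hq : Fact q.Prime]

theorem exists_min [Nontrivial X] (hps : IsPSolvable p X) (hqs : IsPSolvable q X) :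
    ∃ M : Subgroup X, M.Normal ∧ M ≠ ⊥ ∧ ((IsPGroup p M ∧ IsMulCommutative M) ∨ IsPGroup q M ∨
      ((Nat.card M).Coprime p ∧ (Nat.card M).Coprime q)) := by
  obtain ⟨M, hM, hne, -, hmin⟩ := H1.exists_minimal_normal_le (N := (⊤ : Subgroup X))
    inferInstance top_ne_bot
  haveI := hM
  refine ⟨M, hM, hne, ?_⟩
  rcases minimal_normal_of_isPSolvable hps M hne hmin with h1 | h1
  · left
    haveI : Group.IsNilpotent M := h1.isNilpotent
    exact ⟨h1, (H1.minimal_normal_solvable hM hne hmin inferInstance).1⟩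
  · rcases minimal_normal_of_isPSolvable hqs M hne hmin with h2 | h2
    · exact Or.inr (Or.inl h2)
    · exact Or.inr (Or.inr ⟨h1, h2⟩)

theorem eq_of_pgroup {r s : ℕ} (hr : r.Prime) (hs : s.Prime) {M : Subgroup X} (h : IsPGroup r M)
    (hd : s ∣ Nat.card M) : s = r := by
  haveI := Fact.mk hr
  obtain ⟨k, hk⟩ := IsPGroup.iff_card.1 h
  rw [hk] at hd
  exact (Nat.prime_dvd_prime_iff_eq hs hr).1 (hs.dvd_of_dvd_pow hd)

theorem dpi_pq : ∀ (n : ℕ) (X : Type u) [Group X] [Finite X], Nat.card X = n → IsPSolvable p X →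
    IsPSolvable q X → H14.Pi.DPi ({p, q} : Set ℕ) X := by
  intro n
  induction n using Nat.strong_induction_on with
  | _ n ih =>
  intro X _ _ hn hps hqs
  rcases subsingleton_or_nontrivial X with hX | hX
  · refine ⟨⊤, ⟨?_, ?_⟩, fun U _ => ⟨1, ?_⟩⟩
    · intro r hr hdvd
      rw [Nat.card_unique] at hdvd
      exact absurd (Nat.dvd_one.1 hdvd) hr.one_lt.ne'
    · intro r hr _ hdvd
      rw [index_top] at hdvd
      exact hr.one_lt.ne' (Nat.dvd_one.1 hdvd)
    · intro x _
      rw [Subsingleton.elim x 1]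
      exact one_mem _
  · obtain ⟨M, hM, hne, h⟩ := exists_min hps hqs
    haveI := hM
    apply H14.Pi.dpi_of_quot M
    · rcases h with h | h | h
      · left
        intro r hr hd
        rw [eq_of_pgroup hp.out hr h.1 hd]
        exact Or.inl rfl
      · left
        intro r hr hd
        rw [eq_of_pgroup hq.out hr h hd]
        exact Or.inr rfl
      · right
        intro r hr hd hmem
        rcases hmem with rfl | hmem
        · exact hr.one_lt.ne' (Nat.Coprime.eq_one_of_dvd h.1.symm hd)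
        · rw [Set.mem_singleton_iff] at hmem
          subst hmem
          exact hr.one_lt.ne' (Nat.Coprime.eq_one_of_dvd h.2.symm hd)
    · refine ih (Nat.card (X ⧸ M)) ?_ _ rfl (isPSolvable_quotient M hps)
        (isPSolvable_quotient M hqs)
      rw [← hn, card_eq_card_quotient_mul_card_subgroup M]
      have h1 : 1 < Nat.card M := by
        rw [Subgroup.one_lt_card_iff_ne_bot]
        exact hne
      have h2 : 0 < Nat.card (X ⧸ M) := Nat.card_pos
      nlinarith

theorem hall_ge (hps : IsPSolvable p X) (hqs : IsPSolvable q X) {P T : Subgroup X}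
    (hP : IsSylowOf p P ⊤) (hPT : P ≤ T) (hqT : ¬ q ∣ T.index) :
    ∃ K : Subgroup X, K ≤ T ∧ P ≤ K ∧ IsPiHall ({p, q} : Set ℕ) K := by
  have h1 := dpi_pq (p := p) (q := q) _ T rfl (isPSolvable_subgroup T hps)
    (isPSolvable_subgroup T hqs)
  obtain ⟨-, -, h2⟩ := H14.Pi.main h1
  have hcP : Nat.card (P.subgroupOf T) = Nat.card P :=
    Nat.card_congr (subgroupOfEquivOfLe hPT).toEquiv
  obtain ⟨K, hK, hPK⟩ := h2 (P.subgroupOf T) (by
    intro r hr hd
    rw [hcP] at hd
    rw [eq_of_pgroup hp.out hr hP.isPGroup hd]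
    exact Or.inl rfl)
  refine ⟨K.map T.subtype, map_subtype_le _, ?_, ?_, ?_⟩
  · intro x hx
    exact ⟨⟨x, hPT hx⟩, hPK (mem_subgroupOf.2 hx), rfl⟩
  · intro r hr hdvd
    apply hK.1 r hr
    rwa [Nat.card_congr (K.equivMapOfInjective _ T.subtype_injective).toEquiv]
  · intro r hr hmem hdvd
    rw [index_map_subtype] at hdvd
    rcases hr.dvd_mul.1 hdvd with h3 | h3
    · exact hK.2 r hr hmem h3
    · rcases hmem with rfl | hmem
      · have h4 := hP.not_dvd
        rw [relIndex_top_right] at h4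
        exact h4 (h3.trans (index_dvd_of_le hPT))
      · rw [Set.mem_singleton_iff] at hmem
        subst hmem
        exact hqT h3

theorem frat {Q M : Subgroup X} (hM : M.Normal) (hQ : IsSylowOf q Q ⊤) {y : X}
    (hy : y ∈ normalizer ((Q ⊔ M : Subgroup X) : Set X)) :
    ∃ m ∈ M, MulAut.conj y • Q = MulAut.conj m • Q := by
  have h1 : IsSylowOf q Q (Q ⊔ M) := by
    apply isSylowOf_of_not_dvd le_sup_left hQ.isPGroup
    intro h2
    apply hQ.not_dvd
    rw [relIndex_top_right, ← relIndex_mul_index (le_sup_left : Q ≤ Q ⊔ M)]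
    exact h2.mul_right _
  obtain ⟨g, hg, hgQ⟩ := h1.exists_conj (h1.conj hy)
  rw [sup_comm, H1.mem_sup_iff_of_le_normalizer (by rw [normalizer_eq_top_iff.2 hM]; exact le_top)] at hg
  obtain ⟨m, hm, u, hu, rfl⟩ := hg
  refine ⟨m, hm, ?_⟩
  rw [← hgQ, map_mul, mul_smul, conj_smul_eq_self_of_mem hu]

theorem conj_in (hps : IsPSolvable p X) (hqs : IsPSolvable q X) {P Q M T : Subgroup X}
    (hM : M.Normal) (hP : IsSylowOf p P ⊤) (hQ : IsSylowOf q Q ⊤)
    (hN : normalizer (P : Set X) ≤ normalizer ((Q ⊔ M : Subgroup X) : Set X))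
    (hMT : M ≤ T) (hPT : P ≤ T) (hqT : ¬ q ∣ T.index) : Q ≤ T := by
  have hQi := hQ.not_dvd
  rw [relIndex_top_right] at hQi
  have hPi := hP.not_dvd
  rw [relIndex_top_right] at hPi
  obtain ⟨K, hKT, hPK, hK⟩ := hall_ge hps hqs hP hPT hqT
  obtain ⟨H, hHW, hPH, hH⟩ := hall_ge hps hqs hP (le_sup_left : P ≤ P ⊔ (Q ⊔ M)) (by
    intro h1
    exact hQi (h1.trans (index_dvd_of_le (le_sup_left.trans le_sup_right))))
  obtain ⟨-, h2, -⟩ := H14.Pi.main (dpi_pq (p := p) (q := q) _ X rfl hps hqs)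
  obtain ⟨g, hg⟩ := h2 H K hH hK
  have hg' : K = MulAut.conj g • H := hg
  have h3 : MulAut.conj g • P ≤ K := by
    rw [hg']
    exact Subgroup.pointwise_smul_le_pointwise_smul_iff.2 hPH
  have hsy : ∀ R : Subgroup X, R ≤ K → IsSylowOf p R ⊤ → IsSylowOf p R K := by
    intro R hRK hR
    apply isSylowOf_of_not_dvd hRK hR.isPGroup
    intro h2
    apply hR.not_dvd
    rw [relIndex_top_right, ← relIndex_mul_index hRK]
    exact h2.mul_right _
  obtain ⟨k, hk, hkP⟩ := (hsy _ h3 (hP.conj (by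
    rw [normalizer_eq_top_iff.2 (inferInstance : (⊤ : Subgroup X).Normal)]; exact mem_top g))).exists_conj (hsy P hPK hP)
  have hyP : MulAut.conj (k * g) • P = P := by
    rw [map_mul, mul_smul, hkP]
  have hy : k * g ∈ normalizer (P : Set X) := H1.mem_normalizer_iff_conj_smul.2 hyP
  have h4 : K ≤ P ⊔ (Q ⊔ M) := by
    have h5 : MulAut.conj (k * g) • H = K := by
      rw [map_mul, mul_smul, ← hg']
      exact conj_smul_eq_self_of_mem hk
    rw [← h5]
    refine (Subgroup.pointwise_smul_le_pointwise_smul_iff.2 hHW).trans ?_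
    rw [Subgroup.smul_sup, hyP, H1.mem_normalizer_iff_conj_smul.1 (hN hy)]
  have hKi : ¬ q ∣ K.index := hK.2 q hq.out (Or.inr rfl)
  obtain ⟨R, hR⟩ := exists_isSylowOf q K
  have hRi : ¬ q ∣ R.index := by
    rw [← relIndex_mul_index hR.le]
    intro h5
    rcases hq.out.dvd_mul.1 h5 with h6 | h6
    · exact hR.not_dvd h6
    · exact hKi h6
  have hsy' : ∀ R : Subgroup X, R ≤ P ⊔ (Q ⊔ M) → ¬ q ∣ R.index → IsPGroup q R →
      IsSylowOf q R (P ⊔ (Q ⊔ M)) := by
    intro R hRK hR h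
    apply isSylowOf_of_not_dvd hRK h
    intro h2
    apply hR
    rw [← relIndex_mul_index hRK]
    exact h2.mul_right _
  obtain ⟨w, hw, hwQ⟩ := (hsy' Q (le_sup_left.trans le_sup_right) hQi hQ.isPGroup).exists_conj
    (hsy' R (hR.le.trans h4) hRi hR.isPGroup)
  have hw' : w ∈ normalizer ((Q ⊔ M : Subgroup X) : Set X) := by
    have : P ⊔ (Q ⊔ M) ≤ normalizer ((Q ⊔ M : Subgroup X) : Set X) :=
      sup_le (le_normalizer.trans hN) le_normalizer
    exact this hw
  obtain ⟨m, hm, hmQ⟩ := frat hM hQ hw'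
  intro x hx
  have h6 : m * x * m⁻¹ ∈ T := by
    apply hKT
    apply hR.le
    rw [← hwQ, hmQ]
    exact ⟨x, hx, rfl⟩
  have h7 := T.mul_mem (T.mul_mem (T.inv_mem (hMT hm)) h6) (hMT hm)
  simpa [mul_assoc] using h7

end Cfsg.Agent.H14.PB
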