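import Cfsg.Agent.H14.PB2

set_option autoImplicit false
set_option linter.unusedSectionVars false

/-! The normal `p`-subgroup case. -/

namespace Cfsg.Agent.H14.PB

open Subgroup Cfsg Cfsg.Agent.H23 Cfsg.Agent.H3 Cfsg.Agent.H27
open scoped Pointwise commutatorElement

universe u

variable {X : Type u} [Group X] [Finite X] {p q : ℕ} [hp : Fact p.Prime] [hq : Fact q.Prime]

theorem case_p (hpq : p ≠ q) (hps : IsPSolvable p X) (hqs : IsPSolvable q X)
    (hyp : ∀ χ : IrrCharacter X, ¬ p ∣ charDegree (χ : X → ℂ) → ¬ q ∣ charDegree (χ : X → ℂ))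
    {P Q M : Subgroup X}
    (hM : M.Normal) (hMp : IsPGroup p M) (hP : IsSylowOf p P ⊤) (hQ : IsSylowOf q Q ⊤)
    (hN : normalizer (P : Set X) ≤ normalizer ((Q ⊔ M : Subgroup X) : Set X)) :
    normalizer (P : Set X) ≤ normalizer (Q : Set X) := by
  classical
  have hPi := hP.not_dvd
  rw [relIndex_top_right] at hPi
  have hMP : M ≤ P := by
    obtain ⟨P', hP', hMP'⟩ := exists_isSylowOf_ge (le_top : M ≤ ⊤) hMp
    obtain ⟨g, -, hg⟩ := hP'.exists_conj hP
    rw [← hg, ← H1.mem_normalizer_iff_conj_smul.1 (by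
      rw [normalizer_eq_top_iff.2 hM]; exact mem_top g : g ∈ normalizer (M : Set X))]
    exact Subgroup.pointwise_smul_le_pointwise_smul_iff.2 hMP'
  have hPQ : P ≤ normalizer (Q : Set X) := by
    by_contra hcon
    have hR : (normalizer (Q : Set X)).subgroupOf P ≠ ⊤ := by
      rw [Ne, subgroupOf_eq_top]
      exact hcon
    obtain ⟨P₁, hco, hle⟩ := (eq_top_or_exists_le_coatom
      ((normalizer (Q : Set X)).subgroupOf P)).resolve_left hR
    haveI : Group.IsNilpotent P := hP.isPGroup.isNilpotent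
    haveI hn₁ : P₁.Normal := NormalizerCondition.normal_of_coatom P₁
      Group.normalizerCondition_of_isNilpotent hco
    haveI : Nontrivial (P ⧸ P₁) := QuotientGroup.nontrivial_iff.2 hco.1
    haveI : Group.IsNilpotent (P ⧸ P₁) := inferInstance
    have h1 : commutator (P ⧸ P₁) ≠ ⊤ :=
      (IsSolvable.commutator_lt_top_of_nontrivial (P ⧸ P₁)).ne
    obtain ⟨x, hx⟩ : ∃ x : P ⧸ P₁, x ∉ commutator (P ⧸ P₁) := by
      by_contra hc
      push Not at hc
      exact h1 (eq_top_iff.2 fun x _ => hc x)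
    obtain ⟨μ, hμ, hμ1, hμx⟩ := H7.PQBlk.exists_lin hx
    obtain ⟨ν₀, hν₀⟩ := exists_hom_of_one (irr_isChar hμ) hμ1
    let ν : P →* ℂˣ := ν₀.comp (QuotientGroup.mk' P₁)
    have hνR : ∀ g : P, (g : X) ∈ normalizer (Q : Set X) → ν g = 1 := by
      intro g hg
      have h2 : (QuotientGroup.mk' P₁) g = 1 := (QuotientGroup.eq_one_iff g).2 (hle (mem_subgroupOf.2 hg))
      show ν₀ ((QuotientGroup.mk' P₁) g) = 1
      rw [h2, map_one]
    let lam : M →* ℂˣ := ν.comp (inclusion hMP)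
    have hlam : IsIrrCharacter M (fun m : M => (lam m : ℂ)) := isIrr_of_hom lam
    have hPin : P ≤ inertia hM (fun m : M => (lam m : ℂ)) := by
      intro g hg
      rw [mem_inertia']
      intro m
      have h3 : ν ⟨g * m * g⁻¹, hMP (hM.conj_mem m m.2 g)⟩ = ν ⟨m, hMP m.2⟩ := by
        have h4 : (⟨g * m * g⁻¹, hMP (hM.conj_mem m m.2 g)⟩ : P) =
          ⟨g, hg⟩ * ⟨m, hMP m.2⟩ * ⟨g, hg⟩⁻¹ := rfl
        rw [h4, map_mul, map_mul, map_inv, mul_comm (ν ⟨g, hg⟩), mul_assoc, mul_inv_cancel,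
          mul_one]
      exact congrArg Units.val h3
    have hidx := not_dvd_inertia (q := q) hM hMP hPi hlam (ψ := fun g => (ν g : ℂ)) (isIrr_of_hom ν)
      (d := 1) (by simp) (fun h => hp.out.one_lt.ne' (Nat.dvd_one.1 h)) (fun m => rfl) hyp
    have hQin : Q ≤ inertia hM (fun m : M => (lam m : ℂ)) :=
      conj_in hps hqs hM hP hQ hN (hMP.trans hPin) hPin hidx
    -- `ν` is trivial on `M`
    have hcop : (Nat.card Q).Coprime (Nat.card M) := by
      obtain ⟨a, ha⟩ := IsPGroup.iff_card.1 hQ.isPGroup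
      obtain ⟨b, hb⟩ := IsPGroup.iff_card.1 hMp
      rw [ha, hb]
      exact Nat.Coprime.pow _ _ ((Nat.coprime_primes hq.out hp.out).2 (Ne.symm hpq))
    have hQn : Q ≤ normalizer (M : Set X) := by
      rw [normalizer_eq_top_iff.2 hM]; exact le_top
    haveI : Group.IsNilpotent Q := hQ.isPGroup.isNilpotent
    have hcomm : ⁅M, Q⁆ ≤ ν.ker.map P.subtype := by
      rw [commutator_le]
      intro m hm x hx
      have h5 := (mem_inertia' hM _ x).1 (hQin hx) ⟨m⁻¹, M.inv_mem hm⟩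
      have h6 : ν ⟨x * m⁻¹ * x⁻¹, hMP (hM.conj_mem _ (M.inv_mem hm) x)⟩ =
          ν ⟨m⁻¹, hMP (M.inv_mem hm)⟩ := Units.ext h5
      have h7 : ⁅m, x⁆ ∈ P := by
        rw [commutatorElement_def]
        have : m * x * m⁻¹ * x⁻¹ = m * (x * m⁻¹ * x⁻¹) := by group
        rw [this]
        exact P.mul_mem (hMP hm) (hMP (hM.conj_mem _ (M.inv_mem hm) x))
      refine ⟨⟨⁅m, x⁆, h7⟩, ?_, rfl⟩
      rw [SetLike.mem_coe, MonoidHom.mem_ker]
      have h8 : (⟨⁅m, x⁆, h7⟩ : P) = ⟨m, hMP hm⟩ *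
          ⟨x * m⁻¹ * x⁻¹, hMP (hM.conj_mem _ (M.inv_mem hm) x)⟩ := by
        apply Subtype.ext
        show m * x * m⁻¹ * x⁻¹ = m * (x * m⁻¹ * x⁻¹)
        group
      rw [h8, map_mul, h6, ← map_mul]
      have h9 : (⟨m, hMP hm⟩ * ⟨m⁻¹, hMP (M.inv_mem hm)⟩ : P) = 1 := by
        apply Subtype.ext
        show m * m⁻¹ = 1
        group
      rw [h9, map_one]
    have hνM : ∀ m (hm : m ∈ M), ν ⟨m, hMP hm⟩ = 1 := by
      intro m hm
      obtain ⟨c, ⟨hcM, hcQ⟩, n, hn, hmn⟩ := exists_centralizer_mul_commutator hQn hcop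
        (Or.inl inferInstance) hm
      obtain ⟨n', hn', hnn⟩ := hcomm hn
      have h1 : (⟨m, hMP hm⟩ : P) = ⟨c, hMP hcM⟩ * n' := by
        apply Subtype.ext
        show m = c * P.subtype n'
        rw [hnn, hmn]
      rw [h1, map_mul, MonoidHom.mem_ker.1 hn', mul_one]
      exact hνR _ (centralizer_le_normalizer _ hcQ)
    -- `ν` is trivial
    obtain ⟨g, rfl⟩ := QuotientGroup.mk'_surjective P₁ x
    apply hμx
    rw [hν₀]
    have h2 : ν g = 1 := by
      obtain ⟨m, hm, hmQ⟩ := frat hM hQ (hN (le_normalizer g.2))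
      have h3 : m⁻¹ * (g : X) ∈ normalizer (Q : Set X) := by
        rw [H1.mem_normalizer_iff_conj_smul, map_mul, mul_smul, hmQ, ← mul_smul, ← map_mul,
          inv_mul_cancel, map_one, one_smul]
      have h4 : g = ⟨m, hMP hm⟩ * ⟨m⁻¹ * g, P.mul_mem (P.inv_mem (hMP hm)) g.2⟩ := by
        apply Subtype.ext
        show (g : X) = m * (m⁻¹ * g)
        group
      rw [h4, map_mul, hνM m hm, one_mul]
      exact hνR _ h3
    exact congrArg Units.val h2
  intro y hy
  obtain ⟨m, hm, hmQ⟩ := frat hM hQ (hN hy)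
  rw [H1.mem_normalizer_iff_conj_smul, hmQ]
  exact H1.mem_normalizer_iff_conj_smul.1 (hPQ (hMP hm))

end Cfsg.Agent.H14.PB
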