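import Cfsg.Agent.H14.PB3
import Cfsg.Agent.S4445
import Cfsg.Agent.H25.ClassProd
import Cfsg.Agent.H3.BurnsidePQ

set_option autoImplicit false
set_option linter.unusedSectionVars false

/-! The normal `{p, q}'`-subgroup case. -/

namespace Cfsg.Agent.H14.PB

open Subgroup Cfsg Cfsg.Agent.H23 Cfsg.Agent.H3 Cfsg.Agent.H27
open scoped Pointwise

universe u

variable {X : Type u} [Group X] [Finite X] {p q : ℕ} [hp : Fact p.Prime] [hq : Fact q.Prime]

theorem inv_iff {M S : Subgroup X} (hM : M.Normal) (χ : IrrCharacter M) :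
    (∀ s ∈ S, ∀ g g' : M, (g' : X) = s * g * s⁻¹ → (χ : M → ℂ) g' = (χ : M → ℂ) g) ↔
      S ≤ inertia hM (χ : M → ℂ) := by
  constructor
  · intro h s hs
    rw [mem_inertia']
    intro n
    exact h s hs n _ rfl
  · intro h s hs g g' hg
    have h1 := (mem_inertia' hM _ s).1 (h hs) g
    have h2 : g' = ⟨s * g * s⁻¹, hM.conj_mem g g.2 s⟩ := Subtype.ext hg
    rw [h2]
    exact h1

/-- the counting step -/
theorem class_inv {M P Q : Subgroup X} (hM : M.Normal)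
    (hcop : (Nat.card M).Coprime (Nat.card (P ⊔ Q : Subgroup X)))
    (hsP : Group.IsSolvable P) (hsH : Group.IsSolvable (P ⊔ Q : Subgroup X))
    (hinv : ∀ χ : IrrCharacter M, P ≤ inertia hM (χ : M → ℂ) → Q ≤ inertia hM (χ : M → ℂ))
    {c : X} (hc : c ∈ M) (hcP : c ∈ centralizer (P : Set X)) {a : X} (ha : a ∈ P ⊔ Q) :
    ∃ g ∈ M, a * c * a⁻¹ = g * c * g⁻¹ := by
  classical
  haveI := Fintype.ofFinite X
  haveI := Fintype.ofFinite M
  have e1 := S4445.result M P (fun s _ g hg => hM.conj_mem g hg s)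
    (Nat.Coprime.coprime_dvd_right (card_dvd_of_le le_sup_left) hcop) hsP
  have e2 := S4445.result M (P ⊔ Q) (fun s _ g hg => hM.conj_mem g hg s) hcop hsH
  have e3 : Nat.card {χ : IrrCharacter M // (∀ s ∈ P, ∀ g g' : M, (g' : X) = s * g * s⁻¹ →
      (χ : M → ℂ) g' = (χ : M → ℂ) g)} = Nat.card {χ : IrrCharacter M // (∀ s ∈ P ⊔ Q,
      ∀ g g' : M, (g' : X) = s * g * s⁻¹ → (χ : M → ℂ) g' = (χ : M → ℂ) g)} := by
    apply Nat.card_congr
    apply Equiv.subtypeEquivRight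
    intro χ
    rw [inv_iff hM, inv_iff hM]
    exact ⟨fun h => sup_le h (hinv χ h), fun h => le_sup_left.trans h⟩
  rw [e1, e2] at e3
  have hsub : {K : ConjClasses M | ∀ s ∈ P ⊔ Q, ∀ g g' : M, (g' : X) = s * g * s⁻¹ →
      ConjClasses.mk g = K → ConjClasses.mk g' = K} ⊆ {K : ConjClasses M | ∀ s ∈ P, ∀ g g' : M,
      (g' : X) = s * g * s⁻¹ → ConjClasses.mk g = K → ConjClasses.mk g' = K} := by
    intro K hK s hs
    exact hK s ((le_sup_left : P ≤ P ⊔ Q) hs)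
  have heq := Set.eq_of_subset_of_ncard_le hsub (by
    rw [← Nat.card_coe_set_eq, ← Nat.card_coe_set_eq]
    exact e3.le) (Set.toFinite _)
  have hcK : ConjClasses.mk (⟨c, hc⟩ : M) ∈ {K : ConjClasses M | ∀ s ∈ P, ∀ g g' : M,
      (g' : X) = s * g * s⁻¹ → ConjClasses.mk g = K → ConjClasses.mk g' = K} := by
    intro s hs g g' hg hgK
    rw [ConjClasses.mk_eq_mk_iff_isConj, isConj_comm, isConj_iff] at hgK
    obtain ⟨u, hu⟩ := hgK
    rw [ConjClasses.mk_eq_mk_iff_isConj, isConj_comm, isConj_iff]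
    refine ⟨⟨s * u * s⁻¹, hM.conj_mem u u.2 s⟩, ?_⟩
    apply Subtype.ext
    have hu' : (u : X) * c * (u : X)⁻¹ = g := congrArg Subtype.val hu
    have h1 : s * c = c * s := (mem_centralizer_iff.1 hcP) s hs
    show (s * u * s⁻¹) * c * (s * u * s⁻¹)⁻¹ = (g' : X)
    rw [hg, ← hu']
    have h2 : s⁻¹ * c * s = c := by rw [mul_assoc, ← h1, inv_mul_cancel_left]
    calc (s * (u : X) * s⁻¹) * c * (s * (u : X) * s⁻¹)⁻¹ =
        s * (u : X) * (s⁻¹ * c * s) * (u : X)⁻¹ * s⁻¹ := by group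
      _ = s * ((u : X) * c * (u : X)⁻¹) * s⁻¹ := by rw [h2]; group
  rw [← heq] at hcK
  have h3 := hcK a ha ⟨c, hc⟩ ⟨a * c * a⁻¹, hM.conj_mem c hc a⟩ rfl rfl
  rw [ConjClasses.mk_eq_mk_iff_isConj, isConj_comm, isConj_iff] at h3
  obtain ⟨u, hu⟩ := h3
  exact ⟨u, u.2, (congrArg Subtype.val hu).symm⟩

theorem case_c (hpq : p ≠ q) (hps : IsPSolvable p X) (hqs : IsPSolvable q X)
    (hyp : ∀ χ : IrrCharacter X, ¬ p ∣ charDegree (χ : X → ℂ) → ¬ q ∣ charDegree (χ : X → ℂ))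
    {P Q₀ M : Subgroup X}
    (hM : M.Normal) (hMp : (Nat.card M).Coprime p) (hMq : (Nat.card M).Coprime q)
    (hP : IsSylowOf p P ⊤) (hQ₀ : IsSylowOf q Q₀ ⊤)
    (hN₀ : normalizer (P : Set X) ≤ normalizer ((Q₀ ⊔ M : Subgroup X) : Set X)) :
    ∃ Q : Subgroup X, IsSylowOf q Q ⊤ ∧ normalizer (P : Set X) ≤ normalizer (Q : Set X) := by
  classical
  have hPi := hP.not_dvd
  rw [relIndex_top_right] at hPi
  haveI hnP : Group.IsNilpotent P := hP.isPGroup.isNilpotent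
  have hsP : Group.IsSolvable P := inferInstance
  obtain ⟨a, ha⟩ := IsPGroup.iff_card.1 hP.isPGroup
  obtain ⟨b, hb⟩ := IsPGroup.iff_card.1 hQ₀.isPGroup
  have hnM : ∀ S : Subgroup X, S ≤ normalizer (M : Set X) := fun S => by
    rw [normalizer_eq_top_iff.2 hM]; exact le_top
  have hcQM : (Nat.card Q₀).Coprime (Nat.card M) := by
    rw [hb]; exact (hMq.pow_right b).symm
  have hcPM : (Nat.card P).Coprime (Nat.card M) := by
    rw [ha]; exact (hMp.pow_right a).symm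
  have hcPY : (Nat.card P).Coprime (Nat.card (Q₀ ⊔ M : Subgroup X)) := by
    rw [sup_comm, card_sup_of_coprime (hnM Q₀) hcQM]
    refine Nat.Coprime.mul_right hcPM ?_
    rw [ha, hb]
    exact Nat.Coprime.pow _ _ ((Nat.coprime_primes hp.out hq.out).2 hpq)
  have hPY : P ≤ normalizer ((Q₀ ⊔ M : Subgroup X) : Set X) := le_normalizer.trans hN₀
  obtain ⟨Q, hQY, hPQ⟩ := exists_invariant_sylow hPY hcPY (Or.inl hsP) q
  have hQ₀Y : IsSylowOf q Q₀ (Q₀ ⊔ M) := by
    apply isSylowOf_of_not_dvd le_sup_left hQ₀.isPGroup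
    intro h2
    apply hQ₀.not_dvd
    rw [relIndex_top_right, ← relIndex_mul_index (le_sup_left : Q₀ ≤ Q₀ ⊔ M)]
    exact h2.mul_right _
  obtain ⟨z, hz, hzQ⟩ := hQ₀Y.exists_conj hQY
  have hQ : IsSylowOf q Q ⊤ := by
    rw [← hzQ]
    exact hQ₀.conj (by
      rw [normalizer_eq_top_iff.2 (inferInstance : (⊤ : Subgroup X).Normal)]; exact mem_top z)
  have hY : Q ⊔ M = Q₀ ⊔ M := by
    have h1 : MulAut.conj z • (Q₀ ⊔ M) = Q₀ ⊔ M :=
      H1.mem_normalizer_iff_conj_smul.1 (le_normalizer hz)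
    rw [Subgroup.smul_sup, hzQ, H1.mem_normalizer_iff_conj_smul.1 ((hnM ⊤) (mem_top z))] at h1
    exact h1
  have hN : normalizer (P : Set X) ≤ normalizer ((Q ⊔ M : Subgroup X) : Set X) := by
    rw [hY]; exact hN₀
  have hcard : Nat.card Q = q ^ b := by
    rw [← hzQ, H1.conj_smul_card_eq, hb]
  have hcQM' : (Nat.card Q).Coprime (Nat.card M) := by
    rw [hcard]; exact (hMq.pow_right b).symm
  -- invariant characters
  have hinv : ∀ χ : IrrCharacter M, P ≤ inertia hM (χ : M → ℂ) →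
      Q ≤ inertia hM (χ : M → ℂ) := by
    intro χ hχ
    have hMi : M ≤ inertia hM (χ : M → ℂ) := le_inertia hM (irr_classFun χ.2)
    obtain ⟨ψ, hψ, hres⟩ := exists_ext (K := M ⊔ P) hM le_sup_left (by
      rw [relIndex_sup_of_coprime (hnM P) hcPM]; exact hcPM.symm) χ.2 (sup_le hMi hχ)
    obtain ⟨t, ht0, ht⟩ := irr_one_eq_nat χ.2
    have htd : t ∣ Nat.card M := irr_degree_dvd_card χ.2 ht
    refine conj_in hps hqs hM hP hQ hN hMi hχ ?_
    refine not_dvd_inertia (q := q) hM (le_sup_left : M ≤ M ⊔ P) ?_ χ.2 hψ (d := t) ?_ ?_ hres hyp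
    · intro h1
      exact hPi (h1.trans (index_dvd_of_le le_sup_right))
    · rw [← ht, ← hres 1]
      rfl
    · intro h1
      exact hp.out.one_lt.ne' (Nat.Coprime.eq_one_of_dvd hMp.symm (h1.trans htd))
  -- `P ⊔ Q`
  have hcH : Nat.card (P ⊔ Q : Subgroup X) = q ^ b * p ^ a := by
    rw [sup_comm, card_sup_of_coprime hPQ (by
      rw [ha, hcard]
      exact Nat.Coprime.pow _ _ ((Nat.coprime_primes hp.out hq.out).2 hpq)), ha, hcard]
  have hsH : Group.IsSolvable (P ⊔ Q : Subgroup X) := by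
    refine burnside_paqb p q hp.out hq.out _ _ rfl ?_
    intro r hr hd
    rw [hcH] at hd
    rcases hr.dvd_mul.1 hd with h | h
    · exact Or.inr ((Nat.prime_dvd_prime_iff_eq hr hq.out).1 (hr.dvd_of_dvd_pow h))
    · exact Or.inl ((Nat.prime_dvd_prime_iff_eq hr hp.out).1 (hr.dvd_of_dvd_pow h))
  have hcHM : (Nat.card M).Coprime (Nat.card (P ⊔ Q : Subgroup X)) := by
    rw [hcH]
    exact Nat.Coprime.mul_right (hMq.pow_right b) (hMp.pow_right a)
  have hcomm : M ⊓ centralizer (P : Set X) ≤ centralizer (Q : Set X) := by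
    have h1 : ((M ⊓ centralizer ((P ⊔ Q : Subgroup X) : Set X)).subgroupOf
        (M ⊓ centralizer (P : Set X))) = ⊤ := by
      apply H25.eq_top_of_forall_conj_mem
      rintro ⟨c, hcM, hcP⟩
      obtain ⟨g, hg, hgc⟩ := exists_conj_mem_centralizer (hnM (P ⊔ Q)) hcHM.symm (Or.inl hsH) c
        (fun a ha => class_inv hM hcHM hsP hsH hinv hcM hcP ha)
      obtain ⟨d, hd, hdc⟩ := conj_of_mem_centralizer (hnM P) hcPM (Or.inl hsP) c hcP hg
        (centralizer_le (fun x hx => (le_sup_left : P ≤ P ⊔ Q) hx) hgc)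
      refine ⟨⟨d, hd⟩, ?_⟩
      rw [mem_subgroupOf]
      show d * c * d⁻¹ ∈ M ⊓ centralizer ((P ⊔ Q : Subgroup X) : Set X)
      rw [hdc]
      exact ⟨hM.conj_mem c hcM g, hgc⟩
    rw [subgroupOf_eq_top] at h1
    exact (h1.trans inf_le_right).trans (centralizer_le fun x hx => (le_sup_right : Q ≤ P ⊔ Q) hx)
  refine ⟨Q, hQ, ?_⟩
  intro y hy
  obtain ⟨m, hm, hmQ⟩ := frat hM hQ (hN hy)
  have hyP := H1.mem_normalizer_iff_conj_smul.1 hy
  have h2 : P ≤ normalizer ((MulAut.conj m • Q : Subgroup X) : Set X) := by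
    rw [← hmQ, ← H1.conj_smul_normalizer]
    conv_lhs => rw [← hyP]
    exact Subgroup.pointwise_smul_le_pointwise_smul_iff.2 hPQ
  obtain ⟨c, hc, hcQ⟩ := conj_of_invariant (hnM P) hcPM (Or.inl hsP) Q hPQ hm h2
  rw [H1.mem_normalizer_iff_conj_smul, hmQ, ← hcQ]
  exact H1.mem_normalizer_iff_conj_smul.1 (centralizer_le_normalizer _ (hcomm hc))

end Cfsg.Agent.H14.PB
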