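import Cfsg.Agent.H14.PB4

set_option autoImplicit false
set_option linter.unusedSectionVars false

/-! The main theorem. -/

namespace Cfsg.Agent.H14.PB

open Subgroup Cfsg Cfsg.Agent.H23 Cfsg.Agent.H3 Cfsg.Agent.H27
open scoped Pointwise

universe u

section
variable {X : Type u} [Group X] [Finite X] {p q : ℕ} [hp : Fact p.Prime] [hq : Fact q.Prime]

theorem deg_eq (M : Subgroup X) [M.Normal] (χ : IrrCharacter (X ⧸ M)) :
    charDegree (χ : X ⧸ M → ℂ) = charDegree ((irrQuotEquiv M χ).1 : X → ℂ) := by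
  have h2 : (charDegree (χ : X ⧸ M → ℂ) : ℂ) =
      (charDegree ((irrQuotEquiv M χ).1 : X → ℂ) : ℂ) := by
    rw [charDegree_cast (irr_isChar χ.2),
      charDegree_cast (irr_isChar (irrQuotEquiv M χ).1.2), irrQuotEquiv_apply]
    rfl
  exact_mod_cast h2

theorem normal_le {M P : Subgroup X} (hM : M.Normal) (hMp : IsPGroup p M)
    (hP : IsSylowOf p P ⊤) : M ≤ P := by
  obtain ⟨P', hP', hMP'⟩ := exists_isSylowOf_ge (le_top : M ≤ ⊤) hMp
  obtain ⟨g, -, hg⟩ := hP'.exists_conj hP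
  rw [← hg, ← H1.mem_normalizer_iff_conj_smul.1 (by
    rw [normalizer_eq_top_iff.2 hM]; exact mem_top g : g ∈ normalizer (M : Set X))]
  exact Subgroup.pointwise_smul_le_pointwise_smul_iff.2 hMP'

theorem map_sylow (M : Subgroup X) [M.Normal] {P : Subgroup X} (hP : IsSylowOf p P ⊤) :
    IsSylowOf p (P.map (QuotientGroup.mk' M)) ⊤ := by
  apply isSylowOf_of_not_dvd le_top (hP.isPGroup.map _)
  intro h
  apply hP.not_dvd
  rw [relIndex_top_right] at h ⊢
  exact h.trans (index_map_dvd P (QuotientGroup.mk'_surjective M))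

theorem map_conj (M : Subgroup X) [M.Normal] (g : X) (P : Subgroup X) :
    (MulAut.conj g • P).map (QuotientGroup.mk' M) =
      MulAut.conj (QuotientGroup.mk' M g) • P.map (QuotientGroup.mk' M) := by
  show (P.map (MulAut.conj g).toMonoidHom).map (QuotientGroup.mk' M) =
    (P.map (QuotientGroup.mk' M)).map (MulAut.conj (QuotientGroup.mk' M g)).toMonoidHom
  rw [map_map, map_map]
  congr 1

theorem core_key (hpq : p ≠ q) (hps : IsPSolvable p X) (hO : pPrimeCore p X = ⊥)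
    {P Q : Subgroup X} (hP : IsSylowOf p P ⊤) (hQ : IsSylowOf q Q ⊤)
    (h : P ≤ normalizer (Q : Set X)) : ¬ q ∣ Nat.card X := by
  have h1 : pCore p X ≤ P := normal_le inferInstance (H1.pCore_isPGroup p X) hP
  have hdis : ∀ x : X, x ∈ pCore p X → x ∈ Q → x = 1 := by
    intro x hx hxQ
    obtain ⟨k, hk⟩ := (H1.pCore_isPGroup p X) ⟨x, hx⟩
    obtain ⟨l, hl⟩ := hQ.isPGroup ⟨x, hxQ⟩
    have hk' : x ^ p ^ k = 1 := congrArg Subtype.val hk
    have hl' : x ^ q ^ l = 1 := congrArg Subtype.val hl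
    have h2 : orderOf x ∣ p ^ k := orderOf_dvd_of_pow_eq_one hk'
    have h3 : orderOf x ∣ q ^ l := orderOf_dvd_of_pow_eq_one hl'
    have h4 : orderOf x = 1 := Nat.Coprime.eq_one_of_dvd (Nat.Coprime.coprime_dvd_left h2
      (Nat.Coprime.pow k l ((Nat.coprime_primes hp.out hq.out).2 hpq))) h3
    exact orderOf_eq_one_iff.1 h4
  have h2 : Q ≤ centralizer (pCore p X : Set X) := by
    intro y hy
    rw [mem_centralizer_iff]
    intro x hx
    have h3 : x * y * x⁻¹ * y⁻¹ = 1 := by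
      apply hdis
      · have : x * y * x⁻¹ * y⁻¹ = x * (y * x⁻¹ * y⁻¹) := by group
        rw [this]
        exact mul_mem hx ((inferInstance : (pCore p X).Normal).conj_mem _ (inv_mem hx) y)
      · exact Q.mul_mem ((mem_normalizer_iff.1 (h (h1 hx)) y).1 hy) (Q.inv_mem hy)
    rw [mul_assoc, mul_assoc, ← mul_assoc, ← mul_inv_rev] at h3
    exact mul_inv_eq_one.1 h3
  have h3 : Q = ⊥ := by
    rw [eq_bot_iff]
    intro x hx
    exact hdis x (centralizer_pCore_le hps hO (h2 hx)) hx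
  intro h4
  apply hQ.not_dvd
  rw [relIndex_top_right, h3, index_bot]
  exact h4

end

section
variable {p q : ℕ} [hp : Fact p.Prime] [hq : Fact q.Prime]

theorem main_aux (hpq : p ≠ q) : ∀ (n : ℕ) (X : Type u) [Group X] [Finite X], Nat.card X = n →
    IsPSolvable p X → IsPSolvable q X →
    (∀ χ : IrrCharacter X, ¬ p ∣ charDegree (χ : X → ℂ) → ¬ q ∣ charDegree (χ : X → ℂ)) →
    ∀ P : Subgroup X, IsSylowOf p P ⊤ →
      ∃ Q : Subgroup X, IsSylowOf q Q ⊤ ∧ normalizer (P : Set X) ≤ normalizer (Q : Set X) := by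
  intro n
  induction n using Nat.strong_induction_on with
  | _ n ih =>
  intro X _ _ hn hps hqs hyp P hP
  rcases subsingleton_or_nontrivial X with hX | hX
  · obtain ⟨Q, hQ⟩ := exists_isSylowOf q (⊤ : Subgroup X)
    refine ⟨Q, hQ, ?_⟩
    intro x _
    rw [Subsingleton.elim x 1]
    exact one_mem _
  · obtain ⟨M, hM, hne, h⟩ := exists_min hps hqs
    haveI := hM
    have hlt : Nat.card (X ⧸ M) < n := by
      rw [← hn, card_eq_card_quotient_mul_card_subgroup M]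
      have h1 : 1 < Nat.card M := by
        rw [Subgroup.one_lt_card_iff_ne_bot]
        exact hne
      have h2 : 0 < Nat.card (X ⧸ M) := Nat.card_pos
      nlinarith
    obtain ⟨Q', hQ', hN'⟩ := ih _ hlt (X ⧸ M) rfl (isPSolvable_quotient M hps)
      (isPSolvable_quotient M hqs) (fun χ h1 => by
        rw [deg_eq] at h1 ⊢
        exact hyp _ h1) _ (map_sylow M hP)
    obtain ⟨Q₁, hQ₁⟩ := exists_isSylowOf q (⊤ : Subgroup X)
    obtain ⟨g', -, hg'⟩ := (map_sylow M hQ₁).exists_conj hQ'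
    obtain ⟨g, rfl⟩ := QuotientGroup.mk'_surjective M g'
    have hQ₀ : IsSylowOf q (MulAut.conj g • Q₁) ⊤ := hQ₁.conj (by
      rw [normalizer_eq_top_iff.2 (inferInstance : (⊤ : Subgroup X).Normal)]; exact mem_top g)
    rw [← map_conj] at hg'
    have hY : Q'.comap (QuotientGroup.mk' M) = MulAut.conj g • Q₁ ⊔ M := by
      rw [← hg', comap_map_eq, QuotientGroup.ker_mk']
    have hN₀ : normalizer (P : Set X) ≤
        normalizer ((MulAut.conj g • Q₁ ⊔ M : Subgroup X) : Set X) := by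
      intro x hx
      have h1 : QuotientGroup.mk' M x ∈ normalizer (P.map (QuotientGroup.mk' M) : Set (X ⧸ M)) := by
        rw [H1.mem_normalizer_iff_conj_smul, ← map_conj, H1.mem_normalizer_iff_conj_smul.1 hx]
      have h2 := mem_normalizer_iff.1 (hN' h1)
      rw [← hY, mem_normalizer_iff]
      intro h
      rw [mem_comap, mem_comap, map_mul, map_mul, map_inv]
      exact h2 _
    rcases h with h | h | h
    · exact ⟨_, hQ₀, case_p hpq hps hqs hyp hM h.1 hP hQ₀ hN₀⟩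
    · refine ⟨_, hQ₀, ?_⟩
      have h1 := normal_le hM h hQ₀
      rwa [sup_eq_left.2 h1] at hN₀
    · exact case_c hpq hps hqs hyp hM h.1 h.2 hP hQ₀ hN₀

end

section
variable {G : Type u} [Group G] [Finite G] {p q : ℕ} [hp : Fact p.Prime] [hq : Fact q.Prime]

theorem not_dvd_core (hpq : p ≠ q) (hps : IsPSolvable p G) (hqs : IsPSolvable q G)
    (hyp : ∀ χ : IrrCharacter G, (∀ n ∈ pPrimeCore p G, (χ : G → ℂ) n = (χ : G → ℂ) 1) →
      ¬ p ∣ charDegree (χ : G → ℂ) → ¬ q ∣ charDegree (χ : G → ℂ)) :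
    ¬ q ∣ (pPrimeCore p G).index := by
  obtain ⟨P, hP⟩ := exists_isSylowOf p (⊤ : Subgroup (G ⧸ pPrimeCore p G))
  obtain ⟨Q, hQ, hN⟩ := main_aux hpq _ (G ⧸ pPrimeCore p G) rfl
    (isPSolvable_quotient _ hps) (isPSolvable_quotient _ hqs) (fun χ h1 => by
      rw [deg_eq] at h1 ⊢
      exact hyp _ (irrQuotEquiv _ χ).2 h1) P hP
  exact core_key hpq (isPSolvable_quotient _ hps) (pPrimeCore_quotient_eq_bot p G) hP hQ
    (le_normalizer.trans hN)

theorem le_of_not_dvd {P L : Subgroup G} [L.Normal] (hP : IsPGroup p P) (h : ¬ p ∣ L.index) :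
    P ≤ L := by
  intro x hx
  obtain ⟨k, hk⟩ := hP ⟨x, hx⟩
  have hk' : x ^ p ^ k = 1 := congrArg Subtype.val hk
  have h1 : orderOf (QuotientGroup.mk' L x) ∣ p ^ k := by
    apply orderOf_dvd_of_pow_eq_one
    rw [← map_pow, hk', map_one]
  have h2 : orderOf (QuotientGroup.mk' L x) ∣ L.index := orderOf_dvd_natCard _
  have h3 : orderOf (QuotientGroup.mk' L x) = 1 :=
    Nat.Coprime.eq_one_of_dvd (Nat.Coprime.coprime_dvd_left h1
      (Nat.Coprime.pow_left k ((Nat.Prime.coprime_iff_not_dvd hp.out).2 h))) h2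
  exact (QuotientGroup.eq_one_iff x).1 (orderOf_eq_one_iff.1 h3)

theorem fwd (hpq : p ≠ q) (hps : IsPSolvable p G) (hqs : IsPSolvable q G)
    (h1 : ∀ χ : IrrCharacter G, (∀ n ∈ pPrimeCore p G, (χ : G → ℂ) n = (χ : G → ℂ) 1) →
      ¬ p ∣ charDegree (χ : G → ℂ) → ¬ q ∣ charDegree (χ : G → ℂ))
    (h2 : ∀ χ : IrrCharacter G, (∀ n ∈ pPrimeCore q G, (χ : G → ℂ) n = (χ : G → ℂ) 1) →
      ¬ q ∣ charDegree (χ : G → ℂ) → ¬ p ∣ charDegree (χ : G → ℂ)) :
    ∃ (P : Sylow p G) (Q : Sylow q G), ∀ x ∈ (P : Subgroup G), ∀ y ∈ (Q : Subgroup G),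
      x * y = y * x := by
  have h3 := not_dvd_core hpq hps hqs h1
  have h4 := not_dvd_core (Ne.symm hpq) hqs hps h2
  obtain ⟨P⟩ : Nonempty (Sylow p G) := inferInstance
  have hPL : (P : Subgroup G) ≤ pPrimeCore q G := le_of_not_dvd P.2 h4
  obtain ⟨a, ha⟩ := IsPGroup.iff_card.1 P.2
  have hcop : (Nat.card (P : Subgroup G)).Coprime (Nat.card (pPrimeCore p G)) := by
    rw [ha]
    exact ((H1.pPrimeCore_coprime p G).pow_right a).symm
  haveI : Group.IsNilpotent (P : Subgroup G) := P.2.isNilpotent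
  obtain ⟨Q, hQ, hPQ⟩ := exists_invariant_sylow (A := (P : Subgroup G)) (G := pPrimeCore p G) (by
    rw [normalizer_eq_top_iff.2 inferInstance]; exact le_top) hcop (Or.inl inferInstance) q
  have hQi : ¬ q ∣ Q.index := by
    rw [← relIndex_mul_index hQ.le]
    intro h
    rcases hq.out.dvd_mul.1 h with h | h
    · exact hQ.not_dvd h
    · exact h3 h
  refine ⟨P, hQ.isPGroup.toSylow hQi, ?_⟩
  intro x hx y hy
  have hy' : y ∈ Q := hy
  have h5 : x * y * x⁻¹ * y⁻¹ ∈ Q :=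
    Q.mul_mem ((mem_normalizer_iff.1 (hPQ hx) y).1 hy') (Q.inv_mem hy')
  have h6 : x * y * x⁻¹ * y⁻¹ ∈ pPrimeCore q G := by
    have : x * y * x⁻¹ * y⁻¹ = x * (y * x⁻¹ * y⁻¹) := by group
    rw [this]
    exact mul_mem (hPL hx) ((inferInstance : (pPrimeCore q G).Normal).conj_mem _
      (inv_mem (hPL hx)) y)
  have h7 : x * y * x⁻¹ * y⁻¹ = 1 := by
    obtain ⟨l, hl⟩ := hQ.isPGroup ⟨_, h5⟩
    have hl' : (x * y * x⁻¹ * y⁻¹) ^ q ^ l = 1 := congrArg Subtype.val hl
    have h8 : orderOf (x * y * x⁻¹ * y⁻¹) ∣ q ^ l := orderOf_dvd_of_pow_eq_one hl'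
    have h9 : orderOf (x * y * x⁻¹ * y⁻¹) ∣ Nat.card (pPrimeCore q G) := by
      have := orderOf_dvd_natCard (⟨_, h6⟩ : pPrimeCore q G)
      rwa [orderOf_mk] at this
    exact orderOf_eq_one_iff.1 (Nat.Coprime.eq_one_of_dvd (Nat.Coprime.coprime_dvd_left h8
      ((H1.pPrimeCore_coprime q G).pow_right l).symm) h9)
  rw [mul_assoc, mul_assoc, ← mul_assoc, ← mul_inv_rev] at h7
  exact mul_inv_eq_one.1 h7

theorem bwd (hpq : p ≠ q) (hps : IsPSolvable p G) (P : Sylow p G) (Q : Sylow q G)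
    (h : ∀ x ∈ (P : Subgroup G), ∀ y ∈ (Q : Subgroup G), x * y = y * x)
    (χ : IrrCharacter G) (hχ : ∀ n ∈ pPrimeCore p G, (χ : G → ℂ) n = (χ : G → ℂ) 1) :
    ¬ q ∣ charDegree (χ : G → ℂ) := by
  have hsP : IsSylowOf p (P : Subgroup G) ⊤ := by
    apply isSylowOf_of_not_dvd le_top P.2
    rw [relIndex_top_right]
    exact P.not_dvd_index
  have hsQ : IsSylowOf q (Q : Subgroup G) ⊤ := by
    apply isSylowOf_of_not_dvd le_top Q.2
    rw [relIndex_top_right]
    exact Q.not_dvd_index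
  have h1 : ¬ q ∣ Nat.card (G ⧸ pPrimeCore p G) := by
    refine core_key hpq (isPSolvable_quotient _ hps) (pPrimeCore_quotient_eq_bot p G)
      (map_sylow _ hsP) (map_sylow _ hsQ) ?_
    rintro _ ⟨x, hx, rfl⟩
    have hxc : x ∈ centralizer ((Q : Subgroup G) : Set G) := by
      rw [mem_centralizer_iff]
      intro y hy
      exact (h x hx y hy).symm
    rw [H1.mem_normalizer_iff_conj_smul, ← map_conj,
      H1.mem_normalizer_iff_conj_smul.1 (centralizer_le_normalizer _ hxc)]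
  obtain ⟨ψ, hψ⟩ := (irrQuotEquiv (pPrimeCore p G)).surjective ⟨χ, hχ⟩
  have h2 : charDegree (χ : G → ℂ) = charDegree (ψ : G ⧸ pPrimeCore p G → ℂ) := by
    rw [deg_eq, hψ]
  intro h3
  apply h1
  rw [h2] at h3
  obtain ⟨t, ht0, ht⟩ := irr_one_eq_nat ψ.2
  have h4 : charDegree (ψ : G ⧸ pPrimeCore p G → ℂ) = t := by
    have : (charDegree (ψ : G ⧸ pPrimeCore p G → ℂ) : ℂ) = t := by
      rw [charDegree_cast (irr_isChar ψ.2), ht]
    exact_mod_cast this
  rw [h4] at h3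
  exact h3.trans (irr_degree_dvd_card ψ.2 ht)

end

end Cfsg.Agent.H14.PB
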