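import Mathlib

set_option autoImplicit false

/-! # H14/PG1: power graphs -/

namespace Cfsg.Agent.H14.PG

open Subgroup

universe u v

section basics

variable {G : Type u} [Group G]

/-- comparability in the power graph -/
def Cmp (x y : G) : Prop := x ∈ zpowers y ∨ y ∈ zpowers x

theorem Cmp.symm {x y : G} (h : Cmp x y) : Cmp y x := Or.symm h

theorem cmp_self (x : G) : Cmp x x := Or.inl (mem_zpowers x)

theorem cmp_one (x : G) : Cmp 1 x := Or.inl (one_mem _)

theorem le_of_mem {x y : G} (h : x ∈ zpowers y) : zpowers x ≤ zpowers y := by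
  rwa [zpowers_le]

theorem cmp_congr {x x' y : G} (h : zpowers x = zpowers x') : Cmp x y ↔ Cmp x' y := by
  have hx : ∀ {a b : G}, zpowers a = zpowers b → Cmp a y → Cmp b y := by
    intro a b hab hc
    rcases hc with hc | hc
    · left
      have : zpowers b ≤ zpowers y := by rw [← hab]; exact le_of_mem hc
      exact this (mem_zpowers b)
    · right; rw [← hab]; exact hc
  exact ⟨hx h, hx h.symm⟩

variable [Finite G]

theorem mem_of_dvd {x y z : G} (hx : x ∈ zpowers z) (hy : y ∈ zpowers z) (h : orderOf x ∣ orderOf y) :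
    x ∈ zpowers y := by
  classical
  haveI : Fintype (zpowers z) := Fintype.ofFinite _
  let y' : zpowers z := ⟨y, hy⟩
  let x' : zpowers z := ⟨x, hx⟩
  have hoy : orderOf y' = orderOf y := Subgroup.orderOf_mk y hy
  have h1 : (Finset.univ.filter (fun a : zpowers z => a ∈ zpowers y')) ⊆
      (Finset.univ.filter (fun a : zpowers z => a ^ orderOf y = 1)) := by
    intro a ha
    simp only [Finset.mem_filter, Finset.mem_univ, true_and] at ha ⊢
    rw [← hoy]
    exact orderOf_dvd_iff_pow_eq_one.1 (orderOf_dvd_of_mem_zpowers ha)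
  have h2 : (Finset.univ.filter (fun a : zpowers z => a ∈ zpowers y')).card = orderOf y := by
    rw [← hoy, ← Nat.card_zpowers]
    symm
    apply Nat.subtype_card
    intro a
    simp
  have h3 := Finset.eq_of_subset_of_card_le h1 (by rw [h2]; exact IsCyclic.card_pow_eq_one_le (orderOf_pos y))
  have h4 : x' ∈ (Finset.univ.filter (fun a : zpowers z => a ^ orderOf y = 1)) := by
    simp only [Finset.mem_filter, Finset.mem_univ, true_and]
    exact Subtype.ext (orderOf_dvd_iff_pow_eq_one.1 h)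
  rw [← h3] at h4
  simp only [Finset.mem_filter, Finset.mem_univ, true_and] at h4
  obtain ⟨n, hn⟩ := h4
  exact ⟨n, congrArg Subtype.val hn⟩

theorem cmp_iff {x y z : G} (hx : x ∈ zpowers z) (hy : y ∈ zpowers z) :
    Cmp x y ↔ (orderOf x ∣ orderOf y ∨ orderOf y ∣ orderOf x) := by
  constructor
  · rintro (h | h)
    · exact Or.inl (orderOf_dvd_of_mem_zpowers h)
    · exact Or.inr (orderOf_dvd_of_mem_zpowers h)
  · rintro (h | h)
    · exact Or.inl (mem_of_dvd hx hy h)
    · exact Or.inr (mem_of_dvd hy hx h)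

theorem exists_ord {z : G} {d : ℕ} (hd : d ∣ orderOf z) : ∃ x ∈ zpowers z, orderOf x = d :=
  ⟨z ^ (orderOf z / d), pow_mem (mem_zpowers z) _, orderOf_pow_orderOf_div (orderOf_pos z).ne' hd⟩

theorem zp_eq {x y : G} (h : x ∈ zpowers y) (ho : orderOf y ≤ orderOf x) : zpowers x = zpowers y :=
  Subgroup.eq_of_le_of_card_ge (le_of_mem h) (by rw [Nat.card_zpowers, Nat.card_zpowers]; exact ho)

theorem prime_incomp {x y : G} {s t i j : ℕ} (hs : s.Prime) (ht : t.Prime) (hst : s ≠ t) (hi : 1 ≤ i) (hj : 1 ≤ j)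
    (hx : orderOf x = s ^ i) (hy : orderOf y = t ^ j) : ¬ Cmp x y := by
  rintro (h | h)
  · have h1 := orderOf_dvd_of_mem_zpowers h
    rw [hx, hy] at h1
    have h2 : s ∣ t ^ j := (dvd_pow_self s (by omega)).trans h1
    exact hst ((Nat.prime_dvd_prime_iff_eq hs ht).1 (hs.dvd_of_dvd_pow h2))
  · have h1 := orderOf_dvd_of_mem_zpowers h
    rw [hx, hy] at h1
    have h2 : t ∣ s ^ i := (dvd_pow_self t (by omega)).trans h1
    exact hst ((Nat.prime_dvd_prime_iff_eq ht hs).1 (ht.dvd_of_dvd_pow h2)).symm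

/-- either the order is a power of `s`, or incomparable with an element of prime power order -/
theorem key_elt {z x : G} (hx : x ∈ zpowers z) (hx1 : x ≠ 1) (hxz : z ∉ zpowers x) :
    ∃ (s k : ℕ) (f : G), s.Prime ∧ 1 ≤ k ∧ f ∈ zpowers z ∧ orderOf f = s ^ k ∧
      (¬ Cmp x f ∨ ∃ j, 1 ≤ j ∧ orderOf x = s ^ j) := by
  have hnd : ¬ orderOf z ∣ orderOf x := fun h => hxz (mem_of_dvd (mem_zpowers z) hx h)
  rw [Nat.dvd_iff_prime_pow_dvd_dvd] at hnd
  push Not at hnd
  obtain ⟨s, k, hs, hk1, hk2⟩ := hnd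
  have hk0 : 1 ≤ k := by
    rcases Nat.eq_zero_or_pos k with h | h
    · rw [h, pow_zero] at hk2; exact absurd (one_dvd _) hk2
    · exact h
  obtain ⟨f, hf, hfo⟩ := exists_ord hk1
  refine ⟨s, k, f, hs, hk0, hf, hfo, ?_⟩
  by_cases hc : Cmp x f
  · right
    rw [cmp_iff hx hf, hfo] at hc
    rcases hc with hc | hc
    · obtain ⟨j, -, hj⟩ := (Nat.dvd_prime_pow hs).1 hc
      refine ⟨j, ?_, hj⟩
      rcases Nat.eq_zero_or_pos j with h | h
      · rw [h, pow_zero, orderOf_eq_one_iff] at hj; exact absurd hj hx1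
      · exact h
    · exact absurd hc hk2
  · exact Or.inl hc

theorem conn {z : G} {p q : ℕ} (hp : p.Prime) (hq : q.Prime) (hpq : p ≠ q) (hpz : p ∣ orderOf z) (hqz : q ∣ orderOf z)
    (Q : G → Prop) (hQ : ∀ x ∈ zpowers z, ∀ y ∈ zpowers z, ¬ Cmp x y → (Q x ↔ Q y)) {a : G} (ha : a ∈ zpowers z)
    (hao : orderOf a = p) {x : G} (hx : x ∈ zpowers z) (hx1 : x ≠ 1) (hxz : z ∉ zpowers x) : Q x ↔ Q a := by
  obtain ⟨b, hb, hbo⟩ := exists_ord hqz
  have hab : Q a ↔ Q b := hQ a ha b hb (prime_incomp hp hq hpq le_rfl le_rfl (by rw [hao, pow_one]) (by rw [hbo, pow_one]))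
  have hf : ∀ (f : G) (s k : ℕ), s.Prime → 1 ≤ k → f ∈ zpowers z → orderOf f = s ^ k → (Q f ↔ Q a) := by
    intro f s k hs hk hf hfo
    by_cases hsp : s = p
    · rw [hab]
      exact hQ f hf b hb (prime_incomp hs hq (by rw [hsp]; exact hpq) hk le_rfl hfo (by rw [hbo, pow_one]))
    · exact hQ f hf a ha (prime_incomp hs hp hsp hk le_rfl hfo (by rw [hao, pow_one]))
  obtain ⟨s, k, f, hs, hk, hfz, hfo, h | ⟨j, hj, hjo⟩⟩ := key_elt hx hx1 hxz
  · rw [hQ x hx f hfz h]
    exact hf f s k hs hk hfz hfo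
  · exact hf x s j hs hj hx hjo

theorem dom {z w : G} {p q : ℕ} (hp : p.Prime) (hq : q.Prime) (hpq : p ≠ q) (hpz : p ∣ orderOf z) (hqz : q ∣ orderOf z)
    (hw : w ∈ zpowers z) (hd : ∀ v ∈ zpowers z, Cmp w v) : w = 1 ∨ z ∈ zpowers w := by
  by_contra hcon
  push Not at hcon
  obtain ⟨s, k, f, hs, hk, hfz, hfo, h | ⟨j, hj, hjo⟩⟩ := key_elt hw hcon.1 hcon.2
  · exact h (hd f hfz)
  · by_cases hsp : s = p
    · obtain ⟨b, hb, hbo⟩ := exists_ord hqz
      exact prime_incomp hs hq (by rw [hsp]; exact hpq) hj le_rfl hjo (by rw [hbo, pow_one]) (hd b hb)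
    · obtain ⟨a, ha, hao⟩ := exists_ord hpz
      exact prime_incomp hs hp hsp hj le_rfl hjo (by rw [hao, pow_one]) (hd a ha)

theorem two_primes {z x y : G} (hx : x ∈ zpowers z) (hy : y ∈ zpowers z) (hxy : ¬ Cmp x y) :
    ∃ s t : ℕ, s.Prime ∧ t.Prime ∧ s ≠ t ∧ s ∣ orderOf z ∧ t ∣ orderOf z := by
  rw [cmp_iff hx hy] at hxy
  push Not at hxy
  obtain ⟨h1, h2⟩ := hxy
  rw [Nat.dvd_iff_prime_pow_dvd_dvd] at h1 h2
  push Not at h1 h2
  obtain ⟨s, k, hs, hk1, hk2⟩ := h1
  obtain ⟨t, l, ht, hl1, hl2⟩ := h2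
  have hk0 : k ≠ 0 := by
    rintro rfl; exact hk2 (by simp)
  have hl0 : l ≠ 0 := by
    rintro rfl; exact hl2 (by simp)
  refine ⟨s, t, hs, ht, ?_, ((dvd_pow_self s hk0).trans hk1).trans (orderOf_dvd_of_mem_zpowers hx),
    ((dvd_pow_self t hl0).trans hl1).trans (orderOf_dvd_of_mem_zpowers hy)⟩
  rintro rfl
  rcases le_total k l with h | h
  · exact hk2 ((pow_dvd_pow s h).trans hl1)
  · exact hl2 ((pow_dvd_pow s h).trans hk1)

theorem gen_card [Fintype G] (g : G) [DecidablePred (fun a : G => zpowers a = zpowers g)] :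
    (Finset.univ.filter (fun a : G => zpowers a = zpowers g)).card = Nat.totient (orderOf g) := by
  classical
  haveI : Fintype (zpowers g) := Fintype.ofFinite _
  have h1 : (Finset.univ.filter (fun a : G => zpowers a = zpowers g)).card =
      (Finset.univ.filter (fun a : zpowers g => orderOf a = orderOf g)).card := by
    symm
    refine Finset.card_bij (fun (a : zpowers g) _ => (a : G)) ?_ ?_ ?_
    · intro a ha
      simp only [Finset.mem_filter, Finset.mem_univ, true_and] at ha ⊢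
      have ha' : orderOf (a : G) = orderOf g := by rw [Subgroup.orderOf_coe]; exact ha
      exact zp_eq a.2 ha'.ge
    · intro a _ b _ h; exact Subtype.ext h
    · intro b hb
      simp only [Finset.mem_filter, Finset.mem_univ, true_and] at hb
      refine ⟨⟨b, hb ▸ mem_zpowers b⟩, ?_, rfl⟩
      simp only [Finset.mem_filter, Finset.mem_univ, true_and]
      rw [Subgroup.orderOf_mk, ← Nat.card_zpowers, ← Nat.card_zpowers, hb]
  rw [h1]
  have h2 : orderOf g ∣ Fintype.card (zpowers g) := by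
    rw [← Nat.card_eq_fintype_card, Nat.card_zpowers]
  exact IsCyclic.card_orderOf_eq_totient (α := zpowers g) h2

theorem dvd_card_closed {R : ℕ} (B : Finset G) (hcl : ∀ y ∈ B, ∀ y', zpowers y' = zpowers y → y' ∈ B)
    (hR : ∀ y ∈ B, R ∣ orderOf y) : Nat.totient R ∣ B.card := by
  classical
  haveI : Fintype G := Fintype.ofFinite G
  haveI : Fintype (Subgroup G) := Fintype.ofFinite _
  rw [Finset.card_eq_sum_card_fiberwise (f := fun g : G => zpowers g) (t := Finset.univ)
    (fun _ _ => Finset.mem_coe.2 (Finset.mem_univ _))]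
  apply Finset.dvd_sum
  intro K _
  by_cases hK : ∃ g ∈ B, zpowers g = K
  · obtain ⟨g, hg, rfl⟩ := hK
    have h1 : B.filter (fun a => zpowers a = zpowers g) = Finset.univ.filter (fun a : G => zpowers a = zpowers g) := by
      ext a
      simp only [Finset.mem_filter, Finset.mem_univ, true_and]
      exact ⟨fun h => h.2, fun h => ⟨hcl g hg a h, h⟩⟩
    rw [h1, gen_card]
    exact Nat.totient_dvd_of_dvd (hR g hg)
  · have h1 : B.filter (fun a => zpowers a = K) = ∅ := by
      rw [Finset.eq_empty_iff_forall_notMem]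
      intro a ha
      simp only [Finset.mem_filter] at ha
      exact hK ⟨a, ha⟩
    rw [h1]; simp

theorem ord_card [Fintype G] {z : G} {d : ℕ} (hd : d ∣ orderOf z)
    [DecidablePred (fun a : G => a ∈ zpowers z ∧ orderOf a = d)] :
    (Finset.univ.filter (fun a : G => a ∈ zpowers z ∧ orderOf a = d)).card = Nat.totient d := by
  classical
  obtain ⟨g, hg, hgo⟩ := exists_ord hd
  subst hgo
  rw [← gen_card g]
  congr 1
  ext a
  simp only [Finset.mem_filter, Finset.mem_univ, true_and]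
  constructor
  · rintro ⟨h1, h2⟩
    exact zp_eq (mem_of_dvd h1 hg h2.dvd) h2.ge
  · intro h
    refine ⟨le_of_mem hg (h ▸ mem_zpowers a), ?_⟩
    rw [← Nat.card_zpowers, ← Nat.card_zpowers, h]

end basics

end Cfsg.Agent.H14.PG
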