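import Mathlib
import Cfsg.Agent.H14.PG1

set_option autoImplicit false

/-! # H14/PG2: power graphs, main argument -/

namespace Cfsg.Agent.H14.PG

open Subgroup

universe u v

theorem totient_prime_of_dvd {R : ℕ} {r k : ℕ} (hr : r.Prime) (hk : R = r ^ k) (hR : 1 < R)
    (h : Nat.totient R ∣ R - 1) : Nat.totient R = R - 1 := by
  have hk0 : k ≠ 0 := by
    rintro rfl; rw [pow_zero] at hk; omega
  obtain ⟨j, rfl⟩ : ∃ j, k = j + 1 := ⟨k - 1, by omega⟩
  rcases Nat.eq_zero_or_pos j with rfl | hj
  · rw [hk, zero_add, pow_one]; exact Nat.totient_prime hr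
  · exfalso
    have h1 : r ∣ Nat.totient R := by
      rw [hk, Nat.totient_prime_pow hr (by omega), Nat.add_sub_cancel]
      exact Dvd.dvd.mul_right (dvd_pow_self r (by omega)) _
    have h2 : r ∣ R := by rw [hk]; exact dvd_pow_self r (by omega)
    have h3 : r ∣ R - (R - 1) := Nat.dvd_sub h2 (h1.trans h)
    rw [show R - (R - 1) = 1 by omega] at h3
    exact hr.one_lt.ne' (Nat.dvd_one.1 h3)

theorem main_aux {G : Type u} {H : Type v} [Group G] [Finite G] [Group H] [Finite H] (e : G ≃ H)
    (he : ∀ x y, Cmp x y ↔ Cmp (e x) (e y)) (he1 : e 1 = 1) {z : G} (hz : ∀ y, z ∈ zpowers y → y ∈ zpowers z)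
    {p q : ℕ} (hp : p.Prime) (hq : q.Prime) (hpq : p ≠ q) (hpz : p ∣ orderOf z) (hqz : q ∣ orderOf z)
    (hmax : ∀ w, zpowers w = zpowers z → orderOf (e w) ≤ orderOf (e z)) : ∃ h : H, orderOf h = orderOf z := by
  classical
  have hz1 : z ≠ 1 := by
    rintro rfl
    rw [orderOf_one, Nat.dvd_one] at hpz
    exact hp.one_lt.ne' hpz
  have hN : ∀ x, Cmp (e x) (e z) ↔ x ∈ zpowers z := by
    intro x
    rw [← he]
    constructor
    · rintro (h | h)
      · exact h
      · exact hz x h
    · intro h; exact Or.inl h
  by_cases hmx : ∀ y : H, e z ∈ zpowers y → y ∈ zpowers (e z)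
  · refine ⟨e z, ?_⟩
    have h1 : ∀ x, x ∈ zpowers z ↔ e x ∈ zpowers (e z) := by
      intro x
      rw [← hN]
      constructor
      · rintro (h | h)
        · exact h
        · exact hmx _ h
      · intro h; exact Or.inl h
    rw [← Nat.card_zpowers, ← Nat.card_zpowers]
    exact (Nat.card_congr (e.subtypeEquiv h1)).symm
  · exfalso
    push Not at hmx
    obtain ⟨y, hy1, hy2⟩ := hmx
    obtain ⟨a, ha, hao⟩ := exists_ord hpz
    obtain ⟨b, hb, hbo⟩ := exists_ord hqz
    have hab : ¬ Cmp a b := prime_incomp hp hq hpq le_rfl le_rfl (by rw [hao, pow_one]) (by rw [hbo, pow_one])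
    have ha1 : a ≠ 1 := by
      rintro rfl; rw [orderOf_one] at hao; exact hp.one_lt.ne hao
    have hpart : ∀ x : G, orderOf x = p → z ∉ zpowers x := by
      intro x hxo h
      have h1 := hqz.trans (orderOf_dvd_of_mem_zpowers h)
      rw [hxo] at h1
      exact hpq ((Nat.prime_dvd_prime_iff_eq hq hp).1 h1).symm
    have hQ : ∀ x ∈ zpowers z, ∀ y ∈ zpowers z, ¬ Cmp x y → (e x ∈ zpowers (e z) ↔ e y ∈ zpowers (e z)) := by
      have hside : ∀ x ∈ zpowers z, ∀ y ∈ zpowers z, ¬ Cmp x y → e x ∈ zpowers (e z) → e y ∈ zpowers (e z) := by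
        intro x hx y hy hxy h
        rcases (hN y).2 hy with h1 | h1
        · exact h1
        · exfalso
          apply hxy
          rw [he]
          exact Or.inl (le_of_mem h1 h)
      intro x hx y hy hxy
      exact ⟨hside x hx y hy hxy, hside y hy x hx (fun h => hxy h.symm)⟩
    have hconn : ∀ x ∈ zpowers z, x ≠ 1 → z ∉ zpowers x → (e x ∈ zpowers (e z) ↔ e a ∈ zpowers (e z)) :=
      fun x hx hx1 hxz => conn hp hq hpq hpz hqz (fun x => e x ∈ zpowers (e z)) hQ ha hao hx hx1 hxz
    by_cases hQa : e a ∈ zpowers (e z)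
    · -- Case 4
      obtain ⟨y0, rfl⟩ := e.surjective y
      have hy0 : y0 ∈ zpowers z := (hN y0).1 (Or.inr hy1)
      have hy01 : y0 ≠ 1 := by
        rintro rfl
        rw [he1, zpowers_one_eq_bot, mem_bot] at hy1
        exact hz1 (e.injective (by rw [hy1, he1]))
      have hzy0 : z ∈ zpowers y0 := by
        by_contra h
        exact hy2 ((hconn y0 hy0 hy01 h).2 hQa)
      have hcmp : ∀ v ∈ zpowers (e y0), Cmp (e z) v := by
        intro v hv
        obtain ⟨v0, rfl⟩ := e.surjective v
        have h1 : Cmp v0 y0 := (he v0 y0).2 (Or.inl hv)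
        have h2 : v0 ∈ zpowers z := by
          rcases h1 with h1 | h1
          · exact le_of_mem hy0 h1
          · exact hz v0 (le_of_mem h1 hzy0)
        exact ((hN v0).2 h2).symm
      have hQb : e b ∈ zpowers (e z) := (hQ a ha b hb hab).1 hQa
      obtain ⟨s, t, hs, ht, hst, hsz, htz⟩ := two_primes hQa hQb (fun h => hab ((he a b).2 h))
      have hd := orderOf_dvd_of_mem_zpowers hy1
      rcases dom hs ht hst (hsz.trans hd) (htz.trans hd) hy1 hcmp with h | h
      · exact hz1 (e.injective (by rw [h, he1]))
      · exact hy2 h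
    · -- Case 5
      have hQn : ∀ x ∈ zpowers z, x ≠ 1 → z ∉ zpowers x → e x ∉ zpowers (e z) :=
        fun x hx hx1 hxz h => hQa ((hconn x hx hx1 hxz).1 h)
      have hT : ∀ x : G, (x = 1 ∨ zpowers x = zpowers z) ↔ e x ∈ zpowers (e z) := by
        intro x
        constructor
        · rintro (rfl | h)
          · rw [he1]; exact one_mem _
          · have hx : x ∈ zpowers z := h ▸ mem_zpowers x
            rcases (hN x).2 hx with h1 | h1
            · exact h1
            · rw [zp_eq h1 (hmax x h)]; exact mem_zpowers _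
        · intro h
          have hx : x ∈ zpowers z := (hN x).1 (Or.inl h)
          by_contra hcon
          push Not at hcon
          refine hQn x hx hcon.1 (fun h1 => hcon.2 ?_) h
          exact le_antisymm (le_of_mem hx) (le_of_mem h1)
      haveI : Fintype G := Fintype.ofFinite G
      haveI : Fintype H := Fintype.ofFinite H
      have hR : orderOf (e z) = Nat.totient (orderOf z) + 1 := by
        rw [← Nat.card_zpowers]
        have h1 : Nat.card {x : G // x = 1 ∨ zpowers x = zpowers z} = Nat.card (zpowers (e z)) :=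
          Nat.card_congr (e.subtypeEquiv hT)
        rw [← h1, Nat.card_eq_fintype_card, Fintype.card_subtype]
        have h2 : (Finset.univ.filter fun x : G => x = 1 ∨ zpowers x = zpowers z) =
            insert 1 (Finset.univ.filter fun x : G => zpowers x = zpowers z) := by
          ext x; simp
        rw [h2, Finset.card_insert_of_notMem, gen_card]
        simp only [Finset.mem_filter, Finset.mem_univ, true_and, zpowers_one_eq_bot]
        intro h
        have : z ∈ (⊥ : Subgroup G) := by rw [h]; exact mem_zpowers z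
        exact hz1 (mem_bot.1 this)
      set R := orderOf (e z) with hRdef
      have hRgt : 1 < R := by
        have : 0 < Nat.totient (orderOf z) := Nat.totient_pos.2 (orderOf_pos z)
        omega
      -- R is a prime power
      have hclique : ∀ u ∈ zpowers (e z), ∀ w ∈ zpowers (e z), Cmp u w := by
        intro u hu w hw
        obtain ⟨u0, rfl⟩ := e.surjective u
        obtain ⟨w0, rfl⟩ := e.surjective w
        rw [← he]
        rcases (hT u0).2 hu with rfl | h1
        · exact cmp_one _
        · rcases (hT w0).2 hw with rfl | h2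
          · exact (cmp_one _).symm
          · left; rw [h2, ← h1]; exact mem_zpowers _
      obtain ⟨r, k, hr, hRk⟩ : ∃ r k : ℕ, r.Prime ∧ R = r ^ k := by
        refine ⟨R.minFac, _, Nat.minFac_prime (by omega), Nat.eq_prime_pow_of_unique_prime_dvd (by omega) ?_⟩
        intro d hd hdR
        by_contra hne
        obtain ⟨u, hu, huo⟩ := exists_ord (z := e z) hdR
        obtain ⟨w, hw, hwo⟩ := exists_ord (z := e z) (Nat.minFac_dvd R)
        exact prime_incomp hd (Nat.minFac_prime (by omega)) hne le_rfl le_rfl (by rw [huo, pow_one])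
          (by rw [hwo, pow_one]) (hclique u hu w hw)
      -- divisibility for each prime
      have hdiv : ∀ p q : ℕ, p.Prime → q.Prime → p ≠ q → p ∣ orderOf z → q ∣ orderOf z → Nat.totient R ∣ p - 1 := by
        intro p q hp hq hpq hpz hqz
        have hcard : ((Finset.univ.filter (fun a : G => a ∈ zpowers z ∧ orderOf a = p)).map e.toEmbedding).card = p - 1 := by
          rw [Finset.card_map, ord_card hpz, Nat.totient_prime hp]
        rw [← hcard]
        have hmemB : ∀ x : G, x ∈ zpowers z → orderOf x = p → e z ∈ zpowers (e x) := by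
          intro x hx hxo
          have hx1 : x ≠ 1 := by
            rintro rfl; rw [orderOf_one] at hxo; exact hp.one_lt.ne hxo
          have hxz : z ∉ zpowers x := by
            intro h
            have h1 := hqz.trans (orderOf_dvd_of_mem_zpowers h)
            rw [hxo] at h1
            exact hpq ((Nat.prime_dvd_prime_iff_eq hq hp).1 h1).symm
          rcases (hN x).2 hx with h1 | h1
          · exact absurd h1 (hQn x hx hx1 hxz)
          · exact h1
        apply dvd_card_closed
        · intro y hy y' hyy
          rw [Finset.mem_map] at hy ⊢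
          obtain ⟨x, hx, rfl⟩ := hy
          simp only [Finset.mem_filter, Finset.mem_univ, true_and] at hx
          obtain ⟨hx, hxo⟩ := hx
          obtain ⟨x', rfl⟩ := e.surjective y'
          refine ⟨x', ?_, rfl⟩
          simp only [Finset.mem_filter, Finset.mem_univ, true_and]
          have hyy' : zpowers (e x') = zpowers (e x) := hyy
          have hx' : x' ∈ zpowers z := by
            rw [← hN]
            right
            rw [hyy']
            exact hmemB x hx hxo
          have hc : ∀ v, Cmp x' v ↔ Cmp x v := by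
            intro v
            rw [he, he]
            exact cmp_congr hyy'
          refine ⟨hx', ?_⟩
          -- no prime other than p divides the order of x'
          have hother : ∀ u : ℕ, u.Prime → u ≠ p → ¬ u ∣ orderOf x' := by
            intro u hu hup hux
            obtain ⟨v, hv, hvo⟩ := exists_ord hux
            have h1 : Cmp x v := (hc v).1 (Or.inr hv)
            exact prime_incomp hp hu (Ne.symm hup) le_rfl le_rfl (by rw [hxo, pow_one]) (by rw [hvo, pow_one]) h1
          have hx'1 : orderOf x' ≠ 1 := by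
            intro h1
            rw [orderOf_eq_one_iff] at h1
            subst h1
            obtain ⟨v, hv, hvo⟩ := exists_ord hqz
            exact prime_incomp hp hq hpq le_rfl le_rfl (by rw [hxo, pow_one]) (by rw [hvo, pow_one])
              ((hc v).1 (cmp_one v))
          have hpow : orderOf x' = p ^ (orderOf x').primeFactorsList.length :=
            Nat.eq_prime_pow_of_unique_prime_dvd (orderOf_pos x').ne' (fun {d} hd hdx => by
              by_contra hne
              exact hother d hd hne hdx)
          set j := (orderOf x').primeFactorsList.length with hj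
          -- element of order p q
          have hpqz : p * q ∣ orderOf z := Nat.Coprime.mul_dvd_of_dvd_of_dvd ((Nat.coprime_primes hp hq).2 hpq) hpz hqz
          obtain ⟨v, hv, hvo⟩ := exists_ord hpqz
          have h1 : Cmp x v := by
            rw [cmp_iff hx hv, hxo, hvo]
            exact Or.inl (Dvd.intro _ rfl)
          have h2 := (hc v).2 h1
          rw [cmp_iff hx' hv, hvo, hpow] at h2
          have hj0 : j ≠ 0 := by
            intro h0
            rw [h0, pow_zero] at hpow
            exact hx'1 hpow
          rcases h2 with h2 | h2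
          · have hj1 : j = 1 := by
              by_contra hj1
              have h3 : p ^ 2 ∣ p * q := (pow_dvd_pow p (by omega)).trans h2
              rw [pow_two] at h3
              have h4 := Nat.dvd_of_mul_dvd_mul_left hp.pos h3
              exact hpq ((Nat.prime_dvd_prime_iff_eq hp hq).1 h4)
            rw [hpow, hj1, pow_one]
          · exfalso
            have h3 : q ∣ p ^ j := (Dvd.intro_left _ rfl).trans h2
            exact hpq ((Nat.prime_dvd_prime_iff_eq hq hp).1 (hq.dvd_of_dvd_pow h3)).symm
        · intro y hy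
          rw [Finset.mem_map] at hy
          obtain ⟨x, hx, rfl⟩ := hy
          simp only [Finset.mem_filter, Finset.mem_univ, true_and] at hx
          exact orderOf_dvd_of_mem_zpowers (hmemB x hx.1 hx.2)
      have hpd := hdiv p q hp hq hpq hpz hqz
      have hqd := hdiv q p hq hp hpq.symm hqz hpz
      have hpR : p - 1 ∣ R - 1 := by
        rw [hR, Nat.add_sub_cancel, ← Nat.totient_prime hp]
        exact Nat.totient_dvd_of_dvd hpz
      have hqR : q - 1 ∣ R - 1 := by
        rw [hR, Nat.add_sub_cancel, ← Nat.totient_prime hq]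
        exact Nat.totient_dvd_of_dvd hqz
      have htot := totient_prime_of_dvd hr hRk hRgt (hpd.trans hpR)
      rw [htot] at hpd hqd
      have e1 : p - 1 = R - 1 := Nat.dvd_antisymm hpR hpd
      have e2 : q - 1 = R - 1 := Nat.dvd_antisymm hqR hqd
      have := hp.one_lt
      have := hq.one_lt
      omega

/-- a group of order divisible by two primes with a nontrivial element comparable to everything is cyclic. -/
theorem cyclic_of_dom {H : Type v} [Group H] [Finite H] {p q : ℕ} (hp : p.Prime) (hq : q.Prime) (hpq : p ≠ q)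
    (hpH : p ∣ Nat.card H) (hqH : q ∣ Nat.card H) {x : H} (hx1 : x ≠ 1) (hx : ∀ y, Cmp x y) :
    p * q ∣ orderOf x := by
  haveI := Fact.mk hp
  haveI := Fact.mk hq
  obtain ⟨a, ha⟩ := exists_prime_orderOf_dvd_card' (G := H) p hpH
  obtain ⟨b, hb⟩ := exists_prime_orderOf_dvd_card' (G := H) q hqH
  have hox : orderOf x ≠ 1 := fun h => hx1 (orderOf_eq_one_iff.1 h)
  have key : ∀ (s t : ℕ) (u v : H), s.Prime → t.Prime → s ≠ t → orderOf u = s → orderOf v = t → s ∣ orderOf x := by
    intro s t u v hs ht hst hu hv
    rcases hx u with h | h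
    · have h1 := orderOf_dvd_of_mem_zpowers h
      rw [hu] at h1
      rw [((Nat.dvd_prime hs).1 h1).resolve_left hox]
    · have h1 := orderOf_dvd_of_mem_zpowers h
      rwa [hu] at h1
  exact Nat.Coprime.mul_dvd_of_dvd_of_dvd ((Nat.coprime_primes hp hq).2 hpq)
    (key p q a b hp hq hpq ha hb) (key q p b a hq hp hpq.symm hb ha)

theorem dir {G : Type u} {H : Type v} [Group G] [Finite G] [Group H] [Finite H] (e : G ≃ H)
    (he : ∀ x y, Cmp x y ↔ Cmp (e x) (e y)) {p q : ℕ} (hp : p.Prime) (hq : q.Prime) (hpq : p ≠ q)
    (h : ∃ g : G, orderOf g = p * q) : ∃ h : H, orderOf h = p * q := by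
  obtain ⟨g, hg⟩ := h
  have hfin : ∀ y : H, p * q ∣ orderOf y → ∃ h : H, orderOf h = p * q := by
    intro y hy
    obtain ⟨x, -, hx⟩ := exists_ord hy
    exact ⟨x, hx⟩
  have hcard : Nat.card G = Nat.card H := Nat.card_congr e
  by_cases he1 : e 1 = 1
  · -- a maximal cyclic subgroup containing g
    obtain ⟨z0, hz0, hz0max⟩ : ∃ z, g ∈ zpowers z ∧ ∀ y, g ∈ zpowers y → orderOf y ≤ orderOf z := by
      obtain ⟨z, hz, hm⟩ := Set.exists_max_image {z : G | g ∈ zpowers z} orderOf (Set.toFinite _) ⟨g, mem_zpowers g⟩
      exact ⟨z, hz, hm⟩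
    obtain ⟨z, hz, hzmax⟩ : ∃ z, zpowers z = zpowers z0 ∧ ∀ w, zpowers w = zpowers z0 → orderOf (e w) ≤ orderOf (e z) := by
      obtain ⟨z, hz, hm⟩ := Set.exists_max_image {z : G | zpowers z = zpowers z0} (fun z => orderOf (e z))
        (Set.toFinite _) ⟨z0, rfl⟩
      exact ⟨z, hz, hm⟩
    have hord : orderOf z = orderOf z0 := by rw [← Nat.card_zpowers, ← Nat.card_zpowers, hz]
    have hgz : g ∈ zpowers z := by rw [hz]; exact hz0
    have hpqz : p * q ∣ orderOf z := by rw [← hg]; exact orderOf_dvd_of_mem_zpowers hgz
    obtain ⟨y, hy⟩ := main_aux e he he1 (z := z) (fun y hy => by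
        have h1 := hz0max y (le_of_mem hy hgz)
        rw [zp_eq hy (by rw [hord]; exact h1)]
        exact mem_zpowers _) hp hq hpq ((Dvd.intro _ rfl).trans hpqz)
        ((Dvd.intro_left _ rfl).trans hpqz) (fun w hw => hzmax w (hw.trans hz))
    exact hfin y (by rw [hy]; exact hpqz)
  · have hpG : p ∣ Nat.card G := (Dvd.intro _ rfl).trans (hg ▸ orderOf_dvd_natCard g)
    have hqG : q ∣ Nat.card G := (Dvd.intro_left _ rfl).trans (hg ▸ orderOf_dvd_natCard g)
    rw [hcard] at hpG hqG
    refine hfin (e 1) (cyclic_of_dom hp hq hpq hpG hqG he1 fun y => ?_)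
    obtain ⟨y0, rfl⟩ := e.surjective y
    rw [← he]
    exact cmp_one _

end Cfsg.Agent.H14.PG
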