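import Cfsg.Agent.H11.FB1
import Cfsg.Agent.H2.OddSolv
import Cfsg.Agent.H1.Cores
import Cfsg.Prelude.Def_Transfer
import Cfsg.Prelude.Def_Local

/-! Pairs of elements of order p generating a p-solvable subgroup (helper14). -/

set_option autoImplicit false

namespace Cfsg.Agent.H14.Pair

open Cfsg

universe u

variable {G : Type u} [Group G] [Finite G] {p : ℕ} [hp : Fact p.Prime]

/-- In a p-solvable group with commutative p-subgroups, elements of order p lie in O_{p',p}. -/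
theorem mk_mem_pCore {L : Type*} [Group L] [Finite L] (hs : IsPSolvable p L)
    (hab : ∀ Q : Sylow p L, ∀ a ∈ Q, ∀ b ∈ Q, a * b = b * a) {x : L} (hx : ∃ k : ℕ, orderOf x = p ^ k) :
    (QuotientGroup.mk x : L ⧸ pPrimeCore p L) ∈ pCore p (L ⧸ pPrimeCore p L) := by
  have h1 := Cfsg.Agent.H2.charP_quotient_of_solvable hs
  obtain ⟨k, hk⟩ := hx
  have hxp : IsPGroup p (Subgroup.zpowers x) := by
    apply IsPGroup.of_card (n := k)
    rw [Nat.card_zpowers, hk]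
  obtain ⟨Q, hQ⟩ := hxp.exists_le_sylow
  apply h1
  rw [Subgroup.mem_centralizer_iff]
  intro y hy
  -- the image of Q is a Sylow subgroup
  obtain ⟨Qb, hQb⟩ : ∃ Qb : Sylow p (L ⧸ pPrimeCore p L), (Qb : Subgroup (L ⧸ pPrimeCore p L)) =
      (Q : Subgroup L).map (QuotientGroup.mk' (pPrimeCore p L)) :=
    ⟨Q.mapSurjective (QuotientGroup.mk'_surjective _), rfl⟩
  have hle : pCore p (L ⧸ pPrimeCore p L) ≤ (Qb : Subgroup (L ⧸ pPrimeCore p L)) :=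
    Cfsg.Agent.H1.pCore_le_sylow _
  have hyQ := hle hy
  rw [hQb] at hyQ
  obtain ⟨y', hy', rfl⟩ := hyQ
  have := hab Q y' hy' x (hQ (Subgroup.mem_zpowers x))
  change (QuotientGroup.mk y' : L ⧸ pPrimeCore p L) * QuotientGroup.mk x = QuotientGroup.mk x * QuotientGroup.mk y'
  rw [← QuotientGroup.mk_mul, ← QuotientGroup.mk_mul, this]

end Cfsg.Agent.H14.Pair

namespace Cfsg.Agent.H14.Pair

open Cfsg

variable {G : Type*} [Group G] [Finite G] {p : ℕ} [hp : Fact p.Prime]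

theorem eq_one_of_mem_pCore {H : Type*} [Group H] [Finite H] {a : H} (ha : a ∈ pCore p H)
    (h : ¬ p ∣ orderOf a) : a = 1 := by
  have h1 : IsPGroup p (pCore p H) := Cfsg.Agent.H1.pCore_isPGroup p H
  obtain ⟨k, hk⟩ := (IsPGroup.iff_orderOf.mp h1) ⟨a, ha⟩
  rw [Subgroup.orderOf_mk] at hk
  rcases Nat.eq_zero_or_pos k with h0 | h0
  · rw [h0, pow_zero] at hk
    exact orderOf_eq_one_iff.mp hk
  · exfalso; apply h; rw [hk]; exact dvd_pow_self p h0.ne'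

theorem pair_key (hp2 : p ≠ 2) {x y : G} (hx : orderOf x = p) (hy : orderOf y = p)
    (hab : ∀ Q : Subgroup G, IsPGroup p Q → ∀ a ∈ Q, ∀ b ∈ Q, a * b = b * a)
    (hs : IsPSolvable p ↥(Subgroup.closure ({x, y} : Set G))) :
    ¬ (¬ p ∣ orderOf (y * x) ∧ ¬ p ∣ orderOf (y⁻¹ * x)) := by
  rintro ⟨h1, h2⟩
  obtain ⟨L, hL⟩ : ∃ L, L = Subgroup.closure ({x, y} : Set G) := ⟨_, rfl⟩
  rw [← hL] at hs
  have hxL : x ∈ L := by rw [hL]; exact Subgroup.subset_closure (by simp)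
  have hyL : y ∈ L := by rw [hL]; exact Subgroup.subset_closure (by simp)
  have habL : ∀ Q : Sylow p L, ∀ a ∈ Q, ∀ b ∈ Q, a * b = b * a := by
    intro Q a ha b hb
    have h3 : IsPGroup p ((Q : Subgroup L).map L.subtype) := Q.isPGroup'.map _
    exact Subtype.ext (hab _ h3 a ⟨a, ha, rfl⟩ b ⟨b, hb, rfl⟩)
  have ox : orderOf (⟨x, hxL⟩ : L) = p := by rw [Subgroup.orderOf_mk, hx]
  have oy : orderOf (⟨y, hyL⟩ : L) = p := by rw [Subgroup.orderOf_mk, hy]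
  have mx := mk_mem_pCore hs habL (x := ⟨x, hxL⟩) ⟨1, by rw [ox, pow_one]⟩
  have my := mk_mem_pCore hs habL (x := ⟨y, hyL⟩) ⟨1, by rw [oy, pow_one]⟩
  have e1 : (QuotientGroup.mk (⟨y, hyL⟩ * ⟨x, hxL⟩ : L) : L ⧸ pPrimeCore p L) = 1 := by
    apply eq_one_of_mem_pCore (p := p)
    · rw [QuotientGroup.mk_mul]; exact mul_mem my mx
    · intro h
      apply h1
      have h3 := orderOf_map_dvd (QuotientGroup.mk' (pPrimeCore p L)) (⟨y, hyL⟩ * ⟨x, hxL⟩ : L)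
      have h4 : orderOf (⟨y, hyL⟩ * ⟨x, hxL⟩ : L) = orderOf (y * x) := by
        rw [← Subgroup.orderOf_coe]; rfl
      rw [h4] at h3
      exact h.trans h3
  have e2 : (QuotientGroup.mk ((⟨y, hyL⟩ : L)⁻¹ * ⟨x, hxL⟩ : L) : L ⧸ pPrimeCore p L) = 1 := by
    apply eq_one_of_mem_pCore (p := p)
    · rw [QuotientGroup.mk_mul, QuotientGroup.mk_inv]; exact mul_mem (inv_mem my) mx
    · intro h
      apply h2
      have h3 := orderOf_map_dvd (QuotientGroup.mk' (pPrimeCore p L)) ((⟨y, hyL⟩ : L)⁻¹ * ⟨x, hxL⟩ : L)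
      have h4 : orderOf ((⟨y, hyL⟩ : L)⁻¹ * ⟨x, hxL⟩ : L) = orderOf (y⁻¹ * x) := by
        rw [← Subgroup.orderOf_coe]; rfl
      rw [h4] at h3
      exact h.trans h3
  rw [QuotientGroup.mk_mul] at e1 e2
  rw [QuotientGroup.mk_inv] at e2
  obtain ⟨X, hX⟩ : ∃ X : L ⧸ pPrimeCore p L, X = QuotientGroup.mk (⟨x, hxL⟩ : L) := ⟨_, rfl⟩
  obtain ⟨Y, hY⟩ : ∃ Y : L ⧸ pPrimeCore p L, Y = QuotientGroup.mk (⟨y, hyL⟩ : L) := ⟨_, rfl⟩
  rw [← hX, ← hY] at e1 e2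
  have e3 : X = Y := (inv_mul_eq_one.mp e2).symm
  have e4 : X ^ 2 = 1 := by rw [sq]; nth_rewrite 1 [e3]; exact e1
  have e5 : X ^ p = 1 := by
    rw [hX, ← QuotientGroup.mk_pow]
    have : (⟨x, hxL⟩ : L) ^ p = 1 := by rw [← ox]; exact pow_orderOf_eq_one _
    rw [this]; rfl
  have e6 : X = 1 := by
    have h3 : orderOf X ∣ 2 := orderOf_dvd_of_pow_eq_one e4
    have h4 : orderOf X ∣ p := orderOf_dvd_of_pow_eq_one e5
    have h5 : Nat.Coprime 2 p := (Nat.coprime_primes Nat.prime_two hp.out).mpr (Ne.symm hp2)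
    have h6 := Nat.dvd_gcd h3 h4
    rw [Nat.Coprime.gcd_eq_one h5] at h6
    exact orderOf_eq_one_iff.mp (Nat.dvd_one.mp h6)
  rw [hX] at e6
  have e7 := (QuotientGroup.eq_one_iff _).mp e6
  have h7 : (Nat.card (pPrimeCore p L)).Coprime p := Cfsg.Agent.H1.pPrimeCore_coprime p L
  have h8 : orderOf (⟨x, hxL⟩ : L) ∣ Nat.card (pPrimeCore p L) := by
    have := orderOf_dvd_natCard (⟨⟨x, hxL⟩, e7⟩ : pPrimeCore p L)
    rwa [Subgroup.orderOf_mk] at this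
  rw [ox] at h8
  exact hp.out.one_lt.ne' (Nat.dvd_one.mp (h7 ▸ Nat.dvd_gcd h8 dvd_rfl))

end Cfsg.Agent.H14.Pair
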