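import Cfsg.Agent.H14.Pair1
import Cfsg.Agent.H27.CentralChar
import Cfsg.Agent.H27.PMod
import Cfsg.Agent.H11.Weak
import Cfsg.Agent.H11.Leon4
import Cfsg.Agent.H27.Util

/-! Pairs of elements of order p, part 2: the character estimate (helper14). -/

set_option autoImplicit false

namespace Cfsg.Agent.H14.Pair

open Finset

theorem arith {ι : Type*} [DecidableEq ι] (B : Finset ι) (o : ι) (ho : o ∈ B) (c d : ι → ℤ) (q : ℤ)
    (hq : 3 ≤ q) (hco : c o = 1) (hdo : d o = 1) (hd : ∀ i ∈ B, 0 < d i)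
    (h1 : ∑ i ∈ B, c i ^ 2 = q) (h2 : ∑ i ∈ B, c i * d i = 0)
    (h3 : ∀ i ∈ B, i ≠ o → 0 < c i → c i + q ≤ d i)
    (h4 : (q : ℚ) / 2 ≤ ∑ i ∈ B, (c i : ℚ) ^ 3 / (d i : ℚ)) : False := by
  -- a negative term
  obtain ⟨j, hjB, hjo, hcj⟩ : ∃ j ∈ B, j ≠ o ∧ c j < 0 := by
    by_contra hcon
    push Not at hcon
    have h5 : 0 < ∑ i ∈ B, c i * d i := by
      refine Finset.sum_pos' (fun i hi => ?_) ⟨o, ho, by rw [hco, hdo]; norm_num⟩
      by_cases hio : i = o
      · rw [hio, hco, hdo]; norm_num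
      · exact mul_nonneg (hcon i hi hio) (hd i hi).le
    omega
  have hjE : j ∈ B.erase o := mem_erase.mpr ⟨hjo, hjB⟩
  have e1 : ∑ i ∈ (B.erase o).erase j, c i ^ 2 = q - 1 - c j ^ 2 := by
    have a1 := Finset.add_sum_erase B (fun i => c i ^ 2) ho
    have a2 := Finset.add_sum_erase (B.erase o) (fun i => c i ^ 2) hjE
    rw [h1, hco] at a1
    linarith
  have e2 : ∑ i ∈ B, (c i : ℚ) ^ 3 / (d i : ℚ) = 1 + (c j : ℚ) ^ 3 / (d j : ℚ) +
      ∑ i ∈ (B.erase o).erase j, (c i : ℚ) ^ 3 / (d i : ℚ) := by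
    have a1 := Finset.add_sum_erase B (fun i => (c i : ℚ) ^ 3 / (d i : ℚ)) ho
    have a2 := Finset.add_sum_erase (B.erase o) (fun i => (c i : ℚ) ^ 3 / (d i : ℚ)) hjE
    rw [← a1, ← a2, hco, hdo]
    push_cast
    ring
  have e3 : (c j : ℚ) ^ 3 / (d j : ℚ) ≤ 0 := by
    apply div_nonpos_of_nonpos_of_nonneg
    · have : (c j : ℚ) < 0 := by exact_mod_cast hcj
      have h6 : (c j : ℚ) ^ 3 = (c j : ℚ) ^ 2 * c j := by ring
      rw [h6]
      exact mul_nonpos_of_nonneg_of_nonpos (sq_nonneg _) this.le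
    · exact_mod_cast (hd j hjB).le
  have e4 : ∀ i ∈ (B.erase o).erase j, (c i : ℚ) ^ 3 / (d i : ℚ) ≤ (c i : ℚ) ^ 2 / 3 := by
    intro i hi
    have hi1 : i ∈ B.erase o := Finset.mem_of_mem_erase hi
    have hiB : i ∈ B := Finset.mem_of_mem_erase hi1
    have hio : i ≠ o := Finset.ne_of_mem_erase hi1
    have hdi : (0 : ℚ) < d i := by exact_mod_cast hd i hiB
    by_cases hci : 0 < c i
    · have h5 := h3 i hiB hio hci
      have h6 : c i ^ 2 ≤ q - 1 := by
        have a1 := Finset.add_sum_erase B (fun i => c i ^ 2) ho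
        have a2 : c i ^ 2 ≤ ∑ i ∈ B.erase o, c i ^ 2 :=
          Finset.single_le_sum (f := fun i => c i ^ 2) (fun i _ => sq_nonneg _) hi1
        rw [h1, hco] at a1
        linarith
      have h7 : 2 * c i ≤ q := by nlinarith [sq_nonneg (q - 2)]
      have h8 : 3 * c i ≤ d i := by linarith
      rw [div_le_div_iff₀ hdi (by norm_num)]
      have h9 : (3 * c i : ℚ) ≤ d i := by exact_mod_cast h8
      have h10 : (0 : ℚ) ≤ (c i : ℚ) ^ 2 := sq_nonneg _
      nlinarith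
    · push Not at hci
      have h5 : (c i : ℚ) ≤ 0 := by exact_mod_cast hci
      have h6 : (c i : ℚ) ^ 3 / (d i : ℚ) ≤ 0 := by
        apply div_nonpos_of_nonpos_of_nonneg _ hdi.le
        have h6 : (c i : ℚ) ^ 3 = (c i : ℚ) ^ 2 * c i := by ring
        rw [h6]
        exact mul_nonpos_of_nonneg_of_nonpos (sq_nonneg _) h5
      have h7 : (0 : ℚ) ≤ (c i : ℚ) ^ 2 / 3 := by positivity
      linarith
  have e5 := Finset.sum_le_sum e4
  have e6 : ∑ i ∈ (B.erase o).erase j, (c i : ℚ) ^ 2 / 3 = ((q : ℚ) - 1 - (c j : ℚ) ^ 2) / 3 := by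
    rw [← Finset.sum_div]
    congr 1
    exact_mod_cast e1
  have e7 : (1 : ℚ) ≤ (c j : ℚ) ^ 2 := by
    have : 1 ≤ c j ^ 2 := by nlinarith
    exact_mod_cast this
  have hq' : (3 : ℚ) ≤ q := by exact_mod_cast hq
  rw [e6] at e5
  linarith

end Cfsg.Agent.H14.Pair

namespace Cfsg.Agent.H14.Pair

open Cfsg Cfsg.Agent.H3 Cfsg.Agent.H11 Cfsg.Agent.H27 ComplexConjugate

universe u

variable {G : Type u} [Group G] [Fintype G] {p : ℕ} [hp : Fact p.Prime] {M : Ideal AlgInt}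
  {P : Sylow p G}

/-- values of the characters at the class of `x`. -/
theorem exists_cd (P : Sylow p G) (hP : (P : Subgroup G) ≠ ⊥) {x : G}
    (hconj : ∀ z ∈ P, z ≠ 1 → IsConj x z) (χ : IrrCharacter G) :
    ∃ c n : ℤ, (χ : G → ℂ) x = c ∧
      (charDegree (χ : G → ℂ) : ℤ) + ((Nat.card (P : Subgroup G) : ℤ) - 1) * c =
        (Nat.card (P : Subgroup G) : ℤ) * n := by
  classical
  have := Fintype.ofFinite (P : Subgroup G)
  obtain ⟨n, hn⟩ := classInner_char_nat (isChar_restrict (P : Subgroup G) (irr_isChar χ.2))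
      (irr_isChar (isIrr_one (G := (P : Subgroup G))))
  have h0 : (Nat.card (P : Subgroup G) : ℂ) ≠ 0 := Nat.cast_ne_zero.mpr Nat.card_pos.ne'
  have h1 : (Nat.card (P : Subgroup G) : ℂ) * (n : ℂ) = ∑ s : (P : Subgroup G), (χ : G → ℂ) (s : G) := by
    rw [← hn]
    unfold classInner
    simp only [map_one, mul_one]
    rw [Nat.card_eq_fintype_card] at h0 ⊢
    field_simp
  have h2 : ∑ s : (P : Subgroup G), (χ : G → ℂ) (s : G) =
      (χ : G → ℂ) 1 + ((Nat.card (P : Subgroup G) : ℂ) - 1) * (χ : G → ℂ) x := by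
    rw [← Finset.add_sum_erase Finset.univ _ (Finset.mem_univ (1 : (P : Subgroup G)))]
    congr 1
    rw [Finset.sum_congr rfl (g := fun _ => (χ : G → ℂ) x)]
    · rw [Finset.sum_const, Finset.card_erase_of_mem (Finset.mem_univ _), Finset.card_univ,
        ← Nat.card_eq_fintype_card, nsmul_eq_mul, Nat.cast_sub Nat.card_pos]
      simp
    · intro s hs
      have hs1 : (s : G) ≠ 1 := fun h => Finset.ne_of_mem_erase hs (Subtype.ext h)
      exact (classFun_isConj (irr_classFun χ.2) (hconj s s.2 hs1)).symm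
  have hd := charDegree_cast (irr_isChar χ.2)
  have hq2 : 2 ≤ Nat.card (P : Subgroup G) := by
    have := (Subgroup.one_lt_card_iff_ne_bot (P : Subgroup G)).mpr hP
    omega
  have hq1 : ((Nat.card (P : Subgroup G) : ℂ) - 1) ≠ 0 := by
    intro h
    have : (Nat.card (P : Subgroup G) : ℂ) = 1 := by linear_combination h
    have h3 : Nat.card (P : Subgroup G) = 1 := by exact_mod_cast this
    omega
  obtain ⟨r, hr⟩ : ∃ r : ℚ, (χ : G → ℂ) x = (r : ℂ) := by
    refine ⟨((Nat.card (P : Subgroup G) : ℚ) * n - charDegree (χ : G → ℂ)) /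
      ((Nat.card (P : Subgroup G) : ℚ) - 1), ?_⟩
    push_cast
    rw [eq_div_iff hq1, hd]
    rw [h2] at h1
    linear_combination -h1
  have hint : IsIntegral ℤ (r : ℂ) := by
    rw [← hr]; exact isCharacter_isIntegral (irr_isChar χ.2) x
  obtain ⟨c, hc⟩ := int_of_isIntegral_rat hint
  have hxc : (χ : G → ℂ) x = c := by rw [hr, ← hc]; simp
  refine ⟨c, n, hxc, ?_⟩
  have h3 : ((charDegree (χ : G → ℂ) : ℤ) : ℂ) + (((Nat.card (P : Subgroup G) : ℤ) : ℂ) - 1) * (c : ℂ) =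
      ((Nat.card (P : Subgroup G) : ℤ) : ℂ) * ((n : ℤ) : ℂ) := by
    push_cast
    rw [h1, h2, hd, hxc]
  exact_mod_cast h3

/-- The value at a p-singular element. -/
theorem val_singular (hM : IsPModular p M) (hF : FrobSyl p P) {x : G}
    (hconj : ∀ z ∈ P, z ≠ 1 → IsConj x z) {χ : IrrCharacter G} (hχ : χ ∈ principalBlock M G)
    {g : G} (hg : p ∣ orderOf g) : (χ : G → ℂ) g = (χ : G → ℂ) x := by
  have hMp : M.IsPrime := pmod_isPrime hM
  obtain ⟨z, hz⟩ := exists_isPPart hp.out g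
  have hx1 : z ≠ 1 := fun h1 => (isPPart_eq_one_iff hp.out hz).mp h1 hg
  obtain ⟨y, hxy, hcomm, hxp, hyp⟩ := hz
  obtain ⟨c, hc⟩ := exists_conj_mem_sylow P hxp
  have h1 : c * g * c⁻¹ = (c * z * c⁻¹) * (c * y * c⁻¹) := by rw [← hxy]; group
  have h2 : (c * z * c⁻¹) * (c * y * c⁻¹) = (c * y * c⁻¹) * (c * z * c⁻¹) := by
    have := hcomm.eq
    calc (c * z * c⁻¹) * (c * y * c⁻¹) = c * (z * y) * c⁻¹ := by group
      _ = c * (y * z) * c⁻¹ := by rw [this]
      _ = _ := by group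
  have h3 : c * z * c⁻¹ ≠ 1 := by
    intro h4
    apply hx1
    have : z = c⁻¹ * (c * z * c⁻¹) * c := by group
    rw [this, h4]; group
  rw [← irr_classFun χ.2 g c, h1, hF.const hM hc h3 h2 (by rwa [orderOf_conj]) hχ]
  exact (classFun_isConj (irr_classFun χ.2) (hconj _ hc h3)).symm

end Cfsg.Agent.H14.Pair
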