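import Cfsg.Agent.H14.Pair2
import Cfsg.Agent.H27.DefZero
import Cfsg.Agent.H11.PF1

/-! Pairs of elements of order p, part 3: the main contradiction (helper14). -/

set_option autoImplicit false

namespace Cfsg.Agent.H14.Pair

open Cfsg Cfsg.Agent.H3 Cfsg.Agent.H11 Cfsg.Agent.H27 ComplexConjugate

universe u

variable {G : Type u} [Group G] [Fintype G] {p : ℕ} [hp : Fact p.Prime]

theorem pair_main [IsSimpleGroup G] (hp2 : p ≠ 2) (P : Sylow p G)
    (hP : (P : Subgroup G) ≠ ⊥) (hF : FrobSyl p P) {x : G} (hx : x ∈ P) (hx1 : x ≠ 1)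
    (hconj : ∀ z ∈ P, z ≠ 1 → IsConj x z)
    (hpair : ∀ g : G, ¬ (¬ p ∣ orderOf (g * x * g⁻¹ * x) ∧ ¬ p ∣ orderOf ((g * x * g⁻¹)⁻¹ * x))) :
    False := by
  classical
  obtain ⟨M, hM⟩ := exists_isPModular hp.out
  have hMp : M.IsPrime := pmod_isPrime hM
  have := Fintype.ofFinite (IrrCharacter G)
  obtain ⟨B, hBdef⟩ : ∃ B : Finset (IrrCharacter G), B = Finset.univ.filter (· ∈ principalBlock M G) := ⟨_, rfl⟩
  have hmB : ∀ χ, χ ∈ B ↔ χ ∈ principalBlock M G := fun χ => by rw [hBdef]; simp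
  choose c n hc hn using exists_cd P hP hconj
  have hpx : p ∣ orderOf x := by
    obtain ⟨k, hk⟩ := mem_sylow_order hx
    rw [hk]
    apply dvd_pow_self
    rintro rfl
    rw [pow_zero] at hk
    exact hx1 (orderOf_eq_one_iff.mp hk)
  have hcr : ∀ χ : IrrCharacter G, conj ((χ : G → ℂ) x) = (χ : G → ℂ) x := by
    intro χ; rw [hc χ, map_intCast]
  have hq3 : 3 ≤ Nat.card (P : Subgroup G) := by
    obtain ⟨k, hk⟩ := P.isPGroup'.exists_card_eq
    have h1 := (Subgroup.one_lt_card_iff_ne_bot (P : Subgroup G)).mpr hP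
    have h2 : 3 ≤ p := by
      have := hp.out.two_le
      omega
    rcases Nat.eq_zero_or_pos k with h | h
    · rw [h, pow_zero] at hk; omega
    · rw [hk]
      calc 3 ≤ p := h2
        _ ≤ p ^ k := Nat.le_self_pow h.ne' p
  have ho : oneIrr G ∈ B := (hmB _).mpr oneIrr_mem
  -- orthogonality
  have hreg : ∀ w : G, ¬ p ∣ orderOf w → ∑ χ ∈ B, (χ : G → ℂ) w * (χ : G → ℂ) x = 0 := by
    intro w hw
    have h1 := weak_block_orthogonality hM (principalBlock_isPBlock (M := M) (G := G)) w x hw hpx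
    rw [finsum_mem_irr] at h1
    rw [← h1, hBdef]
    exact Finset.sum_congr rfl fun χ _ => by rw [hcr]
  have hsq : ∑ χ ∈ B, (χ : G → ℂ) x * (χ : G → ℂ) x = (Nat.card (P : Subgroup G) : ℂ) := by
    have h1 := hF.ortho hM hx hx1 hx hx1
    rw [if_pos (IsConj.refl x)] at h1
    rw [← h1, hBdef]
    exact Finset.sum_congr rfl fun χ _ => by rw [hcr]
  have hsing : ∀ w : G, p ∣ orderOf w → ∑ χ ∈ B, (χ : G → ℂ) w * (χ : G → ℂ) x =
      (Nat.card (P : Subgroup G) : ℂ) := by
    intro w hw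
    rw [← hsq]
    exact Finset.sum_congr rfl fun χ hχ => by
      rw [val_singular hM hF hconj ((hmB χ).mp hχ) hw]
  have hdc : ∀ χ : IrrCharacter G, (χ : G → ℂ) 1 = (charDegree (χ : G → ℂ) : ℂ) := fun χ =>
    (charDegree_cast (irr_isChar χ.2)).symm
  have hdpos : ∀ χ : IrrCharacter G, 0 < (charDegree (χ : G → ℂ) : ℤ) := by
    intro χ
    have : charDegree (χ : G → ℂ) ≠ 0 := by
      intro h
      have h1 := hdc χ
      rw [h, Nat.cast_zero] at h1
      exact irr_one_ne_zero χ.2 h1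
    omega
  -- the class sum
  have hcls : ∀ χ : IrrCharacter G, ∑ g : G, (χ : G → ℂ) (g * x * g⁻¹ * x) =
      (Fintype.card G : ℂ) * ((c χ : ℂ) ^ 2 / (charDegree (χ : G → ℂ) : ℂ)) := by
    intro χ
    rw [irr_sum_conj_mul χ.2, hc χ, hdc χ]
    ring
  obtain ⟨good, hgood⟩ : ∃ good : Finset G, good = Finset.univ.filter
    (fun g : G => p ∣ orderOf (g * x * g⁻¹ * x)) := ⟨_, rfl⟩
  have hsum : (Fintype.card G : ℂ) * ∑ χ ∈ B, (c χ : ℂ) ^ 3 / (charDegree (χ : G → ℂ) : ℂ) =
      (Nat.card (P : Subgroup G) : ℂ) * (good.card : ℂ) := by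
    have h1 : (Fintype.card G : ℂ) * ∑ χ ∈ B, (c χ : ℂ) ^ 3 / (charDegree (χ : G → ℂ) : ℂ) =
        ∑ χ ∈ B, ∑ g : G, (χ : G → ℂ) (g * x * g⁻¹ * x) * (χ : G → ℂ) x := by
      rw [Finset.mul_sum]
      refine Finset.sum_congr rfl fun χ _ => ?_
      rw [← Finset.sum_mul, hcls χ, hc χ]
      ring
    rw [h1, Finset.sum_comm]
    have h2 : ∀ g : G, ∑ χ ∈ B, (χ : G → ℂ) (g * x * g⁻¹ * x) * (χ : G → ℂ) x =
        if p ∣ orderOf (g * x * g⁻¹ * x) then (Nat.card (P : Subgroup G) : ℂ) else 0 := by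
      intro g
      split_ifs with h
      · exact hsing _ h
      · exact hreg _ h
    rw [Finset.sum_congr rfl fun g _ => h2 g, ← Finset.sum_filter, ← hgood, Finset.sum_const,
      nsmul_eq_mul, mul_comm]
  -- at least half of the elements are good
  have hhalf : Fintype.card G ≤ 2 * good.card := by
    have hxi : IsConj x x⁻¹ := hconj _ (inv_mem hx) (inv_ne_one.mpr hx1)
    obtain ⟨m, hm⟩ := isConj_iff.1 hxi
    have h1 : (Finset.univ \ good).card ≤ good.card := by
      apply Finset.card_le_card_of_injOn (fun g => g * m)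
      · intro g hg
        have hg' : g ∉ good := (Finset.mem_sdiff.mp hg).2
        rw [hgood, Finset.mem_filter] at hg'
        push Not at hg'
        have h2 := hg' (Finset.mem_univ _)
        have h3 : g * m * x * (g * m)⁻¹ = (g * x * g⁻¹)⁻¹ := by
          have : g * m * x * (g * m)⁻¹ = g * (m * x * m⁻¹) * g⁻¹ := by group
          rw [this, hm]; group
        have h4 := hpair g
        push Not at h4
        have h5 := h4 h2
        rw [Finset.mem_coe, hgood, Finset.mem_filter]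
        refine ⟨Finset.mem_univ _, ?_⟩
        rw [h3]
        exact h5
      · intro a _ b _ hab
        exact mul_right_cancel hab
    have h2 : (Finset.univ \ good).card = Fintype.card G - good.card := by
      rw [Finset.card_sdiff_of_subset (Finset.subset_univ _), Finset.card_univ]
    omega
  -- conversion to rational numbers
  have hQ : (Fintype.card G : ℚ) * ∑ χ ∈ B, (c χ : ℚ) ^ 3 / ((charDegree (χ : G → ℂ) : ℤ) : ℚ) =
      (Nat.card (P : Subgroup G) : ℚ) * (good.card : ℚ) := by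
    have h1 : (((Fintype.card G : ℚ) * ∑ χ ∈ B, (c χ : ℚ) ^ 3 / ((charDegree (χ : G → ℂ) : ℤ) : ℚ) : ℚ) : ℂ) =
      (((Nat.card (P : Subgroup G) : ℚ) * (good.card : ℚ) : ℚ) : ℂ) := by
      push_cast
      exact hsum
    exact_mod_cast h1
  have hG0 : (0 : ℚ) < Fintype.card G := by exact_mod_cast Fintype.card_pos
  refine arith B (oneIrr G) ho c (fun χ => (charDegree (χ : G → ℂ) : ℤ))
    (Nat.card (P : Subgroup G)) (by exact_mod_cast hq3) ?_ ?_ (fun χ _ => hdpos χ) ?_ ?_ ?_ ?_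
  · have := hc (oneIrr G)
    rw [oneIrr_apply] at this
    exact_mod_cast this.symm
  · have := hdc (oneIrr G)
    rw [oneIrr_apply] at this
    exact_mod_cast this.symm
  · have h1 : ((∑ χ ∈ B, c χ ^ 2 : ℤ) : ℂ) = ((Nat.card (P : Subgroup G) : ℤ) : ℂ) := by
      push_cast
      rw [← hsq]
      exact Finset.sum_congr rfl fun χ _ => by rw [hc χ]; ring
    exact_mod_cast h1
  · have h1 : ((∑ χ ∈ B, c χ * (charDegree (χ : G → ℂ) : ℤ) : ℤ) : ℂ) = ((0 : ℤ) : ℂ) := by
      push_cast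
      rw [← hreg 1 (by rw [orderOf_one]; exact hp.out.one_lt.ne' ∘ Nat.dvd_one.mp)]
      exact Finset.sum_congr rfl fun χ _ => by rw [hc χ, hdc χ]; ring
    exact_mod_cast h1
  · intro χ _ hχ1 hcpos
    have h1 : c χ < (charDegree (χ : G → ℂ) : ℤ) := by
      by_contra hcon
      push Not at hcon
      have h2 : ((χ : G → ℂ) 1).re ≤ ((χ : G → ℂ) x).re := by
        rw [hdc χ, hc χ, Complex.natCast_re, Complex.intCast_re]
        exact_mod_cast hcon
      have h3 := Cfsg.Agent.H11.PF.eq_one_of_re (irr_isChar χ.2) x h2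
      have h4 := charKer_simple hχ1
      have h5 : x ∈ charKer (irr_isChar χ.2) := h3
      rw [h4, Subgroup.mem_bot] at h5
      exact hx1 h5
    have h2 := hn χ
    have hq0 : (0 : ℤ) < Nat.card (P : Subgroup G) := by exact_mod_cast Nat.card_pos
    have h3 : (Nat.card (P : Subgroup G) : ℤ) * (n χ - c χ) = (charDegree (χ : G → ℂ) : ℤ) - c χ := by
      linear_combination -h2
    have h4 : 0 < n χ - c χ := by
      by_contra hcon
      push Not at hcon
      have := mul_nonpos_of_nonneg_of_nonpos hq0.le hcon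
      omega
    nlinarith
  · have h1 : (Fintype.card G : ℚ) ≤ 2 * (good.card : ℚ) := by exact_mod_cast hhalf
    have hq0 : (0 : ℚ) < Nat.card (P : Subgroup G) := by exact_mod_cast Nat.card_pos
    have h2 : (Fintype.card G : ℚ) * ((Nat.card (P : Subgroup G) : ℚ) / 2) ≤
        (Fintype.card G : ℚ) * ∑ χ ∈ B, (c χ : ℚ) ^ 3 / ((charDegree (χ : G → ℂ) : ℤ) : ℚ) := by
      rw [hQ]
      nlinarith
    have h3 := le_of_mul_le_mul_left h2 hG0
    simpa using h3

end Cfsg.Agent.H14.Pair
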