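import Cfsg.Agent.H4.SEmb
import Cfsg.Agent.H1.ZStarP
import Cfsg.Agent.H1.Sylow
import Cfsg.Agent.H23.Coprime4

/-! Strongly embedded subgroups where odd-order products of involutions are p-elements (helper14). -/

set_option autoImplicit false

namespace Cfsg.Agent.H14.SE

open Cfsg Subgroup Cfsg.Agent.H4
open scoped Pointwise

section
variable {G : Type*} [Group G] [Finite G] {H : Subgroup G}

theorem nrm_of_conj {Q : Subgroup G} {n : G} (h : ∀ q ∈ Q, n * q * n⁻¹ ∈ Q) : n ∈ normalizer (Q : Set G) := by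
  have h1 : Q.map (MulAut.conj n).toMonoidHom ≤ Q := by
    rintro _ ⟨q, hq, rfl⟩
    exact h q hq
  have h2 : Q.map (MulAut.conj n).toMonoidHom = Q := by
    apply eq_of_le_of_card_ge h1
    exact (Nat.card_congr (Q.equivMapOfInjective _ (MulAut.conj n).injective).toEquiv).le
  rw [mem_normalizer_iff]
  intro q
  refine ⟨h q, fun hq => ?_⟩
  have h3 : n * q * n⁻¹ ∈ Q.map (MulAut.conj n).toMonoidHom := by rw [h2]; exact hq
  obtain ⟨r, hr, hrq⟩ := h3
  have h4 : n * r * n⁻¹ = n * q * n⁻¹ := hrq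
  have h5 : r = q := mul_left_cancel (mul_right_cancel h4)
  rwa [← h5]

theorem swap_symm {b : G} (hb : orderOf b = 2) {x y : G ⧸ H} (h : b • x = y) : b • y = x := by
  rw [← h, ← mul_smul, mul_self_of_orderOf_two hb, one_smul]

/-- elements fixing two points have odd order -/
theorem odd_of_fix (hH : IsStronglyEmbedded H) {d : G} {x y : G ⧸ H} (hxy : x ≠ y) (hx : d • x = x)
    (hy : d • y = y) : Odd (orderOf d) := by
  by_contra hodd
  rw [Nat.not_odd_iff_even] at hodd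
  have h0 : orderOf d ≠ 0 := (orderOf_pos _).ne'
  have hord := even_pow_half h0 hodd
  have hfix : ∀ (k : ℕ) (z : G ⧸ H), d • z = z → d ^ k • z = z := by
    intro k z hz
    induction k with
    | zero => simp
    | succ k ih => rw [pow_succ, mul_smul, hz, ih]
  exact hxy (semb_fix_unique hH hord (hfix _ _ hx) (hfix _ _ hy))

/-- the two-point stabilizer -/
def st2 (x y : G ⧸ H) : Subgroup G := MulAction.stabilizer G x ⊓ MulAction.stabilizer G y

omit [Finite G] in
theorem mem_st2 {x y : G ⧸ H} {d : G} : d ∈ st2 x y ↔ d • x = x ∧ d • y = y := by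
  unfold st2
  rw [mem_inf, MulAction.mem_stabilizer_iff, MulAction.mem_stabilizer_iff]

theorem exists_swap_inv (hH : IsStronglyEmbedded H) (x y : G ⧸ H) : ∃ u : G, orderOf u = 2 ∧ u • x = y := by
  have h1 := semb_card_swap hH x y
  obtain ⟨t, htH, ht⟩ := semb_exists_involution hH
  have h2 : 0 < Nat.card {t : G // orderOf t = 2 ∧ t ∈ H} := by
    have : Nonempty {t : G // orderOf t = 2 ∧ t ∈ H} := ⟨⟨t, ht, htH⟩⟩
    exact Nat.card_pos
  rw [← h1] at h2
  obtain ⟨⟨u, hu⟩⟩ := (Nat.card_pos_iff.mp h2).1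
  exact ⟨u, hu⟩

/-- an involution swapping two points and normalizing a Sylow subgroup of the two-point stabilizer -/
theorem exists_swap_nrm (hH : IsStronglyEmbedded H) {q : ℕ} [Fact q.Prime] {x y : G ⧸ H} (hxy : x ≠ y)
    {Q : Subgroup G} (hQ : IsPGroup q Q) (hQD : Q ≤ st2 x y) (hQi : ¬ q ∣ Q.relIndex (st2 x y)) :
    ∃ b : G, orderOf b = 2 ∧ b • x = y ∧ b ∈ normalizer (Q : Set G) := by
  obtain ⟨u, hu, hux⟩ := exists_swap_inv hH x y
  have huy := swap_symm hu hux
  have huu := mul_self_of_orderOf_two hu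
  have hui : u⁻¹ = u := inv_eq_self_of_mul_self huu
  obtain ⟨D, hD⟩ : ∃ D, D = st2 x y := ⟨_, rfl⟩
  have hDm : ∀ d, d ∈ D ↔ d • x = x ∧ d • y = y := fun d => by rw [hD, mem_st2]
  rw [← hD] at hQD hQi
  have huD : ∀ d ∈ D, u * d * u⁻¹ ∈ D := by
    intro d hd
    obtain ⟨h1, h2⟩ := (hDm d).mp hd
    rw [hDm, hui]
    refine ⟨?_, ?_⟩
    · rw [mul_smul, mul_smul, hux, h2, huy]
    · rw [mul_smul, mul_smul, huy, h1, hux]
  have hS : IsPGroup q (Q.subgroupOf D) := hQ.comap_of_injective D.subtype D.subtype_injective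
  obtain ⟨S, hSe⟩ : ∃ S : Sylow q D, (S : Subgroup D) = Q.subgroupOf D := ⟨hS.toSylow hQi, rfl⟩
  have hQ₂ : IsPGroup q ((Q.map (MulAut.conj u).toMonoidHom).subgroupOf D) :=
    (hQ.map _).comap_of_injective D.subtype D.subtype_injective
  obtain ⟨S₂, hS₂⟩ := hQ₂.exists_le_sylow
  obtain ⟨d, hd⟩ := MulAction.exists_smul_eq D S₂ S
  have hn : ∀ g ∈ Q, ((d : G) * u) * g * ((d : G) * u)⁻¹ ∈ Q := by
    intro g hg
    have h1 : (⟨u * g * u⁻¹, huD g (hQD hg)⟩ : D) ∈ (S₂ : Subgroup D) := by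
      apply hS₂
      rw [mem_subgroupOf]
      exact ⟨g, hg, rfl⟩
    have h2 : d * ⟨u * g * u⁻¹, huD g (hQD hg)⟩ * d⁻¹ ∈ (S : Subgroup D) := by
      rw [← hd]
      exact Subgroup.smul_mem_pointwise_smul _ (MulAut.conj d) (S₂ : Subgroup D) h1
    rw [hSe, mem_subgroupOf] at h2
    have e : (d : G) * u * g * ((d : G) * u)⁻¹ = ((d * ⟨u * g * u⁻¹, huD g (hQD hg)⟩ * d⁻¹ : D) : G) := by
      simp [mul_assoc]
    rw [e]; exact h2
  obtain ⟨n, hn'⟩ : ∃ n, n = (d : G) * u := ⟨_, rfl⟩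
  rw [← hn'] at hn
  have hnN : n ∈ normalizer (Q : Set G) := nrm_of_conj hn
  obtain ⟨hdx, hdy⟩ := (hDm d).mp d.2
  have hnx : n • x = y := by rw [hn', mul_smul, hux, hdy]
  have hny : n • y = x := by rw [hn', mul_smul, huy, hdx]
  have hnnx : (n * n) • x = x := by rw [mul_smul, hnx, hny]
  have hnny : (n * n) • y = y := by rw [mul_smul, hny, hnx]
  have hodd := odd_of_fix hH hxy hnnx hnny
  obtain ⟨k, hk⟩ := hodd
  have hfix : ∀ (k : ℕ), (n * n) ^ k • x = x := by
    intro k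
    induction k with
    | zero => simp
    | succ k ih => rw [pow_succ, mul_smul, hnnx, ih]
  have hfixy : ∀ (k : ℕ), (n * n) ^ k • y = y := by
    intro k
    induction k with
    | zero => simp
    | succ k ih => rw [pow_succ, mul_smul, hnny, ih]
  have hbx : (n ^ (2 * k + 1)) • x = y := by
    rw [pow_succ, pow_mul, pow_two, mul_smul, hnx, hfixy]
  refine ⟨n ^ (2 * k + 1), ?_, hbx, pow_mem hnN _⟩
  apply orderOf_eq_prime
  · rw [← pow_mul, mul_comm, pow_mul, pow_two, ← hk, pow_orderOf_eq_one]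
  · intro h1
    rw [h1, one_smul] at hbx
    exact hxy hbx

variable {p : ℕ} [hp : Fact p.Prime]

/-- the standing hypothesis -/
def Star (G : Type*) [Group G] (p : ℕ) : Prop :=
  ∀ s t : G, orderOf s = 2 → orderOf t = 2 → Odd (orderOf (s * t)) → ∃ k : ℕ, (s * t) ^ p ^ k = 1

omit hp in
/-- q-subgroups of the two-point stabilizer normalized by a swap are centralized by it -/
theorem centralizes_of_nrm (hH : IsStronglyEmbedded H) (hstar : Star G p) {q : ℕ} (hqp : Nat.Coprime q p)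
    {x y : G ⧸ H} (hxy : x ≠ y) {Q : Subgroup G} (hQ : IsPGroup q Q) (hQD : Q ≤ st2 x y) {b : G}
    (hb : orderOf b = 2) (hbN : b ∈ normalizer (Q : Set G)) {g : G} (hg : g ∈ Q) :
    g * b * g⁻¹ = b := by
  have hbb := mul_self_of_orderOf_two hb
  have hbi : b⁻¹ = b := inv_eq_self_of_mul_self hbb
  have hc : (g * b * g⁻¹) * b ∈ Q := by
    have h1 : b * g⁻¹ * b⁻¹ ∈ Q := (mem_normalizer_iff.mp hbN _).mp (inv_mem hg)
    rw [hbi] at h1
    have e : (g * b * g⁻¹) * b = g * (b * g⁻¹ * b) := by group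
    rw [e]; exact mul_mem hg h1
  obtain ⟨h1, h2⟩ := mem_st2.mp (hQD hc)
  have hodd := odd_of_fix hH hxy h1 h2
  have hgb : orderOf (g * b * g⁻¹) = 2 := by rw [← hb]; exact orderOf_conj b g
  obtain ⟨k, hk⟩ := hstar _ _ hgb hb hodd
  obtain ⟨j, hj⟩ := hQ ⟨_, hc⟩
  have h3 : ((g * b * g⁻¹) * b) ^ q ^ j = 1 := congrArg Subtype.val hj
  have h4 : (g * b * g⁻¹) * b = 1 := by
    rw [← orderOf_eq_one_iff]
    have h5 : Nat.Coprime (q ^ j) (p ^ k) := Nat.Coprime.pow _ _ hqp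
    exact Nat.eq_one_of_dvd_coprimes h5 (orderOf_dvd_of_pow_eq_one h3) (orderOf_dvd_of_pow_eq_one hk)
  have h5 := eq_inv_of_mul_eq_one_left h4
  rw [h5, hbi]

/-- two swaps of the same points are conjugate in the stabilizer -/
theorem conj_of_swap (hH : IsStronglyEmbedded H) {x y : G ⧸ H} (hxy : x ≠ y) {a b : G}
    (ha : orderOf a = 2) (hb : orderOf b = 2) (hax : a • x = y) (hbx : b • x = y) :
    ∃ d ∈ st2 x y, d * b * d⁻¹ = a := by
  have hab : a * b ∈ st2 x y := by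
    rw [mem_st2]
    refine ⟨?_, ?_⟩
    · rw [mul_smul, hbx, swap_symm ha hax]
    · rw [mul_smul, swap_symm hb hbx, hax]
  obtain ⟨h1, h2⟩ := mem_st2.mp hab
  have hodd := odd_of_fix hH hxy h1 h2
  obtain ⟨k, -, hk⟩ := exists_swap_of_odd (mul_self_of_orderOf_two ha) (mul_self_of_orderOf_two hb) hodd
  refine ⟨(a * b) ^ k, pow_mem hab k, ?_⟩
  calc (a * b) ^ k * b * ((a * b) ^ k)⁻¹ = (a * b) ^ k * b * b * ((a * b) ^ k * b)⁻¹ := by group
    _ = a := hk

/-- if the Sylow `p`-subgroup of the two-point stabilizer fixes the point fixed by one swap, all swaps fix it -/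
theorem fix_all (hH : IsStronglyEmbedded H) (hstar : Star G p) {x y : G ⧸ H} (hxy : x ≠ y) {R : Subgroup G}
    (hRD : R ≤ st2 x y) (hRi : ¬ p ∣ R.relIndex (st2 x y)) {b : G}
    (hb : orderOf b = 2) (hbx : b • x = y) {w : G ⧸ H} (hbw : b • w = w) (hRw : ∀ r ∈ R, r • w = w)
    {a : G} (ha : orderOf a = 2) (hax : a • x = y) : a • w = w := by
  obtain ⟨D, hD⟩ : ∃ D, D = st2 x y := ⟨_, rfl⟩
  have hC : ∀ q : ℕ, q.Prime → q ≠ p → ¬ q ∣ ((centralizer ({b} : Set G)).subgroupOf D).index := by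
    intro q hq hqp hqd
    haveI : Fact q.Prime := ⟨hq⟩
    obtain ⟨S⟩ : Nonempty (Sylow q D) := inferInstance
    obtain ⟨Q, hQ⟩ : ∃ Q, Q = (S : Subgroup D).map D.subtype := ⟨_, rfl⟩
    have hQq : IsPGroup q Q := by rw [hQ]; exact S.isPGroup'.map _
    have hQD : Q ≤ st2 x y := by rw [hQ, ← hD]; exact map_subtype_le _
    have hQS : Q.subgroupOf D = (S : Subgroup D) := by
      rw [hQ, subgroupOf, comap_map_eq_self_of_injective D.subtype_injective]
    have hQi : ¬ q ∣ Q.relIndex (st2 x y) := by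
      rw [← hD, relIndex, hQS]; exact S.not_dvd_index
    obtain ⟨b', hb', hb'x, hb'N⟩ := exists_swap_nrm hH hxy hQq hQD hQi
    have hcop : Nat.Coprime q p := (Nat.coprime_primes hq hp.out).mpr hqp
    have hcen := fun (g : G) (hg : g ∈ Q) => centralizes_of_nrm hH hstar hcop hxy hQq hQD hb' hb'N hg
    obtain ⟨d, hd, hdb⟩ := conj_of_swap hH hxy hb hb' hbx hb'x
    rw [← hD] at hd
    have hle : ((⟨d, hd⟩ : D) • S : Sylow q D) ≤ (centralizer ({b} : Set G)).subgroupOf D := by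
      intro s hs
      have hs' : s ∈ MulAut.conj (⟨d, hd⟩ : D) • (S : Subgroup D) := hs
      obtain ⟨s₀, hs₀, rfl⟩ := hs'
      rw [mem_subgroupOf, mem_centralizer_singleton_iff]
      have h1 := hcen (s₀ : G) (by rw [hQ]; exact ⟨s₀, hs₀, rfl⟩)
      have h2 : (s₀ : G) * b' = b' * s₀ := mul_inv_eq_iff_eq_mul.mp h1
      change d * (s₀ : G) * d⁻¹ * b = b * (d * (s₀ : G) * d⁻¹)
      rw [← hdb]
      calc d * (s₀ : G) * d⁻¹ * (d * b' * d⁻¹) = d * ((s₀ : G) * b') * d⁻¹ := by group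
        _ = d * (b' * s₀) * d⁻¹ := by rw [h2]
        _ = d * b' * d⁻¹ * (d * (s₀ : G) * d⁻¹) := by group
    exact ((⟨d, hd⟩ : D) • S : Sylow q D).not_dvd_index (hqd.trans (index_dvd_of_le hle))
  have hcop : ((R.subgroupOf D).index).Coprime ((centralizer ({b} : Set G)).subgroupOf D).index := by
    apply Nat.Coprime.symm
    rw [Nat.coprime_iff_gcd_eq_one]
    by_contra hne
    obtain ⟨q, hq, hqd⟩ := Nat.exists_prime_and_dvd hne
    by_cases hqp : q = p
    · subst hqp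
      apply hRi
      rw [← hD]
      exact hqd.trans (Nat.gcd_dvd_right _ _)
    · exact hC q hq hqp (hqd.trans (Nat.gcd_dvd_left _ _))
  obtain ⟨d, hd, hda⟩ := conj_of_swap hH hxy ha hb hax hbx
  rw [← hD] at hd
  obtain ⟨r, hr, c, hc, hrc⟩ := Cfsg.Agent.H1.factor_of_coprime_index hcop ⟨d, hd⟩
  have hrR : (r : G) ∈ R := mem_subgroupOf.mp hr
  have hcb : (c : G) * b = b * c := mem_centralizer_singleton_iff.mp (mem_subgroupOf.mp hc)
  have hdrc : d = r * c := congrArg Subtype.val hrc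
  have h1 : a = r * b * (r : G)⁻¹ := by
    rw [← hda, hdrc]
    calc (r : G) * c * b * ((r : G) * c)⁻¹ = r * (c * b) * (c : G)⁻¹ * (r : G)⁻¹ := by group
      _ = r * (b * c) * (c : G)⁻¹ * (r : G)⁻¹ := by rw [hcb]
      _ = r * b * (r : G)⁻¹ := by group
  rw [h1, mul_smul, mul_smul, hRw _ (inv_mem hrR), hbw, hRw _ hrR]

/-- commuting involutions at a point -/
def Four (H : Subgroup G) : Prop := ∀ w : G ⧸ H, ∃ v v' : G, orderOf v = 2 ∧ orderOf v' = 2 ∧ v ≠ v' ∧
  v * v' = v' * v ∧ v • w = w ∧ v' • w = w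

theorem not_fix (hH : IsStronglyEmbedded H) (hstar : Star G p) (hfour : Four H) {x y : G ⧸ H} (hxy : x ≠ y)
    {R : Subgroup G} (hRD : R ≤ st2 x y) (hRi : ¬ p ∣ R.relIndex (st2 x y)) {b : G}
    (hb : orderOf b = 2) (hbx : b • x = y) {w : G ⧸ H} (hbw : b • w = w) (hRw : ∀ r ∈ R, r • w = w) : False := by
  have hall := fun (a : G) (ha : orderOf a = 2) (hax : a • x = y) =>
    fix_all hH hstar hxy hRD hRi hb hbx hbw hRw ha hax
  have hcard : Nat.card {i : G // orderOf i = 2 ∧ i • x = y} = Nat.card {i : G // orderOf i = 2 ∧ i • w = w} := by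
    rw [semb_card_swap hH x y, semb_card_swap hH w w]
  let f : {i : G // orderOf i = 2 ∧ i • x = y} → {i : G // orderOf i = 2 ∧ i • w = w} :=
    fun i => ⟨i.1, i.2.1, hall i.1 i.2.1 i.2.2⟩
  have hinj : Function.Injective f := by
    intro i j hij
    exact Subtype.ext (congrArg (fun k : {i : G // orderOf i = 2 ∧ i • w = w} => (k : G)) hij)
  have hbij : Function.Bijective f := (Nat.bijective_iff_injective_and_card f).mpr ⟨hinj, hcard⟩
  obtain ⟨v, v', hv, hv', hne, hcomm, hvw, hv'w⟩ := hfour w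
  have hsw : ∀ v : G, orderOf v = 2 → v • w = w → v • x = y := by
    intro v hv hvw
    obtain ⟨⟨i, hi1, hi2⟩, hi⟩ := hbij.2 ⟨v, hv, hvw⟩
    have : i = v := congrArg (fun k : {i : G // orderOf i = 2 ∧ i • w = w} => (k : G)) hi
    rwa [← this]
  have h1 := hsw v hv hvw
  have h2 := hsw v' hv' hv'w
  have h3 : (v * v') • x = x := by rw [mul_smul, h2, swap_symm hv h1]
  have h4 : (v * v') • y = y := by rw [mul_smul, swap_symm hv' h2, h1]
  have h5 := odd_of_fix hH hxy h3 h4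
  have h6 : orderOf (v * v') = 2 := by
    apply orderOf_eq_prime
    · rw [pow_two]
      calc v * v' * (v * v') = v * (v' * v) * v' := by group
        _ = (v * v) * (v' * v') := by rw [← hcomm]; group
        _ = 1 := by rw [mul_self_of_orderOf_two hv, mul_self_of_orderOf_two hv', one_mul]
    · intro h
      apply hne
      have := eq_inv_of_mul_eq_one_left h
      rw [this, inv_eq_self_of_mul_self (mul_self_of_orderOf_two hv')]
  rw [h6] at h5
  exact absurd h5 (by decide)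

end
end Cfsg.Agent.H14.SE
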