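import Cfsg.Agent.H14.SE1

/-! Strongly embedded subgroups: the contradiction (helper14). -/

set_option autoImplicit false

namespace Cfsg.Agent.H14.SE

open Cfsg Subgroup Cfsg.Agent.H4
open scoped Pointwise

section
variable {G : Type*} [Group G] [Finite G] {H : Subgroup G}
variable {p : ℕ} [hp : Fact p.Prime]

/-- the points fixed by `R` -/
def Fx (H R : Subgroup G) : Set (G ⧸ H) := {x | ∀ r ∈ R, r • x = x}

omit [Finite G] in
theorem Fx_nrm {R : Subgroup G} {n : G} (hn : n ∈ normalizer (R : Set G)) {x : G ⧸ H} (hx : x ∈ Fx H R) :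
    n • x ∈ Fx H R := by
  intro r hr
  have h1 : n⁻¹ * r * n ∈ R := by
    have := (mem_normalizer_iff.mp (inv_mem hn) r).mp hr
    rwa [inv_inv] at this
  have h2 := hx _ h1
  calc r • n • x = n • (n⁻¹ * r * n) • x := by rw [← mul_smul, ← mul_smul]; congr 1; group
    _ = n • x := by rw [h2]

/-- the Sylow condition for two-point stabilizers -/
def SylD (p : ℕ) (H R : Subgroup G) : Prop := ∀ x y : G ⧸ H, R ≤ st2 x y → ¬ p ∣ R.relIndex (st2 x y)

omit [Finite G] in
theorem le_st2 {R : Subgroup G} {x y : G ⧸ H} (hx : x ∈ Fx H R) (hy : y ∈ Fx H R) : R ≤ st2 x y := by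
  intro r hr
  rw [mem_st2]
  exact ⟨hx r hr, hy r hr⟩

theorem free (hH : IsStronglyEmbedded H) (hstar : Star G p) (hfour : Four H) {R : Subgroup G}
    (hRi : SylD p H R) {x y : G ⧸ H} (hx : x ∈ Fx H R) (hy : y ∈ Fx H R) (hxy : x ≠ y) {b : G}
    (hb : orderOf b = 2) (hbN : b ∈ normalizer (R : Set G)) {w : G ⧸ H} (hbw : b • w = w) : w ∉ Fx H R := by
  intro hw
  obtain ⟨z, hz, hzw⟩ : ∃ z ∈ Fx H R, z ≠ w := by
    by_cases h : x = w
    · exact ⟨y, hy, by rw [← h]; exact hxy.symm⟩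
    · exact ⟨x, hx, h⟩
  have h1 : b • z ≠ z := fun h => hzw (semb_fix_unique hH hb h hbw)
  have h2 := Fx_nrm hbN hz
  exact not_fix hH hstar hfour (Ne.symm h1) (le_st2 hz h2) (hRi _ _ (le_st2 hz h2)) hb rfl hbw hw

/-- four-groups do not normalize `R` -/
theorem no_comm (hH : IsStronglyEmbedded H) (hp2 : p ≠ 2) (hstar : Star G p) (hfour : Four H) {R : Subgroup G}
    (hRp : IsPGroup p R)
    (hRi : SylD p H R) {x y : G ⧸ H} (hx : x ∈ Fx H R) (hy : y ∈ Fx H R) (hxy : x ≠ y) {v v' : G}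
    (hv : orderOf v = 2) (hvN : v ∈ normalizer (R : Set G)) (hv' : orderOf v' = 2)
    (hvN' : v' ∈ normalizer (R : Set G)) (hcomm : v * v' = v' * v) : v = v' := by
  by_contra hne
  have hvv := mul_self_of_orderOf_two hv
  have hvv' := mul_self_of_orderOf_two hv'
  obtain ⟨w, hw⟩ := semb_exists_fix hH hv
  have hw' : v' • w = w := by
    apply semb_fix_unique hH hv _ hw
    rw [← mul_smul, hcomm, mul_smul, hw]
  let A : Subgroup G :=
    { carrier := {a | a = 1 ∨ a = v ∨ a = v' ∨ a = v * v'}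
      mul_mem' := by
        have e1 : v' * v = v * v' := hcomm.symm
        rintro a b (rfl | rfl | rfl | rfl) (rfl | rfl | rfl | rfl)
        · left; rw [one_mul]
        · right; left; rw [one_mul]
        · right; right; left; rw [one_mul]
        · right; right; right; rw [one_mul]
        · right; left; rw [mul_one]
        · left; exact hvv
        · right; right; right; rfl
        · right; right; left; rw [← mul_assoc, hvv, one_mul]
        · right; right; left; rw [mul_one]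
        · right; right; right; exact e1
        · left; exact hvv'
        · right; left; rw [← mul_assoc, e1, mul_assoc, hvv', mul_one]
        · right; right; right; rw [mul_one]
        · right; right; left; rw [mul_assoc, e1, ← mul_assoc, hvv, one_mul]
        · right; left; rw [mul_assoc, hvv', mul_one]
        · left; rw [mul_assoc, ← mul_assoc v', e1, mul_assoc v, hvv', mul_one, hvv]
      one_mem' := Or.inl rfl
      inv_mem' := by
        rintro a (rfl | rfl | rfl | rfl)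
        · left; rw [inv_one]
        · right; left; exact inv_eq_self_of_mul_self hvv
        · right; right; left; exact inv_eq_self_of_mul_self hvv'
        · right; right; right
          rw [mul_inv_rev, inv_eq_self_of_mul_self hvv, inv_eq_self_of_mul_self hvv', hcomm] }
  have hAm : ∀ a, a ∈ A ↔ (a = 1 ∨ a = v ∨ a = v' ∨ a = v * v') := fun a => Iff.rfl
  have hAsq : ∀ a ∈ A, a * a = 1 := by
    rintro a (rfl | rfl | rfl | rfl)
    · rw [one_mul]
    · exact hvv
    · exact hvv'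
    · rw [mul_assoc, ← mul_assoc v', ← hcomm, mul_assoc v, hvv', mul_one, hvv]
  have hAw : ∀ a ∈ A, a • w = w := by
    rintro a (rfl | rfl | rfl | rfl)
    · rw [one_smul]
    · exact hw
    · exact hw'
    · rw [mul_smul, hw', hw]
  have hAN : A ≤ normalizer (R : Set G) := by
    rintro a (rfl | rfl | rfl | rfl)
    · exact one_mem _
    · exact hvN
    · exact hvN'
    · exact mul_mem hvN hvN'
  have hAc : IsMulCommutative A := by
    constructor; constructor
    intro a b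
    apply Subtype.ext
    have hab := hAsq _ (mul_mem a.2 b.2)
    change (a : G) * b = b * a
    calc (a : G) * b = ((a : G) * b)⁻¹ := (inv_eq_self_of_mul_self hab).symm
      _ = (b : G)⁻¹ * (a : G)⁻¹ := mul_inv_rev _ _
      _ = b * a := by rw [inv_eq_self_of_mul_self (hAsq b b.2), inv_eq_self_of_mul_self (hAsq a a.2)]
  have hv1 : v ≠ 1 := by rintro rfl; rw [orderOf_one] at hv; omega
  have hv1' : v' ≠ 1 := by rintro rfl; rw [orderOf_one] at hv'; omega
  have hAnc : ¬ IsCyclic A := by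
    intro hcyc
    obtain ⟨g, hg⟩ := hcyc.exists_generator
    have h1 : ∀ a : A, a = 1 ∨ a = g := by
      intro a
      obtain ⟨k, rfl⟩ := (Submonoid.mem_powers_iff a g).mp (mem_powers_iff_mem_zpowers.mpr (hg a))
      have hgg : g * g = 1 := Subtype.ext (hAsq g g.2)
      rcases Nat.even_or_odd k with h3 | h3
      · obtain ⟨j, rfl⟩ := h3
        left
        rw [← two_mul, pow_mul, pow_two, hgg, one_pow]
      · obtain ⟨j, rfl⟩ := h3
        right
        rw [pow_succ, pow_mul, pow_two, hgg, one_pow, one_mul]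
    have h2 : (⟨v, Or.inr (Or.inl rfl)⟩ : A) = g := by
      rcases h1 ⟨v, Or.inr (Or.inl rfl)⟩ with h | h
      · exact absurd (congrArg Subtype.val h) hv1
      · exact h
    have h3 : (⟨v', Or.inr (Or.inr (Or.inl rfl))⟩ : A) = g := by
      rcases h1 ⟨v', Or.inr (Or.inr (Or.inl rfl))⟩ with h | h
      · exact absurd (congrArg Subtype.val h) hv1'
      · exact h
    exact hne (congrArg Subtype.val (h2.trans h3.symm))
  have hA2 : IsPGroup 2 A := fun a => ⟨1, Subtype.ext (by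
    rw [coe_pow, pow_one, pow_two]; exact hAsq a a.2)⟩
  have hcop : (Nat.card A).Coprime (Nat.card R) := by
    haveI : Fact (Nat.Prime 2) := ⟨Nat.prime_two⟩
    obtain ⟨i, hi⟩ := hA2.exists_card_eq
    obtain ⟨j, hj⟩ := hRp.exists_card_eq
    rw [hi, hj]
    exact Nat.Coprime.pow _ _ ((Nat.coprime_primes Nat.prime_two hp.out).mpr (Ne.symm hp2))
  have hgen := Cfsg.Agent.H23.iSup_centralizer_of_not_isCyclic hAc hAnc hAN hcop
  have hRw : R ≤ MulAction.stabilizer G w := by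
    rw [← hgen]
    apply iSup_le
    rintro ⟨a, ha, ha1⟩ r hr
    obtain ⟨hrR, hrC⟩ := mem_inf.mp hr
    rw [mem_centralizer_singleton_iff] at hrC
    rw [MulAction.mem_stabilizer_iff]
    have hao : orderOf a = 2 := orderOf_eq_prime (by rw [pow_two]; exact hAsq a ha) ha1
    apply semb_fix_unique hH hao _ (hAw a ha)
    rw [← mul_smul, ← hrC, mul_smul, hAw a ha]
  exact free hH hstar hfour hRi hx hy hxy hv hvN hw (fun r hr => MulAction.mem_stabilizer_iff.mp (hRw hr))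

/-- `R` does not fix three points. -/
theorem no_three (hH : IsStronglyEmbedded H) (hp2 : p ≠ 2) (hstar : Star G p) (hfour : Four H) {R : Subgroup G}
    (hRp : IsPGroup p R) (hRi : SylD p H R) {x y z : G ⧸ H} (hx : x ∈ Fx H R) (hy : y ∈ Fx H R)
    (hz : z ∈ Fx H R) (hxy : x ≠ y) (hxz : x ≠ z) (hyz : y ≠ z) : False := by
  obtain ⟨M, hM⟩ : ∃ M, M = normalizer (R : Set G) := ⟨_, rfl⟩
  -- products of involutions of `M`
  have hodd : ∀ a ∈ M, ∀ b ∈ M, orderOf a = 2 → orderOf b = 2 → Odd (orderOf (a * b)) := by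
    intro a ha b hb hao hbo
    by_contra hodd
    rw [Nat.not_odd_iff_even] at hodd
    have h0 : orderOf (a * b) ≠ 0 := (orderOf_pos _).ne'
    have hord := even_pow_half h0 hodd
    obtain ⟨h1, h2⟩ := commute_pow_half (mul_self_of_orderOf_two hao) (mul_self_of_orderOf_two hbo) h0 hodd
    have hcM : (a * b) ^ (orderOf (a * b) / 2) ∈ M := pow_mem (mul_mem ha hb) _
    rw [hM] at ha hb hcM
    have h3 := no_comm hH hp2 hstar hfour hRp hRi hx hy hxy hord hcM hao ha h1.eq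
    have h4 := no_comm hH hp2 hstar hfour hRp hRi hx hy hxy hord hcM hbo hb h2.eq
    have h5 : a * b = 1 := by
      rw [← h3, h4]; exact mul_self_of_orderOf_two hbo
    rw [h5, orderOf_one] at hodd
    exact absurd hodd (by decide)
  obtain ⟨b₁, hb₁, hb₁x, hb₁M⟩ := exists_swap_nrm hH hxy hRp (le_st2 hx hy) (hRi _ _ (le_st2 hx hy))
  obtain ⟨b₂, hb₂, hb₂x, hb₂M⟩ := exists_swap_nrm hH hxz hRp (le_st2 hx hz) (hRi _ _ (le_st2 hx hz))
  obtain ⟨b₃, hb₃, hb₃y, hb₃M⟩ := exists_swap_nrm hH hyz hRp (le_st2 hy hz) (hRi _ _ (le_st2 hy hz))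
  rw [← hM] at hb₁M hb₂M hb₃M
  have hdo : orderOf (⟨b₁, hb₁M⟩ : M) = 2 := by rw [Subgroup.orderOf_mk]; exact hb₁
  have hprod : ∀ a ∈ conjugatesOf (⟨b₁, hb₁M⟩ : M), ∀ b ∈ conjugatesOf (⟨b₁, hb₁M⟩ : M),
      ∃ k : ℕ, orderOf (a * b) = p ^ k := by
    intro a ha b hb
    have hord : ∀ a ∈ conjugatesOf (⟨b₁, hb₁M⟩ : M), orderOf (a : G) = 2 := by
      intro a ha
      obtain ⟨c, hc⟩ := isConj_iff.mp (show IsConj (⟨b₁, hb₁M⟩ : M) a from ha)
      rw [← hc]
      change orderOf ((c : G) * b₁ * (c : G)⁻¹) = 2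
      rw [orderOf_conj, hb₁]
    have h1 := hodd a a.2 b b.2 (hord a ha) (hord b hb)
    obtain ⟨k, hk⟩ := hstar _ _ (hord a ha) (hord b hb) h1
    have h2 : orderOf (a * b) ∣ p ^ k := by
      apply orderOf_dvd_of_pow_eq_one
      exact Subtype.ext hk
    obtain ⟨j, -, hj⟩ := (Nat.dvd_prime_pow hp.out).mp h2
    exact ⟨j, hj⟩
  have hcore := Cfsg.Agent.H1.mul_mem_pCore hp2 hdo hprod
  have hconj : ∀ (b : G) (hb : b ∈ M), orderOf b = 2 → (⟨b, hb⟩ : M) ∈ conjugatesOf (⟨b₁, hb₁M⟩ : M) := by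
    intro b hb hbo
    obtain ⟨k, -, hk⟩ := exists_swap_of_odd (mul_self_of_orderOf_two hbo) (mul_self_of_orderOf_two hb₁)
      (hodd b hb b₁ hb₁M hbo hb₁)
    have hic : IsConj (⟨b₁, hb₁M⟩ : M) ⟨b, hb⟩ :=
      isConj_iff.mpr ⟨⟨(b * b₁) ^ k * b₁, mul_mem (pow_mem (mul_mem hb hb₁M) _) hb₁M⟩, Subtype.ext hk⟩
    exact hic
  obtain ⟨N, hN⟩ : ∃ N, N = pCore p M := ⟨_, rfl⟩
  have hNn : N.Normal := by rw [hN]; exact Cfsg.Agent.H1.pCore_normal p M
  have hNp : IsPGroup p N := by rw [hN]; exact Cfsg.Agent.H1.pCore_isPGroup p M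
  rw [← hN] at hcore
  -- `x` and `y` are in the same orbit of `N`
  have h21 : (⟨b₂, hb₂M⟩ : M) * ⟨b₁, hb₁M⟩ ∈ N := hcore _ (hconj b₂ hb₂M hb₂) _ (hconj b₁ hb₁M hb₁)
  have h31 : (⟨b₃, hb₃M⟩ : M) * ⟨b₂, hb₂M⟩ ∈ N := hcore _ (hconj b₃ hb₃M hb₃) _ (hconj b₂ hb₂M hb₂)
  -- `b₃ b₂ x = b₃ z = y`
  obtain ⟨n, hn⟩ : ∃ n : M, n = (⟨b₃, hb₃M⟩ : M) * ⟨b₂, hb₂M⟩ := ⟨_, rfl⟩
  rw [← hn] at h31
  have hnx : (n : G) • x = y := by
    rw [hn]
    change (b₃ * b₂) • x = y
    rw [mul_smul, hb₂x, swap_symm hb₃ hb₃y]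
  obtain ⟨e, he⟩ : ∃ e : M, e = n⁻¹ * ⟨b₁, hb₁M⟩ := ⟨_, rfl⟩
  have hex : (e : G) • x = x := by
    rw [he]
    change ((n : G)⁻¹ * b₁) • x = x
    rw [mul_smul, hb₁x, ← hnx, inv_smul_smul]
  have hee : e * e ∈ N := by
    have hb₁b₁ : (⟨b₁, hb₁M⟩ : M) * ⟨b₁, hb₁M⟩ = 1 := Subtype.ext (mul_self_of_orderOf_two hb₁)
    have h1 : (⟨b₁, hb₁M⟩ : M)⁻¹ = ⟨b₁, hb₁M⟩ := inv_eq_of_mul_eq_one_left hb₁b₁
    have h2 : e * e = n⁻¹ * (⟨b₁, hb₁M⟩ * n⁻¹ * (⟨b₁, hb₁M⟩ : M)⁻¹) := by
      rw [he, h1]; group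
    rw [h2]
    exact mul_mem (inv_mem h31) (hNn.conj_mem _ (inv_mem h31) _)
  obtain ⟨j, hj⟩ := hNp ⟨_, hee⟩
  have hj' : (e * e) ^ p ^ j = 1 := congrArg Subtype.val hj
  have hpodd : Odd (p ^ j) := (hp.out.odd_of_ne_two hp2).pow
  have hek : (e ^ p ^ j) * (e ^ p ^ j) = 1 := by
    rw [← pow_add, ← two_mul, pow_mul, pow_two, hj']
  have hekx : ((e ^ p ^ j : M) : G) • x = x := by
    have : ∀ k : ℕ, ((e ^ k : M) : G) • x = x := by
      intro k
      induction k with
      | zero => simp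
      | succ k ih => rw [pow_succ, Subgroup.coe_mul, mul_smul, hex, ih]
    exact this _
  have hek1 : e ^ p ^ j ≠ 1 := by
    intro h1
    obtain ⟨i, hi⟩ := hpodd
    have h2 : e ∈ N := by
      have h3 : e = (e * e) ^ (i + 1) := by
        rw [← pow_two, ← pow_mul]
        have : 2 * (i + 1) = p ^ j + 1 := by omega
        rw [this, pow_succ, h1, one_mul]
      rw [h3]; exact pow_mem hee _
    have h3 : (⟨b₁, hb₁M⟩ : M) ∈ N := by
      have : (⟨b₁, hb₁M⟩ : M) = n * e := by rw [he]; group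
      rw [this]; exact mul_mem h31 h2
    obtain ⟨l, hl⟩ := hNp ⟨_, h3⟩
    have hl' : (⟨b₁, hb₁M⟩ : M) ^ p ^ l = 1 := congrArg Subtype.val hl
    have h4 := orderOf_dvd_of_pow_eq_one hl'
    rw [hdo] at h4
    have h5 := (Nat.prime_dvd_prime_iff_eq Nat.prime_two hp.out).mp (Nat.prime_two.dvd_of_dvd_pow h4)
    exact hp2 h5.symm
  have hco : orderOf ((e ^ p ^ j : M) : G) = 2 := by
    apply orderOf_eq_prime
    · rw [pow_two, ← Subgroup.coe_mul, hek, Subgroup.coe_one]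
    · intro h; exact hek1 (Subtype.ext h)
  exact free hH hstar hfour hRi hx hy hxy hco (by rw [← hM]; exact (e ^ p ^ j : M).2) hekx hx

end
end Cfsg.Agent.H14.SE
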