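import Cfsg.Agent.H14.SE2

/-! Strongly embedded subgroups: the final contradiction (helper14). -/

set_option autoImplicit false

namespace Cfsg.Agent.H14.SE

open Cfsg Subgroup Cfsg.Agent.H4
open scoped Pointwise

section
variable {G : Type*} [Group G] [Finite G] {H : Subgroup G}
variable {p : ℕ} [hp : Fact p.Prime]

omit [Finite G] in
theorem exists_smul_ne (hH : H ≠ ⊤) (x : G ⧸ H) : ∃ g : G, g • x ≠ x := by
  by_contra hcon
  push Not at hcon
  apply hH
  rw [eq_top_iff]
  intro g _
  obtain ⟨c, rfl⟩ := QuotientGroup.mk_surjective x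
  have := hcon (c * g * c⁻¹)
  rw [smul_mk_eq_iff] at this
  have e : c⁻¹ * (c * g * c⁻¹) * c = g := by group
  rwa [e] at this

/-- some involution `s` is such that `s t` has no fixed point -/
theorem exists_free_mul (hH : IsStronglyEmbedded H) {t : G} (ht : orderOf t = 2) :
    ∃ s : G, orderOf s = 2 ∧ ∀ z : G ⧸ H, s • z ≠ t • z := by
  classical
  haveI := Fintype.ofFinite G
  haveI : Fintype (G ⧸ H) := Fintype.ofFinite _
  by_contra hcon
  push Not at hcon
  set m := Nat.card {t : G // orderOf t = 2 ∧ t ∈ H} with hm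
  set I := Finset.univ.filter (fun i : G => orderOf i = 2) with hI
  have hN : ∀ x y' : G ⧸ H, (I.filter (fun i => i • x = y')).card = m := by
    intro x y'
    rw [hm, ← semb_card_swap hH x y', Nat.card_eq_fintype_card, Fintype.card_subtype, hI, Finset.filter_filter]
  obtain ⟨x, hx⟩ := semb_exists_fix hH ht
  have h1 : I.card = ∑ y' : G ⧸ H, (I.filter (fun i => i • x = y')).card :=
    Finset.card_eq_sum_card_fiberwise (fun i _ => Finset.mem_univ _)
  have h2 : I.card = Fintype.card (G ⧸ H) * m := by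
    rw [h1, Finset.sum_congr rfl (fun y _ => hN x y), Finset.sum_const, Finset.card_univ, smul_eq_mul]
  have h3 : ∑ s ∈ I, ((Finset.univ : Finset (G ⧸ H)).filter (fun z => s • z = t • z)).card =
      ∑ z : G ⧸ H, (I.filter (fun s => s • z = t • z)).card :=
    Finset.sum_card_bipartiteAbove_eq_sum_card_bipartiteBelow (fun (s : G) (z : G ⧸ H) => s • z = t • z)
  rw [Finset.sum_congr rfl (fun z _ => hN z (t • z)), Finset.sum_const, Finset.card_univ, smul_eq_mul, ← h2] at h3
  have htI : t ∈ I := by rw [hI, Finset.mem_filter]; exact ⟨Finset.mem_univ _, ht⟩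
  have h4 : ∑ s ∈ I, 1 < ∑ s ∈ I, ((Finset.univ : Finset (G ⧸ H)).filter (fun z => s • z = t • z)).card := by
    apply Finset.sum_lt_sum
    · intro s hs
      rw [hI, Finset.mem_filter] at hs
      obtain ⟨z, hz⟩ := hcon s hs.2
      exact Finset.card_pos.mpr ⟨z, by rw [Finset.mem_filter]; exact ⟨Finset.mem_univ _, hz⟩⟩
    · refine ⟨t, htI, ?_⟩
      obtain ⟨g, hg⟩ := exists_smul_ne hH.1 x
      rw [Finset.one_lt_card]
      refine ⟨x, ?_, g • x, ?_, Ne.symm hg⟩
      · rw [Finset.mem_filter]; exact ⟨Finset.mem_univ _, rfl⟩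
      · rw [Finset.mem_filter]; exact ⟨Finset.mem_univ _, rfl⟩
  rw [h3, Finset.sum_const, smul_eq_mul, mul_one] at h4
  exact lt_irrefl _ h4

theorem dvd_card (hH : IsStronglyEmbedded H) (hstar : Star G p) : p ∣ Nat.card (G ⧸ H) := by
  obtain ⟨t, htH, ht⟩ := semb_exists_involution hH
  obtain ⟨s, hs, hst⟩ := exists_free_mul hH ht
  obtain ⟨x, hx⟩ := semb_exists_fix hH ht
  obtain ⟨y, hy⟩ := semb_exists_fix hH hs
  have hxy : y ≠ x := by
    rintro rfl
    exact hst y (by rw [hx, hy])
  have hodd := semb_odd_mul hH hs ht hy hx hxy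
  obtain ⟨k, hk⟩ := hstar s t hs ht hodd
  have hP : IsPGroup p (zpowers (s * t)) := by
    rintro ⟨g, hg⟩
    obtain ⟨j, rfl⟩ := mem_zpowers_iff.mp hg
    refine ⟨k, Subtype.ext ?_⟩
    change ((s * t) ^ j) ^ p ^ k = 1
    rw [← zpow_natCast, ← zpow_mul, mul_comm, zpow_mul, zpow_natCast, hk, one_zpow]
  have h1 := hP.card_modEq_card_fixedPoints (G ⧸ H)
  have h2 : Nat.card (MulAction.fixedPoints (zpowers (s * t)) (G ⧸ H)) = 0 := by
    rw [Nat.card_eq_zero]; left
    refine ⟨fun z => ?_⟩
    have h3 := z.2 ⟨s * t, mem_zpowers _⟩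
    change (s * t) • (z : G ⧸ H) = z at h3
    apply hst z
    have h4 : s • (s * t) • (z : G ⧸ H) = s • (z : G ⧸ H) := by rw [h3]
    rw [← mul_smul, ← mul_assoc, mul_self_of_orderOf_two hs, one_mul] at h4
    exact h4.symm
  rw [h2] at h1
  exact (Nat.modEq_zero_iff_dvd).mp h1

theorem se_contra (hH : IsStronglyEmbedded H) (hp2 : p ≠ 2) (hstar : Star G p) (hfour : Four H) : False := by
  obtain ⟨S⟩ : Nonempty (Sylow p H) := inferInstance
  obtain ⟨R, hR⟩ : ∃ R, R = (S : Subgroup H).map H.subtype := ⟨_, rfl⟩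
  have hRp : IsPGroup p R := by rw [hR]; exact S.isPGroup'.map _
  have hRcard : Nat.card R = Nat.card S := by
    rw [hR]
    exact (Nat.card_congr ((S : Subgroup H).equivMapOfInjective _ H.subtype_injective).toEquiv).symm
  have hSi : ¬ p ∣ (S : Subgroup H).index := S.not_dvd_index
  have hstab : ∀ x : G ⧸ H, Nat.card (MulAction.stabilizer G x) = Nat.card H := by
    intro x
    have h1 := MulAction.index_stabilizer_of_transitive G x
    have h2 := (MulAction.stabilizer G x).index_mul_card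
    have h3 := H.card_eq_card_quotient_mul_card_subgroup
    rw [h1, h3] at h2
    exact Nat.eq_of_mul_eq_mul_left Nat.card_pos h2
  have hSyl : SylD p H R := by
    intro x y hxy hdvd
    apply hSi
    have h1 : Nat.card R * R.relIndex (st2 x y) = Nat.card (st2 x y) := by
      have := relIndex_mul_relIndex (⊥ : Subgroup G) R (st2 x y) bot_le hxy
      rwa [relIndex_bot_left, relIndex_bot_left] at this
    have h2 : Nat.card (st2 x y) ∣ Nat.card H := by
      rw [← hstab x]
      exact card_dvd_of_le inf_le_left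
    have h3 := (S : Subgroup H).index_mul_card
    rw [← h3, ← h1, hRcard, mul_comm] at h2
    exact hdvd.trans (Nat.dvd_of_mul_dvd_mul_right Nat.card_pos h2)
  have h1 := hRp.card_modEq_card_fixedPoints (G ⧸ H)
  have h2 : Nat.card (MulAction.fixedPoints R (G ⧸ H)) = (Fx H R).ncard := by
    rw [← Nat.card_coe_set_eq]
    congr 1
    apply congrArg
    ext x
    simp only [MulAction.mem_fixedPoints, Fx, Set.mem_setOf_eq]
    constructor
    · intro h r hr; exact h ⟨r, hr⟩
    · intro h r; exact h r r.2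
  rw [h2] at h1
  have h3 : p ∣ (Fx H R).ncard :=
    (Nat.modEq_zero_iff_dvd).mp (h1.symm.trans ((Nat.modEq_zero_iff_dvd).mpr (dvd_card hH hstar)))
  have h4 : 0 < (Fx H R).ncard := by
    rw [Set.ncard_pos]
    refine ⟨QuotientGroup.mk 1, fun r hr => ?_⟩
    rw [smul_mk_eq_iff, inv_one, one_mul, mul_one]
    rw [hR] at hr
    exact map_subtype_le _ hr
  have h5 : 2 < (Fx H R).ncard := by
    have h6 := Nat.le_of_dvd h4 h3
    have h7 := hp.out.two_le
    omega
  obtain ⟨a, b, c, ha, hb, hc, hab, hac, hbc⟩ := (Set.two_lt_ncard_iff (Set.toFinite _)).mp h5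
  exact no_three hH hp2 hstar hfour hRp hSyl ha hb hc hab hac hbc

end
end Cfsg.Agent.H14.SE
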