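import Mathlib.GroupTheory.GroupAction.Jordan
import Mathlib.GroupTheory.Index
import Mathlib.GroupTheory.SpecificGroups.Alternating

set_option autoImplicit false

/-! second maximal subgroups: groups acting as alternating or symmetric groups of odd degree -/

namespace Cfsg.Agent.H14.SM

open MulAction Subgroup
open scoped Pointwise

variable {G Ω : Type*} [Group G] [Finite G] [Fintype Ω] [DecidableEq Ω] [MulAction G Ω]

/-- three-cycles -/
theorem exists_three (hA : ∀ σ ∈ alternatingGroup Ω, ∃ g : G, ∀ x : Ω, g • x = σ x) {x y z : Ω}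
    (hxy : x ≠ y) (hyz : y ≠ z) (hxz : x ≠ z) :
    ∃ g : G, g • x = y ∧ g • y = z ∧ g • z = x ∧ ∀ u, u ≠ x → u ≠ y → u ≠ z → g • u = u := by
  have h1 : Equiv.swap x z * Equiv.swap x y ∈ alternatingGroup Ω := by
    rw [Equiv.Perm.mem_alternatingGroup, Equiv.Perm.sign_mul, Equiv.Perm.sign_swap hxz,
      Equiv.Perm.sign_swap hxy]
    rfl
  obtain ⟨g, hg⟩ := hA _ h1
  refine ⟨g, ?_, ?_, ?_, fun u hux huy huz => ?_⟩
  · rw [hg, Equiv.Perm.mul_apply, Equiv.swap_apply_left, Equiv.swap_apply_of_ne_of_ne hxy.symm hyz]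
  · rw [hg, Equiv.Perm.mul_apply, Equiv.swap_apply_right, Equiv.swap_apply_left]
  · rw [hg, Equiv.Perm.mul_apply, Equiv.swap_apply_of_ne_of_ne hxz.symm hyz.symm,
      Equiv.swap_apply_right]
  · rw [hg, Equiv.Perm.mul_apply, Equiv.swap_apply_of_ne_of_ne hux huy,
      Equiv.swap_apply_of_ne_of_ne hux huz]

theorem main (hodd : Odd (Nat.card Ω))
    (hA : ∀ σ ∈ alternatingGroup Ω, ∃ g : G, ∀ x : Ω, g • x = σ x) [IsPretransitive G Ω] (ω : Ω)
    {M : Subgroup G} (hMω : M = stabilizer G ω) (hM : IsCoatom M) {H : Subgroup G} (hHM : H ≤ M)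
    (hmax : IsCoatom (H.subgroupOf M)) {K : Subgroup G} (hK : IsCoatom K) (hHK : H ≤ K) :
    IsCoatom (H.subgroupOf K) := by
  by_cases hKM : K = M
  · rw [hKM]; exact hmax
  have hnMK : ¬ M ≤ K := fun h => hKM ((hM.le_iff.1 h).resolve_left hK.1)
  have hnKM : ¬ K ≤ M := fun h => hKM ((hK.le_iff.1 h).resolve_left hM.1).symm
  -- maximality of `H` in `M`
  have hmax' : ∀ Y : Subgroup G, H ≤ Y → Y ≤ M → Y = H ∨ Y = M := by
    intro Y hHY hYM
    rcases hmax.le_iff.1 (Subgroup.comap_mono hHY : H.subgroupOf M ≤ Y.subgroupOf M) with h | h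
    · right
      exact le_antisymm hYM (Subgroup.subgroupOf_eq_top.1 h)
    · left
      have h' : Y.subgroupOf M = H.subgroupOf M := h
      have h1 := congrArg (Subgroup.map M.subtype) h'
      rwa [Subgroup.map_subgroupOf_eq_of_le hYM, Subgroup.map_subgroupOf_eq_of_le hHM] at h1
  have hHeq : M ⊓ K = H := by
    rcases hmax' (M ⊓ K) (le_inf hHM hHK) inf_le_left with h | h
    · exact h
    · exact absurd (inf_eq_left.1 h) hnMK
  -- it suffices to show this
  suffices hsuff : ∀ Y : Subgroup G, H < Y → Y ≤ K → Y = K by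
    constructor
    · intro h
      exact hnKM ((Subgroup.subgroupOf_eq_top.1 h).trans hHM)
    · intro Y' hY'
      have h1 := hsuff (Y'.map K.subtype) ?_ (Subgroup.map_subtype_le Y')
      · rw [eq_top_iff, ← Subgroup.map_subtype_le_map_subtype, h1]
        exact Subgroup.map_subtype_le _
      · rw [← Subgroup.map_subgroupOf_eq_of_le hHK]
        exact (Subgroup.map_lt_map_iff_of_injective K.subtype_injective).2 hY'
  intro Y hHY hYK
  obtain ⟨N, hN⟩ : ∃ N : Subgroup G, N = (toPermHom G Ω).ker := ⟨_, rfl⟩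
  haveI hNn : N.Normal := hN ▸ inferInstance
  have hNM : N ≤ M := by
    intro g hg
    rw [hN, MonoidHom.mem_ker] at hg
    rw [hMω, mem_stabilizer_iff]
    exact congrArg (fun σ : Equiv.Perm Ω => σ ω) hg
  by_cases hNH : N ≤ H
  swap
  · -- `N ≰ H`
    have h1 : H ⊔ N = M := (hmax' _ le_sup_left (sup_le hHM hNM)).resolve_left
      (fun h => hNH (h ▸ le_sup_right))
    have h2 : Y ⊔ N = ⊤ := by
      have h3 : M ≤ Y ⊔ N := h1 ▸ sup_le_sup_right hHY.le N
      rcases hM.le_iff.1 h3 with h4 | h4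
      · exact h4
      · exfalso
        apply not_le_of_gt hHY
        rw [← hHeq]
        exact le_inf (h4 ▸ le_sup_left) hYK
    apply le_antisymm hYK
    intro k hk
    have hk' : k ∈ Y ⊔ N := h2 ▸ Subgroup.mem_top k
    rw [Subgroup.mem_sup_of_normal_right] at hk'
    obtain ⟨y, hy, n, hn, rfl⟩ := hk'
    have h5 : n ∈ H := by
      rw [← hHeq]
      refine ⟨hNM hn, ?_⟩
      have := K.mul_mem (K.inv_mem (hYK hy)) hk
      simpa using this
    exact Y.mul_mem hy (hHY.le h5)
  -- `N ≤ H`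
  obtain ⟨B, hB⟩ : ∃ B : Set Ω, B = orbit Y ω := ⟨_, rfl⟩
  obtain ⟨Δ, hΔ⟩ : ∃ Δ : Set Ω, Δ = orbit K ω := ⟨_, rfl⟩
  have hωB : ω ∈ B := hB ▸ mem_orbit_self ω
  have hBY : ∀ y ∈ Y, ∀ b ∈ B, y • b ∈ B := by
    intro y hy b hb
    rw [hB] at hb ⊢
    obtain ⟨y', rfl⟩ := hb
    exact ⟨⟨y, hy⟩ * y', mul_smul (y : G) (y' : G) ω⟩
  have hΔK : ∀ k ∈ K, ∀ d ∈ Δ, k • d ∈ Δ := by
    intro y hy b hb
    rw [hΔ] at hb ⊢
    obtain ⟨y', rfl⟩ := hb
    exact ⟨⟨y, hy⟩ * y', mul_smul (y : G) (y' : G) ω⟩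
  have hKω : ∀ k ∈ K, k • ω = ω → k ∈ H := by
    intro k hk hkω
    rw [← hHeq, hMω]; exact ⟨hkω, hk⟩
  -- `B` is a block
  have hblock : ∀ k ∈ K, ∀ b ∈ B, k • b ∈ B → k ∈ Y := by
    intro k hk b hb hkb
    rw [hB] at hb hkb
    obtain ⟨⟨y, hy⟩, rfl⟩ := hb
    obtain ⟨⟨y', hy'⟩, h1⟩ := hkb
    have h2 : y'⁻¹ * k * y ∈ H := by
      apply hKω _ (K.mul_mem (K.mul_mem (K.inv_mem (hYK hy')) hk) (hYK hy))
      change y' • ω = k • y • ω at h1
      rw [mul_smul, mul_smul, ← h1, inv_smul_smul]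
    have h3 := Y.mul_mem (Y.mul_mem hy' (hHY.le h2)) (Y.inv_mem hy)
    have h4 : y' * (y'⁻¹ * k * y) * y⁻¹ = k := by group
    rwa [h4] at h3
  by_contra hYK'
  -- an element of `Δ` outside `B`
  obtain ⟨z, hzΔ, hzB⟩ : ∃ z ∈ Δ, z ∉ B := by
    by_contra hcon
    push Not at hcon
    apply hYK'
    apply le_antisymm hYK
    intro k hk
    exact hblock k hk ω hωB (hcon _ (hΔK k hk ω (hΔ ▸ mem_orbit_self ω)))
  obtain ⟨x, hxB, hxω⟩ : ∃ x ∈ B, x ≠ ω := by
    by_contra hcon
    push Not at hcon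
    apply not_le_of_gt hHY
    intro y hy
    exact hKω y (hYK hy) (hcon _ (hBY y hy ω hωB))
  have hzω : z ≠ ω := fun e => hzB (e ▸ hωB)
  have hzx : z ≠ x := fun e => hzB (e ▸ hxB)
  have hBΔ : B ⊆ Δ := by
    rw [hB, hΔ]
    rintro _ ⟨y, rfl⟩
    exact ⟨⟨y, hYK y.2⟩, rfl⟩
  by_cases hΔu : Δ = Set.univ
  swap
  · -- intransitive case
    have hKΔ : K = stabilizer G Δ := by
      have h1 : K ≤ stabilizer G Δ := by
        intro k hk
        rw [mem_stabilizer_set]
        intro b
        refine ⟨fun h => ?_, fun h => hΔK k hk b h⟩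
        have := hΔK k⁻¹ (K.inv_mem hk) _ h
        rwa [inv_smul_smul] at this
      rcases hK.le_iff.1 h1 with h2 | h2
      · exfalso
        apply hΔu
        rw [Set.eq_univ_iff_forall]
        intro v
        obtain ⟨g, hg⟩ := exists_smul_eq G ω v
        have h3 : g ∈ stabilizer G Δ := h2 ▸ Subgroup.mem_top g
        rw [← hg]
        exact (mem_stabilizer_set.1 h3 ω).2 (hΔ ▸ mem_orbit_self ω)
      · exact h2.symm
    obtain ⟨g, hg1, hg2, hg3, hg4⟩ := exists_three hA hzω.symm hzx hxω.symm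
    have hgK : g ∈ K := by
      rw [hKΔ, mem_stabilizer_set]
      intro b
      by_cases h1 : b = ω
      · rw [h1, hg1]; exact ⟨fun _ => hBΔ hωB, fun _ => hzΔ⟩
      by_cases h2 : b = z
      · rw [h2, hg2]; exact ⟨fun _ => hzΔ, fun _ => hBΔ hxB⟩
      by_cases h3 : b = x
      · rw [h3, hg3]; exact ⟨fun _ => hBΔ hxB, fun _ => hBΔ hωB⟩
      · rw [hg4 b h1 h2 h3]
    have hgY : g ∈ Y := hblock g hgK x hxB (by rw [hg3]; exact hωB)
    apply hzB
    rw [← hg1]
    exact hBY g hgY ω hωB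
  · -- transitive case
    have hcK : H.relIndex K = Nat.card Ω := by
      have h1 : stabilizer K ω = H.subgroupOf K := by
        ext k
        rw [Subgroup.mem_subgroupOf, mem_stabilizer_iff]
        constructor
        · intro h; exact hKω k k.2 h
        · intro h
          have := hHM h
          rw [hMω] at this; exact this
      have h2 := index_stabilizer K ω
      rw [h1, ← hΔ, hΔu, Set.ncard_univ] at h2
      exact h2
    have hcY : H.relIndex Y = B.ncard := by
      have h1 : stabilizer Y ω = H.subgroupOf Y := by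
        ext k
        rw [Subgroup.mem_subgroupOf, mem_stabilizer_iff]
        constructor
        · intro h; exact hKω k (hYK k.2) h
        · intro h
          have := hHM h
          rw [hMω] at this; exact this
      have h2 := index_stabilizer Y ω
      rw [h1, ← hB] at h2
      exact h2
    have hmul := Subgroup.relIndex_mul_relIndex H Y K hHY.le hYK
    rw [hcK, hcY] at hmul
    rw [← hmul, Nat.odd_mul] at hodd
    obtain ⟨ho1, ho2⟩ := hodd
    have hB1 : 2 ≤ B.ncard := by
      rw [← Set.ncard_pair hxω.symm]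
      refine Set.ncard_le_ncard ?_ (Set.toFinite B)
      rintro u (rfl | rfl)
      · exact hωB
      · exact hxB
    have hB3 : 3 ≤ B.ncard := by
      obtain ⟨j, hj⟩ := ho1; omega
    have hY1 : Y.relIndex K ≠ 1 := fun h => hYK' (le_antisymm hYK (Subgroup.relIndex_eq_one.1 h))
    have hY3 : 3 ≤ Y.relIndex K := by
      obtain ⟨j, hj⟩ := ho2; omega
    have hcard : 3 * B.ncard ≤ Nat.card Ω := by
      rw [← hmul, mul_comm]; exact Nat.mul_le_mul_left _ hY3
    have hout : ∀ S : Set Ω, S.ncard < Nat.card Ω → ∃ w, w ∉ S := by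
      intro S hS
      by_contra hcon
      push Not at hcon
      rw [Set.eq_univ_of_forall hcon, Set.ncard_univ] at hS
      exact lt_irrefl _ hS
    -- `H` is the stabilizer of `B` in `M`
    have hZ : ∀ g ∈ M, (∀ b ∈ B, g • b ∈ B) → g ∈ H := by
      have h1 : H ≤ M ⊓ stabilizer G B := by
        refine le_inf hHM fun h hh => ?_
        rw [mem_stabilizer_set]
        intro b
        refine ⟨fun h1 => ?_, fun h1 => hBY h (hHY.le hh) b h1⟩
        have := hBY h⁻¹ (Y.inv_mem (hHY.le hh)) _ h1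
        rwa [inv_smul_smul] at this
      have h2 : M ⊓ stabilizer G B = H := by
        rcases hmax' _ h1 inf_le_left with h3 | h3
        · exact h3
        · exfalso
          obtain ⟨z', hz'⟩ := hout (B ∪ {z}) (by
            have := Set.ncard_union_le B {z}
            rw [Set.ncard_singleton] at this
            omega)
          have hz'B : z' ∉ B := fun h => hz' (Or.inl h)
          have hz'z : z' ≠ z := fun h => hz' (Or.inr h)
          obtain ⟨g, hg1, -, -, hg4⟩ := exists_three hA hzx.symm hz'z.symm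
            (fun e => hz'B (e ▸ hxB))
          have hgM : g ∈ M := by
            rw [hMω, mem_stabilizer_iff]
            exact hg4 ω hxω.symm hzω.symm (fun e => hz'B (e ▸ hωB))
          rw [← h3] at hgM
          have := (mem_stabilizer_set.1 hgM.2 x).2 hxB
          rw [hg1] at this
          exact hzB this
      intro g hgM hgB
      rw [← h2]
      refine ⟨hgM, ?_⟩
      change g ∈ stabilizer G B
      rw [mem_stabilizer_set_iff_smul_set_subset (Set.toFinite B)]
      rintro _ ⟨b, hb, rfl⟩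
      exact hgB b hb
    -- another translate of `B`
    obtain ⟨k, hk, hkY⟩ : ∃ k ∈ K, k ∉ Y := by
      by_contra hcon
      push Not at hcon
      exact hYK' (le_antisymm hYK hcon)
    have hdisj : ∀ b ∈ B, k • b ∉ B := fun b hb h => hkY (hblock k hk b hb h)
    have hkB : (k • B).ncard = B.ncard := Set.ncard_smul_set k B
    obtain ⟨w, hw⟩ := hout (B ∪ k • B) (by
      have := Set.ncard_union_le B (k • B)
      omega)
    have hwB : w ∉ B := fun h => hw (Or.inl h)
    have hwkB : w ∉ k • B := fun h => hw (Or.inr h)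
    obtain ⟨t, ht⟩ := hout (B ∪ {k • ω, k • x, w}) (by
      have h1 := Set.ncard_union_le B {k • ω, k • x, w}
      have h2 : ({k • ω, k • x, w} : Set Ω).ncard ≤ 3 := by
        have := Set.ncard_insert_le (k • ω) {k • x, w}
        have h3 := Set.ncard_insert_le (k • x) {w}
        rw [Set.ncard_singleton] at h3
        omega
      omega)
    have htB : t ∉ B := fun h => ht (Or.inl h)
    have htu : t ≠ k • ω := fun h => ht (Or.inr (Or.inl h))
    have htv : t ≠ k • x := fun h => ht (Or.inr (Or.inr (Or.inl h)))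
    have htw : t ≠ w := fun h => ht (Or.inr (Or.inr (Or.inr h)))
    have huB : k • ω ∉ B := hdisj ω hωB
    have hvB : k • x ∉ B := hdisj x hxB
    have huv : k • ω ≠ k • x := fun h => hxω (smul_left_cancel k h).symm
    have hwu : w ≠ k • ω := fun h => hwkB (h ▸ Set.smul_mem_smul_set hωB)
    have hwv : w ≠ k • x := fun h => hwkB (h ▸ Set.smul_mem_smul_set hxB)
    obtain ⟨g, hg1, -, -, hg4⟩ := exists_three hA hwv.symm htw.symm htv.symm
    have hgB : ∀ b ∈ B, g • b = b := fun b hb =>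
      hg4 b (fun e => hvB (e ▸ hb)) (fun e => hwB (e ▸ hb)) (fun e => htB (e ▸ hb))
    have hgM : g ∈ M := by
      rw [hMω, mem_stabilizer_iff]; exact hgB ω hωB
    have hgH : g ∈ H := hZ g hgM (fun b hb => by rw [hgB b hb]; exact hb)
    have hgu : g • k • ω = k • ω := hg4 _ huv hwu.symm htu.symm
    have h5 : k⁻¹ * g * k ∈ Y := by
      apply hblock _ (K.mul_mem (K.mul_mem (K.inv_mem hk) (hHK hgH)) hk) ω hωB
      rw [mul_smul, mul_smul, hgu, inv_smul_smul]; exact hωB
    have h6 := hBY _ h5 x hxB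
    rw [mul_smul, mul_smul, hg1] at h6
    exact hwkB (Set.mem_smul_set_iff_inv_smul_mem.2 h6)

end Cfsg.Agent.H14.SM
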