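import Cfsg.Agent.H14.S4Off2
import Cfsg.Agent.H18.LLemma

set_option autoImplicit false

/-! Weakly closed elements: the counting argument in the configuration of the L-lemma. -/

namespace Cfsg.Agent.H14.WK

open Cfsg Subgroup Cfsg.Agent.H14.SF

universe u

section
variable {G : Type u} [Group G] {p : ℕ}

/-- the configuration coming from the L-lemma -/
structure LL (p : ℕ) (L L₀ A U : Subgroup G) (x : G) : Prop where
  comm : ∀ u ∈ U, ∀ v ∈ U, u * v = v * u
  pU : IsPGroup p U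
  nrm : L ≤ normalizer (U : Set G)
  ker : pCoreOf p L ≤ centralizer (U : Set G)
  pA : IsPGroup p A
  le₀ : A ⊔ pCoreOf p L ≤ L₀
  lt : L₀ < L
  max : ∀ X : Subgroup G, A ⊔ pCoreOf p L ≤ X → X < L → X ≤ L₀
  gen : ∀ y ∈ L, y ∉ L₀ → (A ⊔ cj y A) ⊔ pCoreOf p L = L
  quad : ∀ u ∈ U, ∀ a ∈ A, ∀ b ∈ A, cn b (cn a u * u⁻¹) = cn a u * u⁻¹
  off : Nat.card U * Nat.card ↥(A ⊓ pCoreOf p L) ≤ Nat.card A * Nat.card ↥(U ⊓ centralizer (A : Set G))
  xU : x ∈ U
  x0 : ∀ l ∈ L₀, cn l x = x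
  xL : ¬ x ∈ centralizer (L : Set G)

theorem cj_mono {x : G} {A B : Subgroup G} (h : A ≤ B) : cj x A ≤ cj x B := Subgroup.map_mono h

theorem cj_sup (x : G) (A B : Subgroup G) : cj x (A ⊔ B) = cj x A ⊔ cj x B := Subgroup.map_sup _ _ _

theorem cj_inf (x : G) (A B : Subgroup G) : cj x (A ⊓ B) = cj x A ⊓ cj x B := by
  ext g; simp only [mem_cj', mem_inf]

theorem cj_le_iff {x : G} {A B : Subgroup G} : cj x A ≤ B ↔ A ≤ cj x⁻¹ B := by
  constructor
  · intro h a ha
    rw [mem_cj', inv_inv]; exact h (cn_mem_cj ha)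
  · intro h g hg
    have := h (mem_cj'.1 hg)
    rw [mem_cj', inv_inv, cn_cn, mul_inv_cancel, cn_one'] at this
    exact this

theorem cn_mem_iff {x g : G} {A : Subgroup G} : cn x g ∈ cj x A ↔ g ∈ A := by
  rw [mem_cj', cn_cn, inv_mul_cancel, cn_one']

theorem mem_cent_cj_iff {A : Subgroup G} {a v : G} :
    cn a v ∈ centralizer ((cj a A : Subgroup G) : Set G) ↔ v ∈ centralizer (A : Set G) := by
  constructor
  · intro h
    have h1 := mem_cent_cj (a := a⁻¹) h
    rwa [cj_cj, cn_cn, inv_mul_cancel, cn_one', cj_one] at h1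
  · exact mem_cent_cj

theorem cn_cent_norm {K : Subgroup G} {l v : G} (hl : l ∈ K) (hv : v ∈ centralizer (K : Set G)) :
    cn l v = v := cn_eq_iff.2 (mem_centralizer_iff.1 hv l hl)

variable [Finite G] {L L₀ A U : Subgroup G} {x : G}

theorem LL.AL (h : LL p L L₀ A U x) : A ≤ L := (le_sup_left.trans h.le₀).trans h.lt.le

theorem LL.OL (_h : LL p L L₀ A U x) : pCoreOf p L ≤ L := H18.pCoreOf_le L

/-- intersections of fixed spaces -/
theorem LL.inter (h : LL p L L₀ A U x) {y z v : G} (hy : y ∈ L) (hz : z ∈ L) (hyz : y⁻¹ * z ∉ L₀)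
    (hv : v ∈ U) (h1 : v ∈ centralizer ((cj y A : Subgroup G) : Set G))
    (h2 : v ∈ centralizer ((cj z A : Subgroup G) : Set G)) : v ∈ centralizer (L : Set G) := by
  have hg := h.gen _ (mul_mem (inv_mem hy) hz) hyz
  have h3 : cj y⁻¹ ((cj y A ⊔ cj z A) ⊔ pCoreOf p L) = L := by
    rw [cj_sup, cj_sup, cj_cj, inv_mul_cancel, cj_one, cj_cj]
    rw [cj_eq_of_norm (H18.le_normalizer_pCoreOf L (inv_mem hy))]
    exact hg
  have h4 : (cj y A ⊔ cj z A) ⊔ pCoreOf p L = L := by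
    have h5 : cj y (cj y⁻¹ ((cj y A ⊔ cj z A) ⊔ pCoreOf p L)) = cj y L := by rw [h3]
    rw [cj_cj, mul_inv_cancel, cj_one, cj_eq_of_norm (le_normalizer hy)] at h5
    exact h5
  rw [← h4, cent_sup, cent_sup]
  exact ⟨⟨h1, h2⟩, (le_centralizer_iff.1 h.ker) hv⟩

/-- the configuration can be conjugated -/
theorem LL.conj (h : LL p L L₀ A U x) {y : G} (hy : y ∈ L) :
    LL p L (cj y L₀) (cj y A) U (cn y x) := by
  have hO : cj y (pCoreOf p L) = pCoreOf p L := cj_eq_of_norm (H18.le_normalizer_pCoreOf L hy)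
  have hO' : cj y⁻¹ (pCoreOf p L) = pCoreOf p L :=
    cj_eq_of_norm (H18.le_normalizer_pCoreOf L (inv_mem hy))
  have hL : cj y L = L := cj_eq_of_norm (le_normalizer hy)
  have hL' : cj y⁻¹ L = L := cj_eq_of_norm (le_normalizer (inv_mem hy))
  refine ⟨h.comm, h.pU, h.nrm, h.ker, h.pA.map _, ?_, ?_, ?_, ?_, ?_, ?_, ?_, ?_, ?_⟩
  · rw [← hO, ← cj_sup]; exact cj_mono h.le₀
  · refine lt_of_le_of_ne (cj_le hy h.lt.le) fun e => ?_
    have : Nat.card (cj y L₀) = Nat.card L := by rw [e]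
    rw [card_cj] at this
    exact h.lt.ne (eq_of_le_of_card_ge h.lt.le this.ge)
  · intro X hX hXL
    have h1 : A ⊔ pCoreOf p L ≤ cj y⁻¹ X := by
      rw [← cj_le_iff, cj_sup, hO]; exact hX
    have h2 : cj y⁻¹ X < L := by
      refine lt_of_le_of_ne (cj_le (inv_mem hy) hXL.le) fun e => ?_
      have : Nat.card (cj y⁻¹ X) = Nat.card L := by rw [e]
      rw [card_cj] at this
      exact hXL.ne (eq_of_le_of_card_ge hXL.le this.ge)
    have h3 := h.max _ h1 h2
    rw [cj_le_iff, inv_inv] at h3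
    exact h3
  · intro z hz hz0
    have h1 := h.gen (y⁻¹ * z * y) (mul_mem (mul_mem (inv_mem hy) hz) hy) (by
      intro h2; apply hz0
      rw [mem_cj']; simpa [cn] using h2)
    have h2 : cj y ((A ⊔ cj (y⁻¹ * z * y) A) ⊔ pCoreOf p L) = L := by rw [h1, hL]
    rw [cj_sup, cj_sup, hO, cj_cj] at h2
    rw [cj_cj]
    have e : y * (y⁻¹ * z * y) = z * y := by group
    rwa [e] at h2
  · intro u hu a ha b hb
    obtain ⟨a', ha', rfl⟩ := mem_cj.1 ha
    obtain ⟨b', hb', rfl⟩ := mem_cj.1 hb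
    have hu' : cn y⁻¹ u ∈ U := cn_mem (h.nrm (inv_mem hy)) hu
    have h1 := h.quad _ hu' a' ha' b' hb'
    have h2 := congrArg (cn y) h1
    simp only [cn_mul, cn_cn, cn_inv] at h2 ⊢
    have e1 : y * (b' * (a' * y⁻¹)) = cn y b' * cn y a' := by simp only [cn]; group
    have e2 : y * (b' * y⁻¹) = cn y b' := by simp only [cn]; group
    have e3 : y * (a' * y⁻¹) = cn y a' := by simp only [cn]; group
    rw [e1, e2, e3, mul_inv_cancel, cn_one'] at h2
    exact h2
  · have h1 : U ⊓ centralizer ((cj y A : Subgroup G) : Set G) = cj y (U ⊓ centralizer (A : Set G)) := by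
      ext g
      rw [mem_cj', mem_inf, mem_inf]
      constructor
      · rintro ⟨h1, h2⟩
        refine ⟨cn_mem (h.nrm (inv_mem hy)) h1, ?_⟩
        rw [← mem_cent_cj_iff (a := y), cn_cn, mul_inv_cancel, cn_one']
        exact h2
      · rintro ⟨h1, h2⟩
        refine ⟨?_, ?_⟩
        · have := cn_mem (h.nrm hy) h1
          rwa [cn_cn, mul_inv_cancel, cn_one'] at this
        · rw [← mem_cent_cj_iff (a := y), cn_cn, mul_inv_cancel, cn_one'] at h2
          exact h2
    have h2 : cj y A ⊓ pCoreOf p L = cj y (A ⊓ pCoreOf p L) := by rw [cj_inf, hO]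
    rw [h1, h2, card_cj, card_cj, card_cj]
    exact h.off
  · exact cn_mem (h.nrm hy) h.xU
  · intro l hl
    have := h.x0 _ (mem_cj'.1 hl)
    have h2 := congrArg (cn y) this
    rw [cn_cn] at h2
    have e : y * cn y⁻¹ l = l * y := by simp only [cn]; group
    rw [e] at h2
    rw [cn_cn]; exact h2
  · intro hc
    apply h.xL
    have h3 := mem_cent_cj (a := y⁻¹) hc
    rwa [hL', cn_cn, inv_mul_cancel, cn_one'] at h3

variable [Fact p.Prime]

/-- no element of `A ∖ O` lies in all the conjugates of `L₀` -/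
theorem LL.core (h : LL p L L₀ A U x) {a : G} (ha : a ∈ A) (haO : a ∉ pCoreOf p L) :
    ∃ y ∈ L, y ∉ L₀ ∧ cn y⁻¹ a ∉ L₀ := by
  by_contra hcon
  push Not at hcon
  have hAO : IsPGroup p (A ⊔ pCoreOf p L : Subgroup G) :=
    IsPGroup.to_sup_of_normal_right' h.pA (H18.isPGroup_pCoreOf L)
      (h.AL.trans (H18.le_normalizer_pCoreOf L))
  obtain ⟨S, hS, hAS⟩ := Cfsg.Agent.L.exists_sylIn_ge hAO (h.le₀.trans h.lt.le)
  have hSL : S < L := by
    refine lt_of_le_of_ne hS.le fun e => ?_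
    have h1 : L ≤ pCoreOf p L := H18.le_pCoreOf le_rfl le_normalizer (e ▸ hS.isPGroup)
    exact absurd (h1.trans (le_sup_right.trans h.le₀)) (not_le_of_gt h.lt)
  have hS0 := h.max S hAS hSL
  set C : Subgroup G := L₀ ⊓ ⨅ y : L, cj (y : G) L₀ with hC
  have hCL : C ≤ L := inf_le_left.trans h.lt.le
  have hCn : L ≤ normalizer (C : Set G) := by
    intro l hl
    apply nrm_of
    intro c hc
    have h1 : ∀ y ∈ L, cn l c ∈ cj y L₀ := by
      intro y hy
      have h2 := (mem_iInf.1 hc.2) ⟨l⁻¹ * y, mul_mem (inv_mem hl) hy⟩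
      rw [mem_cj'] at h2 ⊢
      rw [cn_cn]
      have e : (l⁻¹ * y)⁻¹ = y⁻¹ * l := by group
      change cn (l⁻¹ * y)⁻¹ c ∈ L₀ at h2
      rwa [e] at h2
    refine mem_inf.2 ⟨?_, mem_iInf.2 fun y => h1 y y.2⟩
    have h2 := h1 1 (one_mem _)
    rwa [cj_one] at h2
  have haC : a ∈ C := by
    refine mem_inf.2 ⟨h.le₀ (le_sup_left (b := pCoreOf p L) ha), mem_iInf.2 fun y => ?_⟩
    rw [mem_cj']
    by_cases hy : (y : G) ∈ L₀
    · exact mul_mem (mul_mem (inv_mem hy) (h.le₀ (le_sup_left (b := pCoreOf p L) ha)))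
        (inv_mem (inv_mem hy))
    · exact hcon y y.2 hy
  have hSC := H18.sylIn_inf_of_normalizes hS hCL hCn
  have hSCn : S ≤ normalizer ((S ⊓ C : Subgroup G) : Set G) :=
    le_norm_inf le_normalizer (hS.le.trans hCn)
  have hN : L ≤ normalizer ((S ⊓ C : Subgroup G) : Set G) := by
    by_contra hN
    have h1 : L ⊓ normalizer ((S ⊓ C : Subgroup G) : Set G) < L :=
      lt_of_le_of_ne inf_le_left fun e => hN (by rw [← e]; exact inf_le_right)
    have h2 := h.max _ (hAS.trans (le_inf hS.le hSCn)) h1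
    apply absurd _ (not_le_of_gt h.lt)
    intro g hg
    obtain ⟨b, hb, c, hc, rfl⟩ := H18.frattini_sylIn hCL hCn hSC hg
    exact mul_mem (h2 hb) hc.1
  apply haO
  exact H18.le_pCoreOf (inf_le_left.trans hS.le) hN (hS.isPGroup.to_le inf_le_left)
    (mem_inf.2 ⟨hAS (le_sup_left (b := pCoreOf p L) ha), haC⟩)

omit [Fact p.Prime] in
/-- commutators with `A` are fixed by `A` -/
theorem LL.psi_mem (h : LL p L L₀ A U x) {a v : G} (ha : a ∈ A) (hv : v ∈ U) :
    cn a v * v⁻¹ ∈ U ⊓ centralizer (A : Set G) := by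
  refine mem_inf.2 ⟨mul_mem (cn_mem (h.nrm (h.AL ha)) hv) (inv_mem hv), ?_⟩
  rw [mem_centralizer_iff]
  intro b hb
  exact cn_eq_iff.1 (h.quad v hv a ha b hb)

omit [Fact p.Prime] [Finite G] in
theorem sup_mem {E₁ E₂ : Subgroup G} (hc : ∀ u ∈ U, ∀ v ∈ U, u * v = v * u) (h1 : E₁ ≤ U)
    (h2 : E₂ ≤ U) {w : G} (hw : w ∈ E₁ ⊔ E₂) : ∃ a ∈ E₁, ∃ b ∈ E₂, a * b = w := by
  have hn : E₂ ≤ normalizer (E₁ : Set G) := by
    refine le_trans ?_ (centralizer_le_normalizer _)
    intro b hb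
    rw [mem_centralizer_iff]
    intro a ha
    exact hc a (h1 ha) b (h2 hb)
  exact (H1.mem_sup_iff_of_le_normalizer hn).1 hw

omit [Fact p.Prime] in
/-- `C_U(A) C_U(A^y)` is invariant -/
theorem LL.W_norm (h : LL p L L₀ A U x) {y : G} (hy : y ∈ L) (hy0 : y ∉ L₀) :
    L ≤ normalizer (((U ⊓ centralizer (A : Set G)) ⊔
      (U ⊓ centralizer ((cj y A : Subgroup G) : Set G)) : Subgroup G) : Set G) := by
  have hc := h.conj hy
  conv_lhs => rw [← h.gen y hy hy0]
  refine sup_le (sup_le ?_ ?_) ?_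
  · intro a ha
    apply nrm_of
    intro w hw
    have hwU : w ∈ U := (sup_le inf_le_left inf_le_left :
      (U ⊓ centralizer (A : Set G)) ⊔ (U ⊓ centralizer ((cj y A : Subgroup G) : Set G)) ≤ U) hw
    have e : a * w * a⁻¹ = (cn a w * w⁻¹) * w := by simp only [cn]; group
    rw [e]
    exact mul_mem (le_sup_left (b := U ⊓ centralizer ((cj y A : Subgroup G) : Set G))
      (h.psi_mem ha hwU)) hw
  · intro a ha
    apply nrm_of
    intro w hw
    have hwU : w ∈ U := (sup_le inf_le_left inf_le_left :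
      (U ⊓ centralizer (A : Set G)) ⊔ (U ⊓ centralizer ((cj y A : Subgroup G) : Set G)) ≤ U) hw
    have e : a * w * a⁻¹ = (cn a w * w⁻¹) * w := by simp only [cn]; group
    rw [e]
    exact mul_mem (le_sup_right (a := U ⊓ centralizer (A : Set G)) (hc.psi_mem ha hwU)) hw
  · intro a ha
    apply nrm_of
    intro w hw
    have hwU : w ∈ U := (sup_le inf_le_left inf_le_left :
      (U ⊓ centralizer (A : Set G)) ⊔ (U ⊓ centralizer ((cj y A : Subgroup G) : Set G)) ≤ U) hw
    have : cn a w = w := cn_cent (h.ker ha) hwU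
    change cn a w ∈ _
    rw [this]; exact hw

omit [Fact p.Prime] in
theorem LL.fix_conj (h : LL p L L₀ A U x) {y g : G} (hg : g ∈ L) :
    U ⊓ centralizer ((cj (g * y) A : Subgroup G) : Set G) =
      cj g (U ⊓ centralizer ((cj y A : Subgroup G) : Set G)) := by
  ext v
  rw [mem_cj', mem_inf, mem_inf, ← cj_cj]
  constructor
  · rintro ⟨h1, h2⟩
    refine ⟨cn_mem (h.nrm (inv_mem hg)) h1, ?_⟩
    rw [← mem_cent_cj_iff (a := g), cn_cn, mul_inv_cancel, cn_one']
    exact h2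
  · rintro ⟨h1, h2⟩
    refine ⟨?_, ?_⟩
    · have := cn_mem (h.nrm hg) h1
      rwa [cn_cn, mul_inv_cancel, cn_one'] at this
    · rw [← mem_cent_cj_iff (a := g), cn_cn, mul_inv_cancel, cn_one'] at h2
      exact h2

omit [Fact p.Prime] in
theorem LL.W_le (h : LL p L L₀ A U x) {y z : G} (hy : y ∈ L) (hy0 : y ∉ L₀) (hz : z ∈ L) :
    U ⊓ centralizer ((cj z A : Subgroup G) : Set G) ≤ (U ⊓ centralizer (A : Set G)) ⊔
      (U ⊓ centralizer ((cj y A : Subgroup G) : Set G)) := by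
  have h1 := h.fix_conj (y := 1) (g := z) hz
  rw [mul_one, cj_one] at h1
  rw [h1]
  have h2 := cj_eq_of_norm (h.W_norm hy hy0 hz)
  rw [← h2]
  exact cj_mono le_sup_left

/-- claim E -/
theorem LL.claimE (h : LL p L L₀ A U x) {y a w : G} (hy : y ∈ L) (hy0 : y ∉ L₀) (ha : a ∈ A)
    (haO : a ∉ pCoreOf p L)
    (hw : w ∈ (U ⊓ centralizer (A : Set G)) ⊔ (U ⊓ centralizer ((cj y A : Subgroup G) : Set G)))
    (hF : cn a w * w⁻¹ ∈ centralizer (L : Set G)) : w ∈ centralizer (A : Set G) := by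
  obtain ⟨z, hz, hz0, hza⟩ := h.core ha haO
  have hle : (U ⊓ centralizer (A : Set G)) ⊔ (U ⊓ centralizer ((cj y A : Subgroup G) : Set G)) ≤
      (U ⊓ centralizer (A : Set G)) ⊔ (U ⊓ centralizer ((cj z A : Subgroup G) : Set G)) :=
    sup_le le_sup_left (h.W_le hz hz0 hy)
  obtain ⟨e, he, v, hv, rfl⟩ := sup_mem h.comm inf_le_left inf_le_left (hle hw)
  refine mul_mem he.2 ?_
  have hae : cn a e = e := cn_cent_norm ha he.2
  have h1 : cn a (e * v) * (e * v)⁻¹ = cn a v * v⁻¹ := by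
    have hav : cn a v ∈ U := cn_mem (h.nrm (h.AL ha)) hv.1
    rw [cn_mul, hae, mul_inv_rev]
    have e1 : e * cn a v * (v⁻¹ * e⁻¹) = (e * (cn a v * v⁻¹)) * e⁻¹ := by group
    rw [e1, h.comm e he.1 _ (mul_mem hav (inv_mem hv.1)), mul_inv_cancel_right]
  rw [h1] at hF
  have haL := h.AL ha
  have h2 : cn a v ∈ centralizer ((cj (a * z) A : Subgroup G) : Set G) := by
    rw [← cj_cj]; exact mem_cent_cj hv.2
  have h3 : cn a v * v⁻¹ ∈ centralizer ((cj (a * z) A : Subgroup G) : Set G) :=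
    centralizer_le (SetLike.coe_subset_coe.2 (cj_le (mul_mem haL hz) h.AL)) hF
  have h4 : v ∈ centralizer ((cj (a * z) A : Subgroup G) : Set G) := by
    have := mul_mem (inv_mem h3) h2
    have e : (cn a v * v⁻¹)⁻¹ * cn a v = v := by group
    rwa [e] at this
  have h5 := h.inter hz (mul_mem haL hz) (by
    have e : z⁻¹ * (a * z) = cn z⁻¹ a := by simp only [cn]; group
    rw [e]; exact hza) hv.1 hv.2 h4
  exact centralizer_le (SetLike.coe_subset_coe.2 h.AL) h5

/-- elements of `C_U(A^y)` with central commutator are central -/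
theorem LL.ker_psi (h : LL p L L₀ A U x) {y a v : G} (hy : y ∈ L) (hy0 : y ∉ L₀) (ha : a ∈ A)
    (hv : v ∈ U) (hv2 : v ∈ centralizer ((cj y A : Subgroup G) : Set G))
    (hvL : v ∉ centralizer (L : Set G)) (hF : cn a v * v⁻¹ ∈ centralizer (L : Set G)) :
    a ∈ pCoreOf p L := by
  by_contra haO
  have h1 := h.claimE hy hy0 ha haO (le_sup_right (a := U ⊓ centralizer (A : Set G))
    (mem_inf.2 ⟨hv, hv2⟩)) hF
  apply hvL
  refine h.inter (one_mem _) hy (by rwa [inv_one, one_mul]) hv ?_ hv2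
  rwa [cj_one]

/-- surjectivity -/
theorem LL.surj (h : LL p L L₀ A U x) {y v u : G} (hy : y ∈ L) (hy0 : y ∉ L₀)
    (hv : v ∈ U) (hv2 : v ∈ centralizer ((cj y A : Subgroup G) : Set G))
    (hvL : v ∉ centralizer (L : Set G)) (hu : u ∈ U) (hu2 : u ∈ centralizer (A : Set G)) :
    ∃ a ∈ A, (cn a v * v⁻¹)⁻¹ * u ∈ centralizer (L : Set G) := by
  have hOL := h.OL
  let ψ : A →* G :=
    { toFun := fun a => cn (a : G) v * v⁻¹
      map_one' := by simp only [OneMemClass.coe_one, cn_one', mul_inv_cancel]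
      map_mul' := by
        intro a b
        change cn ((a : G) * b) v * v⁻¹ = (cn (a : G) v * v⁻¹) * (cn (b : G) v * v⁻¹)
        have h1 : cn (b : G) v = (cn (b : G) v * v⁻¹) * v := by group
        have h2 := h.quad v hv b b.2 a a.2
        have hb := (h.psi_mem b.2 hv).1
        have ha := (h.psi_mem a.2 hv).1
        rw [← cn_cn, h1, cn_mul, h2, ← h1, mul_assoc, h.comm _ hb _ ha] }
  have hψ : ∀ a : A, ψ a = cn (a : G) v * v⁻¹ := fun _ => rfl
  have hψ1 : ∀ a : A, (a : G) ∈ pCoreOf p L → ψ a = 1 := by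
    intro a ha
    rw [hψ, cn_cent (h.ker ha) hv, mul_inv_cancel]
  have hkey : ∀ a : A, ψ a ∈ centralizer (L : Set G) → (a : G) ∈ pCoreOf p L := by
    intro a ha
    exact h.ker_psi hy hy0 a.2 hv hv2 hvL ha
  have hker : ψ.ker = (A ⊓ pCoreOf p L).subgroupOf A := by
    ext a
    rw [MonoidHom.mem_ker, mem_subgroupOf]
    constructor
    · intro ha
      exact mem_inf.2 ⟨a.2, hkey a (by rw [ha]; exact one_mem _)⟩
    · intro ha
      exact hψ1 a ha.2
  have hkc : Nat.card ψ.ker = Nat.card (A ⊓ pCoreOf p L : Subgroup G) := by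
    rw [hker]; exact Nat.card_congr (subgroupOfEquivOfLe inf_le_left).toEquiv
  have q1 := card_range_mul_card_ker ψ
  rw [hkc] at q1
  have hrV : ψ.range ≤ U ⊓ centralizer (A : Set G) := by
    rintro _ ⟨a, rfl⟩
    exact h.psi_mem a.2 hv
  have hrC : ψ.range ⊓ (U ⊓ centralizer (L : Set G)) = ⊥ := by
    rw [eq_bot_iff]
    rintro _ ⟨⟨a, rfl⟩, _, h'⟩
    rw [mem_bot]
    exact hψ1 a (hkey a h')
  have q2 : Nat.card (ψ.range ⊔ (U ⊓ centralizer (L : Set G)) : Subgroup G) * 1 =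
      Nat.card ψ.range * Nat.card (U ⊓ centralizer (L : Set G) : Subgroup G) := by
    have := H2.card_sup_mul_card_inf_of_comm (A := ψ.range) (B := U ⊓ centralizer (L : Set G))
      fun a ha b hb => h.comm _ (hrV ha).1 _ hb.1
    rw [hrC, card_bot] at this
    exact this
  set n := Nat.card A with hn
  set k := Nat.card (A ⊓ pCoreOf p L : Subgroup G) with hk
  set c := Nat.card ↥(U ⊓ centralizer (A : Set G)) with hc
  set N := Nat.card U with hN
  set f := Nat.card ↥(U ⊓ centralizer (L : Set G)) with hf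
  have hkpos : 0 < k := Nat.card_pos
  have hcpos : 0 < c := Nat.card_pos
  have c4 : Nat.card ↥(U ⊓ centralizer ((cj y A : Subgroup G) : Set G)) = c := by
    have h1 := h.fix_conj (y := 1) (g := y) hy
    rw [mul_one, cj_one] at h1
    rw [h1, card_cj]
  have hEE : (U ⊓ centralizer (A : Set G)) ⊓ (U ⊓ centralizer ((cj y A : Subgroup G) : Set G)) =
      U ⊓ centralizer (L : Set G) := by
    apply le_antisymm
    · rintro w ⟨hw1, hw2⟩
      exact mem_inf.2 ⟨hw1.1, h.inter (one_mem _) hy (by rwa [inv_one, one_mul]) hw1.1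
        (by rw [cj_one]; exact hw1.2) hw2.2⟩
    · refine le_inf (inf_le_inf_left _ (centralizer_le (SetLike.coe_subset_coe.2 h.AL)))
        (inf_le_inf_left _ (centralizer_le (SetLike.coe_subset_coe.2 (cj_le hy h.AL))))
  have q5 : c * c ≤ N * f := by
    have h2 := H2.card_sup_mul_card_inf_of_comm (A := U ⊓ centralizer (A : Set G))
      (B := U ⊓ centralizer ((cj y A : Subgroup G) : Set G))
      fun a ha b hb => h.comm _ ha.1 _ hb.1
    rw [hEE, c4] at h2
    rw [← h2]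
    exact Nat.mul_le_mul_right _ (SF.card_le_of_le (sup_le inf_le_left inf_le_left))
  have q6 : k * N ≤ n * c := by rw [mul_comm]; exact h.off
  have q7 : k * c ≤ n * f := by
    have : c * (k * c) ≤ c * (n * f) := by
      calc c * (k * c) = k * (c * c) := by ring
        _ ≤ k * (N * f) := Nat.mul_le_mul_left _ q5
        _ = (k * N) * f := by ring
        _ ≤ (n * c) * f := Nat.mul_le_mul_right _ q6
        _ = c * (n * f) := by ring
    exact Nat.le_of_mul_le_mul_left this hcpos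
  have q8 : c ≤ Nat.card (ψ.range ⊔ (U ⊓ centralizer (L : Set G)) : Subgroup G) := by
    rw [mul_one] at q2
    rw [q2]
    have : k * c ≤ k * (Nat.card ψ.range * f) := by
      calc k * c ≤ n * f := q7
        _ = k * (Nat.card ψ.range * f) := by rw [← q1]; ring
    exact Nat.le_of_mul_le_mul_left this hkpos
  have hCle : U ⊓ centralizer (L : Set G) ≤ U ⊓ centralizer (A : Set G) :=
    inf_le_inf_left _ (centralizer_le (SetLike.coe_subset_coe.2 h.AL))
  have heq : ψ.range ⊔ (U ⊓ centralizer (L : Set G)) = U ⊓ centralizer (A : Set G) :=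
    eq_of_le_of_card_ge (sup_le hrV hCle) q8
  have hu' : u ∈ ψ.range ⊔ (U ⊓ centralizer (L : Set G)) := by rw [heq]; exact mem_inf.2 ⟨hu, hu2⟩
  obtain ⟨_, ⟨a, rfl⟩, d, hd, hud⟩ := sup_mem h.comm (hrV.trans inf_le_left) inf_le_left hu'
  refine ⟨a, a.2, ?_⟩
  rw [← hψ, ← hud, inv_mul_cancel_left]
  exact hd.2

end

end Cfsg.Agent.H14.WK
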