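import Cfsg.Agent.H14.WkA

set_option autoImplicit false

/-! Weakly closed elements: conclusions of the counting argument. -/

namespace Cfsg.Agent.H14.WK

open Cfsg Subgroup Cfsg.Agent.H14.SF

universe u

section
variable {G : Type u} [Group G] {p : ℕ} [Finite G] [Fact p.Prime] {L L₀ A U : Subgroup G} {x : G}

omit [Fact p.Prime] in
theorem LL.exists_y (h : LL p L L₀ A U x) : ∃ y ∈ L, y ∉ L₀ := by
  obtain ⟨y, hy, hy0⟩ := SetLike.exists_of_lt h.lt
  exact ⟨y, hy, hy0⟩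

omit [Fact p.Prime] in
theorem LL.exists_a (h : LL p L L₀ A U x) : ∃ a ∈ A, a ∉ pCoreOf p L := by
  by_contra hcon
  push Not at hcon
  obtain ⟨y, hy, hy0⟩ := h.exists_y
  have h1 := h.gen y hy hy0
  have h2 : (A ⊔ cj y A) ⊔ pCoreOf p L ≤ pCoreOf p L := by
    refine sup_le (sup_le hcon ?_) le_rfl
    have := cj_mono (x := y) (show A ≤ pCoreOf p L from hcon)
    rwa [cj_eq_of_norm (H18.le_normalizer_pCoreOf L hy)] at this
  rw [h1] at h2
  exact absurd (h2.trans (le_sup_right.trans h.le₀)) (not_le_of_gt h.lt)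

omit [Fact p.Prime] [Finite G] in
theorem cn_pow (g x : G) (n : ℕ) : cn g (x ^ n) = cn g x ^ n := by
  simp only [cn, conj_pow]

omit [Fact p.Prime] [Finite G] in
theorem cn_cent_iff {y v : G} (hy : y ∈ L) :
    cn y v ∈ centralizer (L : Set G) ↔ v ∈ centralizer (L : Set G) := by
  constructor
  · intro h
    have h1 := cn_cent_norm (inv_mem hy) h
    rw [cn_cn, inv_mul_cancel, cn_one'] at h1
    rw [h1]; exact h
  · intro h
    rw [cn_cent_norm hy h]; exact h

/-- `C_U(A)` has exponent `p` modulo `C_U(L)` -/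
theorem LL.exp (h : LL p L L₀ A U x) {z : G} (hz : z ∈ U) (hzA : z ∈ centralizer (A : Set G)) :
    z ^ p ∈ centralizer (L : Set G) := by
  by_contra hcon
  obtain ⟨y, hy, hy0⟩ := h.exists_y
  set v := cn y z with hv
  have hvU : v ∈ U := cn_mem (h.nrm hy) hz
  have hv2 : v ∈ centralizer ((cj y A : Subgroup G) : Set G) := mem_cent_cj hzA
  have hvp : v ^ p ∉ centralizer (L : Set G) := by
    rw [hv, ← cn_pow, cn_cent_iff hy]; exact hcon
  have step : ∀ u ∈ U, u ∈ centralizer (A : Set G) → ∃ e ∈ U, e ∈ centralizer (A : Set G) ∧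
      (e ^ p)⁻¹ * u ∈ centralizer (L : Set G) := by
    intro u hu huA
    obtain ⟨a, ha, h1⟩ := h.surj hy hy0 (pow_mem hvU p) (pow_mem hv2 p) hvp hu huA
    have h2 := h.psi_mem ha hvU
    refine ⟨_, h2.1, h2.2, ?_⟩
    have e : (cn a v * v⁻¹) ^ p = cn a (v ^ p) * (v ^ p)⁻¹ := by
      have hc : Commute (cn a v) v⁻¹ := h.comm _ (cn_mem (h.nrm (h.AL ha)) hvU) _ (inv_mem hvU)
      rw [hc.mul_pow, cn_pow, inv_pow]
    rw [e]; exact h1
  have step2 : ∀ j : ℕ, ∀ u ∈ U, u ∈ centralizer (A : Set G) → ∃ e ∈ U,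
      e ∈ centralizer (A : Set G) ∧ (e ^ p ^ j)⁻¹ * u ∈ centralizer (L : Set G) := by
    intro j
    induction j with
    | zero => intro u hu huA; exact ⟨u, hu, huA, by simp [one_mem]⟩
    | succ j ih =>
      intro u hu huA
      obtain ⟨e, he, heA, h1⟩ := ih u hu huA
      obtain ⟨e', he', heA', h2⟩ := step e he heA
      refine ⟨e', he', heA', ?_⟩
      have h3 := pow_mem h2 (p ^ j)
      have hc : Commute (e' ^ p)⁻¹ e := h.comm _ (inv_mem (pow_mem he' p)) _ he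
      rw [hc.mul_pow, inv_pow, ← pow_mul, ← pow_succ'] at h3
      have h4 := mul_mem h3 h1
      rwa [mul_assoc, mul_inv_cancel_left] at h4
  obtain ⟨m, hm⟩ := h.pU.exists_card_eq
  obtain ⟨e, he, heA, h1⟩ := step2 m (z ^ p) (pow_mem hz p) (pow_mem hzA p)
  apply hcon
  have h2 : e ^ p ^ m = 1 := by
    have := congrArg Subtype.val (pow_card_eq_one' (x := (⟨e, he⟩ : U)))
    rw [hm] at this
    simpa using this
  rwa [h2, inv_one, one_mul] at h1

/-- the basic pair of relations -/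
theorem LL.pair (h : LL p L L₀ A U x) {y a v : G} (hy : y ∈ L) (hy0 : y ∉ L₀) (ha : a ∈ A)
    (haO : a ∉ pCoreOf p L) (hvU : v ∈ U) (hv2 : v ∈ centralizer ((cj y A : Subgroup G) : Set G))
    (hvL : v ∉ centralizer (L : Set G)) : ∃ b ∈ cj y A, ∃ u ∈ U, ∃ c ∈ U, u ∈ centralizer (A : Set G) ∧
      u ∉ centralizer (L : Set G) ∧ c ∈ centralizer (L : Set G) ∧ cn a v = u * v ∧ cn a u = u ∧
      cn b v = v ∧ cn b u = v⁻¹ * u * c := by
  have hpsi := h.psi_mem ha hvU
  set u := cn a v * v⁻¹ with hu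
  have huL : u ∉ centralizer (L : Set G) := fun hc => haO (h.ker_psi hy hy0 ha hvU hv2 hvL hc)
  have h' := h.conj hy
  have hy' : y⁻¹ ∉ cj y L₀ := by
    rw [mem_cj']; simp only [cn, inv_inv]
    intro h2
    apply hy0
    have := inv_mem h2
    simpa using this
  have hu2 : u ∈ centralizer ((cj y⁻¹ (cj y A) : Subgroup G) : Set G) := by
    rw [cj_cj, inv_mul_cancel, cj_one]; exact hpsi.2
  obtain ⟨b, hb, h1⟩ := h'.surj (inv_mem hy) hy' hpsi.1 hu2 huL (inv_mem hvU) (inv_mem hv2)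
  have hbu : cn b u ∈ U := cn_mem (h.nrm (cj_le hy h.AL hb)) hpsi.1
  refine ⟨b, hb, u, hpsi.1, ((cn b u * u⁻¹)⁻¹ * v⁻¹)⁻¹, ?_, hpsi.2, huL, inv_mem h1, ?_, ?_, ?_, ?_⟩
  · exact inv_mem (mul_mem (inv_mem (mul_mem hbu (inv_mem hpsi.1))) (inv_mem hvU))
  · rw [hu]; group
  · exact cn_cent_norm ha hpsi.2
  · exact cn_cent_norm hb hv2
  · have e1 : ((cn b u * u⁻¹)⁻¹ * v⁻¹)⁻¹ = v * (cn b u * u⁻¹) := by group
    rw [e1, h.comm v hvU _ (mul_mem hbu (inv_mem hpsi.1)), h.comm v⁻¹ (inv_mem hvU) u hpsi.1]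
    have e2 : u * v⁻¹ * (cn b u * u⁻¹ * v) = u * (v⁻¹ * (cn b u * u⁻¹)) * v := by group
    rw [e2, h.comm v⁻¹ (inv_mem hvU) _ (mul_mem hbu (inv_mem hpsi.1))]
    have e3 : u * (cn b u * u⁻¹ * v⁻¹) * v = u * (cn b u * u⁻¹) := by group
    rw [e3, h.comm u hpsi.1 _ (mul_mem hbu (inv_mem hpsi.1))]
    group

/-- the odd case -/
theorem LL.odd_false (h : LL p L L₀ A U x) (hp : p ≠ 2) : False := by
  obtain ⟨y, hy, hy0⟩ := h.exists_y
  obtain ⟨a, ha, haO⟩ := h.exists_a
  have hxA : x ∈ centralizer (A : Set G) := by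
    rw [mem_centralizer_iff]
    intro b hb
    exact cn_eq_iff.1 (h.x0 b (h.le₀ (le_sup_left (b := pCoreOf p L) hb)))
  set v := cn y x with hv
  have hvU : v ∈ U := cn_mem (h.nrm hy) h.xU
  have hv2 : v ∈ centralizer ((cj y A : Subgroup G) : Set G) := mem_cent_cj hxA
  have hvL : v ∉ centralizer (L : Set G) := by
    rw [hv, cn_cent_iff hy]; exact h.xL
  obtain ⟨b, hb, u, huU, c, hcU, huA, huL, hcL, e1, e2, e3, e4⟩ := h.pair hy hy0 ha haO hvU hv2 hvL
  have haL := h.AL ha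
  have hbL : b ∈ L := cj_le hy h.AL hb
  have hca : cn a c = c := cn_cent_norm haL hcL
  have hcb : cn b c = c := cn_cent_norm hbL hcL
  -- commutation in `U`
  have k1 : u * v = v * u := h.comm _ huU _ hvU
  have k2 : u * c = c * u := h.comm _ huU _ hcU
  have k3 : v * c = c * v := h.comm _ hvU _ hcU
  have f1 : cn (a * b * a) v = u * c := by
    rw [← cn_cn, ← cn_cn, e1, cn_mul b, e3, e4, cn_mul a, cn_mul a, cn_mul a, cn_inv, e1, e2, hca]
    calc (u * v)⁻¹ * u * c * (u * v) = (u * v)⁻¹ * u * (c * u) * v := by group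
      _ = (u * v)⁻¹ * u * (u * c) * v := by rw [k2]
      _ = v⁻¹ * (u * c * v) := by group
      _ = v⁻¹ * (u * (v * c)) := by rw [k3]; group
      _ = v⁻¹ * ((u * v) * c) := by group
      _ = v⁻¹ * ((v * u) * c) := by rw [k1]
      _ = u * c := by group
  have f2 : cn (a * b * a) u = v⁻¹ * c := by
    rw [← cn_cn, ← cn_cn, e2, e4, cn_mul a, cn_mul a, cn_inv, e1, e2, hca]
    group
  have hcw : cn (a * b * a) c = c := by
    rw [← cn_cn, ← cn_cn, hca, hcb, hca]
  set w := a * b * a with hw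
  have hwL : w ∈ L := mul_mem (mul_mem haL hbL) haL
  have f3 : cn (w * w) v = v⁻¹ * (c * c) := by
    rw [← cn_cn, f1, cn_mul, f2, hcw, mul_assoc]
  have hcc : c * c ∈ centralizer (L : Set G) := mul_mem hcL hcL
  -- `w²` lies in `L₀^y`
  have hin : y⁻¹ * (w * w * y) ∈ L₀ := by
    by_contra hn
    apply hvL
    refine h.inter hy (mul_mem (mul_mem hwL hwL) hy) hn hvU hv2 ?_
    have g1 : cn (w * w) v ∈ centralizer ((cj (w * w * y) A : Subgroup G) : Set G) := by
      rw [← cj_cj]; exact mem_cent_cj hv2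
    rw [f3] at g1
    have g2 : c * c ∈ centralizer ((cj (w * w * y) A : Subgroup G) : Set G) :=
      centralizer_le (SetLike.coe_subset_coe.2
        (cj_le (mul_mem (mul_mem hwL hwL) hy) h.AL)) hcc
    have g3 := inv_mem (mul_mem g1 (inv_mem g2))
    rwa [mul_inv_cancel_right, inv_inv] at g3
  have h5 : cn (w * w) v = v := by
    have := h.x0 _ hin
    have h6 := congrArg (cn y) this
    rw [cn_cn] at h6
    have e : y * (y⁻¹ * (w * w * y)) = w * w * y := by group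
    rw [e, ← cn_cn] at h6
    exact h6
  rw [f3] at h5
  have h6 : v * v ∈ centralizer (L : Set G) := by
    have : v * v = c * c := by
      calc v * v = v * (v⁻¹ * (c * c)) := by rw [h5]
        _ = c * c := by group
    rw [this]; exact hcc
  -- odd order
  obtain ⟨m, hm⟩ := h.pU ⟨v, hvU⟩
  have hm' : v ^ p ^ m = 1 := by simpa using congrArg Subtype.val hm
  have hodd : Odd (p ^ m) := (Nat.Prime.odd_of_ne_two Fact.out hp).pow
  obtain ⟨k, hk⟩ := hodd
  apply hvL
  have h7 : v = ((v * v) ^ k)⁻¹ := by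
    rw [← pow_two, ← pow_mul]
    rw [hk, pow_succ] at hm'
    exact eq_inv_of_mul_eq_one_right hm'
  rw [h7]
  exact inv_mem (pow_mem h6 k)

end

end Cfsg.Agent.H14.WK
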