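import Cfsg.Agent.H14.WkB

set_option autoImplicit false

/-! Weakly closed elements: the even case of the counting argument. -/

namespace Cfsg.Agent.H14.WK

open Cfsg Subgroup Cfsg.Agent.H14.SF

universe u

section
variable {G : Type u} [Group G]

/-- elements of square one in an abelian subgroup -/
def om (U : Subgroup G) (hc : ∀ u ∈ U, ∀ v ∈ U, u * v = v * u) : Subgroup G where
  carrier := {u | u ∈ U ∧ u * u = 1}
  one_mem' := ⟨one_mem _, by simp⟩
  mul_mem' := by
    rintro u v ⟨hu, hu2⟩ ⟨hv, hv2⟩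
    refine ⟨mul_mem hu hv, ?_⟩
    calc u * v * (u * v) = u * (v * u) * v := by group
      _ = u * (u * v) * v := by rw [hc v hv u hu]
      _ = (u * u) * (v * v) := by group
      _ = 1 := by rw [hu2, hv2, one_mul]
  inv_mem' := by
    rintro u ⟨hu, hu2⟩
    refine ⟨inv_mem hu, ?_⟩
    rw [← mul_inv_rev, hu2, inv_one]

theorem mem_om {U : Subgroup G} {hc : ∀ u ∈ U, ∀ v ∈ U, u * v = v * u} {u : G} :
    u ∈ om U hc ↔ u ∈ U ∧ u * u = 1 := Iff.rfl

theorem om_el {U : Subgroup G} {hc : ∀ u ∈ U, ∀ v ∈ U, u * v = v * u} :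
    IsElementaryAbelian 2 (om U hc) := by
  constructor
  · refine ⟨⟨fun x y => Subtype.ext ?_⟩⟩
    exact hc _ x.2.1 _ y.2.1
  · intro x hx; rw [pow_two]; exact hx.2

theorem comm_sq {M : Type*} [CommGroup M] (u v c : M) (hv : v * v = 1) (hu : u * u = 1)
    (h : (v * u * c) * (v * u * c) = 1) : c * c = 1 := by
  have e : (v * u * c) * (v * u * c) = (v * v) * (u * u) * (c * c) := by ac_rfl
  rw [e, hv, hu, one_mul, one_mul] at h
  exact h

theorem comm_y2 {M : Type*} [CommGroup M] (u v c : M) (hu : u * u = 1) :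
    (u * v) * u * c = v * c := by
  have e : (u * v) * u * c = (u * u) * (v * c) := by ac_rfl
  rw [e, hu, one_mul]

theorem comm_y3 {M : Type*} [CommGroup M] (u v c : M) (hv : v * v = 1) (hc : c * c = 1) :
    (v * c) * (u * v) * c = u := by
  have e : (v * c) * (u * v) * c = (v * v) * (c * c) * u := by ac_rfl
  rw [e, hv, hc, one_mul, one_mul]

/-- `U` as a commutative group -/
abbrev cg (U : Subgroup G) (hc : ∀ u ∈ U, ∀ v ∈ U, u * v = v * u) : CommGroup U :=
  { (inferInstance : Group U) with mul_comm := fun a b => Subtype.ext (hc a a.2 b b.2) }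

variable [Finite G] {L L₀ A U : Subgroup G} {x : G}

theorem LL.sq_cent {p : ℕ} (h : LL p L L₀ A U x) {a : G} (ha : a ∈ A) :
    a * a ∈ centralizer ((om U h.comm : Subgroup G) : Set G) := by
  rw [mem_cent_iff]
  rintro w ⟨hw, hw2⟩
  have h1 := h.psi_mem ha hw
  have haw : cn a w ∈ U := cn_mem (h.nrm (h.AL ha)) hw
  have h2 : cn a w * cn a w = 1 := by rw [← cn_mul, hw2, cn_one]
  set s := cn a w * w⁻¹ with hs
  have e : cn a w = s * w := by rw [hs]; group
  have hss : s * s = 1 := by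
    rw [e] at h2
    calc s * s = (s * s) * (w * w) := by rw [hw2, mul_one]
      _ = s * (s * w) * w := by group
      _ = s * (w * s) * w := by rw [h.comm s h1.1 w hw]
      _ = (s * w) * (s * w) := by group
      _ = 1 := h2
  rw [← cn_cn, e, cn_mul, cn_cent_norm ha h1.2, e, ← mul_assoc, hss, one_mul]

theorem LL.four (h : LL 2 L L₀ A U x) : Involves (Equiv.Perm (Fin 4)) G := by
  haveI : Fact (Nat.Prime 2) := ⟨Nat.prime_two⟩
  obtain ⟨y, hy, hy0⟩ := h.exists_y
  obtain ⟨a, ha, haO⟩ := h.exists_a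
  have h' := h.conj hy
  have hy' : y⁻¹ ∉ cj y L₀ := by
    rw [mem_cj']; simp only [cn, inv_inv]
    intro h2
    apply hy0
    have := inv_mem h2
    simpa using this
  obtain ⟨b₀, hb₀, hb₀O⟩ := h'.exists_a
  have hxA : x ∈ centralizer (A : Set G) := by
    rw [mem_centralizer_iff]
    intro b hb
    exact cn_eq_iff.1 (h.x0 b (h.le₀ (le_sup_left (b := pCoreOf 2 L) hb)))
  have hxA2 : x ∈ centralizer ((cj y⁻¹ (cj y A) : Subgroup G) : Set G) := by
    rw [cj_cj, inv_mul_cancel, cj_one]; exact hxA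
  have hb₀L : b₀ ∈ L := cj_le hy h.AL hb₀
  have hvm := h'.psi_mem hb₀ h.xU
  have hvL : cn b₀ x * x⁻¹ ∉ centralizer (L : Set G) := fun hc =>
    hb₀O (h'.ker_psi (inv_mem hy) hy' hb₀ h.xU hxA2 h.xL hc)
  have hxx : x * x ∈ centralizer (L : Set G) := by
    have := h.exp h.xU hxA
    rwa [pow_two] at this
  have hvv : (cn b₀ x * x⁻¹) * (cn b₀ x * x⁻¹) = 1 := by
    have h1 : cn b₀ (x * x) = x * x := cn_cent_norm hb₀L hxx
    have h2 : cn b₀ x ∈ U := cn_mem (h.nrm hb₀L) h.xU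
    rw [cn_mul] at h1
    calc (cn b₀ x * x⁻¹) * (cn b₀ x * x⁻¹) = cn b₀ x * (x⁻¹ * cn b₀ x) * x⁻¹ := by group
      _ = cn b₀ x * (cn b₀ x * x⁻¹) * x⁻¹ := by rw [h.comm x⁻¹ (inv_mem h.xU) _ h2]
      _ = (cn b₀ x * cn b₀ x) * x⁻¹ * x⁻¹ := by group
      _ = (x * x) * x⁻¹ * x⁻¹ := by rw [h1]
      _ = 1 := by group
  set v := cn b₀ x * x⁻¹ with hv
  obtain ⟨b, hb, u, huU, c, hcU, huA, huL, hcL, e1, e2, e3, e4⟩ := h.pair hy hy0 ha haO hvm.1 hvm.2 hvL
  have hvU := hvm.1
  have haL := h.AL ha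
  have hbL : b ∈ L := cj_le hy h.AL hb
  have hca : cn a c = c := cn_cent_norm haL hcL
  have hcb : cn b c = c := cn_cent_norm hbL hcL
  have k1 : u * v = v * u := h.comm _ huU _ hvU
  have k2 : u * c = c * u := h.comm _ huU _ hcU
  have k3 : v * c = c * v := h.comm _ hvU _ hcU
  have vinv : v⁻¹ = v := inv_eq_of_mul_eq_one_left hvv
  have huu : u * u = 1 := by
    have h1 : cn a v * cn a v = 1 := by rw [← cn_mul, hvv, cn_one]
    rw [e1] at h1
    calc u * u = (u * u) * (v * v) := by rw [hvv, mul_one]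
      _ = u * (u * v) * v := by group
      _ = u * (v * u) * v := by rw [k1]
      _ = (u * v) * (u * v) := by group
      _ = 1 := h1
  have hcc : c * c = 1 := by
    have h1 : cn b u * cn b u = 1 := by rw [← cn_mul, huu, cn_one]
    rw [e4, vinv] at h1
    letI := cg U h.comm
    exact congrArg Subtype.val (comm_sq (⟨u, huU⟩ : U) ⟨v, hvU⟩ ⟨c, hcU⟩ (Subtype.ext hvv)
      (Subtype.ext huu) (Subtype.ext h1))
  have hyv : cn (a * b) v = u * v := by rw [← cn_cn, e3, e1]
  have hyu : cn (a * b) u = v * c := by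
    rw [← cn_cn, e4, vinv, cn_mul, cn_mul, e1, e2, hca]
    letI := cg U h.comm
    exact congrArg Subtype.val (comm_y2 (⟨u, huU⟩ : U) ⟨v, hvU⟩ ⟨c, hcU⟩ (Subtype.ext huu))
  have hyc : cn (a * b) c = c := by rw [← cn_cn, hcb, hca]
  have hyyu : cn (a * b) (cn (a * b) u) = u * v * c := by
    rw [hyu, cn_mul, hyv, hyc]
  have hyyyu : cn (a * b) (cn (a * b) (cn (a * b) u)) = u := by
    rw [hyyu, cn_mul, cn_mul, hyv, hyu, hyc]
    letI := cg U h.comm
    exact congrArg Subtype.val (comm_y3 (⟨u, huU⟩ : U) ⟨v, hvU⟩ ⟨c, hcU⟩ (Subtype.ext hvv)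
      (Subtype.ext hcc))
  have h3q : ∀ q : ℕ, cn ((a * b) ^ (3 * q)) u = u := by
    intro q
    induction q with
    | zero => rw [mul_zero, pow_zero, cn_one']
    | succ q ih =>
      have e : (a * b) ^ (3 * (q + 1)) = (a * b) ^ (3 * q) * ((a * b) * ((a * b) * (a * b))) := by
        rw [mul_add, mul_one, pow_add, pow_succ' (a * b) 2, pow_two]
      have e2 : cn ((a * b) ^ (3 * (q + 1))) u =
          cn ((a * b) ^ (3 * q)) (cn (a * b) (cn (a * b) (cn (a * b) u))) := by
        rw [cn_cn (a * b) (a * b) u, cn_cn (a * b), cn_cn, e]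
      rw [e2, hyyyu, ih]
  have homN : ∀ l ∈ L, l ∈ normalizer ((om U h.comm : Subgroup G) : Set G) := by
    intro l hl
    apply nrm_of
    rintro w ⟨hw, hw2⟩
    refine ⟨cn_mem (h.nrm hl) hw, ?_⟩
    change cn l w * cn l w = 1
    rw [← cn_mul, hw2, cn_one]
  refine four_of_cyc (V := om U h.comm) om_el (homN a haL) (homN b hbL) (h.sq_cent ha)
    (h'.sq_cent hb) ?_
  have hLA : centralizer (L : Set G) ≤ centralizer (A : Set G) :=
    centralizer_le (SetLike.coe_subset_coe.2 h.AL)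
  have huom : u ∈ om U h.comm := ⟨huU, huu⟩
  intro k hk
  have hkk := cn_cent hk huom
  have hdiv : k = (k % 3) + 3 * (k / 3) := (Nat.mod_add_div k 3).symm
  have hk3 : k % 3 < 3 := Nat.mod_lt _ (by norm_num)
  rw [hdiv, pow_add, ← cn_cn, h3q] at hkk
  interval_cases hr : k % 3
  · exact Nat.dvd_of_mod_eq_zero hr
  · exfalso
    rw [pow_one, hyu] at hkk
    apply hvL
    refine h.inter (one_mem _) hy (by rwa [inv_one, one_mul]) hvU ?_ hvm.2
    rw [cj_one]
    have h1 : v * c ∈ centralizer (A : Set G) := by rw [hkk]; exact huA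
    have h2 := mul_mem h1 (inv_mem (hLA hcL))
    rwa [mul_inv_cancel_right] at h2
  · exfalso
    rw [pow_two, ← cn_cn, hyyu] at hkk
    apply hvL
    have h1 : v = c⁻¹ := by
      have : v * c = 1 := by
        calc v * c = u⁻¹ * (u * v * c) := by group
          _ = 1 := by rw [hkk, inv_mul_cancel]
      exact eq_inv_of_mul_eq_one_left this
    rw [h1]; exact inv_mem hcL

end

end Cfsg.Agent.H14.WK
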