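import Cfsg.Agent.H14.WkC
import Cfsg.Agent.H28.TwoCore2
import Cfsg.Agent.H28.TwoCore4

set_option autoImplicit false

/-! Weakly closed elements: existence of the L-lemma configuration. -/

namespace Cfsg.Agent.H14.WK

open Cfsg Subgroup Cfsg.Agent.H14.SF

universe u

section
variable {G : Type u} [Group G] {p : ℕ}

/-- quadratic offender, abelian version -/
theorem exists_quad [Finite G] [Fact p.Prime] {V A : Subgroup G} (hVn : V.Normal)
    (hVc : ∀ x ∈ V, ∀ y ∈ V, x * y = y * x) (hVp : IsPGroup p V)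
    (hAp : IsPGroup p A) (hAc : ∀ x ∈ A, ∀ y ∈ A, x * y = y * x) (hoff : H28.OffIneq V A)
    (hne : ¬ A ≤ centralizer (V : Set G)) : ∃ B ≤ A, H28.OffIneq V B ∧
      (¬ B ≤ centralizer (V : Set G)) ∧
      ∀ u ∈ V, ∀ a ∈ B, ∀ b ∈ B, cn b (cn a u * u⁻¹) = cn a u * u⁻¹ := by
  have hAV : A ≤ normalizer (V : Set G) := by
    rw [normalizer_eq_top_iff.2 hVn]; exact le_top
  have hab : ⁅A, A⁆ ≤ centralizer (V : Set G) := H2.commutator_le_centralizer_of_comm hAc
  obtain ⟨hf, hm⟩ := H2.timmGood_all hVc hAV hab hoff (le_refl V)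
  have hVAV : ⁅V, A⁆ ≤ V := H2.commutator_le_left_of_norm le_rfl hAV
  refine ⟨A ⊓ centralizer ((⁅V, A⁆ : Subgroup G) : Set G), inf_le_left, ?_, ?_, ?_⟩
  · intro B hB
    rw [← hm]
    exact hoff B (hB.trans inf_le_left)
  · intro h2
    have h3 : V ⊓ centralizer
      ((A ⊓ centralizer ((⁅V, A⁆ : Subgroup G) : Set G) : Subgroup G) : Set G) = V := by
      apply inf_eq_left.2
      rwa [le_centralizer_iff]
    rw [h3] at hf
    have h4 : ⁅V, A⁆ ≤ ⁅⁅V, A⁆, A⁆ := by
      have e1 : ⁅V, A⁆ = ⁅⁅V, A⁆ ⊔ (V ⊓ centralizer (A : Set G)), A⁆ := by rw [← hf]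
      refine e1.le.trans ?_
      rw [H2.commutator_sup_eq hVc hAV hVAV inf_le_left]
      apply sup_le le_rfl
      have : ⁅V ⊓ centralizer (A : Set G), A⁆ = ⊥ := by
        rw [commutator_eq_bot_iff_le_centralizer]
        exact inf_le_right
      rw [this]; exact bot_le
    have h5 : ⁅V, A⁆ = ⊥ := H18.eq_bot_of_commutator_eq (hVp.to_le hVAV) hAp
      (H18.le_normalizer_commutator hAV le_normalizer) h4
    apply hne
    rw [le_centralizer_iff]
    exact commutator_eq_bot_iff_le_centralizer.1 h5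
  · rintro u hu a ⟨ha, -⟩ b ⟨-, hb⟩
    rw [cn_eq_iff]
    refine (mem_centralizer_iff.1 hb _ ?_).symm
    have h1 : u * a * u⁻¹ * a⁻¹ ∈ ⁅V, A⁆ := by
      have := commutator_mem_commutator hu ha
      rwa [commutatorElement_def] at this
    have h2 : cn a u * u⁻¹ = (u * a * u⁻¹ * a⁻¹)⁻¹ := by simp only [cn]; group
    rw [h2]; exact inv_mem h1

theorem sylIn_normal [Finite G] [Fact p.Prime] {T N : Subgroup G} [N.Normal] (hT : L.SylIn p T ⊤) :
    L.SylIn p (T ⊓ N) N :=
  H18.sylIn_inf_of_normalizes hT le_top (by rw [normalizer_eq_top_iff.2 inferInstance])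

theorem frattini_top [Finite G] [Fact p.Prime] {T N : Subgroup G} [N.Normal] (hT : L.SylIn p T N)
    (g : G) : ∃ a ∈ normalizer (T : Set G), ∃ c ∈ N, g = a * c := by
  obtain ⟨a, ha, c, hc, e⟩ := H18.frattini_sylIn (H := ⊤) (N := N) le_top
    (by rw [normalizer_eq_top_iff.2 inferInstance]) hT (mem_top g)
  exact ⟨a, ha.2, c, hc, e⟩

theorem mem_C {x g : G} : g ∈ centralizer ({x} : Set G) ↔ cn g x = x := by
  rw [cn_eq_iff, mem_centralizer_iff]
  constructor
  · intro h; exact (h x rfl).symm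
  · rintro h _ rfl; exact h.symm

theorem mem_C' {x : G} {K : Subgroup G} : K ≤ centralizer ({x} : Set G) ↔ x ∈ centralizer (K : Set G) := by
  constructor
  · intro h
    rw [mem_centralizer_iff]
    intro k hk
    exact cn_eq_iff.1 (mem_C.1 (h hk))
  · intro h k hk
    rw [mem_C]; exact cn_cent_norm hk h

theorem exists_LL [Finite G] [Fact p.Prime] {T D : Subgroup G} {x z : G} (hT : L.SylIn p T ⊤)
    (hD : D.Normal) (hDp : IsPGroup p D) (hzD : z ∈ D) (hzT : z ∈ centralizer (T : Set G))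
    (hxz : x ∈ zpowers z)
    (hN : normalizer ((thompsonSubgroupAOf T : Subgroup G) : Set G) ≤ centralizer {x})
    (hmax : ∀ K : Subgroup G, T ≤ K → K ≠ ⊤ → K ≤ centralizer {x})
    (hne : centralizer ({x} : Set G) ≠ ⊤) :
    ∃ (L₁ L₀ A U : Subgroup G) (g : G), LL p L₁ L₀ A U (cn g x) ∧ cn g z ∈ U ∧
      cn g z ∈ centralizer (A : Set G) := by
  classical
  set C := centralizer ({x} : Set G) with hC
  have hxT : x ∈ centralizer (T : Set G) := (zpowers_le.2 hzT) hxz
  have hTC : T ≤ C := mem_C'.2 hxT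
  have htop : ¬ (⊤ : Subgroup G) ≤ C := fun h => hne (top_le_iff.1 h)
  have hcoat : IsCoatom C := by
    refine ⟨hne, fun K hK => ?_⟩
    by_contra hKt
    exact absurd (hmax K (hTC.trans hK.le) hKt) (not_le_of_gt hK)
  have hNT : normalizer (T : Set G) ≤ C := by
    refine le_trans ?_ hN
    have h1 := H28.JA_characteristic T
    intro g hg
    rw [H18.mem_normalizer_iff_map] at hg ⊢
    rw [← H28.JA_map (MulAut.conj g).injective]
    congr 1
  have hmin : IsMinimalOver T := by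
    refine ⟨?_, C, ⟨hcoat, hTC⟩, ?_⟩
    · by_contra hnc
      have hTn : T ≤ normalClosure (T : Set G) := fun t ht => subset_normalClosure ht
      have h1 := hmax _ hTn hnc
      apply htop
      intro g _
      have h2 : L.SylIn p T (normalClosure (T : Set G)) := hT.of_le hTn le_top
      obtain ⟨a, ha, c, hc, rfl⟩ := frattini_top h2 g
      exact mul_mem (hNT ha) (h1 hc)
    · rintro M ⟨hM, hTM⟩
      have h1 := hmax M hTM hM.1
      exact (hM.le_iff_eq hne).1 h1 |>.symm
  set V := normalClosure ({z} : Set G) with hV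
  haveI hVn : V.Normal := inferInstance
  have hzV : z ∈ V := subset_normalClosure rfl
  have hxV : x ∈ V := (zpowers_le.2 hzV) hxz
  have hVD : V ≤ D := normalClosure_le_normal (by simpa using hzD)
  have hVp : IsPGroup p V := hDp.to_le hVD
  have hDT : D ≤ T := by
    have h1 : D ≤ pCore p G := H18.le_pCore hD hDp
    have h2 := H18.pCore_le_cj hT 1
    rw [L.cj_one] at h2
    exact h1.trans h2
  have hQT : pCore p G ≤ T := by
    have h2 := H18.pCore_le_cj hT 1
    rwa [L.cj_one] at h2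
  haveI hQn : (pCore p G).Normal := inferInstance
  have hcn : ∀ N : Subgroup G, N.Normal → (centralizer (N : Set G)).Normal := by
    intro N hNn
    refine ⟨fun c hc g => ?_⟩
    exact conj_cent_mem (by rw [normalizer_eq_top_iff.2 hNn]; exact mem_top g) hc
  have hVQ : V ≤ centralizer ((pCore p G : Subgroup G) : Set G) := by
    haveI := hcn _ hQn
    apply normalClosure_le_normal
    rw [Set.singleton_subset_iff]
    exact centralizer_le (SetLike.coe_subset_coe.2 hQT) hzT
  have hVV : V ≤ centralizer (V : Set G) :=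
    hVQ.trans (centralizer_le (SetLike.coe_subset_coe.2 (hVD.trans (H18.le_pCore hD hDp))))
  have hVc : ∀ a ∈ V, ∀ b ∈ V, a * b = b * a := fun a ha b hb =>
    mem_centralizer_iff.1 (hVV hb) a ha
  haveI hCVn := hcn V hVn
  have hCVC : centralizer (V : Set G) ≤ C :=
    centralizer_le (Set.singleton_subset_iff.2 hxV)
  have hT1 := sylIn_normal (N := centralizer (V : Set G)) hT
  have hTV : T ⊓ centralizer (V : Set G) ≤ pCore p G := by
    have h1 : normalizer ((T ⊓ centralizer (V : Set G) : Subgroup G) : Set G) = ⊤ := by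
      by_contra hnt
      have h2 : T ≤ normalizer ((T ⊓ centralizer (V : Set G) : Subgroup G) : Set G) :=
        le_norm_inf le_normalizer (by rw [normalizer_eq_top_iff.2 hCVn]; exact le_top)
      have h3 := hmax _ h2 hnt
      apply htop
      intro g _
      obtain ⟨a, ha, c, hc, rfl⟩ := frattini_top hT1 g
      exact mul_mem (h3 ha) (hCVC hc)
    exact H18.le_pCore (normalizer_eq_top_iff.1 h1) (hT.isPGroup.to_le inf_le_left)
  have hJQ : ¬ thompsonSubgroupAOf T ≤ pCore p G := by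
    intro h1
    have h2 := H28.JA_eq_of_le h1 hQT
    have h3 := H28.JA_characteristic (pCore p G)
    apply htop
    refine le_trans ?_ hN
    rw [← h2]
    intro g _
    rw [H18.mem_normalizer_iff_map, ← H28.JA_map (MulAut.conj g).injective]
    have h4 : g ∈ normalizer ((pCore p G : Subgroup G) : Set G) := by
      rw [normalizer_eq_top_iff.2 hQn]; exact mem_top g
    rw [H18.mem_normalizer_iff_map] at h4
    congr 1
  obtain ⟨A₁, hA₁, hA₁Q⟩ : ∃ A₁, H2.AbIn T A₁ ∧ ¬ A₁ ≤ pCore p G := by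
    by_contra hcon
    push Not at hcon
    apply hJQ
    rw [H2.thompsonSubgroupAOf_eq]
    exact sSup_le fun A hA => hcon A hA
  have hA₁V : ¬ A₁ ≤ centralizer (V : Set G) := fun h => hA₁Q ((le_inf hA₁.1 h).trans hTV)
  have hA₁c : ∀ a ∈ A₁, ∀ b ∈ A₁, a * b = b * a := H20.isMulCommutative_iff.1 hA₁.2.1
  obtain ⟨A, hAA₁, hoff, hAV, hquad⟩ := exists_quad hVn hVc hVp (hT.isPGroup.to_le hA₁.1) hA₁c
    (H28.offIneq_of_abIn hA₁ (hVD.trans hDT) hVc) hA₁V
  have hAT : A ≤ T := hAA₁.trans hA₁.1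
  have hAp : IsPGroup p A := hT.isPGroup.to_le hAT
  have hAQ : ¬ A ≤ pCore p G := fun h => hAV (h.trans (le_centralizer_iff.1 hVQ))
  obtain ⟨L₁, hAL, L₀, hA0, hlt, hmx, ⟨g, hg⟩, hgen⟩ := H18.llemma hT hmin hcoat hTC hAT hAQ
  have hAO : IsPGroup p (A ⊔ pCoreOf p L₁ : Subgroup G) :=
    IsPGroup.to_sup_of_normal_right' hAp (H18.isPGroup_pCoreOf L₁)
      ((le_sup_left.trans hAL).trans (H18.le_normalizer_pCoreOf L₁))
  obtain ⟨g', hg1, hg2⟩ := H18.exists_cj_sylow (k := g) hT hTC hAO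
    (hA0.trans (hg ▸ inf_le_right))
  have hzg : cn g' z ∈ centralizer ((A ⊔ pCoreOf p L₁ : Subgroup G) : Set G) :=
    centralizer_le (SetLike.coe_subset_coe.2 hg1) (mem_cent_cj hzT)
  rw [cent_sup] at hzg
  have hxg : cn g' x ∈ centralizer ((A ⊔ pCoreOf p L₁ : Subgroup G) : Set G) :=
    centralizer_le (SetLike.coe_subset_coe.2 hg1) (mem_cent_cj hxT)
  rw [cent_sup] at hxg
  have hgV : g' ∈ normalizer (V : Set G) := by rw [normalizer_eq_top_iff.2 hVn]; exact mem_top _
  have hCg : ∀ l : G, l ∈ L.cj g C ↔ cn l (cn g' x) = cn g' x := by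
    intro l
    rw [← hg2]
    change l ∈ SF.cj g' C ↔ _
    rw [mem_cj', hC, mem_C]
    constructor
    · intro h
      have h2 := congrArg (cn g') h
      rw [cn_cn] at h2
      have e : g' * cn g'⁻¹ l = l * g' := by simp only [cn]; group
      rw [e] at h2
      rw [cn_cn]; exact h2
    · intro h
      rw [cn_cn] at h
      have h2 := congrArg (cn g'⁻¹) h
      rw [cn_cn, cn_cn, inv_mul_cancel, cn_one'] at h2
      have e : g'⁻¹ * (l * g') = cn g'⁻¹ l := by simp only [cn]; group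
      rwa [e] at h2
  have hUV : V ⊓ centralizer ((pCoreOf p L₁ : Subgroup G) : Set G) ≤ V := inf_le_left
  refine ⟨L₁, L₀, A, V ⊓ centralizer ((pCoreOf p L₁ : Subgroup G) : Set G), g', ?_,
    mem_inf.2 ⟨cn_mem hgV hzV, hzg.2⟩, hzg.1⟩
  refine ⟨fun u hu v hv => hVc u hu.1 v hv.1, hVp.to_le inf_le_left, ?_, ?_, hAp, hA0, hlt, hmx,
    hgen, fun u hu => hquad u hu.1, ?_, mem_inf.2 ⟨cn_mem hgV hxV, hxg.2⟩, ?_, ?_⟩
  · exact le_norm_inf (by rw [normalizer_eq_top_iff.2 hVn]; exact le_top)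
      (le_norm_cent (H18.le_normalizer_pCoreOf L₁))
  · rw [le_centralizer_iff]; exact inf_le_right
  · -- the offender inequality
    have h1 := hoff (A ⊓ pCoreOf p L₁) inf_le_left
    set U := V ⊓ centralizer ((pCoreOf p L₁ : Subgroup G) : Set G) with hU
    set Z := V ⊓ centralizer (A : Set G) with hZ
    have h2 : Nat.card (U ⊔ Z : Subgroup G) * Nat.card (U ⊓ Z : Subgroup G) =
        Nat.card U * Nat.card Z :=
      H2.card_sup_mul_card_inf_of_comm fun a ha b hb => hVc a ha.1 b hb.1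
    have h3 : U ⊔ Z ≤ V ⊓ centralizer ((A ⊓ pCoreOf p L₁ : Subgroup G) : Set G) := by
      refine sup_le (inf_le_inf_left _ (centralizer_le (SetLike.coe_subset_coe.2 inf_le_right)))
        (inf_le_inf_left _ (centralizer_le (SetLike.coe_subset_coe.2 inf_le_left)))
    have h4 : U ⊓ Z ≤ U ⊓ centralizer (A : Set G) := inf_le_inf_left _ inf_le_right
    have h5 := SF.card_le_of_le h3
    have h6 := SF.card_le_of_le h4
    have hpos : 0 < Nat.card Z := Nat.card_pos
    apply Nat.le_of_mul_le_mul_right _ hpos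
    calc Nat.card U * Nat.card ↥(A ⊓ pCoreOf p L₁) * Nat.card Z
        = Nat.card ↥(A ⊓ pCoreOf p L₁) * (Nat.card U * Nat.card Z) := by ring
      _ = Nat.card ↥(A ⊓ pCoreOf p L₁) * (Nat.card (U ⊔ Z : Subgroup G) *
          Nat.card (U ⊓ Z : Subgroup G)) := by rw [h2]
      _ ≤ Nat.card ↥(A ⊓ pCoreOf p L₁) * (Nat.card ↥(V ⊓ centralizer ((A ⊓ pCoreOf p L₁ : Subgroup G) : Set G)) *
          Nat.card ↥(U ⊓ centralizer (A : Set G))) :=
        Nat.mul_le_mul_left _ (Nat.mul_le_mul h5 h6)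
      _ = (Nat.card ↥(A ⊓ pCoreOf p L₁) * Nat.card ↥(V ⊓ centralizer ((A ⊓ pCoreOf p L₁ : Subgroup G) : Set G))) *
          Nat.card ↥(U ⊓ centralizer (A : Set G)) := by ring
      _ ≤ (Nat.card A * Nat.card Z) * Nat.card ↥(U ⊓ centralizer (A : Set G)) :=
        Nat.mul_le_mul_right _ h1
      _ = _ := by ring
  · intro l hl
    rw [hg] at hl
    exact (hCg l).1 hl.2
  · intro hx
    apply hlt.ne
    rw [hg]
    refine inf_eq_left.2 fun l hl => ?_
    rw [hCg]
    exact cn_cent_norm hl hx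

/-- the main step -/
theorem step [Finite G] [Fact p.Prime] {T D : Subgroup G} {x : G} (hT : L.SylIn p T ⊤)
    (hD : D.Normal) (hDp : IsPGroup p D) (hxD : x ∈ D) (hxT : x ∈ centralizer (T : Set G))
    (hyp : p ≠ 2 ∨ (∃ z ∈ D ⊓ centralizer (T : Set G), z ^ p = x) ∨
      ¬ Involves (Equiv.Perm (Fin 4)) G)
    (hN : normalizer ((thompsonSubgroupAOf T : Subgroup G) : Set G) ≤ centralizer {x})
    (hmax : ∀ K : Subgroup G, T ≤ K → K ≠ ⊤ → K ≤ centralizer {x}) :
    centralizer ({x} : Set G) = ⊤ := by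
  by_contra hne
  rcases hyp with hp | ⟨z, hz, hzx⟩ | h4
  · obtain ⟨L₁, L₀, A, U, g, h, -, -⟩ := exists_LL hT hD hDp hxD hxT (mem_zpowers x) hN hmax hne
    exact h.odd_false hp
  · obtain ⟨L₁, L₀, A, U, g, h, h1, h2⟩ := exists_LL hT hD hDp hz.1 hz.2
      (by rw [← hzx]; exact pow_mem (mem_zpowers z) p) hN hmax hne
    have h3 := h.exp h1 h2
    rw [← cn_pow, hzx] at h3
    exact h.xL h3
  · obtain ⟨L₁, L₀, A, U, g, h, -, -⟩ := exists_LL hT hD hDp hxD hxT (mem_zpowers x) hN hmax hne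
    by_cases hp : p = 2
    · subst hp
      exact h4 h.four
    · exact h.odd_false hp

end

end Cfsg.Agent.H14.WK
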