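import Mathlib.GroupTheory.Solvable
import Mathlib.GroupTheory.SemidirectProduct
import Mathlib.GroupTheory.SpecificGroups.Alternating.MaximalSubgroups
import Cfsg.Agent.H21.Ord120
import Cfsg.Agent.H18.MinOver2

set_option autoImplicit false

/-! wreath products and derived length -/

namespace Cfsg.Agent.H14.WS

open SemidirectProduct

variable {S : Type} [Group S] {m : ℕ}

/-- the permutation action on functions -/
def act (S : Type) [Group S] (m : ℕ) : Equiv.Perm (Fin m) →* MulAut (Fin m → S) where
  toFun σ := { toFun := fun f x => f (σ⁻¹ x)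
               invFun := fun f x => f (σ x)
               left_inv := fun f => by ext x; simp
               right_inv := fun f => by ext x; simp
               map_mul' := fun f g => rfl }
  map_one' := by ext f x; rfl
  map_mul' := fun σ τ => by
    ext f x
    simp

abbrev Wr (S : Type) [Group S] {m : ℕ} (A : Subgroup (Equiv.Perm (Fin m))) : Type :=
  (Fin m → S) ⋊[(act S m).comp A.subtype] A

variable {A : Subgroup (Equiv.Perm (Fin m))}

instance [Finite S] : Finite (Wr S A) :=
  Finite.of_equiv ((Fin m → S) × A) SemidirectProduct.equivProd.symm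

theorem act_apply (a : A) (f : Fin m → S) (x : Fin m) :
    ((act S m).comp A.subtype a) f x = f ((a : Equiv.Perm (Fin m))⁻¹ x) := rfl

/-- commutators of base elements with permutations -/
theorem comm_base (s : S) {i : Fin m} {a : A} (ha : (a : Equiv.Perm (Fin m)) i ≠ i) :
    ∃ f : Fin m → S, f i = s ∧
      (inl (Pi.mulSingle i s) : Wr S A) * inr a * (inl (Pi.mulSingle i s))⁻¹ * (inr a)⁻¹ = inl f := by
  refine ⟨Pi.mulSingle i s * ((act S m).comp A.subtype a) (Pi.mulSingle i s)⁻¹, ?_, ?_⟩
  · rw [Pi.mul_apply, Pi.mulSingle_eq_same, act_apply, Pi.inv_apply, Pi.mulSingle_eq_of_ne]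
    · simp
    · intro h
      apply ha
      have := congrArg (a : Equiv.Perm (Fin m)) h
      simpa using this.symm
  · rw [map_mul, inl_aut, map_inv, mul_assoc, mul_assoc, mul_assoc, map_inv]

theorem ds_pi (n : ℕ) :
    derivedSeries (Fin m → S) n ≤ Subgroup.pi Set.univ (fun _ => derivedSeries S n) := by
  induction n with
  | zero => intro f _ i _; exact Subgroup.mem_top _
  | succ n ih =>
    rw [derivedSeries_succ]
    refine (Subgroup.commutator_mono ih ih).trans ?_
    refine (Subgroup.commutator_pi_pi_le _ _).trans (le_of_eq ?_)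
    rw [derivedSeries_succ]

theorem solvable_pi (hS : Group.IsSolvable S) : Group.IsSolvable (Fin m → S) := by
  obtain ⟨n, hn⟩ := hS.solvable
  refine ⟨n, eq_bot_iff.2 ((ds_pi n).trans ?_)⟩
  intro f hf
  rw [Subgroup.mem_bot]
  ext i
  have : f i ∈ derivedSeries S n := hf i (Set.mem_univ _)
  rw [hn, Subgroup.mem_bot] at this
  exact this

theorem solvable_wr (hS : Group.IsSolvable S) (hA : Group.IsSolvable A) :
    Group.IsSolvable (Wr S A) := by
  haveI : Group.IsSolvable (Fin m → S) := solvable_pi hS
  haveI : Group.IsSolvable A := hA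
  refine Group.isSolvable_of_ker_le_range (inl : (Fin m → S) →* Wr S A) (rightHom : Wr S A →* A) ?_
  rw [SemidirectProduct.range_inl_eq_ker_rightHom]

theorem derived_wr (d : ℕ) :
    derivedSeries S d ≤ ((derivedSeries (Wr S (⊤ : Subgroup (Equiv.Perm (Fin 2)))) (d + 1)).comap
      inl).map (Pi.evalMonoidHom (fun _ => S) 0) := by
  induction d with
  | zero =>
    intro s _
    obtain ⟨f, hf, hf'⟩ := comm_base (A := (⊤ : Subgroup (Equiv.Perm (Fin 2)))) s (i := 0)
      (a := ⟨Equiv.swap 0 1, Subgroup.mem_top _⟩) (by simp)
    refine ⟨f, ?_, hf⟩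
    change inl f ∈ derivedSeries _ 1
    rw [← hf']
    exact Subgroup.commutator_mem_commutator (Subgroup.mem_top _) (Subgroup.mem_top _)
  | succ d ih =>
    rw [derivedSeries_succ]
    refine (Subgroup.commutator_mono ih ih).trans ?_
    rw [← Subgroup.map_commutator]
    refine Subgroup.map_mono ?_
    rw [derivedSeries_succ _ (d + 1), ← Subgroup.map_le_iff_le_comap, Subgroup.map_commutator]
    exact Subgroup.commutator_mono (Subgroup.map_comap_le _ _) (Subgroup.map_comap_le _ _)

theorem exists_solv (d : ℕ) :
    ∃ (S : Type) (_ : Group S) (_ : Finite S), Group.IsSolvable S ∧ derivedSeries S d ≠ ⊥ := by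
  induction d with
  | zero =>
    refine ⟨Multiplicative (ZMod 2), inferInstance, inferInstance, inferInstance, ?_⟩
    rw [derivedSeries_zero]
    exact top_ne_bot
  | succ d ih =>
    obtain ⟨S, _, _, hS, hd⟩ := ih
    refine ⟨Wr S (⊤ : Subgroup (Equiv.Perm (Fin 2))), inferInstance, inferInstance, ?_, ?_⟩
    · refine solvable_wr hS ?_
      refine Group.isSolvable_of_comm ?_
      have key : ∀ a b : Equiv.Perm (Fin 2), a * b = b * a := by decide
      rintro ⟨a, -⟩ ⟨b, -⟩
      exact Subtype.ext (key a b)
    · intro h
      apply hd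
      rw [eq_bot_iff]
      refine (derived_wr d).trans ?_
      rw [h, MonoidHom.comap_bot,
        (MonoidHom.ker_eq_bot_iff _).2 SemidirectProduct.inl_injective, Subgroup.map_bot]

theorem main (d : ℕ) :
    ∃ (G : Type) (_ : Group G) (_ : Finite G) (H : Subgroup G), commutator G = ⊤ ∧ IsCoatom H ∧
      Group.IsSolvable H ∧ derivedSeries H d ≠ ⊥ := by
  obtain ⟨S, _, _, hS, hd⟩ := exists_solv d
  set W := Wr S (alternatingGroup (Fin 5)) with hW
  set N : Subgroup W := Subgroup.normalClosure ((inr : alternatingGroup (Fin 5) →* W).range : Set W)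
    with hN
  have hinr : (inr : alternatingGroup (Fin 5) →* W).range ≤ N := Subgroup.subset_normalClosure
  haveI hNn : N.Normal := Subgroup.normalClosure_normal
  have hperf : ⁅N, N⁆ = N := by
    refine le_antisymm (Subgroup.commutator_le_left N N) ?_
    rw [hN]
    refine Subgroup.normalClosure_le_normal ?_
    have h1 : (⊤ : Subgroup (alternatingGroup (Fin 5))) =
        ⁅(⊤ : Subgroup (alternatingGroup (Fin 5))), (⊤ : Subgroup (alternatingGroup (Fin 5)))⁆ :=
      (commutator_alternatingGroup_eq_top (by simp)).symm
    have h2 : (inr : alternatingGroup (Fin 5) →* W).range = ⁅(inr : alternatingGroup (Fin 5) →* W).range, (inr : alternatingGroup (Fin 5) →* W).range⁆ := by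
      rw [MonoidHom.range_eq_map, ← Subgroup.map_commutator, ← h1]
    intro x hx
    rw [h2] at hx
    exact Subgroup.commutator_mono hinr hinr hx
  let f : N →* alternatingGroup (Fin 5) := (rightHom : W →* _).comp N.subtype
  have hf : Function.Surjective f := fun a =>
    ⟨⟨inr a, hinr ⟨a, rfl⟩⟩, by change rightHom (inr a : W) = a; exact rightHom_inr a⟩
  set K : Subgroup (alternatingGroup (Fin 5)) :=
    MulAction.stabilizer (alternatingGroup (Fin 5)) (0 : Fin 5) with hK
  have hKc : IsCoatom K := by
    have := alternatingGroup.isCoatom_stabilizer_singleton (α := Fin 5) (by simp) (s := {0})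
      (Set.singleton_nonempty _) Set.subsingleton_singleton
    rw [MulAction.stabilizer_singleton] at this
    exact this
  have hKs : Group.IsSolvable K := by
    refine H21.solvable_of_card_lt_60 _ rfl ?_
    have h60 : Nat.card (alternatingGroup (Fin 5)) = 60 := by
      have := two_mul_nat_card_alternatingGroup (α := Fin 5)
      rw [Nat.card_perm, Nat.card_fin] at this
      have h5 : Nat.factorial 5 = 120 := rfl
      omega
    rw [← h60]
    exact lt_of_le_of_ne (Nat.card_le_card_of_injective _ K.subtype_injective)
      (fun h => hKc.1 (Subgroup.eq_top_of_card_eq K h))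
  refine ⟨N, inferInstance, inferInstance, K.comap f, ?_, ?_, ?_, ?_⟩
  · have := Subgroup.map_subtype_commutator N
    rw [hperf] at this
    apply Subgroup.map_injective N.subtype_injective
    rw [this, ← MonoidHom.range_eq_map, Subgroup.range_subtype]
  · exact H18.isCoatom_comap_of_surj hf hKc
  · haveI := hKs
    haveI : Group.IsSolvable (Fin 5 → S) := solvable_pi hS
    let L : Subgroup W := K.comap rightHom
    let φ : (Fin 5 → S) →* L := (inl : (Fin 5 → S) →* W).codRestrict L (fun b => by
      change rightHom (inl b) ∈ K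
      rw [rightHom_inl]; exact K.one_mem)
    let ψ : L →* K := ((rightHom : W →* _).comp L.subtype).codRestrict K (fun x => x.2)
    haveI : Group.IsSolvable L := by
      refine Group.isSolvable_of_ker_le_range φ ψ ?_
      rintro ⟨x, hx⟩ hx'
      have h1 : rightHom x = 1 := congrArg Subtype.val hx'
      have : x ∈ (inl : (Fin 5 → S) →* W).range := by
        rw [SemidirectProduct.range_inl_eq_ker_rightHom]; exact h1
      obtain ⟨b, hb⟩ := this
      exact ⟨b, Subtype.ext hb⟩
    let θ : K.comap f →* L := (N.subtype.comp (K.comap f).subtype).codRestrict L (fun x => x.2)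
    refine Group.isSolvable_of_isSolvable_injective (f := θ) ?_
    intro a b h
    apply Subtype.ext
    apply Subtype.ext
    exact congrArg (fun x : L => (x : W)) h
  · intro hbot
    let B : Subgroup (Fin 5 → S) := N.comap (inl : (Fin 5 → S) →* W)
    let ev : B →* S := (Pi.evalMonoidHom (fun _ => S) 0).comp B.subtype
    have hev : Function.Surjective ev := by
      intro s
      have hne : ∃ a : alternatingGroup (Fin 5), (a : Equiv.Perm (Fin 5)) 0 ≠ 0 := by
        refine ⟨⟨Equiv.swap 0 1 * Equiv.swap 2 3, ?_⟩, ?_⟩
        · rw [Equiv.Perm.mem_alternatingGroup]; decide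
        · change (Equiv.swap 0 1 * Equiv.swap 2 3 : Equiv.Perm (Fin 5)) 0 ≠ 0
          decide
      obtain ⟨a, ha⟩ := hne
      obtain ⟨b, hb, hb'⟩ := comm_base s ha
      refine ⟨⟨b, ?_⟩, hb⟩
      change inl b ∈ N
      rw [← hb']
      exact N.mul_mem (hNn.conj_mem _ (hinr ⟨a, rfl⟩) _) (N.inv_mem (hinr ⟨a, rfl⟩))
    let ι : B →* K.comap f := ((inl : (Fin 5 → S) →* W).subgroupComap N).codRestrict (K.comap f)
      (fun b => by
        change rightHom (inl (b : Fin 5 → S) : W) ∈ K
        rw [rightHom_inl]; exact K.one_mem)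
    have hι : Function.Injective ι := by
      intro a b h
      apply Subtype.ext
      apply SemidirectProduct.inl_injective (φ := (act S 5).comp (alternatingGroup (Fin 5)).subtype)
      exact congrArg (fun x : K.comap f => ((x : N) : W)) h
    apply hd
    rw [← map_derivedSeries_eq hev d]
    have h3 : (derivedSeries B d).map ι ≤ ⊥ := by
      rw [← hbot]
      exact map_derivedSeries_le_derivedSeries ι d
    have h4 : derivedSeries B d = ⊥ := by
      rw [eq_bot_iff]
      intro x hx
      have := h3 (Subgroup.mem_map_of_mem ι hx)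
      rw [Subgroup.mem_bot] at this ⊢
      exact hι (by rw [this, map_one])
    rw [h4, Subgroup.map_bot]

end Cfsg.Agent.H14.WS
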